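import Mathlib
import Cfsg.Agent.Lib.Fusion.GlaubermanControl
import Cfsg.Agent.Lib.Fusion.AgemoCenter
import Cfsg.Agent.Lib.Fusion.Model
import Cfsg.Agent.Lib.PLocal.AgemoOffender

/-!
A saturated system is generated by the centralizer of the `p`-th powers of `Z(S)` and the
normalizer of `J(S)`.
-/

set_option autoImplicit false

open scoped Classical

namespace Cfsg.Lib.Fusion

open Cfsg Cfsg.FusionSystem
open Cfsg.Lib.PLocal (jA maxF maxF_nonempty Ab ab_bot)

universe u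

variable {Ω : Type u} [Group Ω] {S T Q : Subgroup Ω} {p : ℕ} {F : FusionSystem S}

/-- The maps of a system between subgroups of `T`. -/
def restrictTo (E : FusionSystem S) (T : Subgroup Ω) (hT : T ≤ S) : FusionSystem T where
  Hom P := {φ | φ ∈ E.Hom P ∧ P ≤ T ∧ ∀ x : P, φ x ∈ T}
  le_of_mem h := ⟨h.2.1, h.2.2⟩
  injective_of_mem h := E.injective_of_mem h.1
  conj_mem := fun {P g} hP hg => ⟨E.conj_mem (hP.trans hT) (hT hg), hP,
    fun x => T.mul_mem (T.mul_mem hg (hP x.2)) (T.inv_mem hg)⟩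
  comp_mem := fun {P Q φ ψ} hφ hψ h =>
    ⟨E.comp_mem hφ.1 hψ.1 h, hφ.2.1, fun x => hψ.2.2 _⟩
  inv_mem := fun {P φ} hφ => by
    obtain ⟨ψ, hψ, he⟩ := E.inv_mem hφ.1
    refine ⟨ψ, ⟨hψ, ?_, ?_⟩, he⟩
    · rintro _ ⟨x, rfl⟩
      exact hφ.2.2 x
    · rintro ⟨_, x, rfl⟩
      rw [he]
      exact hφ.2.1 x.2

theorem mor_restrictTo_iff {E : FusionSystem S} {hT : T ≤ S} {P : Subgroup Ω} {f : Ω → Ω} :
    Mor (restrictTo E T hT) P f ↔ Mor E P f ∧ P ≤ T ∧ ∀ x ∈ P, f x ∈ T :=
  ⟨fun ⟨φ, ⟨hφ, hP, hφT⟩, he⟩ => ⟨⟨φ, hφ, he⟩, hP, fun x hx => he ⟨x, hx⟩ ▸ hφT ⟨x, hx⟩⟩,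
    fun ⟨⟨φ, hφ, he⟩, hP, hf⟩ => ⟨φ, ⟨hφ, hP, fun x => (he x).symm ▸ hf x x.2⟩, he⟩⟩

theorem jA_le' (Q : Subgroup Ω) : jA Q ≤ Q := sSup_le fun _ hA => hA.1

theorem jA_map_injOn {G K : Type*} [Group G] [Group K] (f : G →* K) {Q : Subgroup G}
    (hf : Set.InjOn f Q) : jA (Q.map f) = (jA Q).map f := by
  rw [jA, jA, Cfsg.Lib.PLocal.maxF_map f hf fun A hA => Cfsg.Lib.PLocal.ab_map f hf hA, sSup_image]
  exact (Subgroup.gc_map_comap f).l_sSup.symm

theorem normalizerIn_le_normalizerIn_jA [Finite T] (hQ : Q ≤ T) :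
    normalizerIn T Q ≤ normalizerIn T (jA Q) := by
  intro c hc
  refine mem_normalizerIn_of_conj ((jA_le' Q).trans hQ) (normalizerIn_le hc) fun y hy => ?_
  have hmap : Q.map (MulAut.conj c).toMonoidHom = Q := by
    ext x
    constructor
    · rintro ⟨y, hy, rfl⟩
      exact (Subgroup.mem_normalizer_iff.1 hc.2 y).1 hy
    · intro hx
      exact ⟨c⁻¹ * x * c, (Subgroup.mem_normalizer_iff.1 hc.2 _).2 (by simpa [mul_assoc] using hx),
        by simp [mul_assoc]⟩
  rw [← hmap, jA_map_injOn _ (Function.Injective.injOn (MulAut.conj c).injective)]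
  exact ⟨y, hy, rfl⟩

/-- A subgroup with normal image in a model is normal in the system. -/
theorem isNormal_of_normal_in_model {L : Type u} [Group L] {ι : T →* L} [Finite T]
    {H : FusionSystem T} (hι : H.IsRealizedBy ι) (hQ : Q ≤ T)
    (hn : ((Q.subgroupOf T).map ι).Normal) : H.IsNormal Q := by
  refine isNormal_iff.2 ⟨hQ, fun R f hf => ?_⟩
  obtain ⟨g, hg⟩ := exists_conj_of_mor hι hf
  have hQmap : ∀ x ∈ Q, g * iotaFun ι x * g⁻¹ ∈ (Q.subgroupOf T).map ι :=
    fun x hx => hn.conj_mem _ ((mem_map_iota (hP := hQ)).2 ⟨x, hx, rfl⟩) g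
  have hgR : ∀ x ∈ R ⊔ Q, g * iotaFun ι x * g⁻¹ ∈ ι.range := by
    have h1 : (R ⊔ Q).subgroupOf T ≤ ι.range.comap ((MulAut.conj g).toMonoidHom.comp ι) := by
      rw [Subgroup.subgroupOf_sup hf.le hQ, sup_le_iff]
      constructor
      · intro x hx
        have hxR : (x : Ω) ∈ R := hx
        refine ⟨⟨f x, hf.mem hxR⟩, ?_⟩
        show ι ⟨f (x : Ω), hf.mem hxR⟩ = g * ι x * g⁻¹
        rw [← iotaFun_apply ι (hf.mem hxR), hg _ hxR, iotaFun_apply ι x.2]
      · intro x hx
        have h2 := hQmap x hx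
        rw [iotaFun_apply ι x.2] at h2
        exact Subgroup.map_le_range ι _ h2
    intro x hx
    have hxT : x ∈ T := sup_le hf.le hQ hx
    rw [iotaFun_apply ι hxT]
    exact h1 (show (⟨x, hxT⟩ : T) ∈ (R ⊔ Q).subgroupOf T from hx)
  obtain ⟨k, hk, hke⟩ := exists_mor_of_conj_mem hι (sup_le hf.le hQ) g hgR
  refine ⟨k, hk, fun x hx => iotaFun_injOn hι (hk.mem (Subgroup.mem_sup_left hx)) (hf.mem hx)
    (by rw [hke x (Subgroup.mem_sup_left hx), hg x hx]), ?_⟩
  refine (hk.restrict le_sup_right).img_eq_of_card_le hQ (fun x hx => ?_) le_rfl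
  obtain ⟨w, hw, hwe⟩ := (mem_map_iota (hP := hQ)).1 (hQmap x hx)
  rw [← hke x (Subgroup.mem_sup_right hx)] at hwe
  rwa [← iotaFun_injOn hι (hQ hw) (hk.mem (Subgroup.mem_sup_right hx)) hwe]

variable {V0 : Subgroup Ω} {E : FusionSystem S}

/-- The claim proved by induction on the number of maps. -/
def GenClaim (F E : FusionSystem S) (p : ℕ) (V0 : Subgroup Ω) (n : ℕ) : Prop :=
  ∀ (T : Subgroup Ω) (H : FusionSystem T), T ≤ S →
    S ⊓ Subgroup.centralizer (S : Set Ω) ≤ T → H.IsSaturated p →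
    (∀ P f, Mor H P f → Mor F P f) → (mapSet H).ncard = n →
    (∀ P g, P ≤ T → Mor H (P ⊔ jA T) g → img (jA T) g = jA T → Mor E P g) →
    ∀ P f, Mor H P f → Mor E P f

variable {H : FusionSystem T}

theorem child_gen [Finite S] [Fact p.Prime] (hS : IsPGroup p S) (hTS : T ≤ S)
    (hZT : S ⊓ Subgroup.centralizer (S : Set Ω) ≤ T) (hH : H.IsSaturated p)
    (hsub : ∀ P f, Mor H P f → Mor F P f)
    (ih : ∀ m < (mapSet H).ncard, GenClaim F E p V0 m) (hQ : H.IsFullyNormalized Q)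
    (hQn : ¬ H.IsNormal Q)
    (hyp : ∀ P g, P ≤ normalizerIn T Q → Mor H (P ⊔ jA (normalizerIn T Q)) g →
      img (jA (normalizerIn T Q)) g = jA (normalizerIn T Q) → Mor E P g)
    {P : Subgroup Ω} {g : Ω → Ω} (hg : Mor H (P ⊔ Q) g) (hgQ : img Q g = Q)
    (hP : P ≤ normalizerIn T Q) (hgP : ∀ x ∈ P, g x ∈ normalizerIn T Q) : Mor E P g := by
  have := finite_of_le hTS
  have hT : IsPGroup p T := isPGroup_of_le hS hTS
  set H' := normalizerExt H Q (normalizerIn T Q) hQ.1 le_rfl with hH'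
  have hle : ∀ P f, Mor H' P f → Mor H P f := by
    intro P f hf
    obtain ⟨-, -, k, hk, hke, -⟩ := mor_normalizerExt_iff.1 hf
    exact (hk.restrict le_sup_left).congr hke
  have hlt : (mapSet H').ncard < (mapSet H).ncard :=
    ncard_mapSet_lt hle fun hall => hQn (isNormal_iff.2
      ⟨hQ.1, fun P f hf => (mor_normalizerExt_iff.1 (hall P f hf)).2.2⟩)
  refine ih _ hlt _ H' (normalizerIn_le.trans hTS) (fun z hz => ?_)
    (saturated_normalizerSystem hT hH hQ (isNormalizerSystem_normalizerExt hQ.1))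
    (fun P f hf => hsub P f (hle P f hf)) rfl (fun P g hP hg => hyp P g hP (hle _ _ hg)) P g
    (mor_normalizerExt_iff.2 ⟨hP, hgP, g, hg, fun x _ => rfl, hgQ⟩)
  refine mem_normalizerIn_of_conj hQ.1 (hZT hz) fun y hy => ?_
  rwa [← Subgroup.mem_centralizer_iff.1 hz.2 y (hTS (hQ.1 hy)), mul_inv_cancel_right]

/-- Generation through a normal subgroup containing `V0`. -/
theorem gen_via_normal [Finite S] [Fact p.Prime] (hS : IsPGroup p S) (hTS : T ≤ S)
    (hZT : S ⊓ Subgroup.centralizer (S : Set Ω) ≤ T) (hH : H.IsSaturated p)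
    (hsub : ∀ P f, Mor H P f → Mor F P f)
    (hi : ∀ P k, Mor F (P ⊔ V0) k → (∀ x ∈ V0, k x = x) → Mor E P k)
    (ih : ∀ m < (mapSet H).ncard, GenClaim F E p V0 m)
    (hyp : ∀ P g, P ≤ T → Mor H (P ⊔ jA T) g → img (jA T) g = jA T → Mor E P g)
    {Y : Subgroup Ω} (hYn : H.IsNormal Y) (hV0 : V0 ≤ Y)
    (hUn : ¬ H.IsNormal (Y ⊔ centralizerIn T Y)) : ∀ P f, Mor H P f → Mor E P f := by
  have := finite_of_le hTS
  have hT : IsPGroup p T := isPGroup_of_le hS hTS
  have hYsc := stronglyClosed_of_isNormal hYn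
  set U := Y ⊔ centralizerIn T Y with hU
  have hUT : U ≤ T := sup_le hYn.1 centralizerIn_le
  have hNU : normalizerIn T U = T := by
    refine le_antisymm normalizerIn_le fun c hc =>
      mem_normalizerIn_of_conj hUT hc fun y hy => ?_
    have hconj : Mor H T (fun x => c * x * c⁻¹) := mor_conj le_rfl hc
    have h1 : img U (fun x => c * x * c⁻¹) ≤ U := by
      rw [hconj.img_sup hYn.1 centralizerIn_le]
      refine sup_le_sup (img_le fun y hy => StronglyClosed.conj_mem hYsc hc hy)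
        (img_le fun y hy => ?_)
      have h2 := hconj.mem_centralizerIn hYn.1 (centralizerIn_le hy) hy
      rwa [hconj.restrict hYn.1 |>.img_eq_of_card_le hYn.1
        (fun y hy => StronglyClosed.conj_mem hYsc hc hy) le_rfl] at h2
    exact h1 (mem_img_of_mem hy)
  have hUfn : H.IsFullyNormalized U := ⟨hUT, fun R _ => by
    rw [hNU]
    exact Nat.card_le_card_of_injective _ (Subgroup.inclusion_injective normalizerIn_le)⟩
  have hYfn : H.IsFullyNormalized Y := ⟨hYn.1, fun R hR => by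
    obtain ⟨g, hg, rfl⟩ := isConj_iff.1 hR
    rw [hg.img_eq_of_card_le hYn.1 (fun x hx => StronglyClosed.mem hYsc hg hx hx) le_rfl]⟩
  intro P f hf
  obtain ⟨k, hk, hke, hkY⟩ := (isNormal_iff.1 hYn).2 P f hf
  obtain ⟨j, hj, hj1, hj2, hji⟩ := (hk.restrict le_sup_right).exists_inv
  rw [hkY] at hj hj2 hji
  obtain ⟨γ, hγ, hγe⟩ :=
    (isReceptive_iff.1 (receptive_of_fullyNormalized hT hH hYfn)).2 Y j hj hji
  set D := extN T Y j with hD
  have hUD : U ≤ D := sup_le hj.le_extN centralizerIn_le_extN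
  have hγY : img Y γ = Y := (img_congr hγe).trans hji
  have hγU : img U γ = U := by
    refine (hγ.restrict hUD).img_eq_of_card_le hUT (fun y hy => ?_) le_rfl
    have h1 : img U γ ≤ U := by
      rw [(hγ.restrict hUD).img_sup le_sup_left le_sup_right]
      refine sup_le_sup hγY.le (img_le fun y hy => ?_)
      have h2 := hγ.mem_centralizerIn hj.le_extN (hUD (Subgroup.mem_sup_right hy)) hy
      rwa [hγY] at h2
    exact h1 (mem_img_of_mem hy)
  have hγE : Mor E D γ := by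
    refine child_gen hS hTS hZT hH hsub ih hUfn hUn ?_
      (hγ.source_congr (sup_eq_left.2 hUD).symm) hγU
      (hNU.symm ▸ extN_le) (fun x hx => hNU.symm ▸ hγ.mem hx)
    rw [hNU]
    exact hyp
  have hkD : ∀ x ∈ P ⊔ Y, k x ∈ D := by
    intro c hc
    refine ⟨le_inf le_rfl (StronglyClosed.le_normalizer hYsc) (hk.mem hc), c, hk.le hc,
      fun y hy => ?_⟩
    obtain ⟨hjy, hjY⟩ := hj2 y hy
    have hcy : c * j y * c⁻¹ ∈ Y := StronglyClosed.conj_mem hYsc (hk.le hc) hjY
    rw [← hj1 _ hcy, hk.map_conj hc (Subgroup.mem_sup_right hjY), hjy]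
  have hδ : Mor H (P ⊔ Y) (fun x => γ (k x)) := hγ.comp hk hkD
  have hδE : Mor E (P ⊔ Y) (fun x => γ (k x)) := by
    refine hi _ _ ((hsub _ _ hδ).source_congr (sup_eq_left.2 (hV0.trans le_sup_right)).symm)
      fun x hx => ?_
    rw [hγe _ (hkY ▸ mem_img_of_mem (hV0 hx)), hj1 x (hV0 hx)]
  obtain ⟨i, hi', hi1, -, -⟩ := hγE.exists_inv
  refine ((hi'.comp hδE fun x hx => mem_img_of_mem (hkD x hx)).restrict le_sup_left).congr
    fun x hx => ?_
  show i (γ (k x)) = f x
  rw [hi1 _ (hkD x (Subgroup.mem_sup_left hx)), hke x hx]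

/-- A central element of `P1` lies in `J(P1)`. -/
theorem mem_jA_of_central {P1 : Subgroup Ω} [Finite P1] {z : Ω} (hz : z ∈ P1)
    (hzc : ∀ t ∈ P1, t * z = z * t) : z ∈ jA P1 := by
  obtain ⟨A, ⟨hA1, hA2, hA3⟩⟩ := Cfsg.Lib.PLocal.maxF_nonempty (P := Ab)
    (Cfsg.Lib.PLocal.ab_bot (G := ↥P1)) ⊤
  have h : (⟨z, hz⟩ : P1) ∈ jA (⊤ : Subgroup P1) := by
    refine (le_sSup (α := Subgroup P1) (s := maxF Ab ⊤) ⟨hA1, hA2, hA3⟩) ?_
    set A' := A ⊔ Subgroup.zpowers (⟨z, hz⟩ : P1)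
    have he : Ab A' := by
      refine Cfsg.Lib.PLocal.ab_join hA2 (fun x hx y hy => ?_) ?_
      · obtain ⟨i, rfl⟩ := Subgroup.mem_zpowers_iff.1 hx
        obtain ⟨j, rfl⟩ := Subgroup.mem_zpowers_iff.1 hy
        exact ((Commute.refl _).zpow_zpow i j).eq
      · intro a _
        refine Subgroup.mem_centralizer_iff.2 fun y hy => ?_
        obtain ⟨i, rfl⟩ := Subgroup.mem_zpowers_iff.1 hy
        exact ((show Commute (⟨z, hz⟩ : P1) a from
          Subtype.ext (hzc a a.2).symm).zpow_left i).eq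
    rw [Subgroup.eq_of_le_of_card_ge (le_sup_left : A ≤ A') (hA3 A' le_top he)]
    exact Subgroup.mem_sup_right (Subgroup.mem_zpowers _)
  have h1 := jA_map_injOn P1.subtype (Q := ⊤) P1.subtype_injective.injOn
  rw [← MonoidHom.range_eq_map, Subgroup.range_subtype] at h1
  rw [h1]
  exact ⟨_, h, rfl⟩

/-- The case of a centric core. -/
theorem gen_centric [Finite S] [Fact p.Prime] (hS : IsPGroup p S) (hTS : T ≤ S)
    (hZT : S ⊓ Subgroup.centralizer (S : Set Ω) ≤ T) (hH : H.IsSaturated p)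
    (hsub : ∀ P f, Mor H P f → Mor F P f)
    (hV0 : ∀ x ∈ V0, ∃ z ∈ S ⊓ Subgroup.centralizer (S : Set Ω), x = z ^ p)
    (hi : ∀ P k, Mor F (P ⊔ V0) k → (∀ x ∈ V0, k x = x) → Mor E P k)
    (ih : ∀ m < (mapSet H).ncard, GenClaim F E p V0 m)
    (hyp : ∀ P g, P ≤ T → Mor H (P ⊔ jA T) g → img (jA T) g = jA T → Mor E P g)
    (hc : H.IsCentric H.core) (hJn : ¬ H.IsNormal (jA T)) : ∀ P f, Mor H P f → Mor E P f := by
  have := finite_of_le hTS
  have hT : IsPGroup p T := isPGroup_of_le hS hTS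
  have hXn := isNormal_core H
  set X := H.core with hX
  set Y := powerClosure p 1 (X ⊓ Subgroup.centralizer (X : Set Ω)) with hY
  have hYX : Y ≤ X := by
    rw [hY, powerClosure, Subgroup.closure_le]
    rintro _ ⟨z, hz, rfl⟩
    exact X.pow_mem hz.1 _
  have hpowY : ∀ z ∈ X ⊓ Subgroup.centralizer (X : Set Ω), z ^ p ∈ Y := fun z hz =>
    Subgroup.subset_closure ⟨z, hz, by rw [pow_one]⟩
  have hYn : H.IsNormal Y := by
    refine isNormal_iff.2 ⟨hYX.trans hXn.1, fun P f hf => ?_⟩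
    obtain ⟨k, hk, hke, hkX⟩ := (isNormal_iff.1 hXn).2 P f hf
    have hle : P ⊔ Y ≤ P ⊔ X := sup_le_sup_left hYX P
    refine ⟨k, hk.restrict hle, hke, ?_⟩
    refine (hk.restrict ((le_sup_right : Y ≤ P ⊔ Y).trans hle)).img_eq_of_card_le
      (hYX.trans hXn.1) (fun y hy => ?_) le_rfl
    have hkr : Mor H X k := hk.restrict le_sup_right
    rw [hY, powerClosure] at hy
    induction hy using Subgroup.closure_induction with
    | mem y hy =>
      obtain ⟨z, hz, rfl⟩ := hy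
      have hkp : ∀ n : ℕ, k (z ^ n) = k z ^ n := fun n => by
        induction n with
        | zero => rw [pow_zero, pow_zero, hkr.map_one]
        | succ n ihn => rw [pow_succ, pow_succ, hkr.map_mul (X.pow_mem hz.1 n) hz.1, ihn]
      rw [pow_one, hkp]
      refine hpowY _ ⟨hkX ▸ mem_img_of_mem hz.1, Subgroup.mem_centralizer_iff.2 fun w hw => ?_⟩
      rw [SetLike.mem_coe, ← hkX] at hw
      obtain ⟨v, hv, rfl⟩ := hkr.mem_img.1 hw
      rw [← hkr.map_mul hv hz.1, ← hkr.map_mul hz.1 hv, Subgroup.mem_centralizer_iff.1 hz.2 v hv]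
    | one => rw [hkr.map_one]; exact one_mem _
    | mul a b ha hb h1 h2 =>
      rw [hkr.map_mul (hYX ha) (hYX hb)]
      exact mul_mem h1 h2
    | inv a ha h1 =>
      rw [hkr.map_inv (hYX ha)]
      exact inv_mem h1
  have hV0Y : V0 ≤ Y := by
    intro x hx
    obtain ⟨z, hz, rfl⟩ := hV0 x hx
    have hzT : z ∈ T := hZT hz
    have hzc : ∀ y ∈ X, y * z = z * y := fun y hy =>
      Subgroup.mem_centralizer_iff.1 hz.2 y (hTS (hXn.1 hy))
    have hzX : z ∈ X := hc.2 X (isConj_refl hXn.1) (mem_centralizerIn_iff.2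
      ⟨hzT, fun y hy => by rw [← hzc y hy, mul_inv_cancel_right]⟩)
    exact hpowY z ⟨hzX, Subgroup.mem_centralizer_iff.2 hzc⟩
  obtain ⟨L, _, ι, ⟨hfin, hι, ⟨P, hP⟩, hcore⟩, hXL⟩ := exists_model hT hH hXn hc
  set O := pCore p L with hO
  have hOX : O = (X.subgroupOf T).map ι := by
    refine le_antisymm ?_ (Cfsg.Lib.Transfer.le_pCore hXL
      ((isPGroup_of_le hS (hXn.1.trans hTS)).of_equiv
        (Subgroup.subgroupOfEquivOfLe hXn.1).symm |>.map ι))
    have hOr : O ≤ ι.range := hP ▸ Cfsg.Lib.Solv.pCore_le_sylow p P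
    set Q := (O.comap ι).map T.subtype with hQ
    have hQT : Q ≤ T := Subgroup.map_subtype_le _
    have hQO : (Q.subgroupOf T).map ι = O := by
      rw [hQ, Subgroup.subgroupOf, Subgroup.comap_map_eq_self_of_injective T.subtype_injective,
        Subgroup.map_comap_eq_self hOr]
    have hQn : H.IsNormal Q := isNormal_of_normal_in_model hι hQT
      (by rw [hQO]; exact Cfsg.Lib.Transfer.pCore_normal p)
    rw [← hQO]
    exact Subgroup.map_mono (fun x hx => le_sSup (a := Q) hQn hx)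
  have hJ : jA (P : Subgroup L) = ((jA T).subgroupOf T).map ι := by
    have h1 := jA_map_injOn T.subtype (Q := ⊤) T.subtype_injective.injOn
    rw [← MonoidHom.range_eq_map, Subgroup.range_subtype] at h1
    rw [hP, MonoidHom.range_eq_map, jA_map_injOn ι hι.1.injOn, h1, Subgroup.subgroupOf,
      Subgroup.comap_map_eq_self_of_injective T.subtype_injective]
  rw [hO] at hOX
  obtain ⟨b, hbP, hbO, hbfix⟩ := Cfsg.Lib.PLocal.exists_fix_pow_center P fun hn =>
    hJn (isNormal_of_normal_in_model hι (jA_le' T) (hJ ▸ hn))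
  rw [hP] at hbP
  obtain ⟨⟨c, hcT⟩, rfl⟩ := hbP
  have hcX : c ∉ X := fun h => hbO (hOX ▸ ⟨⟨c, hcT⟩, h, rfl⟩)
  refine gen_via_normal hS hTS hZT hH hsub hi ih hyp hYn hV0Y fun hn => hcX ?_
  refine (le_sSup (a := Y ⊔ centralizerIn T Y) hn : _ ≤ X) (Subgroup.mem_sup_right ⟨hcT, ?_⟩)
  suffices h : Y ≤ Subgroup.centralizer {c} from
    Subgroup.mem_centralizer_iff.2 fun y hy => Subgroup.mem_centralizer_singleton_iff.1 (h hy)
  rw [hY, powerClosure, Subgroup.closure_le]
  rintro _ ⟨z, hz, rfl⟩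
  rw [SetLike.mem_coe, Subgroup.mem_centralizer_singleton_iff, pow_one]
  have hzT : z ∈ T := hXn.1 hz.1
  have h1 := hbfix (ι ⟨z, hzT⟩) (hOX ▸ ⟨⟨z, hzT⟩, hz.1, rfl⟩) fun t ht => by
    rw [hOX] at ht
    obtain ⟨⟨t, htT⟩, htX, rfl⟩ := ht
    rw [← map_mul, ← map_mul]
    exact congrArg ι (Subtype.ext (Subgroup.mem_centralizer_iff.1 hz.2 t htX))
  rw [← map_pow, ← map_mul, ← map_mul] at h1
  exact (congrArg Subtype.val (hι.1 h1)).symm

/-- The case of a power of a central element outside the core. -/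
theorem gen_outside_core [Finite S] [Fact p.Prime] (hS : IsPGroup p S) (hTS : T ≤ S)
    (hZT : S ⊓ Subgroup.centralizer (S : Set Ω) ≤ T) (hH : H.IsSaturated p)
    (hsub : ∀ P f, Mor H P f → Mor F P f)
    (ih : ∀ m < (mapSet H).ncard, GenClaim F E p V0 m)
    (hyp : ∀ P g, P ≤ T → Mor H (P ⊔ jA T) g → img (jA T) g = jA T → Mor E P g)
    {z : Ω} (hz : z ∈ S ⊓ Subgroup.centralizer (S : Set Ω)) (hzX : z ∉ H.core) :
    ∀ P f, Mor H P f → Mor E P f := by
  have := finite_of_le hTS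
  have hT : IsPGroup p T := isPGroup_of_le hS hTS
  have hzc : ∀ y ∈ T, y * z = z * y := fun y hy =>
    Subgroup.mem_centralizer_iff.1 hz.2 y (hTS hy)
  suffices hall : ∀ P f, Mor H P f → Mor (restrictTo E T hTS) P f from
    fun P f hf => (mor_restrictTo_iff.1 (hall P f hf)).1
  refine mor_le_of_centric_radical_ih hT hH fun R hR hRc _ ihR α hα => ?_
  have hαm : Mor H R (autFun α) := (mem_autGroup_iff hR.1).1 hα
  refine mor_restrictTo_iff.2 ⟨?_, hR.1, fun x hx => hαm.mem hx⟩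
  have hzR : z ∈ R := hRc.2 R (isConj_refl hR.1) (mem_centralizerIn_iff.2
    ⟨hZT hz, fun y hy => by rw [← hzc y (hR.1 hy), mul_inv_cancel_right]⟩)
  have hRn : ¬ H.IsNormal R := fun hn => hzX (le_sSup (a := R) hn hzR)
  have hN : ∀ Q : Subgroup Ω, Q ≤ T →
      normalizerIn T Q ≤ normalizerIn T (jA (normalizerIn T Q)) := fun Q _ =>
    (le_normalizerIn normalizerIn_le).trans (normalizerIn_le_normalizerIn_jA normalizerIn_le)
  have climb : ∀ P1, P1 ≤ T → z ∈ P1 → (P1 = T ∨ Nat.card R < Nat.card P1) →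
      ∀ P g, Mor H (P ⊔ jA P1) g → img (jA P1) g = jA P1 →
        P ≤ normalizerIn T (jA P1) → Mor E P g := by
    intro P1
    induction' hm : Nat.card T - Nat.card P1 using Nat.strong_induction_on with m ihm
      generalizing P1
    intro hP1 hzP1 hor P g hg hgV hPV
    by_cases hP1T : P1 = T
    · subst hP1T
      exact hyp P g (hPV.trans normalizerIn_le) hg hgV
    have hcard := hor.resolve_left hP1T
    have := finite_of_le hP1
    set V := jA P1 with hV
    have hVT : V ≤ T := (jA_le' P1).trans hP1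
    have hzV : z ∈ V := mem_jA_of_central hzP1 fun t ht => hzc t (hP1 ht)
    obtain ⟨V', hV', hV'n⟩ := exists_fullyNormalized H hVT
    obtain ⟨m', hm', hmN, hmi⟩ :=
      exists_normalizerIn_map_of_fullyNormalized hT hH hV'n hV'
    have hgrow : Nat.card P1 < Nat.card (normalizerIn T V) := by
      refine lt_of_lt_of_le (card_lt_of_lt normalizerIn_le (normalizer_growth hT le_rfl
        (lt_of_le_of_ne hP1 hP1T))) ?_
      exact card_le_of_le normalizerIn_le (normalizerIn_le_normalizerIn_jA hP1)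
    have hm'E : Mor E (normalizerIn T V) m' :=
      (mor_restrictTo_iff.1 (ihR _ m' (by omega) hm')).1
    have hV'nn : ¬ H.IsNormal V' := fun hn => by
      obtain ⟨j, hj, -, hj2, hji⟩ := (hm'.restrict (le_normalizerIn hVT)).exists_inv
      rw [hmi] at hj hji
      have h1 : img V' j = V' := hj.img_eq_of_card_le hV'n.1
        (fun y hy => StronglyClosed.mem (stronglyClosed_of_isNormal hn) hj hy hy) le_rfl
      exact hzX (le_sSup (a := V') hn ((hji.symm.trans h1) ▸ hzV))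
    have hD : P ⊔ V ≤ normalizerIn T V := sup_le hPV (le_normalizerIn hVT)
    have hgD : ∀ x ∈ P ⊔ V, g x ∈ normalizerIn T V := fun x hx => by
      have h1 := hg.mem_normalizerIn le_sup_right hx (hD hx)
      rwa [hgV] at h1
    have hmD : Mor H (P ⊔ V) m' := hm'.restrict hD
    obtain ⟨j, hj, hj1, hj2, -⟩ := hmD.exists_inv
    have hsupD : img P m' ⊔ V' = img (P ⊔ V) m' := by
      rw [hmD.img_sup le_sup_left le_sup_right, hmi]
    have hg' : Mor H (img (P ⊔ V) m') (fun y => m' (g (j y))) :=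
      hm'.comp (hg.comp hj fun y hy => (hj2 y hy).2) fun y hy => hgD _ (hj2 y hy).2
    have hg'V : img V' (fun y => m' (g (j y))) = V' := by
      refine (hg'.restrict (hsupD ▸ le_sup_right)).img_eq_of_card_le hV'n.1 (fun y hy => ?_) le_rfl
      rw [← hmi] at hy ⊢
      obtain ⟨v, hv, rfl⟩ := (hm'.restrict (le_normalizerIn hVT)).mem_img.1 hy
      rw [hj1 v (Subgroup.mem_sup_right hv)]
      exact mem_img_of_mem (hgV ▸ mem_img_of_mem hv)
    have hPimg : img P m' ≤ normalizerIn T V' := img_le fun x hx => hmN x (hPV hx)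
    have hg'P : ∀ x ∈ img P m', m' (g (j x)) ∈ normalizerIn T V' := fun x hx =>
      hmN _ (hgD _ (hj2 x (hsupD ▸ Subgroup.mem_sup_left hx)).2)
    have hcard2 : Nat.card P1 < Nat.card (normalizerIn T V') :=
      lt_of_lt_of_le hgrow (hm'.card_le_of_maps normalizerIn_le hmN)
    have hle2 := card_le_of_le le_rfl (normalizerIn_le : normalizerIn T V' ≤ T)
    have hzN : z ∈ normalizerIn T V' := mem_normalizerIn_of_conj hV'n.1 (hZT hz) fun y hy => by
      rwa [← hzc y (hV'n.1 hy), mul_inv_cancel_right]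
    have hE2 : Mor E (img P m') (fun y => m' (g (j y))) :=
      child_gen hS hTS hZT hH hsub ih hV'n hV'nn
        (fun P' g' hP' hg'' hi'' => ihm _ (by omega) _ rfl normalizerIn_le hzN
          (Or.inr (by omega)) P' g' hg'' hi'' (hP'.trans (hN _ hV'n.1)))
        (hg'.source_congr hsupD.symm) hg'V hPimg hg'P
    have hcomp : Mor E P (fun x => m' (g x)) := by
      refine (hE2.comp (hm'E.restrict hPV) fun x hx => mem_img_of_mem hx).congr fun x hx => ?_
      show m' (g (j (m' x))) = m' (g x)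
      rw [hj1 x (Subgroup.mem_sup_left hx)]
    obtain ⟨i, hiE, hi1, -, -⟩ := hm'E.exists_inv
    refine (hiE.comp hcomp fun x hx => mem_img_of_mem (hgD x (Subgroup.mem_sup_left hx))).congr
      fun x hx => hi1 _ (hgD x (Subgroup.mem_sup_left hx))
  have hP1 : R ≤ normalizerIn T R := le_normalizerIn hR.1
  refine child_gen hS hTS hZT hH hsub ih hR hRn
    (fun P' g' hP' hg hi' => climb _ normalizerIn_le (hP1 hzR) ?_ P' g' hg hi'
      (hP'.trans (hN _ hR.1)))
    (hαm.source_congr (sup_idem R).symm) (img_autFun α) hP1 (fun x hx => hP1 (autFun_mem α hx))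
  by_cases hRT : R = T
  · left
    rw [hRT, normalizerIn_self]
  · right
    exact card_lt_of_lt normalizerIn_le (normalizer_growth hT le_rfl (lt_of_le_of_ne hR.1 hRT))

theorem genClaim [Finite S] [Fact p.Prime] (hS : IsPGroup p S)
    (hV0 : ∀ x ∈ V0, ∃ z ∈ S ⊓ Subgroup.centralizer (S : Set Ω), x = z ^ p)
    (hi : ∀ P k, Mor F (P ⊔ V0) k → (∀ x ∈ V0, k x = x) → Mor E P k) :
    ∀ n, GenClaim F E p V0 n := by
  intro n
  induction n using Nat.strong_induction_on with
  | _ n ih =>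
  intro T H hTS hZT hH hsub hn hyp P f hf
  subst hn
  have := finite_of_le hTS
  by_cases hJn : H.IsNormal (jA T)
  · obtain ⟨k, hk, hke, hkJ⟩ := (isNormal_iff.1 hJn).2 P f hf
    exact (hyp P k hf.le hk hkJ).congr hke
  by_cases hc : H.IsCentric H.core
  · exact gen_centric hS hTS hZT hH hsub hV0 hi ih hyp hc hJn P f hf
  by_cases hV : V0 ≤ H.core
  · refine gen_via_normal hS hTS hZT hH hsub hi ih hyp (isNormal_core H) hV (fun hn => ?_) P f hf
    have hUc : H.IsCentric (H.core ⊔ centralizerIn T H.core) := centric_of_isNormal hn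
      (le_trans (inf_le_inf_left T (Subgroup.centralizer_le (SetLike.coe_subset_coe.2 le_sup_left)))
        le_sup_right)
    exact hc (centric_of_le hUc (le_sSup (a := H.core ⊔ centralizerIn T H.core) hn)
      (isNormal_core H).1)
  · obtain ⟨x, hx, hxX⟩ := SetLike.not_le_iff_exists.1 hV
    obtain ⟨z, hz, rfl⟩ := hV0 x hx
    exact gen_outside_core hS hTS hZT hH hsub ih hyp hz (fun h => hxX (H.core.pow_mem h p)) P f hf

/-- Generation by the centralizer of the `p`-th powers of `Z(S)` and the normalizer of `J(S)`. -/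
theorem generated_by_agemo_center_and_thompson [Finite S] [Fact p.Prime] (hS : IsPGroup p S)
    (hF : F.IsSaturated p)
    (C : FusionSystem (centralizerIn S (powerClosure p 1 (S ⊓ Subgroup.centralizer (S : Set Ω)))))
    (hC : F.IsCentralizerSystem (powerClosure p 1 (S ⊓ Subgroup.centralizer (S : Set Ω))) C)
    (N : FusionSystem (normalizerIn S (thompsonSubgroupAOf S)))
    (hN : F.IsNormalizerSystem (thompsonSubgroupAOf S) N) (E : FusionSystem S)
    (hCE : C.IsSubsystemOf E) (hNE : N.IsSubsystemOf E) : F.IsSubsystemOf E := by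
  set V0 := powerClosure p 1 (S ⊓ Subgroup.centralizer (S : Set Ω)) with hV0d
  have hV0 : ∀ x ∈ V0, ∃ z ∈ S ⊓ Subgroup.centralizer (S : Set Ω), x = z ^ p := fun x hx => by
    obtain ⟨z, hz, rfl⟩ := mem_powerClosure_center hx
    exact ⟨z, hz, by rw [pow_one]⟩
  have hV0S : V0 ≤ S := fun x hx => by
    obtain ⟨z, hz, rfl⟩ := hV0 x hx
    exact S.pow_mem hz.1 p
  have hSC : S ≤ centralizerIn S V0 := fun s hs => ⟨hs, Subgroup.mem_centralizer_iff.2 fun y hy => by
    obtain ⟨z, hz, rfl⟩ := hV0 y hy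
    exact (((show Commute s z from Subgroup.mem_centralizer_iff.1 hz.2 s hs)).pow_right p).symm.eq⟩
  have hi : ∀ P k, Mor F (P ⊔ V0) k → (∀ x ∈ V0, k x = x) → Mor E P k := fun P k hk hfix =>
    ((mor_of_isCentralizerSystem hC hV0S P k).2
      ⟨(le_sup_left.trans hk.le).trans hSC, fun x hx => hSC (hk.mem (Subgroup.mem_sup_left hx)),
        k, hk, fun _ _ => rfl, hfix⟩).of_subsystem hCE
  have hJ : thompsonSubgroupAOf S = jA S := by
    have h1 := jA_map_injOn S.subtype (Q := ⊤) S.subtype_injective.injOn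
    rw [← MonoidHom.range_eq_map, Subgroup.range_subtype] at h1
    have htop : maxF Ab (⊤ : Subgroup S) = maxAbelianSubgroups S := by
      ext A
      exact ⟨fun h => ⟨Cfsg.Lib.PLocal.ab_iff.2 h.2.1,
          fun B hB => h.2.2 B le_top (Cfsg.Lib.PLocal.ab_iff.1 hB)⟩,
        fun h => ⟨le_top, Cfsg.Lib.PLocal.ab_iff.1 h.1,
          fun B _ hB => h.2 B (Cfsg.Lib.PLocal.ab_iff.2 hB)⟩⟩
    rw [h1, thompsonSubgroupAOf, thompsonSubgroupA, jA, htop]
  intro P
  rw [hom_subset_iff]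
  intro f hf
  refine genClaim hS hV0 hi _ S F le_rfl inf_le_left hF (fun P f h => h) rfl (fun P g hP hg hgJ => ?_) P f hf
  rw [← hJ] at hg hgJ
  have hJS : thompsonSubgroupAOf S ≤ S := Subgroup.map_subtype_le _
  have hSN : S ≤ normalizerIn S (thompsonSubgroupAOf S) := by
    rw [hJ]
    exact (le_normalizerIn le_rfl).trans (normalizerIn_le_normalizerIn_jA le_rfl)
  exact ((mor_of_isNormalizerSystem hN hJS P g).2
    ⟨hP.trans hSN, fun x hx => hSN (hg.mem (Subgroup.mem_sup_left hx)), g, hg, fun _ _ => rfl,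
      hgJ⟩).of_subsystem hNE

end Cfsg.Lib.Fusion
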