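import Mathlib
import Cfsg.Prelude.Def_FusionComponents
import Cfsg.Agent.Lib.Fusion.SolvableSystem
import Cfsg.Agent.Lib.Fusion.Alperin
import Cfsg.Agent.Lib.Fusion.Hyperfocal
import Cfsg.Agent.Lib.Transfer.GroupHyperfocal

/-!
Transport of structure along isomorphisms of fusion systems.
-/

set_option autoImplicit false
set_option linter.style.haveILetI false

open scoped Classical

namespace Cfsg.Lib.Fusion.Transport

open Cfsg Cfsg.FusionSystem Cfsg.Lib.Fusion

universe u v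

variable {Ω : Type u} [Group Ω] {Ω' : Type v} [Group Ω']

/-- The image of a subgroup under a function. -/
def im (a : Ω → Ω') (P : Subgroup Ω) : Subgroup Ω' := Subgroup.closure (a '' (P : Set Ω))

theorem mem_im_of_mem {a : Ω → Ω'} {P : Subgroup Ω} {x : Ω} (hx : x ∈ P) : a x ∈ im a P :=
  Subgroup.subset_closure ⟨x, hx, rfl⟩

/-- A pair of mutually inverse isomorphisms between two subgroups, as functions. -/
structure Bij (S : Subgroup Ω) (S' : Subgroup Ω') (a : Ω → Ω') (b : Ω' → Ω) : Prop where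
  mem : ∀ x ∈ S, a x ∈ S'
  mem' : ∀ y ∈ S', b y ∈ S
  left : ∀ x ∈ S, b (a x) = x
  right : ∀ y ∈ S', a (b y) = y
  mul : ∀ x ∈ S, ∀ y ∈ S, a (x * y) = a x * a y

namespace Bij

variable {S : Subgroup Ω} {S' : Subgroup Ω'} {a : Ω → Ω'} {b : Ω' → Ω} {P Q : Subgroup Ω}

theorem symm (h : Bij S S' a b) : Bij S' S b a :=
  ⟨h.mem', h.mem, h.right, h.left, fun x hx y hy => by
    conv_lhs => rw [← h.right x hx, ← h.right y hy, ← h.mul _ (h.mem' x hx) _ (h.mem' y hy)]
    rw [h.left _ (S.mul_mem (h.mem' x hx) (h.mem' y hy))]⟩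

theorem one (h : Bij S S' a b) : a 1 = 1 := by
  have h1 := h.mul 1 S.one_mem 1 S.one_mem
  rw [one_mul] at h1
  exact left_eq_mul.1 h1

theorem inv (h : Bij S S' a b) {x : Ω} (hx : x ∈ S) : a x⁻¹ = (a x)⁻¹ := by
  refine eq_inv_of_mul_eq_one_left ?_
  rw [← h.mul _ (S.inv_mem hx) _ hx, inv_mul_cancel, h.one]

theorem conj (h : Bij S S' a b) {c x : Ω} (hc : c ∈ S) (hx : x ∈ S) :
    a (c * x * c⁻¹) = a c * a x * (a c)⁻¹ := by
  rw [h.mul _ (S.mul_mem hc hx) _ (S.inv_mem hc), h.mul _ hc _ hx, h.inv hc]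

theorem mem_im (h : Bij S S' a b) (hP : P ≤ S) {y : Ω'} : y ∈ im a P ↔ ∃ x ∈ P, a x = y := by
  refine ⟨fun hy => ?_, fun ⟨x, hx, e⟩ => e ▸ mem_im_of_mem hx⟩
  induction hy using Subgroup.closure_induction with
  | mem y hy => obtain ⟨x, hx, rfl⟩ := hy; exact ⟨x, hx, rfl⟩
  | one => exact ⟨1, P.one_mem, h.one⟩
  | mul y z _ _ h1 h2 =>
    obtain ⟨x, hx, rfl⟩ := h1
    obtain ⟨w, hw, rfl⟩ := h2
    exact ⟨x * w, P.mul_mem hx hw, h.mul _ (hP hx) _ (hP hw)⟩
  | inv y _ h1 =>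
    obtain ⟨x, hx, rfl⟩ := h1
    exact ⟨x⁻¹, P.inv_mem hx, h.inv (hP hx)⟩

theorem im_le (h : Bij S S' a b) (hP : P ≤ S) : im a P ≤ S' := fun y hy => by
  obtain ⟨x, hx, rfl⟩ := (h.mem_im hP).1 hy
  exact h.mem x (hP hx)

theorem im_im (h : Bij S S' a b) (hP : P ≤ S) : im b (im a P) = P := by
  ext x
  rw [h.symm.mem_im (h.im_le hP)]
  constructor
  · rintro ⟨y, hy, rfl⟩
    obtain ⟨z, hz, rfl⟩ := (h.mem_im hP).1 hy
    rwa [h.left z (hP hz)]
  · exact fun hx => ⟨a x, mem_im_of_mem hx, h.left x (hP hx)⟩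

theorem mem_iff (h : Bij S S' a b) (hP : P ≤ S) {x : Ω} (hx : x ∈ S) : a x ∈ im a P ↔ x ∈ P := by
  refine ⟨fun ha => ?_, mem_im_of_mem⟩
  obtain ⟨z, hz, he⟩ := (h.mem_im hP).1 ha
  rwa [← h.left x hx, ← he, h.left z (hP hz)]

theorem back_mem (h : Bij S S' a b) (hP : P ≤ S) {y : Ω'} (hy : y ∈ im a P) : b y ∈ P := by
  obtain ⟨x, hx, rfl⟩ := (h.mem_im hP).1 hy
  rwa [h.left x (hP hx)]

theorem im_top (h : Bij S S' a b) : im a S = S' :=
  le_antisymm (h.im_le le_rfl) fun y hy => h.right y hy ▸ mem_im_of_mem (h.mem' y hy)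

/-- The isomorphism onto the image. -/
def equiv (h : Bij S S' a b) (hP : P ≤ S) : P ≃* im a P where
  toFun x := ⟨a x, mem_im_of_mem x.2⟩
  invFun y := ⟨b y, h.back_mem hP y.2⟩
  left_inv x := Subtype.ext (h.left x (hP x.2))
  right_inv y := Subtype.ext (h.right y (h.im_le hP y.2))
  map_mul' x y := Subtype.ext (h.mul _ (hP x.2) _ (hP y.2))

theorem card_im (h : Bij S S' a b) (hP : P ≤ S) : Nat.card (im a P) = Nat.card P :=
  (Nat.card_congr (h.equiv hP).toEquiv).symm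

theorem congr_apply (h : Bij S S' a b) (hP : P ≤ S) (α : MulAut P) {x : Ω} (hx : x ∈ P) :
    autFun (MulAut.congr (h.equiv hP) α) (a x) = a (autFun α x) := by
  rw [autFun_apply _ (mem_im_of_mem hx), autFun_apply α hx]
  show a ((α ⟨b (a x), _⟩ : P) : Ω) = _
  simp only [h.left x (hP hx)]

theorem finite (h : Bij S S' a b) [Finite S] : Finite S' :=
  Finite.of_surjective (fun x : S => (⟨a x, h.mem x x.2⟩ : S')) fun y =>
    ⟨⟨b y, h.mem' y y.2⟩, Subtype.ext (h.right y y.2)⟩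

theorem pgroup (h : Bij S S' a b) {p : ℕ} (hS : IsPGroup p S) : IsPGroup p S' :=
  h.im_top ▸ hS.of_equiv (h.equiv le_rfl)

theorem im_normalizerIn (h : Bij S S' a b) (hP : P ≤ S) :
    im a (normalizerIn S P) = normalizerIn S' (im a P) := by
  ext y
  rw [h.mem_im normalizerIn_le, mem_normalizerIn_iff]
  constructor
  · rintro ⟨c, hc, rfl⟩
    obtain ⟨hcS, hn⟩ := mem_normalizerIn_iff.1 hc
    refine ⟨h.mem c hcS, fun z => ⟨fun hz => ?_, fun hz => ?_⟩⟩
    · obtain ⟨x, hx, rfl⟩ := (h.mem_im hP).1 hz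
      rw [← h.conj hcS (hP hx)]
      exact mem_im_of_mem ((hn x).1 hx)
    · obtain ⟨x, hx, he⟩ := (h.mem_im hP).1 hz
      have hw : c⁻¹ * x * c ∈ P := (hn _).2 (by simpa [mul_assoc] using hx)
      rw [show z = a (c⁻¹ * x * c) by
        rw [h.mul _ (S.mul_mem (S.inv_mem hcS) (hP hx)) _ hcS, h.mul _ (S.inv_mem hcS) _ (hP hx), h.inv hcS, he]
        group]
      exact mem_im_of_mem hw
  · rintro ⟨hy, hn⟩
    refine ⟨b y, mem_normalizerIn_iff.2 ⟨h.mem' y hy, fun x => ⟨fun hx => ?_, fun hx => ?_⟩⟩, h.right y hy⟩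
    · have h1 := (hn (a x)).1 (mem_im_of_mem hx)
      rw [← h.right y hy, ← h.conj (h.mem' y hy) (hP hx)] at h1
      exact (h.mem_iff hP (S.mul_mem (S.mul_mem (h.mem' y hy) (hP hx)) (S.inv_mem (h.mem' y hy)))).1 h1
    · have hxS : x ∈ S := by
        have := S.mul_mem (S.mul_mem (S.inv_mem (h.mem' y hy)) (hP hx)) (h.mem' y hy)
        simpa [mul_assoc] using this
      have h1 := mem_im_of_mem (a := a) hx
      rw [h.conj (h.mem' y hy) hxS, h.right y hy] at h1
      exact (h.mem_iff hP hxS).1 ((hn _).2 h1)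

theorem im_centralizerIn (h : Bij S S' a b) (hP : P ≤ S) :
    im a (centralizerIn S P) = centralizerIn S' (im a P) := by
  ext y
  rw [h.mem_im centralizerIn_le, mem_centralizerIn_iff]
  constructor
  · rintro ⟨c, hc, rfl⟩
    obtain ⟨hcS, hn⟩ := mem_centralizerIn_iff.1 hc
    refine ⟨h.mem c hcS, fun z hz => ?_⟩
    obtain ⟨x, hx, rfl⟩ := (h.mem_im hP).1 hz
    rw [← h.conj hcS (hP hx), hn x hx]
  · rintro ⟨hy, hn⟩
    refine ⟨b y, mem_centralizerIn_iff.2 ⟨h.mem' y hy, fun x hx => ?_⟩, h.right y hy⟩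
    have h1 := hn _ (mem_im_of_mem (a := a) hx)
    rw [← h.right y hy, ← h.conj (h.mem' y hy) (hP hx)] at h1
    have h2 := congrArg b h1
    rwa [h.left _ (S.mul_mem (S.mul_mem (h.mem' y hy) (hP hx)) (S.inv_mem (h.mem' y hy))), h.left x (hP hx)] at h2

theorem im_sup (h : Bij S S' a b) (hP : P ≤ S) (hQ : Q ≤ S) : im a (P ⊔ Q) = im a P ⊔ im a Q := by
  refine le_antisymm ?_ (sup_le ?_ ?_)
  · rw [im, Subgroup.closure_le]
    rintro _ ⟨x, hx, rfl⟩
    rw [SetLike.mem_coe, Subgroup.sup_eq_closure] at hx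
    suffices x ∈ S ∧ a x ∈ im a P ⊔ im a Q from this.2
    induction hx using Subgroup.closure_induction with
    | mem x hx =>
      rcases hx with hx | hx
      · exact ⟨hP hx, Subgroup.mem_sup_left (mem_im_of_mem hx)⟩
      · exact ⟨hQ hx, Subgroup.mem_sup_right (mem_im_of_mem hx)⟩
    | one => exact ⟨S.one_mem, h.one.symm ▸ one_mem _⟩
    | mul x y _ _ h1 h2 => exact ⟨S.mul_mem h1.1 h2.1, h.mul _ h1.1 _ h2.1 ▸ mul_mem h1.2 h2.2⟩
    | inv x _ h1 => exact ⟨S.inv_mem h1.1, h.inv h1.1 ▸ Subgroup.inv_mem _ h1.2⟩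
  · exact Subgroup.closure_mono (Set.image_mono fun x hx => Subgroup.mem_sup_left hx)
  · exact Subgroup.closure_mono (Set.image_mono fun x hx => Subgroup.mem_sup_right hx)

theorem restrict (h : Bij S S' a b) (hP : P ≤ S) : Bij P (im a P) a b :=
  ⟨fun _ hx => mem_im_of_mem hx, fun _ hy => h.back_mem hP hy, fun x hx => h.left x (hP hx),
    fun y hy => h.right y (h.im_le hP hy), fun x hx y hy => h.mul x (hP hx) y (hP hy)⟩

end Bij

/-- An isomorphism of fusion systems, as functions. -/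
structure Iso {S : Subgroup Ω} {S' : Subgroup Ω'} (F : FusionSystem S) (F' : FusionSystem S') (a : Ω → Ω')
    (b : Ω' → Ω) : Prop extends Bij S S' a b where
  map : ∀ P f, Mor F P f → Mor F' (im a P) (fun y => a (f (b y)))
  map' : ∀ P f, Mor F' P f → Mor F (im b P) (fun x => b (f (a x)))

namespace Iso

variable {S T : Subgroup Ω} {S' T' : Subgroup Ω'} {F : FusionSystem S} {F' : FusionSystem S'} {a : Ω → Ω'}
  {b : Ω' → Ω} {P Q : Subgroup Ω}

theorem symm (h : Iso F F' a b) : Iso F' F b a := ⟨h.toBij.symm, h.map', h.map⟩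

theorem img_map (h : Iso F F' a b) {f : Ω → Ω} (hf : Mor F P f) :
    img (im a P) (fun y => a (f (b y))) = im a (img P f) := by
  refine le_antisymm (img_le fun y hy => mem_im_of_mem (mem_img_of_mem (h.back_mem hf.le hy))) fun y hy => ?_
  obtain ⟨z, hz, rfl⟩ := (h.mem_im hf.img_le_top).1 hy
  obtain ⟨x, hx, rfl⟩ := hf.mem_img.1 hz
  have h1 := mem_img_of_mem (f := fun y => a (f (b y))) (mem_im_of_mem (a := a) hx)
  simp only [h.left x (hf.le hx)] at h1
  exact h1

theorem isConj (h : Iso F F' a b) (hc : F.IsConj P Q) : F'.IsConj (im a P) (im a Q) := by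
  obtain ⟨f, hf, rfl⟩ := Cfsg.Lib.Fusion.isConj_iff.1 hc
  exact Cfsg.Lib.Fusion.isConj_iff.2 ⟨_, h.map P f hf, h.img_map hf⟩

theorem card_normalizerIn (h : Iso F F' a b) (hP : P ≤ S) :
    Nat.card (normalizerIn S' (im a P)) = Nat.card (normalizerIn S P) := by
  rw [← h.im_normalizerIn hP, h.card_im normalizerIn_le]

theorem fullyNormalized (h : Iso F F' a b) (hP : F.IsFullyNormalized P) : F'.IsFullyNormalized (im a P) := by
  refine ⟨h.im_le hP.1, fun Q hQ => ?_⟩
  have h1 := h.symm.isConj hQ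
  rw [h.im_im hP.1] at h1
  have h2 := hP.2 _ h1
  rwa [h.symm.card_normalizerIn (isConj_le_right hQ), ← h.card_normalizerIn hP.1] at h2

theorem card_autGroup_le (h : Iso F F' a b) [Finite S] (hP : P ≤ S) :
    Nat.card (F.autGroup P) ≤ Nat.card (F'.autGroup (im a P)) := by
  haveI := h.finite
  haveI := finite_mulAut_of_le (h.im_le hP)
  refine Nat.card_le_card_of_injective
    (fun α => ⟨MulAut.congr (h.equiv hP) α, (mem_autGroup_iff (h.im_le hP)).2
      ((h.map P _ ((mem_autGroup_iff hP).1 α.2)).congr fun y hy => ?_)⟩) fun α β hab => ?_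
  · obtain ⟨x, hx, rfl⟩ := (h.mem_im hP).1 hy
    rw [h.left x (hP hx)]
    exact (h.congr_apply hP (α : MulAut P) hx).symm
  · exact Subtype.ext ((MulAut.congr (h.equiv hP)).injective (congrArg Subtype.val hab))

theorem card_autGroup (h : Iso F F' a b) [Finite S] (hP : P ≤ S) :
    Nat.card (F'.autGroup (im a P)) = Nat.card (F.autGroup P) := by
  haveI := h.finite
  refine le_antisymm ?_ (h.card_autGroup_le hP)
  have h1 := h.symm.card_autGroup_le (h.im_le hP)
  rwa [h.im_im hP] at h1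

theorem fullyAutomized (h : Iso F F' a b) [Finite S] {p : ℕ} [Fact p.Prime] (hS : IsPGroup p S)
    (hP : F.IsFullyAutomized p P) : F'.IsFullyAutomized p (im a P) := by
  haveI := h.finite
  haveI := finite_of_le (centralizerIn_le (S := S) (P := P))
  refine (fullyAutomized_iff (h.pgroup hS) (h.im_le hP.1)).2 ?_
  rw [h.card_autGroup hP.1, ← (fullyAutomized_iff hS hP.1).1 hP]
  have h1 := card_autInducedBy_mul S' (im a P)
  rw [h.card_normalizerIn hP.1, ← h.im_centralizerIn hP.1, h.card_im centralizerIn_le,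
    ← card_autInducedBy_mul S P] at h1
  exact Nat.eq_of_mul_eq_mul_right Nat.card_pos h1

theorem receptive (h : Iso F F' a b) (hP : F.IsReceptive P) : F'.IsReceptive (im a P) := by
  obtain ⟨hPS, hrec⟩ := isReceptive_iff.1 hP
  refine isReceptive_iff.2 ⟨h.im_le hPS, fun R f hf hi => ?_⟩
  have hR := hf.le
  have hf0 := h.map' R f hf
  have hi0 : img (im b R) (fun x => b (f (a x))) = P := by
    rw [h.symm.img_map hf, hi, h.im_im hPS]
  obtain ⟨k, hk, hke⟩ := hrec _ _ hf0 hi0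
  refine ⟨fun y => a (k (b y)), (h.map _ k hk).restrict fun c hc => ?_, fun y hy => ?_⟩
  · obtain ⟨hcn, d, hd, hde⟩ := mem_extN.1 hc
    have hcS := normalizerIn_le hcn
    rw [← h.right c hcS]
    refine mem_im_of_mem (mem_extN.2 ⟨?_, b d, h.mem' d hd, fun x hx => ?_⟩)
    · rw [← h.symm.im_normalizerIn hR]
      exact mem_im_of_mem hcn
    · obtain ⟨z, hz, rfl⟩ := (h.symm.mem_im hR).1 hx
      show b (f (a (b c * b z * (b c)⁻¹))) = b d * b (f (a (b z))) * (b d)⁻¹
      rw [← h.symm.conj hcS (hR hz), h.right _ (hR (conj_mem_of_mem_normalizerIn hcn hz)), h.right z (hR hz),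
        hde z hz, h.symm.conj hd (hf.mem hz)]
  · show a (k (b y)) = f y
    rw [hke _ (mem_im_of_mem hy)]
    show a (b (f (a (b y)))) = f y
    rw [h.right y (hR hy), h.right _ (hf.mem hy)]

theorem saturated (h : Iso F F' a b) [Finite S] {p : ℕ} [Fact p.Prime] (hS : IsPGroup p S)
    (hF : F.IsSaturated p) : F'.IsSaturated p := by
  haveI := h.finite
  refine saturated_of_axioms (fun P hP => ?_) fun P hP => ?_
  · have h1 := h.fullyAutomized hS (fullyNormalized_axiom hS hF (h.symm.fullyNormalized hP)).2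
    rwa [h.symm.im_im hP.1] at h1
  · have h1 := h.receptive (receptive_of_fullyNormalized hS hF (h.symm.fullyNormalized hP))
    rwa [h.symm.im_im hP.1] at h1

theorem stronglyClosed (h : Iso F F' a b) (hP : F.StronglyClosed P) : F'.StronglyClosed (im a P) := by
  refine stronglyClosed_iff.2 ⟨h.im_le hP.1, fun R f hf y hy hyP => ?_⟩
  have h1 := StronglyClosed.mem hP (h.map' R f hf) (mem_im_of_mem hy) (h.back_mem hP.1 hyP)
  have h2 := mem_im_of_mem (a := a) h1
  rwa [h.right y (hf.le hy), h.right _ (hf.mem hy)] at h2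

variable {E : FusionSystem T} {E' : FusionSystem T'}

theorem eq_im (h : Iso E E' a b) : T' = im a T := h.im_top.symm

theorem isSubsystemOf (h : Iso F F' a b) (hE : Iso E E' a b) (hsub : E.IsSubsystemOf F) :
    E'.IsSubsystemOf F' := fun P => by
  refine hom_subset_iff.2 fun f hf => ?_
  have h1 := h.map _ _ ((hE.map' P f hf).of_subsystem hsub)
  rw [hE.symm.im_im hf.le] at h1
  refine h1.congr fun y hy => ?_
  show a (b (f (a (b y)))) = f y
  rw [hE.right y (hf.le hy), hE.right _ (hf.mem hy)]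

/-- A subsystem can be pushed along an isomorphism. -/
theorem exists_push (h : Iso F F' a b) (hsub : E.IsSubsystemOf F) :
    ∃ E' : FusionSystem (im a T), Iso E E' a b := by
  have hT := le_of_isSubsystemOf hsub
  have hb := h.toBij.restrict hT
  let G : Subgroup Ω' → Set (Ω' → Ω') := fun P' => {g | P' ≤ im a T ∧ ∃ f, Mor E (im b P') f ∧ ∀ y ∈ P', g y = a (f (b y))}
  refine ⟨{ Hom := fun P' => {φ | extFun φ ∈ G P'}
            le_of_mem := ?_, injective_of_mem := ?_, conj_mem := ?_, comp_mem := ?_, inv_mem := ?_ },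
    hb, fun P f hf => ?_, fun P' g hg => ?_⟩
  · rintro P' φ ⟨hP', f, hf, he⟩
    exact ⟨hP', fun y => by
      rw [← extFun_coe φ y, he y y.2]
      exact mem_im_of_mem (hf.mem (mem_im_of_mem y.2))⟩
  · rintro P' φ ⟨hP', f, hf, he⟩ y z hyz
    have h1 := congrArg b ((he y y.2).symm.trans ((extFun_coe φ y).trans (hyz.trans ((extFun_coe φ z).symm.trans (he z z.2)))))
    rw [hb.left _ (hf.mem (mem_im_of_mem y.2)), hb.left _ (hf.mem (mem_im_of_mem z.2))] at h1
    have h2 := congrArg a (hf.eq_of_eq (mem_im_of_mem y.2) (mem_im_of_mem z.2) h1)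
    rw [hb.right _ (hP' y.2), hb.right _ (hP' z.2)] at h2
    exact Subtype.ext h2
  · intro P' c hP' hc
    refine ⟨hP', fun x => b c * x * (b c)⁻¹, mor_conj (hb.symm.im_le hP') (hb.mem' c hc), fun y hy => ?_⟩
    rw [extFun_apply _ hy, hb.conj (hb.mem' c hc) (hb.mem' y (hP' hy)), hb.right c hc, hb.right y (hP' hy)]
    rfl
  · rintro P' Q' φ ψ ⟨hP', f, hf, he⟩ ⟨hQ', g, hg, hge⟩ hm
    have hmaps : ∀ x ∈ im b P', f x ∈ im b Q' := fun x hx => by
      obtain ⟨y, hy, rfl⟩ := (hb.symm.mem_im hP').1 hx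
      have h1 : a (f (b y)) ∈ Q' := by rw [← he y hy, extFun_apply φ hy]; exact hm _
      have h2 := mem_im_of_mem (a := b) h1
      rwa [hb.left _ (hf.mem (mem_im_of_mem hy))] at h2
    refine ⟨hP', fun x => g (f x), hg.comp hf hmaps, fun y hy => ?_⟩
    show _ = a (g (f (b y)))
    rw [extFun_apply _ hy]
    show ψ ⟨φ ⟨y, hy⟩, _⟩ = _
    rw [← extFun_apply ψ (hm ⟨y, hy⟩), hge _ (hm ⟨y, hy⟩), ← extFun_apply φ hy, he y hy,
      hb.left _ (hf.mem (mem_im_of_mem hy))]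
  · rintro P' φ ⟨hP', f, hf, he⟩
    obtain ⟨k, hk, hk1, -, -⟩ := hf.exists_inv
    have hinj : Function.Injective φ := fun y z hyz => by
      have h1 := congrArg b ((he y y.2).symm.trans ((extFun_coe φ y).trans (hyz.trans ((extFun_coe φ z).symm.trans (he z z.2)))))
      rw [hb.left _ (hf.mem (mem_im_of_mem y.2)), hb.left _ (hf.mem (mem_im_of_mem z.2))] at h1
      have h2 := congrArg a (hf.eq_of_eq (mem_im_of_mem y.2) (mem_im_of_mem z.2) h1)
      rw [hb.right _ (hP' y.2), hb.right _ (hP' z.2)] at h2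
      exact Subtype.ext h2
    let e := MonoidHom.ofInjective hinj
    have hr : φ.range ≤ im a T := by
      rintro _ ⟨y, rfl⟩
      rw [← extFun_coe φ y, he y y.2]
      exact mem_im_of_mem (hf.mem (mem_im_of_mem y.2))
    refine ⟨P'.subtype.comp e.symm.toMonoidHom, ⟨hr, k, hk.restrict ?_, ?_⟩, fun x => congrArg Subtype.val (e.symm_apply_apply x)⟩
    · intro x hx
      obtain ⟨_, ⟨y, rfl⟩, rfl⟩ := (hb.symm.mem_im hr).1 hx
      rw [← extFun_coe φ y, he y y.2, hb.left _ (hf.mem (mem_im_of_mem y.2))]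
      exact mem_img_of_mem (mem_im_of_mem y.2)
    · rintro _ ⟨y, rfl⟩
      rw [extFun_apply _ (⟨y, rfl⟩ : φ y ∈ φ.range)]
      show ((e.symm (e y) : P') : Ω') = _
      rw [e.symm_apply_apply, ← extFun_coe φ y, he y y.2, hb.left _ (hf.mem (mem_im_of_mem y.2)),
        hk1 _ (mem_im_of_mem y.2), hb.right _ (hP' y.2)]
  · obtain ⟨φ, hφ, hφe⟩ := hf.exists_hom
    let ψ : im a P →* Ω' := MonoidHom.mk' (fun y => a (f (b y))) fun y z => by
      show a (f (b (y * z : Ω'))) = a (f (b y)) * a (f (b z))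
      rw [hb.symm.mul _ (hb.im_le hf.le y.2) _ (hb.im_le hf.le z.2),
        hf.map_mul (hb.back_mem hf.le y.2) (hb.back_mem hf.le z.2),
        hb.mul _ (hf.mem (hb.back_mem hf.le y.2)) _ (hf.mem (hb.back_mem hf.le z.2))]
    refine ⟨ψ, ⟨hb.im_le hf.le, f, hf.source_congr (hb.im_im hf.le).symm, fun y hy => ?_⟩, fun _ => rfl⟩
    rw [extFun_apply ψ hy]
    rfl
  · obtain ⟨φ, ⟨hP', f, hf, he⟩, hge⟩ := hg
    refine hf.congr fun x hx => ?_
    obtain ⟨y, hy, rfl⟩ := (hb.symm.mem_im hP').1 hx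
    show f (b y) = b (g (a (b y)))
    rw [hb.right y (hP' hy), ← hge ⟨y, hy⟩, ← extFun_coe φ ⟨y, hy⟩, he y hy, hb.left _ (hf.mem hx)]

theorem invariant (h : Iso F F' a b) (hE : Iso E E' a b) (hinv : E.IsInvariantIn F) : E'.IsInvariantIn F' := by
  have hTS := hinv.2.1.1
  have hT'S : T' ≤ S' := hE.eq_im ▸ h.im_le hTS
  refine ⟨h.isSubsystemOf hE hinv.1, hE.eq_im ▸ h.stronglyClosed hinv.2.1, fun P hP φ hφ α hα => ?_, fun P hP φ hφ => ?_⟩
  · have hα' := h.map' _ _ ((mem_autGroup_iff hT'S).1 hα)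
    rw [hE.symm.im_top] at hα'
    have hPT : im b P ≤ T := hE.symm.im_le hP
    have hf := hE.map' P _ (mor_extFun hφ)
    obtain ⟨χ, hχ, hχe⟩ := Mor.conj_of_invariant hinv hPT le_rfl hf (fun x hx => hf.mem hx) hα'
    have hχ' := hE.map _ χ hχ
    have hle : (P.subgroupOf T').map (T'.subtype.comp α.toMonoidHom) ≤
        im a (img (im b P) fun x => b (autFun α (a x))) := by
      rintro _ ⟨y, hy, rfl⟩
      show ((α y : T') : Ω') ∈ _
      have h1 := mem_img_of_mem (f := fun x => b (autFun α (a x))) (mem_im_of_mem (a := b) hy)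
      beta_reduce at h1
      rw [show a (b (T'.subtype y)) = (y : Ω') from hE.right _ y.2, autFun_coe] at h1
      have h2 := mem_im_of_mem (a := a) h1
      rwa [hE.right _ (α y).2] at h2
    obtain ⟨χ', hχ'm, he⟩ := (hχ'.restrict hle).exists_hom
    refine ⟨χ', hχ'm, fun x hφx hαx => ?_⟩
    rw [he]
    have h3 := hχe _ (mem_im_of_mem (a := b) x.2)
    simp only [hE.right (x : Ω') (hP x.2), extFun_coe, hE.right (φ x) hφx, autFun_apply α (hP x.2), autFun_apply α hφx] at h3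
    show a (χ (b ((α ⟨x, hP x.2⟩ : T') : Ω'))) = _
    rw [h3, hE.right _ (α ⟨φ x, hφx⟩).2]
  · have hPT : im b P ≤ T := hE.symm.im_le hP
    have hf := h.map' P _ (mor_extFun hφ)
    obtain ⟨ψ, hψ, hψe⟩ := hf.exists_hom
    obtain ⟨α, hα, φ₀, hφ₀, he⟩ := hinv.2.2.2 _ hPT ψ hψ
    have hα' := h.map _ _ ((mem_autGroup_iff hTS).1 hα)
    rw [← hE.eq_im] at hα'
    obtain ⟨β, hβ, hβe⟩ := hα'.exists_aut (by
      rw [hE.eq_im, h.img_map ((mem_autGroup_iff hTS).1 hα), img_autFun])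
    have h0 := hE.map _ _ (mor_extFun hφ₀)
    rw [hE.symm.im_im hP] at h0
    obtain ⟨φ₀', hφ₀', hφe'⟩ := h0.exists_hom
    refine ⟨β, hβ, φ₀', hφ₀', fun x hx => ?_⟩
    have hbx : b (x : Ω') ∈ im b P := mem_im_of_mem x.2
    rw [← autFun_apply β hx, hβe _ hx, hφe', hE.left _ ((mor_extFun hφ₀).mem hbx), extFun_apply φ₀ hbx,
      autFun_apply α ((E.le_of_mem hφ₀).2 _), ← he ⟨_, hbx⟩, hψe, h.right _ (hP.trans hT'S x.2), extFun_coe,
      h.right _ ((F'.le_of_mem hφ).2 x)]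

theorem normal (h : Iso F F' a b) (hE : Iso E E' a b) [Finite S] {p : ℕ} [Fact p.Prime] (hS : IsPGroup p S)
    (hn : E.IsNormalIn F p) : E'.IsNormalIn F' p := by
  obtain ⟨⟨hEs, hFs, hinv⟩, hext⟩ := hn
  have hTS := hinv.2.1.1
  haveI := finite_of_le hTS
  refine ⟨⟨hE.saturated (isPGroup_of_le hS hTS) hEs, h.saturated hS hFs, h.invariant hE hinv⟩, fun α hα => ?_⟩
  have hT'S : T' ≤ S' := hE.eq_im ▸ h.im_le hTS
  have hα' := hE.map' _ _ ((mem_autGroup_iff le_rfl).1 hα)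
  rw [hE.symm.im_top] at hα'
  obtain ⟨α₀, hα₀, hα₀e⟩ := hα'.exists_aut (by
    conv_lhs => rw [← hE.symm.im_top, hE.symm.img_map ((mem_autGroup_iff le_rfl).1 hα), img_autFun]
    exact hE.symm.im_top)
  obtain ⟨β, hβ, hβ1, hβ2⟩ := hext α₀ hα₀
  have hRS : T ⊔ centralizerIn S T ≤ S := sup_le hTS centralizerIn_le
  have him : im a (T ⊔ centralizerIn S T) = T' ⊔ centralizerIn S' T' := by
    rw [h.im_sup hTS centralizerIn_le, h.im_centralizerIn hTS, ← hE.eq_im]
  have hβ' := h.map _ _ ((mem_autGroup_iff hRS).1 hβ)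
  have hi : img (im a (T ⊔ centralizerIn S T)) (fun y => a (autFun β (b y))) = im a (T ⊔ centralizerIn S T) := by
    rw [h.img_map ((mem_autGroup_iff hRS).1 hβ), img_autFun]
  rw [him] at hβ' hi
  obtain ⟨γ, hγ, hγe⟩ := hβ'.exists_aut hi
  refine ⟨γ, hγ, fun x => ?_, fun c hc => ?_⟩
  · have hbx : b (x : Ω') ∈ T := hE.mem' x x.2
    rw [← autFun_coe γ, hγe _ (Subgroup.inclusion le_sup_left x).2]
    show a (autFun β (b x)) = _
    rw [autFun_apply β (Subgroup.mem_sup_left (T := centralizerIn S T) hbx)]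
    have h1 := hβ1 ⟨_, hbx⟩
    rw [← autFun_coe α₀, hα₀e _ hbx, hE.right _ x.2, autFun_coe] at h1
    exact (congrArg a h1).trans (hE.right _ (α x).2)
  · rw [← autFun_coe γ, hγe _ c.2]
    have hbc : b (c : Ω') ∈ centralizerIn S T := by
      have h1 : im b (centralizerIn S' T') = centralizerIn S T := by
        rw [h.symm.im_centralizerIn hT'S, hE.symm.im_top]
      exact h1 ▸ mem_im_of_mem hc
    have hcR : b (c : Ω') ∈ T ⊔ centralizerIn S T := Subgroup.mem_sup_right hbc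
    have h2 := hβ2 ⟨_, hcR⟩ hbc
    rw [← autFun_coe β] at h2
    obtain ⟨h3, h4⟩ := Subgroup.mem_inf.1 h2
    have hcS' : (c : Ω') ∈ S' := centralizerIn_le hc
    have hd : autFun β (b (c : Ω')) ∈ S := hRS (autFun_mem β hcR)
    have h5 : (c : Ω')⁻¹ * a (autFun β (b c)) = a ((b (c : Ω'))⁻¹ * autFun β (b c)) := by
      rw [h.mul _ (S.inv_mem (h.mem' _ hcS')) _ hd, h.inv (h.mem' _ hcS'), h.right _ hcS']
    show (c : Ω')⁻¹ * a (autFun β (b c)) ∈ _
    rw [h5]
    refine Subgroup.mem_inf.2 ⟨hE.mem _ h3, Subgroup.mem_centralizer_iff.2 fun t ht => ?_⟩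
    have h6 := Subgroup.mem_centralizer_iff.1 h4 (b t) (hE.mem' t ht)
    conv_lhs => rw [← hE.right t ht, ← hE.mul _ (hE.mem' t ht) _ h3, h6, hE.mul _ h3 _ (hE.mem' t ht), hE.right t ht]

theorem hyperfocal_le (h : Iso F F' a b) [Finite S] {p : ℕ} :
    F'.hyperfocalSubgroup p ≤ im a (F.hyperfocalSubgroup p) := by
  refine Cfsg.Lib.Transfer.GroupHyperfocal.hyperfocal_le_of _ fun P hP α hα ho x => ?_
  have hP0 := h.symm.im_le hP
  have hm := h.map' P _ ((mem_autGroup_iff hP).1 hα)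
  obtain ⟨β, hβ, hβe⟩ := hm.exists_aut (by rw [h.symm.img_map ((mem_autGroup_iff hP).1 hα), img_autFun])
  have hβeq : β = MulAut.congr (h.symm.equiv hP) α := by
    refine aut_ext fun z hz => ?_
    obtain ⟨y, hy, rfl⟩ := (h.symm.mem_im hP).1 hz
    rw [hβe _ hz, h.right y (hP hy)]
    exact (h.symm.congr_apply hP α hy).symm
  have hbo : (orderOf β).Coprime p := by rw [hβeq, MulEquiv.orderOf_eq]; exact ho
  have h1 := mem_hyperfocal_of_residual (F := F) (p := p) hP0 (α := ⟨β, hβ⟩)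
    (Cfsg.Lib.Transfer.coprime_orderOf_mem_pResidual (by rwa [Subgroup.orderOf_mk])) ⟨b (x : Ω'), mem_im_of_mem x.2⟩
  rw [← autFun_coe β] at h1
  show (x : Ω')⁻¹ * _ ∈ _
  have h2 := mem_im_of_mem (a := a) h1
  rw [hβe _ (mem_im_of_mem (a := b) x.2), h.right _ (hP x.2), autFun_coe,
    h.mul _ (S.inv_mem (h.mem' _ (hP x.2))) _ (h.mem' _ (hP (α x).2)), h.inv (h.mem' _ (hP x.2)),
    h.right _ (hP x.2), h.right _ (hP (α x).2)] at h2
  exact h2

theorem hyperfocal (h : Iso F F' a b) [Finite S] {p : ℕ} :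
    F'.hyperfocalSubgroup p = im a (F.hyperfocalSubgroup p) := by
  refine le_antisymm h.hyperfocal_le fun y hy => ?_
  obtain ⟨x, hx, rfl⟩ := (h.mem_im Cfsg.Lib.Fusion.hyperfocal_le).1 hy
  haveI := h.finite
  obtain ⟨z, hz, he⟩ := (h.symm.mem_im Cfsg.Lib.Fusion.hyperfocal_le).1 (h.symm.hyperfocal_le (p := p) hx)
  rwa [← he, h.right z (Cfsg.Lib.Fusion.hyperfocal_le hz)]

theorem isCentral (h : Iso F F' a b) (hQ : F.IsCentral Q) : F'.IsCentral (im a Q) := by
  obtain ⟨hQS, hext⟩ := isCentral_iff.1 hQ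
  refine isCentral_iff.2 ⟨h.im_le hQS, fun P f hf => ?_⟩
  obtain ⟨k, hk, hke, hkQ⟩ := hext _ _ (h.map' P f hf)
  refine ⟨fun y => a (k (b y)), ?_, fun y hy => ?_, fun y hy => ?_⟩
  · have h1 := h.map _ k hk
    rwa [h.im_sup (h.symm.im_le hf.le) hQS, h.symm.im_im hf.le] at h1
  · show a (k (b y)) = f y
    rw [hke _ (mem_im_of_mem hy)]
    show a (b (f (a (b y)))) = f y
    rw [h.right y (hf.le hy), h.right _ (hf.mem hy)]
  · show a (k (b y)) = y
    rw [hkQ _ (h.back_mem hQS hy), h.right y (h.im_le hQS hy)]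

theorem center (h : Iso F F' a b) [Finite S] : F'.center = im a F.center := by
  haveI := h.finite
  refine le_antisymm (fun y hy => ?_) (le_sSup (h.isCentral (isCentral_center F)))
  have hc := isCentral_center F'
  have h1 : im b F'.center ≤ F.center := le_sSup (h.symm.isCentral hc)
  rw [← h.right y (hc.1 hy)]
  exact mem_im_of_mem (h1 (mem_im_of_mem hy))

theorem trans {Ω'' : Type*} [Group Ω''] {S'' : Subgroup Ω''} {F'' : FusionSystem S''} {a' : Ω' → Ω''} {b' : Ω'' → Ω'}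
    (h : Iso F F' a b) (h' : Iso F' F'' a' b') : Iso F F'' (fun x => a' (a x)) (fun z => b (b' z)) := by
  refine ⟨⟨fun x hx => h'.mem _ (h.mem x hx), fun z hz => h.mem' _ (h'.mem' z hz),
    fun x hx => by rw [h'.left _ (h.mem x hx), h.left x hx],
    fun z hz => by rw [h.right _ (h'.mem' z hz), h'.right z hz],
    fun x hx y hy => by rw [h.mul x hx y hy, h'.mul _ (h.mem x hx) _ (h.mem y hy)]⟩,
    fun P f hf => ?_, fun P f hf => ?_⟩
  · refine (h'.map _ _ (h.map P f hf)).restrict ?_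
    rw [im, Subgroup.closure_le]
    rintro _ ⟨x, hx, rfl⟩
    exact mem_im_of_mem (mem_im_of_mem hx)
  · refine (h.map' _ _ (h'.map' P f hf)).restrict ?_
    rw [im, Subgroup.closure_le]
    rintro _ ⟨x, hx, rfl⟩
    exact mem_im_of_mem (mem_im_of_mem hx)

theorem same_of_iso {R₁ R₂ : Subgroup Ω'} {D₁ : FusionSystem R₁} {D₂ : FusionSystem R₂}
    (h₁ : Iso E D₁ a b) (h₂ : Iso E D₂ a b) : D₁.IsSubsystemOf D₂ := fun P => by
  refine hom_subset_iff.2 fun f hf => ?_
  have h3 := h₂.map _ _ (h₁.map' P f hf)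
  rw [h₁.symm.im_im hf.le] at h3
  refine h3.congr fun y hy => ?_
  show a (b (f (a (b y)))) = f y
  rw [h₁.right y (hf.le hy), h₁.right _ (hf.mem hy)]

theorem subnormal {p : ℕ} [Fact p.Prime] (hsub : E.IsSubnormalIn F p) :
    Finite S → IsPGroup p S → ∀ {S' T' : Subgroup Ω'} (F' : FusionSystem S') (E' : FusionSystem T'),
      Iso F F' a b → Iso E E' a b → E'.IsSubnormalIn F' p := by
  rename_i hp
  revert hp
  induction hsub with
  | refl F p =>
    intro hp _ _ S' T' F' E' h hE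
    obtain rfl : T' = S' := hE.eq_im.trans h.eq_im.symm
    obtain rfl : E' = F' := system_ext fun P => Set.Subset.antisymm (same_of_iso hE h P) (same_of_iso h hE P)
    exact .refl _ _
  | @step U S₁ E D F p hED hDF ih =>
    intro hp hfin hS S' T' F' E' h hE
    haveI := hp
    have hUS := hDF.1.2.2.2.1.1
    obtain ⟨D', hD'⟩ := h.exists_push hDF.1.2.2.1
    exact .step (ih (finite_of_le hUS) (isPGroup_of_le hS hUS) D' E' hD' hE) (h.normal hD' hS hDF)

/-- Systems over the whole quotient, transported. -/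
theorem simple (h : Iso F F' a b) [Finite S] {p : ℕ} [Fact p.Prime] (hS : IsPGroup p S)
    (hsimp : F.IsSimple p) : F'.IsSimple p := by
  obtain ⟨hF, hne, hall⟩ := hsimp
  refine ⟨h.saturated hS hF, fun e => hne ?_, fun T' E' hE' => ?_⟩
  · rw [eq_bot_iff]
    intro x hx
    have h1 := h.mem x hx
    rw [e, Subgroup.mem_bot] at h1
    rw [Subgroup.mem_bot, ← h.left x hx, h1, h.symm.one]
  · haveI := h.finite
    have hT' := hE'.1.2.2.2.1.1
    obtain ⟨E, hE⟩ := h.symm.exists_push hE'.1.2.2.1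
    rcases hall _ E (h.symm.normal hE (h.pgroup hS) hE') with h1 | ⟨h1, h2⟩
    · left
      rw [← h.symm.im_im hT', h1, eq_bot_iff, im, Subgroup.closure_le]
      rintro _ ⟨x, hx, rfl⟩
      obtain rfl := Subgroup.mem_bot.1 hx
      exact Subgroup.mem_bot.2 h.one
    · right
      refine ⟨by rw [← h.symm.im_im hT', h1, h.im_top], fun P => hom_eq_iff.2 fun f => ⟨fun hf => hf.of_subsystem hE'.1.2.2.1, fun hf => ?_⟩⟩
      have h3 := (h.map' P f hf)
      obtain ⟨φ, hφ, he⟩ := h3.exists_hom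
      rw [← h2] at hφ
      have hm : Mor E (im b P) (fun x => b (f (a x))) := ⟨φ, hφ, he⟩
      have h4 := hE.symm.map _ _ hm
      rw [h.symm.im_im hf.le] at h4
      refine h4.congr fun y hy => ?_
      show a (b (f (a (b y)))) = f y
      rw [h.right y (hf.le hy), h.right _ (hf.mem hy)]

theorem quasisimple (h : Iso F F' a b) [Finite S] {p : ℕ} [Fact p.Prime] (hS : IsPGroup p S)
    (hq : F.Quasisimple p) : F'.Quasisimple p := by
  obtain ⟨hF, hh, hfac⟩ := hq
  haveI := h.finite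
  refine ⟨h.saturated hS hF, by rw [h.hyperfocal, hh, h.im_top], fun E' hE' => ?_⟩
  set Z := F.center with hZ
  have hZS : Z ≤ S := (isCentral_center F).1
  have hsc : F.StronglyClosed Z := stronglyClosed_iff.2 ⟨hZS, fun R f hf x hx hxZ => by
    obtain ⟨k, -, hke, hkZ⟩ := (isCentral_iff.1 (isCentral_center F)).2 R f hf
    rw [← hke x hx, hkZ x hxZ]
    exact hxZ⟩
  set π := QuotientGroup.mk' (Z.subgroupOf S) with hπ
  set π' := QuotientGroup.mk' (F'.center.subgroupOf S') with hπ'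
  have hker : ∀ s : S, π s = 1 ↔ (s : Ω) ∈ Z := fun s => QuotientGroup.eq_one_iff s
  obtain ⟨E, hE⟩ := exists_factorSystem (S' := ⊤) hsc hker (MonoidHom.range_eq_top.2 (QuotientGroup.mk'_surjective _))
  let A : (S ⧸ Z.subgroupOf S) → (S' ⧸ F'.center.subgroupOf S') := fun q => iotaFun π' (a (q.out : S))
  let B : (S' ⧸ F'.center.subgroupOf S') → (S ⧸ Z.subgroupOf S) := fun q => iotaFun π (b (q.out : S'))
  have hker' : ∀ s : S', π' s = 1 ↔ (s : Ω') ∈ F'.center := fun s => QuotientGroup.eq_one_iff s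
  have hA : ∀ x ∈ S, A (iotaFun π x) = iotaFun π' (a x) := fun x hx => by
    rw [iotaFun_apply π hx]
    have h1 : π (π ⟨x, hx⟩).out = π ⟨x, hx⟩ := QuotientGroup.out_eq' _
    have h2 : ((π ⟨x, hx⟩).out : Ω)⁻¹ * x ∈ Z := by
      rw [← iotaFun_eq_iff hker (π ⟨x, hx⟩).out.2 hx, iotaFun_apply π (π ⟨x, hx⟩).out.2, iotaFun_apply π hx]
      exact h1
    refine (iotaFun_eq_iff hker' (h.mem _ (π ⟨x, hx⟩).out.2) (h.mem x hx)).2 ?_
    rw [← h.inv (π ⟨x, hx⟩).out.2, ← h.mul _ (S.inv_mem (π ⟨x, hx⟩).out.2) _ hx, h.center]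
    exact mem_im_of_mem h2
  have hB : ∀ y ∈ S', B (iotaFun π' y) = iotaFun π (b y) := fun y hy => by
    rw [iotaFun_apply π' hy]
    have h2 : ((π' ⟨y, hy⟩).out : Ω')⁻¹ * y ∈ F'.center := by
      rw [← iotaFun_eq_iff hker' (π' ⟨y, hy⟩).out.2 hy, iotaFun_apply π' (π' ⟨y, hy⟩).out.2, iotaFun_apply π' hy]
      exact QuotientGroup.out_eq' _
    refine (iotaFun_eq_iff hker (h.mem' _ (π' ⟨y, hy⟩).out.2) (h.mem' y hy)).2 ?_
    rw [← h.symm.inv (π' ⟨y, hy⟩).out.2, ← h.symm.mul _ (S'.inv_mem (π' ⟨y, hy⟩).out.2) _ hy]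
    exact h.back_mem hZS (h.center.le h2)
  have hbij : Bij (⊤ : Subgroup (S ⧸ Z.subgroupOf S)) (⊤ : Subgroup (S' ⧸ F'.center.subgroupOf S')) A B := by
    refine ⟨fun _ _ => Subgroup.mem_top _, fun _ _ => Subgroup.mem_top _, fun q _ => ?_, fun q _ => ?_, fun q _ r _ => ?_⟩
    · obtain ⟨⟨x, hx⟩, rfl⟩ := QuotientGroup.mk'_surjective _ q
      rw [← iotaFun_apply π hx, hA x hx, hB _ (h.mem x hx), h.left x hx]
    · obtain ⟨⟨y, hy⟩, rfl⟩ := QuotientGroup.mk'_surjective _ q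
      rw [← iotaFun_apply π' hy, hB y hy, hA _ (h.mem' y hy), h.right y hy]
    · obtain ⟨⟨x, hx⟩, rfl⟩ := QuotientGroup.mk'_surjective _ q
      obtain ⟨⟨y, hy⟩, rfl⟩ := QuotientGroup.mk'_surjective _ r
      rw [← iotaFun_apply π hx, ← iotaFun_apply π hy, hA x hx, hA y hy, ← iotaFun_mul π hx hy, hA _ (S.mul_mem hx hy),
        h.mul x hx y hy, iotaFun_mul π' (h.mem x hx) (h.mem y hy)]
  have hiso : Iso E E' A B := by
    refine ⟨hbij, fun P g hg => ?_, fun P g hg => ?_⟩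
    · obtain ⟨hle, f, hf, he⟩ := (mor_factor_iff hE).1 hg
      refine (mor_factor_iff hE').2 ⟨?_, fun y => a (f (b y)), (h.map _ f hf).restrict fun y hy => ?_, fun y hy => ?_⟩
      · rw [MonoidHom.range_eq_top.2 (QuotientGroup.mk'_surjective _)]; exact le_top
      · obtain ⟨hyS, hyP⟩ := mem_preimageAlong.1 hy
        rw [← h.right y hyS]
        refine mem_im_of_mem (mem_preimageAlong.2 ⟨h.mem' y hyS, ?_⟩)
        rw [← hB y hyS]
        exact hbij.back_mem le_top hyP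
      · obtain ⟨hyS, hyP⟩ := mem_preimageAlong.1 hy
        have hby : b y ∈ preimageAlong π P := mem_preimageAlong.2 ⟨h.mem' y hyS, hB y hyS ▸ hbij.back_mem le_top hyP⟩
        show A (g (B (iotaFun π' y))) = iotaFun π' (a (f (b y)))
        rw [hB y hyS, he _ hby, hA _ (hf.mem hby)]
    · obtain ⟨hle, f, hf, he⟩ := (mor_factor_iff hE').1 hg
      refine (mor_factor_iff hE).2 ⟨?_, fun x => b (f (a x)), (h.map' _ f hf).restrict fun x hx => ?_, fun x hx => ?_⟩
      · rw [MonoidHom.range_eq_top.2 (QuotientGroup.mk'_surjective _)]; exact le_top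
      · obtain ⟨hxS, hxP⟩ := mem_preimageAlong.1 hx
        rw [← h.left x hxS]
        refine mem_im_of_mem (mem_preimageAlong.2 ⟨h.mem x hxS, ?_⟩)
        rw [← hA x hxS]
        exact hbij.symm.back_mem le_top hxP
      · obtain ⟨hxS, hxP⟩ := mem_preimageAlong.1 hx
        have hax : a x ∈ preimageAlong π' P := mem_preimageAlong.2 ⟨h.mem x hxS, hA x hxS ▸ hbij.symm.back_mem le_top hxP⟩
        show B (g (A (iotaFun π x))) = iotaFun π (b (f (a x)))
        rw [hA x hxS, he _ hax, hB _ (hf.mem hax)]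
  exact hiso.simple ((hS.to_quotient _).to_subgroup _) (hfac E hE)

end Iso

end Cfsg.Lib.Fusion.Transport
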