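import Mathlib
import Cfsg.Prelude.Def_FusionComponents
import Cfsg.Agent.Lib.Fusion.Transport

/-!
Layers are characteristic; images of components are components.
-/

set_option autoImplicit false
set_option linter.style.haveILetI false

open scoped Classical

namespace Cfsg.Lib.Fusion.Transport

open Cfsg Cfsg.FusionSystem Cfsg.Lib.Fusion

universe u

variable {Ω : Type u} [Group Ω] {S T : Subgroup Ω} {F : FusionSystem S} {p : ℕ}

/-- An automorphism of the system gives an isomorphism of it onto itself. -/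
theorem iso_of_morphism (α : ↥S ≃* ↥S) (hα : F.IsMorphism F (S.subtype.comp α.toMonoidHom))
    (hα' : F.IsMorphism F (S.subtype.comp α.symm.toMonoidHom)) :
    Iso F F (iotaFun (S.subtype.comp α.toMonoidHom)) (iotaFun (S.subtype.comp α.symm.toMonoidHom)) := by
  set θ := S.subtype.comp α.toMonoidHom with hθ
  set θ' := S.subtype.comp α.symm.toMonoidHom with hθ'
  have hb : Bij S S (iotaFun θ) (iotaFun θ') := by
    refine ⟨fun x hx => ?_, fun x hx => ?_, fun x hx => ?_, fun x hx => ?_, fun x hx y hy => iotaFun_mul θ hx hy⟩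
    · rw [iotaFun_apply θ hx]; exact (α ⟨x, hx⟩).2
    · rw [iotaFun_apply θ' hx]; exact (α.symm ⟨x, hx⟩).2
    · rw [iotaFun_apply θ hx, iotaFun_apply θ' (show θ ⟨x, hx⟩ ∈ S from (α ⟨x, hx⟩).2)]
      show ((α.symm (α ⟨x, hx⟩) : ↥S) : Ω) = x
      rw [α.symm_apply_apply]
    · rw [iotaFun_apply θ' hx, iotaFun_apply θ (show θ' ⟨x, hx⟩ ∈ S from (α.symm ⟨x, hx⟩).2)]
      show ((α (α.symm ⟨x, hx⟩) : ↥S) : Ω) = x
      rw [α.apply_symm_apply]
  have key : ∀ (η : ↥S →* Ω) (a b : Ω → Ω), Bij S S a b → a = iotaFun η → F.IsMorphism F η →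
      ∀ P f, Mor F P f → Mor F (im a P) (fun y => a (f (b y))) := by
    rintro η a b hab rfl ⟨-, hind⟩ P f ⟨φ, hφ, he⟩
    obtain ⟨φ', hφ', hi⟩ := hind P φ hφ
    have hf : Mor F P f := ⟨φ, hφ, he⟩
    have hi' := (inducedAlong_iff hf.le he fun x hx => hf.mem hx).1 hi
    have heq : imageAlong η P = im (iotaFun η) P := by
      ext y
      rw [mem_imageAlong hf.le, hab.mem_im hf.le]
    refine ((mor_extFun hφ').congr fun y hy => ?_).source_congr heq
    obtain ⟨x, hx, rfl⟩ := (mem_imageAlong hf.le).1 hy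
    rw [(hi' x hx).2]
    show _ = iotaFun η (f (b (iotaFun η x)))
    rw [hab.left x (hf.le hx)]
  exact ⟨hb, key θ _ _ hb rfl hα, key θ' _ _ hb.symm rfl hα'⟩

/-- Images of components under automorphisms are components. -/
theorem component_iso [Finite S] [Fact p.Prime] (hS : IsPGroup p S) {a b : Ω → Ω} (h : Iso F F a b)
    {U : Subgroup Ω} {C : FusionSystem U} (hC : C.IsComponentIn F p) (hU : C.IsSubsystemOf F)
    {U' : Subgroup Ω} {C' : FusionSystem U'} (hCC : Iso C C' a b) : C'.IsComponentIn F p :=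
  haveI := finite_of_le (le_of_isSubsystemOf hU)
  ⟨Iso.subnormal hC.1 ‹_› hS F C' h hCC,
    hCC.quasisimple (isPGroup_of_le hS (le_of_isSubsystemOf hU)) hC.2⟩

theorem subsystem_of_subnormal {U : Subgroup Ω} {C : FusionSystem U} (h : C.IsSubnormalIn F p) :
    C.IsSubsystemOf F := by
  induction h with
  | refl => exact fun _ => le_rfl
  | step _ h2 ih => exact fun P φ hφ => h2.1.2.2.1 P (ih P hφ)

theorem layer_le [Finite S] [Fact p.Prime] (hS : IsPGroup p S) {a b : Ω → Ω} (h : Iso F F a b)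
    {E : FusionSystem T} (hE : E.IsLayerOf F p) {T' : Subgroup Ω} {E' : FusionSystem T'} (hEE : Iso E E' a b) :
    E.IsSubsystemOf E' := by
  refine hE.2.2 T' E' (h.normal hEE hS hE.1) fun U C hC => ?_
  have hCF := subsystem_of_subnormal hC.1
  obtain ⟨C₀, hC₀⟩ := h.symm.exists_push hCF
  have h1 := component_iso hS h.symm hC hCF hC₀
  exact hEE.isSubsystemOf hC₀.symm (hE.2.1 _ C₀ h1)

theorem layer_char [Finite S] [Fact p.Prime] (hS : IsPGroup p S) {a b : Ω → Ω} (h : Iso F F a b)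
    {E : FusionSystem T} (hE : E.IsLayerOf F p) :
    im a T = T ∧ ∀ P f, Mor E P f → Mor E (im a P) (fun y => a (f (b y))) := by
  obtain ⟨E', hE'⟩ := h.exists_push hE.1.1.2.2.1
  obtain ⟨E'', hE''⟩ := h.symm.exists_push hE.1.1.2.2.1
  have hTS := le_of_isSubsystemOf hE.1.1.2.2.1
  have h1 : E.IsSubsystemOf E' := layer_le hS h hE hE'
  have h2 : E.IsSubsystemOf E'' := layer_le hS h.symm hE hE''
  have hfin := finite_of_le hTS
  have hle : T ≤ im a T := le_of_isSubsystemOf h1
  have heq : im a T = T := by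
    haveI := finite_of_le (h.im_le hTS)
    exact (eq_of_le_of_card_le hle (h.card_im hTS).le).symm
  refine ⟨heq, fun P f hf => ?_⟩
  have h3 := hE''.symm.map _ _ (hf.of_subsystem h2)
  exact h3

theorem iso_of_aut {α : MulAut ↥T} (hT : T ≤ S) {D : FusionSystem T}
    (h : ∀ P f, Mor D P f → ∀ β ∈ ({α, α⁻¹} : Set (MulAut ↥T)), ∃ χ, Mor D (img P (autFun β)) χ ∧ ∀ x ∈ P, χ (autFun β x) = autFun β (f x)) :
    Iso D D (autFun α) (autFun α⁻¹) := by
  have hinv : ∀ (γ : MulAut ↥T), ∀ y ∈ T, autFun γ⁻¹ (autFun γ y) = y := fun γ y hy => by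
    rw [← autFun_mul γ⁻¹ γ hy, inv_mul_cancel, autFun_apply _ hy]; rfl
  have hb : Bij T T (autFun α) (autFun α⁻¹) :=
    ⟨fun x hx => autFun_mem α hx, fun x hx => autFun_mem α⁻¹ hx, hinv α, fun y hy => by
      simpa using hinv α⁻¹ y hy, fun x hx y hy => by
      rw [autFun_apply α hx, autFun_apply α hy, autFun_apply α (T.mul_mem hx hy), ← Subgroup.coe_mul, ← map_mul]
      rfl⟩
  refine ⟨hb, fun P f hf => ?_, fun P f hf => ?_⟩
  · obtain ⟨χ, hχ, he⟩ := h P f hf α (Or.inl rfl)
    refine hχ.congr fun y hy => ?_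
    obtain ⟨x, hx, rfl⟩ := (hb.mem_im hf.le).1 hy
    rw [hb.left x (hf.le hx), he x hx]
  · obtain ⟨χ, hχ, he⟩ := h P f hf α⁻¹ (Or.inr rfl)
    refine hχ.congr fun y hy => ?_
    obtain ⟨x, hx, rfl⟩ := (hb.symm.mem_im hf.le).1 hy
    rw [hb.symm.left x (hf.le hx), he x hx]

theorem iso_of_fusion {α : MulAut ↥S} (hα : α ∈ F.autGroup S) : Iso F F (autFun α) (autFun α⁻¹) := by
  refine iso_of_aut le_rfl fun P f hf β hβ => ?_
  have hβm : β ∈ F.autGroup S := by
    rcases hβ with rfl | rfl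
    exacts [hα, inv_mem hα]
  have hm := (mem_autGroup_iff le_rfl).1 hβm
  obtain ⟨k, hk, hk1, hk2, -⟩ := (hm.restrict hf.le).exists_inv
  refine ⟨fun y => autFun β (f (k y)), (hm.comp (hf.comp hk fun y hy => (hk2 y hy).2) fun y hy => hf.mem (hk2 y hy).2), fun x hx => ?_⟩
  show autFun β (f (k (autFun β x))) = _
  rw [hk1 x hx]

/-- The transported systems of subnormal subsystems along maps of the ambient system. -/
theorem exists_image {U S' : Subgroup Ω} {C : FusionSystem U} {F' : FusionSystem S'} (h : C.IsSubnormalIn F' p) :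
    Fact p.Prime → Finite S' → IsPGroup p S' → ∀ g, Mor F' U g →
      ∃ (g' : Ω → Ω) (C' : FusionSystem (im g U)), Iso C C' g g' ∧ C'.IsSubnormalIn F' p := by
  induction h with
  | refl F p =>
    intro hp hfin hS g hg
    haveI := hp
    obtain ⟨α, hα, hαe⟩ := hg.exists_aut (hg.img_eq_of_card_le le_rfl (fun x hx => hg.mem hx) le_rfl)
    have hiso := iso_of_fusion hα
    obtain ⟨k, -, hk1, hk2, -⟩ := hg.exists_inv
    have hgS : img _ g = _ := hg.img_eq_of_card_le le_rfl (fun x hx => hg.mem hx) le_rfl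
    have himg : im g _ = _ := hgS
    have hb : Bij _ _ g (autFun α⁻¹) := ⟨fun x hx => hg.mem hx, hiso.mem', fun x hx => by
      rw [← hαe x hx]; exact hiso.left x hx, fun y hy => by
      rw [← hαe _ (hiso.mem' y hy)]; exact hiso.right y hy, fun x hx y hy => hg.map_mul hx hy⟩
    have key : Iso F F g (autFun α⁻¹) := by
      refine ⟨hb, fun P f hf => ?_, fun P f hf => ?_⟩
      · have h1 := hiso.map P f hf
        have h2 : im (autFun α) P = im g P := img_congr fun x hx => hαe x (hf.le hx)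
        refine (h1.source_congr h2).congr fun y hy => hαe _ (hf.mem (hb.back_mem hf.le hy))
      · refine (hiso.map' P f hf).congr fun x hx => ?_
        rw [hαe x (hiso.symm.im_le hf.le hx)]
    rw [himg]
    exact ⟨_, F, key, .refl _ _⟩
  | @step W S₁ C D F p hCD hDF ih =>
    intro hp hfin hS g hg
    haveI := hp
    have hinv := hDF.1.2.2
    have hWS := hinv.2.1.1
    haveI := finite_of_le hWS
    have hUW := le_of_isSubsystemOf (subsystem_of_subnormal hCD)
    obtain ⟨φ, hφ, hφe⟩ := hg.exists_hom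
    obtain ⟨α, hα, φ₀, hφ₀, he⟩ := hinv.2.2.2 _ hUW φ hφ
    obtain ⟨g', C₁, hC₁, hsub⟩ := ih hp (finite_of_le hWS) (isPGroup_of_le hS hWS) _ (mor_extFun hφ₀)
    have hα' := (mem_autGroup_iff hWS).1 hα
    have hα'' := (mem_autGroup_iff hWS).1 (inv_mem hα)
    have hiso : Iso D D (autFun α) (autFun α⁻¹) := iso_of_aut hWS fun P f hf β hβ => by
      have hβm : Mor F W (autFun β) := by
        rcases hβ with rfl | rfl
        exacts [hα', hα'']
      exact Mor.conj_of_invariant hinv hf.le le_rfl hf (fun x hx => hf.mem hx) hβm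
    obtain ⟨C₂, hC₂⟩ := hiso.exists_push (subsystem_of_subnormal hsub)
    have hsub2 : C₂.IsSubnormalIn D p :=
      Iso.subnormal hsub (finite_of_le hWS) (isPGroup_of_le hS hWS) D C₂ hiso hC₂
    have hge : ∀ x ∈ _, g x = autFun α (extFun φ₀ x) := fun x hx => by
      rw [← hφe ⟨x, hx⟩, he ⟨x, hx⟩ ((D.le_of_mem hφ₀).2 _), extFun_apply φ₀ hx, autFun_apply α ((D.le_of_mem hφ₀).2 _)]
    have hcomp := hC₁.trans hC₂
    have himg : im g _ = im (autFun α) (im (extFun φ₀) _) := (img_congr hge).trans hcomp.im_top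
    have key : Iso C C₂ g (fun z => g' (autFun α⁻¹ z)) := by
      refine ⟨⟨fun x hx => hge x hx ▸ hcomp.mem x hx, hcomp.mem', fun x hx => by rw [hge x hx]; exact hcomp.left x hx,
        fun y hy => by rw [hge _ (hcomp.mem' y hy)]; exact hcomp.right y hy,
        fun x hx y hy => hg.map_mul hx hy⟩, fun P f hf => ?_, fun P f hf => ?_⟩
      · have h1 := hcomp.map P f hf
        have h2 : im (fun x => autFun α (extFun φ₀ x)) P = im g P := (img_congr fun x hx => hge x (hf.le hx)).symm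
        refine (h1.source_congr h2).congr fun y hy => (hge _ (hf.mem (hcomp.back_mem hf.le (h2 ▸ hy)))).symm
      · refine (hcomp.map' P f hf).congr fun x hx => ?_
        rw [hge x (hcomp.symm.im_le hf.le hx)]
    rw [himg]
    exact ⟨_, C₂, key, .step hsub2 hDF⟩

theorem component_image [Finite S] [Fact p.Prime] (hS : IsPGroup p S) {C : FusionSystem T}
    (hC : C.IsComponentIn F p) (γ : T →* Ω) (hγ : γ ∈ F.Hom T) (E : FusionSystem γ.range)
    (hE : C.IsFactorSystem ⊥ γ E) : E.IsComponentIn F p := by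
  obtain ⟨g', C', hC', hsub⟩ := exists_image hC.1 ‹_› ‹_› hS _ (mor_extFun hγ)
  have hTS := le_of_isSubsystemOf (subsystem_of_subnormal hC.1)
  haveI := finite_of_le hTS
  have hq := hC'.quasisimple (isPGroup_of_le hS hTS) hC.2
  have hr : im (extFun γ) T = γ.range := (range_eq_img hγ).symm
  have hio : ∀ x ∈ T, iotaFun γ x = extFun γ x := fun x hx => by rw [iotaFun_apply γ hx, extFun_apply γ hx]
  have hpre : ∀ P, P ≤ γ.range → preimageAlong γ P = im g' P := fun P hP => by
    ext x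
    rw [mem_preimageAlong, hC'.symm.mem_im (hr.symm ▸ hP)]
    constructor
    · rintro ⟨hxT, hxP⟩
      exact ⟨_, hxP, by rw [hio x hxT, hC'.left x hxT]⟩
    · rintro ⟨y, hy, rfl⟩
      have hyT := hC'.mem' y (hr.symm ▸ hP hy)
      exact ⟨hyT, by rwa [hio _ hyT, hC'.right y (hr.symm ▸ hP hy)]⟩
  have hsame : ∀ P, C'.Hom P = E.Hom P := fun P => hom_eq_iff.2 fun f => by
    rw [mor_factor_iff hE]
    constructor
    · intro hf
      have hP : P ≤ γ.range := hr ▸ hf.le
      refine ⟨hP, _, (hC'.map' P f hf).source_congr (hpre P hP).symm, fun x hx => ?_⟩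
      obtain ⟨hxT, hxP⟩ := mem_preimageAlong.1 hx
      rw [hio x hxT, hio _ (hC'.mem' _ (hf.mem (hio x hxT ▸ hxP))), hC'.right _ (hf.mem (hio x hxT ▸ hxP))]
    · rintro ⟨hP, f₀, hf₀, he⟩
      have h1 := hC'.map _ _ hf₀
      rw [hpre P hP, hC'.symm.im_im (hr.symm ▸ hP)] at h1
      refine h1.congr fun y hy => ?_
      show extFun γ (f₀ (g' y)) = f y
      have hy' : g' y ∈ preimageAlong γ P := hpre P hP ▸ mem_im_of_mem hy
      have hyT := (mem_preimageAlong.1 hy').1
      rw [← hio _ (hf₀.mem hy'), ← he _ hy', hio _ hyT, hC'.right y (hr.symm ▸ hP hy)]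
  have hfin : ∀ {U U' : Subgroup Ω} (D : FusionSystem U) (D' : FusionSystem U'), U = U' → (∀ P, D.Hom P = D'.Hom P) →
      D.IsComponentIn F p → D'.IsComponentIn F p := by
    intro U U' D D' hUU hDD hD
    subst hUU
    rwa [← system_ext hDD]
  exact hfin C' E hr hsame ⟨hsub, hq⟩

end Cfsg.Lib.Fusion.Transport

namespace Cfsg.Lib.Fusion.Transport

open Cfsg Cfsg.FusionSystem Cfsg.Lib.Fusion

universe u

variable {Ω : Type u} [Group Ω] {S T : Subgroup Ω} {F : FusionSystem S} {p : ℕ}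

theorem layer_char' [Finite S] [Fact p.Prime] (hS : IsPGroup p S) (α : ↥S ≃* ↥S)
    (hα : F.IsMorphism F (S.subtype.comp α.toMonoidHom)) (hα' : F.IsMorphism F (S.subtype.comp α.symm.toMonoidHom))
    {E : FusionSystem T} (hE : E.IsLayerOf F p) :
    imageAlong (S.subtype.comp α.toMonoidHom) T = T ∧
      ∀ (P : Subgroup Ω) (φ : ↥P →* Ω), φ ∈ E.Hom P →
        ∀ φ' : ↥(imageAlong (S.subtype.comp α.toMonoidHom) P) →* Ω,
          InducedAlong (S.subtype.comp α.toMonoidHom) φ φ' →
            φ' ∈ E.Hom (imageAlong (S.subtype.comp α.toMonoidHom) P) := by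
  have h := iso_of_morphism α hα hα'
  obtain ⟨h1, h2⟩ := layer_char hS h hE
  have hTS := le_of_isSubsystemOf hE.1.1.2.2.1
  have heq : ∀ P, P ≤ S → imageAlong (S.subtype.comp α.toMonoidHom) P = im (iotaFun (S.subtype.comp α.toMonoidHom)) P :=
    fun P hP => by
      ext y
      rw [mem_imageAlong hP, h.mem_im hP]
  refine ⟨(heq T hTS).trans h1, fun P φ hφ φ' hind => ?_⟩
  have hf := mor_extFun hφ
  have hP : P ≤ S := hf.le.trans hTS
  have h3 := (h2 P _ hf).source_congr (heq P hP).symm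
  have hi := (inducedAlong_iff hP (fun x => (extFun_coe φ x).symm) fun x hx => hTS (hf.mem hx)).1 hind
  refine h3.mem_hom fun y => ?_
  obtain ⟨x, hx, he⟩ := (mem_imageAlong hP).1 y.2
  rw [← extFun_coe φ' y, ← he, (hi x hx).2, h.left x (hP hx)]

end Cfsg.Lib.Fusion.Transport
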