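import Mathlib
import Cfsg.Prelude.Def_FusionSystem
import Cfsg.Prelude.Def_Transfer
import Cfsg.Agent.Lib.Fusion.Model
import Cfsg.Agent.Lib.Fusion.ExtSystem
import Cfsg.Agent.Lib.Fusion.LocalSystem
import Cfsg.Agent.Lib.Fusion.LocalModel
import Cfsg.Agent.Lib.Fusion.Realized
import Cfsg.Agent.Lib.Fusion.RealizedSubsystem
import Cfsg.Agent.Lib.Fusion.InnerCriteria
import Cfsg.Agent.Lib.Fusion.Hyperfocal
import Cfsg.Agent.Lib.Fusion.ChainCriterion

/-!
Extremely sparse fusion systems.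
-/

set_option autoImplicit false
set_option linter.style.haveILetI false

open scoped Classical

namespace Cfsg.Lib.Fusion.Sparse

open Cfsg Cfsg.FusionSystem Cfsg.Lib.Fusion

universe u

variable {p : ℕ} [Fact p.Prime]

/-- A normalized `p`-subgroup is a Sylow subgroup of its extension by an element of other prime order. -/
theorem exists_sylow_sup {L : Type*} [Group L] [Finite L] {A : Subgroup L} (hA : IsPGroup p A) {g : L}
    (hn : g ∈ Subgroup.normalizer (A : Set L)) {q : ℕ} (hq : q.Prime) (hqp : q ≠ p) (hg : orderOf g = q) :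
    ∃ T : Sylow p ↥(A ⊔ Subgroup.zpowers g),
      (T : Subgroup ↥(A ⊔ Subgroup.zpowers g)) = A.subgroupOf (A ⊔ Subgroup.zpowers g) := by
  set N := A ⊔ Subgroup.zpowers g
  have hle : N ≤ Subgroup.normalizer (A : Set L) := sup_le Subgroup.le_normalizer (Subgroup.zpowers_le.2 hn)
  haveI : (A.subgroupOf N).Normal := Subgroup.normal_subgroupOf_of_le_normalizer hle
  have hp' : IsPGroup p (A.subgroupOf N) := hA.of_equiv (Subgroup.subgroupOfEquivOfLe le_sup_left).symm
  refine ⟨hp'.toSylow ?_, IsPGroup.toSylow_coe _ _⟩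
  have hsup : A.subgroupOf N ⊔ (Subgroup.zpowers g).subgroupOf N = ⊤ := by
    rw [← Subgroup.subgroupOf_sup le_sup_left le_sup_right, Subgroup.subgroupOf_self]
  have h1 : (A.subgroupOf N).index ∣ q := by
    rw [← Subgroup.relIndex_top_right, ← hsup, Subgroup.relIndex_sup_left]
    refine (Subgroup.relIndex_dvd_card _ _).trans (dvd_of_eq ?_)
    rw [Nat.card_congr (Subgroup.subgroupOfEquivOfLe (le_sup_right : Subgroup.zpowers g ≤ N)).toEquiv,
      Nat.card_zpowers, hg]
  intro hd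
  exact hqp ((Nat.prime_dvd_prime_iff_eq Fact.out hq).1 (hd.trans h1)).symm

variable {Ω : Type u} [Group Ω] {S T Q : Subgroup Ω} [Finite S] {F : Cfsg.FusionSystem S}

/-- The sparseness hypothesis. -/
def SparseHyp (p : ℕ) (F : Cfsg.FusionSystem S) : Prop :=
  ∀ (T : Subgroup Ω) (E : Cfsg.FusionSystem T), E.IsSaturated p → E.IsSubsystemOf F →
    (T = S ∧ ∀ P : Subgroup Ω, E.Hom P = F.Hom P) ∨
      (∀ P : Subgroup Ω, E.Hom P = (Cfsg.innerFusionSystem T).Hom P)

variable {L : Type*} [Group L] [Finite L] {ι : S →* L}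

/-- An element of other prime order normalizing the image of `T` induces an inner map or carries the system. -/
theorem dichotomy (hS : IsPGroup p S) (hx : SparseHyp p F) (hι : F.IsRealizedBy ι) (hT : T ≤ S) {g : L}
    (hn : g ∈ Subgroup.normalizer (iotaImg ι T : Set L)) {q : ℕ} (hq : q.Prime) (hqp : q ≠ p)
    (hg : orderOf g = q) :
    (T = S ∧ ∀ P f, Mor F P f → ∃ n ∈ iotaImg ι T ⊔ Subgroup.zpowers g,
        ∀ x ∈ P, iotaFun ι (f x) = n * iotaFun ι x * n⁻¹) ∨
      ∃ c ∈ T, ∀ x ∈ T, g * iotaFun ι x * g⁻¹ = iotaFun ι c * iotaFun ι x * (iotaFun ι c)⁻¹ := by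
  haveI := finite_of_le hT
  set N := iotaImg ι T ⊔ Subgroup.zpowers g
  have hTN : ∀ x ∈ T, iotaFun ι x ∈ N := fun x hx => Subgroup.mem_sup_left (iotaFun_mem_iotaImg hT hx)
  let E := realizedSub F ι N T hT hTN hι
  let ι' : T →* N := (ι.comp (Subgroup.inclusion hT)).codRestrict N fun x =>
    (iotaFun_apply ι (hT x.2)) ▸ hTN x x.2
  have hval : ∀ x : T, ((ι' x : N) : L) = iotaFun ι x := fun x => (iotaFun_apply ι (hT x.2)).symm
  have hreal : E.IsRealizedBy ι' := by
    refine ⟨fun a b h => Subgroup.inclusion_injective hT (hι.1 (congrArg Subtype.val h)),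
      fun P hP φ hφ => ⟨?_, ?_⟩⟩
    · rintro ⟨-, -, n, hn, he⟩
      refine ⟨⟨n, hn⟩, fun x => Subtype.ext ?_⟩
      simp only [Subgroup.coe_mul, Subgroup.coe_inv, hval]
      exact he x
    · rintro ⟨⟨n, hn⟩, he⟩
      refine ⟨hP, hφ, n, hn, fun x => ?_⟩
      have h := congrArg Subtype.val (he x)
      simp only [Subgroup.coe_mul, Subgroup.coe_inv, hval] at h
      exact h
  have hpT : IsPGroup p T := isPGroup_of_le hS hT
  have hAp : IsPGroup p (iotaImg ι T) := (hpT.of_equiv (Subgroup.subgroupOfEquivOfLe hT).symm).map ι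
  obtain ⟨P₀, hP₀⟩ := exists_sylow_sup hAp hn hq hqp hg
  have hran : ι'.range = (iotaImg ι T).subgroupOf N := by
    ext y
    constructor
    · rintro ⟨x, rfl⟩
      rw [Subgroup.mem_subgroupOf, hval]
      exact iotaFun_mem_iotaImg hT x.2
    · intro hy
      obtain ⟨x, hx, he⟩ := (mem_iotaImg hT).1 (Subgroup.mem_subgroupOf.1 hy)
      exact ⟨⟨x, hx⟩, Subtype.ext ((hval _).trans he)⟩
  have hsat : E.IsSaturated p := saturated_of_realized hpT hreal P₀ (hP₀.trans hran.symm)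
  have hsub : E.IsSubsystemOf F := by
    rintro P φ ⟨hP, hφ, n, -, he⟩
    exact (hι.2 P (hP.trans hT) φ fun x => hT (hφ x)).2 ⟨n, fun x => by
      rw [← iotaFun_apply ι, ← iotaFun_apply ι]; exact he x⟩
  rcases hx T E hsat hsub with ⟨hTS, hhom⟩ | hin
  · refine Or.inl ⟨hTS, fun P f hf => ?_⟩
    exact (mor_realizedSub_iff.1 ((hom_eq_iff.1 (hhom P) f).2 hf)).2.2
  · right
    obtain ⟨f, hf, hfe⟩ := exists_mor_of_conj_mem hι hT g fun x hx =>
      iotaImg_le_range T ((Subgroup.mem_normalizer_iff.1 hn _).1 (iotaFun_mem_iotaImg hT hx))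
    have hfT : ∀ x ∈ T, f x ∈ T := fun x hx => mem_of_iotaFun_mem hι hT (hf.mem hx) (by
      rw [hfe x hx]
      exact (Subgroup.mem_normalizer_iff.1 hn _).1 (iotaFun_mem_iotaImg hT hx))
    have hE : Mor E T f := mor_realizedSub_iff.2
      ⟨le_rfl, hfT, g, Subgroup.mem_sup_right (Subgroup.mem_zpowers g), hfe⟩
    obtain ⟨c, hc, hce⟩ := innerSys_iff.2 hin T f hE
    refine ⟨c, hc, fun x hx => ?_⟩
    rw [← hfe x hx, hce x hx, iotaFun_conj ι (hT hc) (hT hx)]

/-- In a model an element of other prime order centralizes no normal centric subgroup. -/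
theorem not_centralizes (hS : IsPGroup p S) (hm : F.IsModel p L ι) (hc : F.IsCentric Q)
    (hQn : (iotaImg ι Q).Normal) {q : ℕ} (hq : q.Prime) (hqp : q ≠ p) {g : L} (hg : orderOf g = q)
    (hfix : ∀ x ∈ Q, g * iotaFun ι x * g⁻¹ = iotaFun ι x) : False := by
  obtain ⟨-, hι, ⟨T, hT⟩, hCR⟩ := hm
  set R := pCore p L
  have hRS : R ≤ ι.range := hT ▸ Cfsg.Lib.Solv.pCore_le_sylow p T
  have hRp : IsPGroup p R := Cfsg.Lib.Solv.isPGroup_pCore p
  haveI : R.Normal := inferInstanceAs (pCore p L).Normal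
  have hgR : ∀ r ∈ R, g * r * g⁻¹ = r := by
    intro r hr
    obtain ⟨u, hu⟩ : ∃ u, u = r⁻¹ * (g * r * g⁻¹) := ⟨_, rfl⟩
    have huR : u ∈ R := hu ▸ R.mul_mem (R.inv_mem hr) (Subgroup.Normal.conj_mem inferInstance r hr g)
    have hucomm : ∀ x ∈ Q, u * iotaFun ι x * u⁻¹ = iotaFun ι x := by
      intro x hx
      have h1 : r * iotaFun ι x * r⁻¹ ∈ iotaImg ι Q := hQn.conj_mem _ (iotaFun_mem_iotaImg hc.1 hx) r
      obtain ⟨y, hy, hye⟩ := (mem_iotaImg hc.1).1 h1
      have h2 : g⁻¹ * iotaFun ι x * g = iotaFun ι x := by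
        conv_lhs => rw [← hfix x hx]
        group
      calc u * iotaFun ι x * u⁻¹ = r⁻¹ * (g * (r * (g⁻¹ * iotaFun ι x * g) * r⁻¹) * g⁻¹) * r := by
            rw [hu]; group
        _ = r⁻¹ * (g * iotaFun ι y * g⁻¹) * r := by rw [h2, hye]
        _ = iotaFun ι x := by rw [hfix y hy, hye]; group
    obtain ⟨s, hs, hse⟩ := exists_iotaFun_eq (hRS huR)
    have hsQ : s ∈ Q := hc.2 Q (isConj_refl hc.1) (mem_centralizerIn_iff.2 ⟨hs, fun x hx => by
      refine iotaFun_injOn hι (S.mul_mem (S.mul_mem hs (hc.1 hx)) (S.inv_mem hs)) (hc.1 hx) ?_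
      rw [iotaFun_conj ι hs (hc.1 hx), hse]
      exact hucomm x hx⟩)
    have hgu : g * u * g⁻¹ = u := by rw [← hse]; exact hfix s hsQ
    have hpow : ∀ n : ℕ, g ^ n * r * (g ^ n)⁻¹ = r * u ^ n := by
      intro n
      induction n with
      | zero => simp
      | succ n ih =>
        calc g ^ (n + 1) * r * (g ^ (n + 1))⁻¹ = g * (g ^ n * r * (g ^ n)⁻¹) * g⁻¹ := by
              rw [pow_succ']; group
          _ = g * r * g⁻¹ * (g * u ^ n * g⁻¹) := by rw [ih]; group
          _ = r * u * u ^ n := by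
              rw [← conj_pow, hgu, hu]; group
          _ = r * u ^ (n + 1) := by rw [pow_succ', mul_assoc]
    have h1 : u ^ q = 1 := by
      have h := hpow q
      rw [← hg, pow_orderOf_eq_one, hg] at h
      simpa using h.symm
    obtain ⟨a, ha⟩ := hRp ⟨u, huR⟩
    have h2 : orderOf u = 1 := Nat.eq_one_of_dvd_coprimes
      (Nat.Coprime.pow_right a ((Nat.coprime_primes hq Fact.out).2 hqp))
      (orderOf_dvd_of_pow_eq_one h1) (orderOf_dvd_of_pow_eq_one (congrArg Subtype.val ha))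
    rw [orderOf_eq_one_iff] at h2
    rw [h2] at hu
    rw [eq_inv_mul_iff_mul_eq, mul_one] at hu
    exact hu.symm
  have hgmem : g ∈ R := hCR (Subgroup.mem_centralizer_iff.2 fun r hr => by
    rw [← mul_inv_eq_iff_eq_mul.1 (hgR r hr)])
  obtain ⟨a, ha⟩ := hRp ⟨g, hgmem⟩
  have h := orderOf_dvd_of_pow_eq_one (show g ^ p ^ a = 1 from congrArg Subtype.val ha)
  rw [hg] at h
  exact hqp ((Nat.prime_dvd_prime_iff_eq hq Fact.out).1 (hq.dvd_of_dvd_pow h))

omit [Finite L] in
theorem exists_nonpAut (hS : IsPGroup p S) (hF : F.IsSaturated p) (hni : ¬ InnerSys F) :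
    ∃ R, F.IsFullyNormalized R ∧ F.IsCentric R ∧ ∃ α ∈ F.autGroup R,
      ¬ ∃ a : ℕ, ∀ x ∈ R, (autFun α)^[p ^ a] x = x := by
  by_contra h
  push Not at h
  exact hni (innerSys_of_centricRadical hS hF fun R hn hc _ α hα => h R hn hc α hα)

omit [Finite L] in
/-- The main theorem. -/
theorem main (hS : IsPGroup p S) (hF : F.IsSaturated p)
    (hni : ¬ ∀ P : Subgroup Ω, F.Hom P = (Cfsg.innerFusionSystem S).Hom P) (hx : SparseHyp p F) :
    F.IsNormal S ∧ F.focalSubgroup = S ∧ F.hyperfocalSubgroup p = S ∧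
      ∃ (q : ℕ) (β : MulAut ↥S), q.Prime ∧ q ≠ p ∧ β ∈ F.autGroup S ∧ orderOf β = q ∧
        (F.autGroup S : Subgroup (MulAut ↥S)) = Cfsg.Inn ↥S ⊔ Subgroup.zpowers β := by
  obtain ⟨Q, hQn, hQc, α, hα, hαp⟩ := exists_nonpAut hS hF fun h => hni (innerSys_iff.1 h)
  -- `Q` is normal
  have hQnorm : F.IsNormal Q := by
    have hE := isNormalizerSystem_normalizerExt (F := F) hQn.1
    set E := normalizerExt F Q (normalizerIn S Q) hQn.1 le_rfl
    have hsat : E.IsSaturated p := saturated_normalizerSystem hS hF hQn hE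
    have hsub : E.IsSubsystemOf F := fun P φ hφ => (hE P ▸ hφ : φ ∈ F.normalizerHom Q P).1
    rcases hx _ E hsat hsub with ⟨hT, hhom⟩ | hin
    · refine isNormal_iff.2 ⟨hQn.1, fun P f hf => ?_⟩
      exact (mor_normalizerExt_iff.1 ((hom_eq_iff.1 (hhom P) f).2 hf)).2.2
    · exfalso
      apply hαp
      have hm := (mem_autGroup_iff hQn.1).1 hα
      have hQT : Q ≤ normalizerIn S Q := le_normalizerIn hQn.1
      have hEm : Mor E Q (autFun α) := mor_normalizerExt_iff.2
        ⟨hQT, fun x hx => hQT (autFun_mem α hx), autFun α, (sup_idem Q).symm ▸ hm, fun x _ => rfl,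
          img_autFun α⟩
      exact autP_of_innerSys (isPGroup_of_le hS normalizerIn_le) (innerSys_iff.2 hin) Q _ hEm
        (img_autFun α)
  obtain ⟨L, _, ι, hm, hQL⟩ := exists_model hS hF hQnorm hQc
  haveI := hm.1
  have hι := hm.2.1
  obtain ⟨T₀, hT₀⟩ := hm.2.2.1
  have hQL' : (iotaImg ι Q).Normal := hQL
  -- an element of other prime order
  obtain ⟨q, hq, hqp, g, hg⟩ : ∃ q : ℕ, q.Prime ∧ q ≠ p ∧ ∃ g : L, orderOf g = q := by
    by_contra hno
    push Not at hno
    have hL : IsPGroup p L := by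
      refine IsPGroup.of_card (n := (Nat.card L).primeFactorsList.length) ?_
      refine Nat.eq_prime_pow_of_unique_prime_dvd (Nat.card_pos (α := L)).ne' fun {d} hd hdd => ?_
      by_contra hne
      haveI := Fact.mk hd
      obtain ⟨g, hg⟩ := exists_prime_orderOf_dvd_card' d hdd
      exact hno d hd hne g hg
    apply hαp
    obtain ⟨g, hg⟩ := exists_conj_of_mor hι ((mem_autGroup_iff hQn.1).1 hα)
    obtain ⟨a, ha⟩ := hL g
    refine ⟨a, fun x hx => ?_⟩
    have hit : ∀ n : ℕ, ∀ x ∈ Q, iotaFun ι ((autFun α)^[n] x) = g ^ n * iotaFun ι x * (g ^ n)⁻¹ ∧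
        (autFun α)^[n] x ∈ Q := by
      intro n
      induction n with
      | zero => intro x hx; exact ⟨by simp, hx⟩
      | succ n ih =>
        intro x hx
        obtain ⟨h1, h2⟩ := ih x hx
        rw [Function.iterate_succ_apply']
        refine ⟨?_, autFun_mem α h2⟩
        rw [hg _ h2, h1, pow_succ']
        group
    obtain ⟨h1, h2⟩ := hit (p ^ a) x hx
    refine iotaFun_injOn hι (hQn.1 h2) (hQn.1 hx) ?_
    rw [h1, ha]
    simp
  have hnQ : g ∈ Subgroup.normalizer (iotaImg ι Q : Set L) := by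
    rw [Subgroup.normalizer_eq_top_iff.2 hQL']
    exact Subgroup.mem_top g
  -- `Q` is `S`
  rcases dichotomy hS hx hι hQn.1 hnQ hq hqp hg with ⟨hQS, hall⟩ | ⟨c, hc, hce⟩
  swap
  · exfalso
    have hcomm : Commute g (iotaFun ι c) := by
      show g * iotaFun ι c = iotaFun ι c * g
      have := hce c hc
      rw [mul_inv_cancel_right] at this
      exact mul_inv_eq_iff_eq_mul.1 this
    obtain ⟨a, ha⟩ := hS ⟨c, hQn.1 hc⟩
    have hcp : iotaFun ι c ^ p ^ a = 1 := by
      rw [iotaFun_apply ι (hQn.1 hc), ← map_pow, ha, map_one]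
    have hfix : ∀ x ∈ Q, ((iotaFun ι c)⁻¹ * g) * iotaFun ι x * ((iotaFun ι c)⁻¹ * g)⁻¹ = iotaFun ι x := by
      intro x hx
      rw [show ((iotaFun ι c)⁻¹ * g) * iotaFun ι x * ((iotaFun ι c)⁻¹ * g)⁻¹ =
        (iotaFun ι c)⁻¹ * (g * iotaFun ι x * g⁻¹) * iotaFun ι c by group, hce x hx]
      group
    set k := (iotaFun ι c)⁻¹ * g
    have hkn : ∀ n : ℕ, ∀ x ∈ Q, k ^ n * iotaFun ι x * (k ^ n)⁻¹ = iotaFun ι x := by
      intro n
      induction n with
      | zero => simp
      | succ n ih =>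
        intro x hx
        rw [show k ^ (n + 1) * iotaFun ι x * (k ^ (n + 1))⁻¹ = k * (k ^ n * iotaFun ι x * (k ^ n)⁻¹) * k⁻¹ by
          rw [pow_succ']; group, ih x hx, hfix x hx]
    have hk : k ^ p ^ a = g ^ p ^ a := by
      rw [(hcomm.symm.inv_left).mul_pow, inv_pow, hcp, inv_one, one_mul]
    have hgo : orderOf (g ^ p ^ a) = q := by
      rw [Nat.Coprime.orderOf_pow, hg]
      rw [hg]
      exact Nat.Coprime.pow_right a ((Nat.coprime_primes hq Fact.out).2 hqp)
    exact not_centralizes hS hm hQc hQL' hq hqp hgo fun x hx => hk ▸ hkn (p ^ a) x hx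
  replace hQS := hQS.symm
  subst hQS
  -- the automorphism `β`
  obtain ⟨f, hf, hfe⟩ := exists_mor_of_conj_mem hι le_rfl g fun x hx =>
    iotaImg_le_range S ((Subgroup.mem_normalizer_iff.1 hnQ _).1 (iotaFun_mem_iotaImg le_rfl hx))
  have hfi : img S f = S := Subgroup.eq_of_le_of_card_ge hf.img_le_top hf.card_img.ge
  obtain ⟨β, hβe⟩ := hf.exists_equiv hfi
  have hβ : β ∈ F.autGroup S := (mem_autGroup_iff le_rfl).2
    (hf.congr fun x hx => by rw [autFun_apply β hx, hβe ⟨x, hx⟩])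
  have hβι : ∀ (n : ℕ) (x : S), iotaFun ι ((β ^ n) x : S) = g ^ n * iotaFun ι x * (g ^ n)⁻¹ := by
    intro n
    induction n with
    | zero => simp
    | succ n ih =>
      intro x
      rw [pow_succ', MulAut.mul_apply, hβe, hfe _ ((β ^ n) x).2, ih, pow_succ']
      group
  have hβq : orderOf β = q := by
    haveI := Fact.mk hq
    refine orderOf_eq_prime (MulEquiv.ext fun x => Subtype.ext ?_) fun h1 => ?_
    · refine iotaFun_injOn hι ((β ^ q) x).2 x.2 ?_
      rw [hβι q x, ← hg, pow_orderOf_eq_one]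
      simp
    · refine not_centralizes hS hm hQc hQL' hq hqp hg fun x hx => ?_
      have := hβι 1 ⟨x, hx⟩
      rwa [h1, pow_one, MulAut.one_apply, pow_one, eq_comm] at this
  have haut : F.autGroup S = Cfsg.Inn ↥S ⊔ Subgroup.zpowers β := by
    refine le_antisymm ?_ (sup_le ?_ (Subgroup.zpowers_le.2 hβ))
    · intro γ hγ
      obtain ⟨n, hn, hne⟩ := hall S _ ((mem_autGroup_iff le_rfl).1 hγ)
      rw [← SetLike.mem_coe, Subgroup.coe_mul_of_right_le_normalizer_left _ _
        (Subgroup.zpowers_le.2 hnQ)] at hn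
      obtain ⟨s, hs, t, ht, rfl⟩ := hn
      obtain ⟨c, hc, rfl⟩ := (mem_iotaImg le_rfl).1 hs
      obtain ⟨i, rfl⟩ := Submonoid.mem_powers_iff _ _ |>.1 (mem_powers_iff_mem_zpowers.2 ht)
      have : γ = MulAut.conj (⟨c, hc⟩ : S) * β ^ i := by
        refine MulEquiv.ext fun x => Subtype.ext ?_
        show (γ x : Ω) = c * ((β ^ i) x : Ω) * c⁻¹
        refine iotaFun_injOn hι (γ x).2 (S.mul_mem (S.mul_mem hc ((β ^ i) x).2) (S.inv_mem hc)) ?_
        rw [iotaFun_conj ι hc ((β ^ i) x).2, hβι, ← autFun_apply γ x.2, hne x x.2]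
        group
      rw [this]
      exact mul_mem (Subgroup.mem_sup_left ⟨_, rfl⟩) (Subgroup.mem_sup_right (pow_mem (Subgroup.mem_zpowers β) i))
    · rw [inn_eq_autInducedBy]
      exact autInducedBy_le_autGroup le_rfl
  -- the hyperfocal subgroup
  set D := Subgroup.closure (Set.range fun x : S => (x : Ω)⁻¹ * (β x : Ω)) with hD
  have hDS : D ≤ S := (Subgroup.closure_le _).2 (by
    rintro _ ⟨x, rfl⟩
    exact S.mul_mem (S.inv_mem x.2) (β x).2)
  have hβD : ∀ (n : ℕ) (x : S), (x : Ω) ∈ D → ((β ^ n) x : Ω) ∈ D := by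
    intro n
    induction n with
    | zero => simp
    | succ n ih =>
      intro x hx
      rw [pow_succ', MulAut.mul_apply]
      refine (show D.subgroupOf S ≤ (D.subgroupOf S).comap β.toMonoidHom from ?_) (ih x hx)
      refine fun y hy => ?_
      show ((β y : S) : Ω) ∈ D
      have h1 : (y : Ω) * ((y : Ω)⁻¹ * (β y : Ω)) ∈ D :=
        D.mul_mem hy (Subgroup.subset_closure ⟨y, rfl⟩)
      rwa [mul_inv_cancel_left] at h1
  have hnD : g ∈ Subgroup.normalizer (iotaImg ι D : Set L) := by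
    refine Subgroup.mem_normalizer_fintype fun y hy => ?_
    obtain ⟨x, hx, rfl⟩ := (mem_iotaImg hDS).1 hy
    have h := hβι 1 ⟨x, hDS hx⟩
    rw [pow_one, pow_one] at h
    rw [← h]
    exact iotaFun_mem_iotaImg hDS (by simpa using hβD 1 ⟨x, hDS hx⟩ hx)
  have hDeq : D = S := by
    rcases dichotomy hS hx hι hDS hnD hq hqp hg with ⟨h, -⟩ | ⟨c, hc, hce⟩
    · exact h
    exfalso
    have hfixD : ∀ x : S, (x : Ω) ∈ D → β x = x := by
      have h1 : ∀ x : S, (x : Ω) ∈ D → (β x : Ω) = c * x * c⁻¹ := fun x hx => by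
        refine iotaFun_injOn hι (β x).2 (S.mul_mem (S.mul_mem (hDS hc) x.2) (S.inv_mem (hDS hc))) ?_
        rw [iotaFun_conj ι (hDS hc) x.2, ← hce x hx]
        simpa using hβι 1 x
      have h2 : ∀ n : ℕ, ∀ x : S, (x : Ω) ∈ D → ((β ^ n) x : Ω) = c ^ n * x * (c ^ n)⁻¹ := by
        intro n
        induction n with
        | zero => simp
        | succ n ih =>
          intro x hx
          rw [pow_succ', MulAut.mul_apply, h1 _ (hβD n x hx), ih x hx, pow_succ']
          group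
      obtain ⟨a, ha⟩ := hS ⟨c, hDS hc⟩
      have hco : (orderOf β).Coprime (p ^ a) := by
        rw [hβq]; exact Nat.Coprime.pow_right a ((Nat.coprime_primes hq Fact.out).2 hqp)
      obtain ⟨m, hm'⟩ := exists_pow_eq_self_of_coprime hco.symm
      intro x hx
      have h3 : ∀ k : ℕ, ((β ^ p ^ a) ^ k) x = x := by
        intro k
        induction k with
        | zero => simp
        | succ k ih =>
          rw [pow_succ, MulAut.mul_apply, show (β ^ p ^ a) x = x from Subtype.ext (by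
            rw [h2 _ x hx, show c ^ p ^ a = 1 from congrArg Subtype.val ha]; simp), ih]
      rw [← hm']
      exact h3 m
    have hβ1 : β = 1 := MulEquiv.ext fun x => Subtype.ext (by
      have hmem : (x : Ω)⁻¹ * (β x : Ω) ∈ D := Subgroup.subset_closure ⟨x, rfl⟩
      have h := eq_of_fixed_diff hS le_rfl (δ := β) (by rw [hβq]; exact (Nat.coprime_primes hq Fact.out).2 hqp)
        x.2 (by rw [autFun_apply β x.2]; exact hDS hmem) (by
          rw [autFun_apply β x.2, autFun_apply β (hDS hmem), hfixD ⟨_, hDS hmem⟩ hmem])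
      rw [autFun_apply β x.2] at h
      exact h)
    rw [hβ1, orderOf_one] at hβq
    exact hq.ne_one hβq.symm
  have hres : (⟨β, hβ⟩ : F.autGroup S) ∈ pResidual p (F.autGroup S) :=
    Subgroup.subset_closure (show (orderOf (⟨β, hβ⟩ : F.autGroup S)).Coprime p by
      rw [Subgroup.orderOf_mk, hβq]; exact (Nat.coprime_primes hq Fact.out).2 hqp)
  have hhyp : F.hyperfocalSubgroup p = S := by
    refine le_antisymm hyperfocal_le (hDeq.symm.le.trans ((Subgroup.closure_le _).2 ?_))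
    rintro _ ⟨x, rfl⟩
    exact mem_hyperfocal_of_residual le_rfl hres x
  have hfoc : F.focalSubgroup = S := by
    refine le_antisymm (focal_le_iff.2 fun P f hf x hx => S.mul_mem (S.inv_mem (hf.le hx)) (hf.mem hx))
      (hDeq.symm.le.trans ((Subgroup.closure_le _).2 ?_))
    rintro _ ⟨x, rfl⟩
    have h := mem_focal ((mem_autGroup_iff le_rfl).1 hβ) x.2
    rwa [autFun_apply β x.2] at h
  exact ⟨hQnorm, hfoc, hhyp, q, β, hq, hqp, hβ, hβq, haut⟩

end Cfsg.Lib.Fusion.Sparse
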