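import Mathlib
import Cfsg.Prelude.Def_OddOrderLocal
import Cfsg.Agent.Lib.Transfer.MetacyclicPower
import Cfsg.Agent.Lib.Transfer.PGroupNormal
import Cfsg.Agent.Lib.TwoFus.CyclicSylow
import Cfsg.Agent.Lib.Fusion.MetacyclicTorus

/-!
A strongly closed metacyclic subgroup is normal in a saturated fusion system at an odd prime.
-/

set_option autoImplicit false

open scoped Classical

namespace Cfsg.Lib.Fusion.MetacyclicNormal

open Cfsg Cfsg.FusionSystem

variable {Ω : Type*} [Group Ω] {S : Subgroup Ω} {F : FusionSystem S}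

/-- Regularity of powers inside `P`. -/
def PowReg (p : ℕ) (P : Subgroup Ω) : Prop :=
  ∀ x ∈ P, ∀ y ∈ P, ∀ i : ℕ, x ^ p ^ i = y ^ p ^ i ↔ (x⁻¹ * y) ^ p ^ i = 1

variable {p : ℕ} {P : Subgroup Ω} (hreg : PowReg p P)

omit hreg in
/-- An element of a `p`-group normalizing `K ≥ M` and `M`, with `M` of index at most `p` in `K`,
fixes the cosets of `M` in `K`. -/
theorem conj_mem_coset_of_pgroup [hp : Fact p.Prime] {G : Subgroup Ω} (hG : IsPGroup p G)
    {F M : Subgroup Ω} [Finite F] {y : Ω} (hy : y ∈ G) (hyF : ∀ x ∈ F, y * x * y⁻¹ ∈ F)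
    (hyM : ∀ x ∈ F, x ∈ M → y * x * y⁻¹ ∈ M) (hidx : M.relIndex F ≤ p) {x : Ω} (hx : x ∈ F) :
    x⁻¹ * (y * x * y⁻¹) ∈ M := by
  let f : ↥F ⧸ M.subgroupOf F → ↥F ⧸ M.subgroupOf F :=
    Quotient.map' (fun z : ↥F => (⟨y * z * y⁻¹, hyF z z.2⟩ : ↥F)) (fun a b hab => by
      rw [QuotientGroup.leftRel_apply, Subgroup.mem_subgroupOf] at hab ⊢
      have h1 := hyM _ (a⁻¹ * b).2 hab
      simpa [mul_assoc] using h1)
  obtain ⟨n, hn⟩ := (IsPGroup.iff_orderOf.1 hG) ⟨y, hy⟩
  rw [← Subgroup.orderOf_coe] at hn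
  have hit : ∀ (k : ℕ) (z : ↥F), ∃ h : y ^ k * z * (y ^ k)⁻¹ ∈ F,
      f^[k] (z : ↥F ⧸ M.subgroupOf F) = ((⟨_, h⟩ : ↥F) : ↥F ⧸ M.subgroupOf F) := by
    intro k z
    induction k with
    | zero => exact ⟨by simp, by simp⟩
    | succ k ih =>
      obtain ⟨h', ih⟩ := ih
      refine ⟨by simpa [pow_succ', mul_assoc] using hyF _ h', ?_⟩
      rw [Function.iterate_succ_apply', ih]
      exact congrArg _ (Subtype.ext (by simp [pow_succ', mul_assoc]))
  have hinj : Function.Injective f := by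
    have hid : ∀ q, f^[orderOf y] q = q := by
      intro q
      obtain ⟨z, rfl⟩ := QuotientGroup.mk_surjective q
      obtain ⟨h, e⟩ := hit (orderOf y) z
      rw [e]
      exact congrArg _ (Subtype.ext (by simp [pow_orderOf_eq_one]))
    intro q q' e
    have h1 : orderOf y = (orderOf y - 1) + 1 := by
      have : 0 < orderOf y := by rw [hn]; exact pow_pos hp.out.pos n
      omega
    rw [← hid q, ← hid q', h1, Function.iterate_succ_apply, Function.iterate_succ_apply, e]
  set a : ↥F ⧸ M.subgroupOf F := ((⟨x, hx⟩ : ↥F) : ↥F ⧸ M.subgroupOf F)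
  set o : ↥F ⧸ M.subgroupOf F := ((1 : ↥F) : ↥F ⧸ M.subgroupOf F)
  have ho : f o = o := congrArg _ (Subtype.ext (by simp))
  have hper : Function.IsPeriodicPt f (orderOf y) a := by
    show f^[orderOf y] a = a
    obtain ⟨h, e⟩ := hit (orderOf y) ⟨x, hx⟩
    rw [show a = ((⟨x, hx⟩ : ↥F) : ↥F ⧸ M.subgroupOf F) from rfl, e]
    exact congrArg _ (Subtype.ext (by simp [pow_orderOf_eq_one]))
  have hfix : f a = a := by
    rcases eq_or_ne a o with hao | hao
    · rw [hao]; exact ho
    have hdvd := hper.minimalPeriod_dvd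
    rw [hn, Nat.dvd_prime_pow hp.out] at hdvd
    obtain ⟨k, -, hk⟩ := hdvd
    rcases k with _ | k
    · exact Function.minimalPeriod_eq_one_iff_isFixedPt.1 (by simpa using hk)
    exfalso
    have hne : ∀ j, f^[j] a ≠ o := by
      intro j e
      have h2 : f^[j] o = o := Function.iterate_fixed ho j
      exact hao (hinj.iterate j (e.trans h2.symm))
    haveI := Fintype.ofFinite (↥F ⧸ M.subgroupOf F)
    have h1 := Fintype.card_lt_of_injective_not_surjective
      (fun i : Set.Iio (Function.minimalPeriod f a) => f^[(i : ℕ)] a)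
      (fun i j e => Subtype.ext (Function.iterate_injOn_Iio_minimalPeriod i.2 j.2 e))
      (fun hs => by obtain ⟨j, hj⟩ := hs o; exact hne j hj)
    rw [← Nat.card_eq_fintype_card, ← Nat.card_eq_fintype_card] at h1
    have h3 : Nat.card (Set.Iio (Function.minimalPeriod f a)) = Function.minimalPeriod f a := by
      simp
    rw [h3, hk] at h1
    have h4 : p ≤ p ^ (k + 1) := Nat.le_self_pow k.succ_ne_zero p
    rw [Subgroup.relIndex, Subgroup.index] at hidx
    omega
  have h5 := hit 1 ⟨x, hx⟩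
  obtain ⟨h, e⟩ := h5
  rw [Function.iterate_one, show f ((⟨x, hx⟩ : ↥F) : ↥F ⧸ M.subgroupOf F) = a from hfix,
    QuotientGroup.eq, Subgroup.mem_subgroupOf] at e
  simpa using e

/-- The subgroup of elements killed by `p ^ i`. -/
def om (i : ℕ) : Subgroup Ω where
  carrier := {x | x ∈ P ∧ x ^ p ^ i = 1}
  one_mem' := ⟨one_mem _, one_pow _⟩
  mul_mem' := by
    rintro x y ⟨hx, hx'⟩ ⟨hy, hy'⟩
    refine ⟨mul_mem hx hy, ?_⟩
    have := (hreg x⁻¹ (inv_mem hx) y hy i).1 (by rw [inv_pow, hx', hy', inv_one])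
    rwa [inv_inv] at this
  inv_mem' := fun {x} ⟨hx, hx'⟩ => ⟨inv_mem hx, by rw [inv_pow, hx', inv_one]⟩

theorem mem_om {i : ℕ} {x : Ω} : x ∈ om hreg i ↔ x ∈ P ∧ x ^ p ^ i = 1 := Iff.rfl

/-- Given regularity, the `p ^ i`-th powers landing in a subgroup generated by each of its
nontrivial elements form a subgroup. -/
def pre (Z : Subgroup Ω) (hZ : ∀ a ∈ Z, a ≠ 1 → ∀ b ∈ Z, ∃ t : ℕ, b = a ^ t) (i : ℕ) :
    Subgroup Ω where
  carrier := {x | x ∈ P ∧ x ^ p ^ i ∈ Z}
  one_mem' := ⟨one_mem _, by rw [one_pow]; exact one_mem _⟩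
  mul_mem' := by
    rintro x y ⟨hx, hx'⟩ ⟨hy, hy'⟩
    refine ⟨mul_mem hx hy, ?_⟩
    by_cases h1 : x ^ p ^ i = 1
    · have h2 : y⁻¹ * (x * y) ∈ om hreg i := by
        refine ⟨mul_mem (inv_mem hy) (mul_mem hx hy), ?_⟩
        rw [← mul_assoc, show y⁻¹ * x * y = MulAut.conj y⁻¹ x by simp, ← map_pow, h1, map_one]
      rw [← (hreg y hy (x * y) (mul_mem hx hy) i).2 h2.2]
      exact hy'
    · obtain ⟨t, ht⟩ := hZ _ hx' h1 _ hy'
      have h2 : ((x ^ t)⁻¹ * y) ^ p ^ i = 1 :=
        (hreg _ (pow_mem hx t) y hy i).1 (by rw [ht, ← pow_mul, ← pow_mul, mul_comm])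
      have h3 : (x ^ (t + 1))⁻¹ * (x * y) = (x ^ t)⁻¹ * y := by rw [pow_succ']; group
      rw [← (hreg _ (pow_mem hx (t + 1)) (x * y) (mul_mem hx hy) i).2 (by rw [h3]; exact h2),
        ← pow_mul, mul_comm, pow_mul]
      exact pow_mem hx' _
  inv_mem' := fun {x} ⟨hx, hx'⟩ => ⟨inv_mem hx, by rw [inv_pow]; exact inv_mem hx'⟩

theorem card_om_one_le [hp : Fact p.Prime] [Finite P] {a : P} (hcyc : (Subgroup.zpowers a).Normal)
    (hcov : ∃ b : P, ∀ x : P, ∃ u : ℤ, ∃ k : ℕ, x = a ^ u * b ^ k) :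
    Nat.card (om hreg 1) ≤ p ^ 2 := by
  obtain ⟨b, hb⟩ := hcov
  haveI := hcyc
  set V : Subgroup P := (om hreg 1).subgroupOf P
  have hVle : om hreg 1 ≤ P := fun x hx => hx.1
  rw [← Nat.card_congr (Subgroup.subgroupOfEquivOfLe hVle).toEquiv]
  have hexp : ∀ x : V, x ^ p = 1 := fun x => Subtype.ext (Subtype.ext (by
    have := x.2.2
    rw [pow_one] at this
    simpa using this))
  have hcard : ∀ (K : Type _) [Group K] [Finite K] [IsCyclic K], (∀ k : K, k ^ p = 1) →
      Nat.card K ≤ p := by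
    intro K _ _ _ hK
    obtain ⟨k, hk⟩ := IsCyclic.exists_generator (α := K)
    rw [← orderOf_eq_card_of_forall_mem_zpowers hk]
    exact Nat.le_of_dvd hp.out.pos (orderOf_dvd_of_pow_eq_one (hK k))
  set f : V →* P ⧸ Subgroup.zpowers a := (QuotientGroup.mk' (Subgroup.zpowers a)).comp V.subtype
  haveI : IsCyclic (P ⧸ Subgroup.zpowers a) := by
    refine ⟨⟨QuotientGroup.mk b, fun q => ?_⟩⟩
    obtain ⟨x, rfl⟩ := QuotientGroup.mk_surjective q
    obtain ⟨u, k, rfl⟩ := hb x
    refine ⟨k, ?_⟩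
    show (QuotientGroup.mk b : P ⧸ Subgroup.zpowers a) ^ (k : ℤ) = _
    rw [zpow_natCast, QuotientGroup.mk_mul, (QuotientGroup.eq_one_iff (a ^ u)).2
      (Subgroup.zpow_mem _ (Subgroup.mem_zpowers a) u), one_mul]
    rfl
  have h1 : Nat.card f.range ≤ p := hcard f.range fun k => by
    obtain ⟨_, x, rfl⟩ := k
    exact Subtype.ext (by
      show f x ^ p = 1
      rw [← map_pow, hexp, map_one])
  have h2 : Nat.card f.ker ≤ p := by
    haveI : IsCyclic f.ker := by
      have hi : Function.Injective ((V.subtype.comp f.ker.subtype).codRestrict (Subgroup.zpowers a)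
          fun x => (QuotientGroup.eq_one_iff _).1 x.2) := by
        intro x y e
        exact Subtype.ext (Subtype.ext (congrArg (fun z : Subgroup.zpowers a => (z : P)) e))
      exact isCyclic_of_injective _ hi
    exact hcard f.ker fun k => Subtype.ext (hexp k)
  rw [← f.ker.card_mul_index, Subgroup.index_ker, pow_two]
  exact Nat.mul_le_mul h2 h1

/-- A subgroup of `S` strongly closed and metacyclic is normal, for odd primes. -/
theorem isNormal_of_metacyclic [Finite S] [hp : Fact p.Prime] (hS : IsPGroup p S)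
    (hF : F.IsSaturated p) (hp2 : p ≠ 2) (hP : F.StronglyClosed P)
    (hm : Cfsg.IsMetacyclic ↥P) : F.IsNormal P := by
  have hPS : P ≤ S := hP.1
  haveI := finite_of_le hPS
  have hPp : IsPGroup p P := isPGroup_of_le hS hPS
  obtain ⟨a, b, r, hD, hN, -⟩ := Cfsg.Lib.Transfer.Metacyclic.exists_data hPp hm
  have hreg : PowReg p P := fun x hx y hy i => by
    have := hD.pow_eq_iff hp2 hPp ⟨x, hx⟩ ⟨y, hy⟩ i
    simpa [Subtype.ext_iff] using this
  have hPn : ∀ s ∈ S, ∀ x ∈ P, s * x * s⁻¹ ∈ P := fun s hs x hx => StronglyClosed.conj_mem hP hs hx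
  have homle : ∀ i, om hreg i ≤ P := fun i x hx => hx.1
  have homc : ∀ i, F.StronglyClosed (om hreg i) := fun i =>
    stronglyClosed_iff.2 ⟨(homle i).trans hPS, fun R f hf x hxR hx =>
      ⟨StronglyClosed.mem hP hf hxR hx.1, by rw [← hf.map_pow' hxR, hx.2, hf.map_one]⟩⟩
  have homn : ∀ i, ∀ s ∈ S, ∀ x ∈ om hreg i, s * x * s⁻¹ ∈ om hreg i := fun i s hs x hx =>
    StronglyClosed.conj_mem (homc i) hs hx
  set V := om hreg 1 with hV
  have hVexp : ∀ x ∈ V, x ^ p = 1 := fun x hx => by simpa using hx.2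
  have hcardV : Nat.card V ≤ p ^ 2 :=
    card_om_one_le hreg hN ⟨b, fun x => hD.cover x⟩
  haveI := finite_of_le ((homle 1).trans hPS)
  have hVp : IsPGroup p V := isPGroup_of_le hS ((homle 1).trans hPS)
  have hVab : ∀ x ∈ V, ∀ y ∈ V, Commute x y := by
    obtain ⟨k, hk⟩ := IsPGroup.iff_card.1 hVp
    have hk2 : k ≤ 2 := (Nat.pow_le_pow_iff_right hp.out.one_lt).1 (hk ▸ hcardV)
    intro x hx y hy
    have key : ∀ u v : V, u * v = v * u := by
      rcases (show k = 0 ∨ k = 1 ∨ k = 2 by omega) with rfl | rfl | rfl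
      · intro u v
        haveI := (Nat.card_eq_one_iff_unique.1 (hk.trans (pow_zero p))).1
        exact Subsingleton.elim _ _
      · intro u v
        haveI : IsCyclic V := isCyclic_of_prime_card (p := p) (by simpa using hk)
        exact mul_comm' u v
      · exact IsPGroup.commutative_of_card_eq_prime_sq hk
    exact congrArg Subtype.val (key ⟨x, hx⟩ ⟨y, hy⟩)
  set Z := V ⊓ Subgroup.centralizer (P : Set Ω) with hZdef
  haveI : Finite Z := finite_of_le (inf_le_left.trans ((homle 1).trans hPS))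
  have hZgen : V ≤ Subgroup.centralizer (P : Set Ω) ∨
      (Nat.card Z = p ∧ Nat.card V = p ^ 2) := by
    refine or_iff_not_imp_left.2 fun hnc => ?_
    have hlt : Z < V := lt_of_le_of_ne inf_le_left fun e => hnc (e ▸ inf_le_right)
    obtain ⟨k, hk⟩ := IsPGroup.iff_card.1 hVp
    have hZp : IsPGroup p Z := isPGroup_of_le hS (inf_le_left.trans ((homle 1).trans hPS))
    obtain ⟨l, hl⟩ := IsPGroup.iff_card.1 hZp
    have hk2 : k ≤ 2 := (Nat.pow_le_pow_iff_right hp.out.one_lt).1 (hk ▸ hcardV)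
    have hlk : l < k := by
      by_contra hge
      exact hlt.ne (eq_of_le_of_card_le hlt.le (by
        rw [hk, hl]; exact Nat.pow_le_pow_right hp.out.pos (by omega)))
    have hZ1 : Z ≠ ⊥ := by
      intro hb
      haveI : (V.subgroupOf P).Normal := ⟨fun x hx y => by
        exact homn 1 y (hPS y.2) x hx⟩
      haveI : Group.IsNilpotent P := hPp.isNilpotent
      have hne : V.subgroupOf P ≠ ⊥ := by
        intro e
        apply hnc
        intro x hx
        have : (⟨x, homle 1 hx⟩ : P) ∈ (⊥ : Subgroup P) := e ▸ hx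
        rw [Subgroup.mem_bot] at this
        rw [show x = 1 from congrArg Subtype.val this]
        exact one_mem _
      have hne' := (hPp.to_subgroup (V.subgroupOf P))
      obtain ⟨w, hw1, hw2⟩ : ∃ w : P, w ≠ 1 ∧ w ∈ V.subgroupOf P ⊓ Subgroup.center P := by
        have h := Subgroup.ne_bot_iff_exists_ne_one.1
          (Cfsg.Lib.Transfer.inf_center_ne_bot hPp (V.subgroupOf P) hne)
        obtain ⟨w, hw⟩ := h
        exact ⟨w, fun e => hw (Subtype.ext e), w.2⟩
      have hwZ : (w : Ω) ∈ Z := ⟨hw2.1, fun y hy =>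
        congrArg Subtype.val (Subgroup.mem_center_iff.1 hw2.2 ⟨y, hy⟩)⟩
      rw [hb, Subgroup.mem_bot] at hwZ
      exact hw1 (Subtype.ext hwZ)
    rcases l with _ | _ | l
    · exact absurd (Subgroup.eq_bot_of_card_eq Z (by simpa using hl)) hZ1
    · exact ⟨by simpa using hl, by rw [hk, show k = 2 by omega]⟩
    · omega
  have hZle : Z ≤ V := inf_le_left
  -- the key point: `Z` is strongly closed
  have hZc : F.StronglyClosed Z := by
    refine stronglyClosed_iff.2 ⟨hZle.trans ((homle 1).trans hPS), fun R φ hφ z hzR hzZ => ?_⟩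
    rcases hZgen with hc | ⟨hcZ, hcV⟩
    · have h1 := StronglyClosed.mem (homc 1) hφ hzR hzZ.1
      exact ⟨h1, hc h1⟩
    have hvV : φ z ∈ V := StronglyClosed.mem (homc 1) hφ hzR hzZ.1
    by_contra hvZ
    set v := φ z with hvdef
    have hz1 : z ≠ 1 := fun e => hvZ (by rw [hvdef, e, hφ.map_one]; exact one_mem _)
    have hvS : v ∈ S := hPS (homle 1 hvV)
    have hzS : z ∈ S := hPS (homle 1 hzZ.1)
    have hzv : Commute z v := hVab z hzZ.1 v hvV
    have hzp := hVexp z hzZ.1
    have hvp := hVexp v hvV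
    have hzo : orderOf z = p := orderOf_eq_prime hzp hz1
    have hZz : Z = Subgroup.zpowers z := (eq_of_le_of_card_le (Subgroup.zpowers_le.2 hzZ)
      (by rw [hcZ, Nat.card_zpowers, hzo])).symm
    have hv1 : v ∉ Subgroup.zpowers z := hZz ▸ hvZ
    have hVgen : ∀ x ∈ V, ∃ i j : ℤ, x = z ^ i * v ^ j := by
      set W : Subgroup Ω :=
        { carrier := {x | ∃ i j : ℤ, x = z ^ i * v ^ j}
          one_mem' := ⟨0, 0, by simp⟩
          mul_mem' := by
            rintro x y ⟨i, j, rfl⟩ ⟨i', j', rfl⟩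
            refine ⟨i + i', j + j', ?_⟩
            rw [zpow_add, zpow_add, mul_assoc, ← mul_assoc (v ^ j), ← (hzv.zpow_zpow i' j).eq]
            group
          inv_mem' := by
            rintro x ⟨i, j, rfl⟩
            refine ⟨-i, -j, ?_⟩
            rw [mul_inv_rev, zpow_neg, zpow_neg]
            exact ((hzv.zpow_zpow i j).inv_inv.eq).symm }
      have hWV : W ≤ V := by
        rintro x ⟨i, j, rfl⟩
        exact V.mul_mem (V.zpow_mem hzZ.1 i) (V.zpow_mem hvV j)
      have hzW : Subgroup.zpowers z ≤ W := Subgroup.zpowers_le.2 ⟨1, 0, by simp⟩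
      haveI : Finite W := finite_of_le (hWV.trans ((homle 1).trans hPS))
      have hlt : Subgroup.zpowers z < W := lt_of_le_of_ne hzW fun e => hv1 (e ▸ ⟨0, 1, by simp⟩)
      have hd := Subgroup.card_dvd_of_le hWV
      have hd' := Subgroup.card_dvd_of_le hzW
      rw [hcV, Nat.dvd_prime_pow hp.out] at hd
      obtain ⟨l, hl2, hl⟩ := hd
      have : l = 2 := by
        rcases (show l = 0 ∨ l = 1 ∨ l = 2 by omega) with rfl | rfl | rfl
        · rw [hl, Nat.card_zpowers, hzo, pow_zero] at hd'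
          exact absurd (Nat.dvd_one.1 hd') hp.out.one_lt.ne'
        · exact absurd (eq_of_le_of_card_le hzW (by rw [hl, Nat.card_zpowers, hzo, pow_one])) hlt.ne
        · rfl
      intro x hx
      rw [← eq_of_le_of_card_le hWV (by rw [hl, hcV, this])] at hx
      exact hx
    have hzC : ∀ y ∈ P, y * z = z * y := fun y hy => hzZ.2 y hy
    -- an element of `P` moving `v` to `v * z`
    obtain ⟨g, hgP, hgv⟩ : ∃ g ∈ P, g * v * g⁻¹ = v * z := by
      obtain ⟨g₀, hg₀, hne⟩ : ∃ g₀ ∈ P, g₀ * v * g₀⁻¹ ≠ v := by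
        by_contra hall
        push Not at hall
        exact hvZ ⟨hvV, fun y hy => mul_inv_eq_iff_eq_mul.1 (hall y hy)⟩
      have hmem : v⁻¹ * (g₀ * v * g₀⁻¹) ∈ Z := by
        refine conj_mem_coset_of_pgroup
          (F := V) (M := Z) hPp hg₀ (fun x hx => homn 1 g₀ (hPS hg₀) x hx)
          (fun x _ hx => by rwa [mul_inv_eq_iff_eq_mul.2 (hx.2 g₀ hg₀)]) ?_ hvV
        rw [Subgroup.relIndex]
        have h := (Z.subgroupOf V).card_mul_index
        rw [Nat.card_congr (Subgroup.subgroupOfEquivOfLe hZle).toEquiv, hcZ, hcV, pow_two] at h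
        exact (Nat.eq_of_mul_eq_mul_left hp.out.pos h).le
      rw [hZz] at hmem
      obtain ⟨c, hc⟩ := Subgroup.mem_zpowers_iff.1 hmem
      have hg0v : g₀ * v * g₀⁻¹ = v * z ^ c := by rw [hc]; group
      have hcp : ¬ (p : ℤ) ∣ c := fun hd => hne (by
        rw [hg0v, zpow_eq_of_dvd hzp (i := c) (j := 0) (by simpa using hd), zpow_zero, mul_one])
      obtain ⟨x₀, y₀, hxy⟩ := ((Nat.prime_iff_prime_int.1 hp.out).coprime_iff_not_dvd).2 hcp
      have hpow : ∀ k : ℕ, g₀ ^ k * v * (g₀ ^ k)⁻¹ = v * z ^ (c * k) := by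
        intro k
        induction k with
        | zero => simp
        | succ k ih =>
          calc g₀ ^ (k + 1) * v * (g₀ ^ (k + 1))⁻¹ = g₀ * (g₀ ^ k * v * (g₀ ^ k)⁻¹) * g₀⁻¹ := by
                rw [pow_succ']; group
            _ = (g₀ * v * g₀⁻¹) * (g₀ * z * g₀⁻¹) ^ (c * k) := by rw [ih, conj_zpow]; group
            _ = v * z ^ (c * ((k + 1 : ℕ) : ℤ)) := by
              rw [hg0v, mul_inv_eq_iff_eq_mul.2 (hzC g₀ hg₀), mul_assoc, ← zpow_add]
              push_cast; ring_nf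
      refine ⟨g₀ ^ (y₀ % p).toNat, P.pow_mem hg₀ _, ?_⟩
      rw [hpow, Int.toNat_of_nonneg (Int.emod_nonneg _ (Int.natCast_ne_zero.2 hp.out.ne_zero))]
      conv_rhs => rw [← zpow_one z]
      congr 1
      refine zpow_eq_of_dvd hzp ⟨-(c * (y₀ / p)) - x₀, ?_⟩
      rw [Int.emod_def]
      linear_combination hxy
    have hgz : g * z * g⁻¹ = z := mul_inv_eq_iff_eq_mul.2 (hzC g hgP)
    -- a self-map of `V` taking `v` to `z`
    have hzcent : ∀ s ∈ S, s * z * s⁻¹ = z := by
      intro s hs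
      have hnorm : ∀ x ∈ Z, s * x * s⁻¹ ∈ Z := by
        intro x hx
        refine ⟨homn 1 s hs x hx.1, fun y hy => ?_⟩
        have h1 := hx.2 _ (show s⁻¹ * y * s ∈ (P : Set Ω) by
          simpa using hPn s⁻¹ (inv_mem hs) y hy)
        calc y * (s * x * s⁻¹) = s * ((s⁻¹ * y * s) * x) * s⁻¹ := by group
          _ = s * (x * (s⁻¹ * y * s)) * s⁻¹ := by rw [h1]
          _ = (s * x * s⁻¹) * y := by group
      have h1 := conj_mem_coset_of_pgroup
        (F := Z) (M := ⊥) hS hs hnorm (fun x _ hx => by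
          rw [Subgroup.mem_bot] at hx ⊢; simp [hx])
        (by rw [Subgroup.relIndex_bot_left, hcZ]) hzZ
      rw [Subgroup.mem_bot, inv_mul_eq_one] at h1
      exact h1.symm
    obtain ⟨α, hα, hαV, hαv⟩ : ∃ α, Mor F V α ∧ (∀ x ∈ V, α x ∈ V) ∧ α v = z := by
      have hzf : F.IsFullyCentralized (Subgroup.zpowers z) := by
        refine ⟨Subgroup.zpowers_le.2 hzS, fun Q _ => ?_⟩
        have hC : centralizerIn S (Subgroup.zpowers z) = S := by
          refine le_antisymm centralizerIn_le fun s hs => mem_centralizerIn_iff.2 ⟨hs, ?_⟩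
          intro x hx
          obtain ⟨i, rfl⟩ := Subgroup.mem_zpowers_iff.1 hx
          rw [← conj_zpow, hzcent s hs]
        rw [hC]
        exact Nat.card_le_card_of_injective _
          (Subgroup.inclusion_injective (centralizerIn_le (S := S) (P := Q)))
      have hφ' := hφ.restrict (Subgroup.zpowers_le.2 hzR)
      obtain ⟨ψ, hψ, hψ1, -, hψ3⟩ := hφ'.exists_inv
      have hvimg : v ∈ img (Subgroup.zpowers z) φ := mem_img_of_mem (Subgroup.mem_zpowers z)
      have hψi : img (img (Subgroup.zpowers z) φ) ψ = Subgroup.zpowers z := hψ3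
      obtain ⟨e, he, hee⟩ :=
        (isReceptive_iff.1 (fullyCentralized_axiom hS hF hzf)).2 _ ψ hψ hψi
      have hVe : V ≤ extN S (img (Subgroup.zpowers z) φ) ψ := fun x hx =>
        centralizerIn_le_extN (mem_centralizerIn_iff.2 ⟨hPS (homle 1 hx), fun y hy => by
          obtain ⟨w, hw, rfl⟩ := hφ'.mem_img.1 hy
          obtain ⟨i, rfl⟩ := Subgroup.mem_zpowers_iff.1 hw
          rw [hφ'.map_zpow' (Subgroup.mem_zpowers z)]
          have := hVab x hx v hvV
          rw [(this.zpow_right i).eq, mul_inv_cancel_right]⟩)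
      have he' := he.restrict hVe
      refine ⟨e, he', fun x hx => StronglyClosed.mem (homc 1) he' hx hx, ?_⟩
      rw [hee v hvimg]
      exact hψ1 z (Subgroup.mem_zpowers z)
    -- self-maps of `V` act on `C = C_P(V)`
    set C := P ⊓ Subgroup.centralizer (V : Set Ω) with hCdef
    have hCS : C ≤ S := inf_le_left.trans hPS
    have hVS : V ≤ S := (homle 1).trans hPS
    have hVn : S ≤ normalizerIn S V := fun s hs => mem_normalizerIn_of_conj hVS hs (homn 1 s hs)
    have hCext : ∀ f, Mor F V f → (∀ x ∈ V, f x ∈ V) →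
        ∃ e, Mor F C e ∧ (∀ x ∈ C, e x ∈ C) ∧ ∀ x ∈ V, e x = f x := by
      intro f hf hfV
      obtain ⟨e, he, hee⟩ := exists_extend_selfmap hS hF hVS hVn hf hfV
      have hCe : C ≤ extN S V f := fun x hx => centralizerIn_le_extN
        (mem_centralizerIn_iff.2 ⟨hCS hx, fun y hy => mul_inv_eq_iff_eq_mul.2 (hx.2 y hy).symm⟩)
      have hVC : V ≤ C := fun x hx => ⟨homle 1 hx, fun y hy => (hVab y hy x hx).eq⟩
      refine ⟨e, he.restrict hCe, fun x hx => ⟨StronglyClosed.mem hP (he.restrict hCe) hx hx.1,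
        fun y hy => ?_⟩, hee⟩
      have himg : img V f = V := hf.img_eq_of_card_le hVS hfV le_rfl
      rw [SetLike.mem_coe, ← himg] at hy
      obtain ⟨w, hw, rfl⟩ := hf.mem_img.1 hy
      rw [← hee w hw, ← (he.restrict hCe).map_mul (hVC hw) hx, hx.2 w hw,
        (he.restrict hCe).map_mul hx (hVC hw)]
    obtain ⟨αC, hαC, hαCC, hαCV⟩ := hCext α hα hαV
    have hzC' : z ∈ C := ⟨homle 1 hzZ.1, fun y hy => (hVab y hy z hzZ.1).eq⟩
    have hvC : v ∈ C := ⟨homle 1 hvV, fun y hy => (hVab y hy v hvV).eq⟩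
    -- `C` is abelian
    have hNmem : ∀ x ∈ P, ∀ y ∈ P, ∃ c : ℤ, x * y * x⁻¹ * y⁻¹ = ((a : Ω)) ^ c := by
      intro x hx y hy
      obtain ⟨c, hc⟩ := Subgroup.mem_zpowers_iff.1 (hD.comm ⟨x, hx⟩ ⟨y, hy⟩)
      exact ⟨c, by simpa [Subtype.ext_iff] using hc.symm⟩
    have hαz : α z ∉ Subgroup.zpowers z := by
      intro h
      obtain ⟨c, hc⟩ := Subgroup.mem_zpowers_iff.1 h
      by_cases hcp : (p : ℤ) ∣ c
      · rw [zpow_eq_of_dvd hzp (i := c) (j := 0) (by simpa using hcp), zpow_zero] at hc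
        exact hz1 (hα.eq_of_eq hzZ.1 V.one_mem (hc.symm.trans hα.map_one.symm))
      · obtain ⟨x₀, y₀, hxy⟩ := ((Nat.prime_iff_prime_int.1 hp.out).coprime_iff_not_dvd).2 hcp
        have h1 : α (z ^ y₀) = α v := by
          rw [hα.map_zpow' hzZ.1, ← hc, ← zpow_mul, hαv,
            zpow_eq_of_dvd hzp (i := c * y₀) (j := 1) ⟨-x₀, by linear_combination hxy⟩, zpow_one]
        exact hv1 (hα.eq_of_eq (V.zpow_mem hzZ.1 _) hvV h1 ▸
          Subgroup.zpow_mem _ (Subgroup.mem_zpowers z) _)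
    have hCab : ∀ x ∈ C, ∀ y ∈ C, x * y = y * x := by
      by_contra hall
      push Not at hall
      obtain ⟨x, hx, y, hy, hxy⟩ := hall
      set k := x * y * x⁻¹ * y⁻¹ with hk
      have hkP : k ∈ C := C.mul_mem (C.mul_mem (C.mul_mem hx hy) (C.inv_mem hx)) (C.inv_mem hy)
      have hk1 : k ≠ 1 := fun e => hxy (mul_inv_eq_iff_eq_mul.1 (mul_inv_eq_one.1 e))
      obtain ⟨n, hn⟩ := (IsPGroup.iff_orderOf.1 hPp) ⟨k, hkP.1⟩
      rw [← Subgroup.orderOf_coe] at hn
      rcases n with _ | n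
      · exact hk1 (orderOf_eq_one_iff.1 (by simpa using hn))
      set w := k ^ p ^ n with hw
      have hwo : orderOf w = p := by
        rw [hw, orderOf_pow_of_dvd (pow_ne_zero _ hp.out.ne_zero)
          (hn ▸ pow_dvd_pow p (Nat.le_succ n)), hn, Nat.pow_div (Nat.le_succ n) hp.out.pos]
        simp
      have hwV : w ∈ V := ⟨P.pow_mem hkP.1 _, by rw [pow_one, ← hwo, pow_orderOf_eq_one]⟩
      -- every element of order `p` of `⟨a⟩` lies in `Z`
      have huniq : ∀ u : Ω, u ∈ V → (∃ c : ℤ, u = (a : Ω) ^ c) → u ≠ 1 →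
          ∀ u' : Ω, u' ∈ V → (∃ c : ℤ, u' = (a : Ω) ^ c) → u' ∈ Subgroup.zpowers u := by
        rintro u hu ⟨c, rfl⟩ hu1 u' hu' ⟨c', rfl⟩
        haveI : Finite (Subgroup.zpowers (a : Ω)) :=
          finite_of_le (Subgroup.zpowers_le.2 (hPS a.2))
        have hc1 : Nat.card (Subgroup.zpowers ((a : Ω) ^ c)) = p := by
          rw [Nat.card_zpowers, orderOf_eq_prime (hVexp _ hu) hu1]
        by_cases hu'1 : (a : Ω) ^ c' = 1
        · rw [hu'1]; exact one_mem _
        have hc2 : Nat.card (Subgroup.zpowers ((a : Ω) ^ c')) = p := by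
          rw [Nat.card_zpowers, orderOf_eq_prime (hVexp _ hu') hu'1]
        have hle : ∀ c : ℤ, Subgroup.zpowers ((a : Ω) ^ c) ≤ Subgroup.zpowers (a : Ω) := fun c =>
          Subgroup.zpowers_le.2 (Subgroup.zpow_mem _ (Subgroup.mem_zpowers _) c)
        have h12 : (Subgroup.zpowers ((a : Ω) ^ c)).subgroupOf (Subgroup.zpowers (a : Ω)) =
            (Subgroup.zpowers ((a : Ω) ^ c')).subgroupOf (Subgroup.zpowers (a : Ω)) := by
          refine Cfsg.Lib.TwoFus.eq_of_card_eq_cyclic ?_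
          rw [Nat.card_congr (Subgroup.subgroupOfEquivOfLe (hle c)).toEquiv,
            Nat.card_congr (Subgroup.subgroupOfEquivOfLe (hle c')).toEquiv, hc1, hc2]
        have h3 : (⟨(a : Ω) ^ c', hle c' (Subgroup.mem_zpowers _)⟩ : Subgroup.zpowers (a : Ω)) ∈
            (Subgroup.zpowers ((a : Ω) ^ c')).subgroupOf (Subgroup.zpowers (a : Ω)) :=
          Subgroup.mem_zpowers _
        rw [← h12] at h3
        exact h3
      obtain ⟨c, hc⟩ := hNmem x hx.1 y hy.1
      have hwa : ∃ c' : ℤ, w = (a : Ω) ^ c' := ⟨c * (p ^ n : ℕ), by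
        rw [hw, hk, hc, zpow_mul, zpow_natCast]⟩
      have hw1 : w ≠ 1 := fun e => by rw [e, orderOf_one] at hwo; exact hp.out.one_lt.ne hwo
      -- conjugation fixes `w`
      have hwz : w ∈ Subgroup.zpowers z := by
        have hgw : g * w * g⁻¹ ∈ Subgroup.zpowers w := by
          refine huniq w hwV hwa hw1 _ (homn 1 g (hPS hgP) w hwV) ?_
          obtain ⟨c', hc'⟩ := hwa
          obtain ⟨e, he⟩ := Subgroup.mem_zpowers_iff.1
            (hN.conj_mem a (Subgroup.mem_zpowers a) ⟨g, hgP⟩)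
          have he' : g * (a : Ω) * g⁻¹ = (a : Ω) ^ e := by
            simpa [Subtype.ext_iff] using he.symm
          exact ⟨e * c', by rw [hc', ← conj_zpow, he', zpow_mul]⟩
        obtain ⟨i, j, hij⟩ := hVgen w hwV
        obtain ⟨t, ht⟩ := Subgroup.mem_zpowers_iff.1 hgw
        have hgw' : g * w * g⁻¹ = w * z ^ j := by
          rw [hij]
          calc g * (z ^ i * v ^ j) * g⁻¹ = (g * z * g⁻¹) ^ i * (g * v * g⁻¹) ^ j := by
                rw [conj_zpow, conj_zpow]; group
            _ = _ := by rw [hgz, hgv, hzv.symm.mul_zpow, mul_assoc]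
        by_cases hj : (p : ℤ) ∣ j
        · rw [hij, zpow_eq_of_dvd hvp (i := j) (j := 0) (by simpa using hj), zpow_zero, mul_one]
          exact Subgroup.zpow_mem _ (Subgroup.mem_zpowers z) i
        · exfalso
          have hzj : z ^ j ∈ Subgroup.zpowers w := by
            refine Subgroup.mem_zpowers_iff.2 ⟨t - 1, ?_⟩
            rw [zpow_sub, zpow_one, ht, hgw', (hVab w hwV _ (V.zpow_mem hzZ.1 j)).eq,
              mul_inv_cancel_right]
          obtain ⟨x₀, y₀, hxy⟩ := ((Nat.prime_iff_prime_int.1 hp.out).coprime_iff_not_dvd).2 hj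
          have hzw : z ∈ Subgroup.zpowers w := by
            have := Subgroup.zpow_mem _ hzj y₀
            rwa [← zpow_mul, zpow_eq_of_dvd hzp (i := j * y₀) (j := 1)
              ⟨-x₀, by linear_combination hxy⟩, zpow_one] at this
          obtain ⟨s, hs⟩ := Subgroup.mem_zpowers_iff.1 hzw
          have hcomm : Commute g z := hzC g hgP
          have hsp : ¬ (p : ℤ) ∣ s := fun hd => hz1 (by
            rw [← hs, zpow_eq_of_dvd (hVexp w hwV) (i := s) (j := 0) (by simpa using hd),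
              zpow_zero])
          have h5 : (g * w * g⁻¹) ^ s = w ^ s := by rw [conj_zpow, hs, hgz]
          rw [hgw', (hVab w hwV _ (V.zpow_mem hzZ.1 j)).mul_zpow, mul_eq_left, ← zpow_mul] at h5
          have h6 := orderOf_dvd_iff_zpow_eq_one.2 h5
          rw [hzo] at h6
          rcases (Nat.prime_iff_prime_int.1 hp.out).dvd_or_dvd h6 with h | h
          · exact hj h
          · exact hsp h
      -- the map `α` keeps the commutator structure
      set k' := αC x * αC y * (αC x)⁻¹ * (αC y)⁻¹ with hk'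
      have hαk : αC k = k' := by
        rw [hk, hαC.map_mul (C.mul_mem (C.mul_mem hx hy) (C.inv_mem hx)) (C.inv_mem hy),
          hαC.map_conj hx hy, hαC.map_inv hy]
      have hαw : αC w = k' ^ p ^ n := by rw [hw, hαC.map_pow' hkP, hαk]
      have hαw' : α w ∈ Subgroup.zpowers w := by
        refine huniq w hwV hwa hw1 _ (hαV w hwV) ?_
        obtain ⟨c', hc'⟩ := hNmem _ (hαCC x hx).1 _ (hαCC y hy).1
        exact ⟨c' * (p ^ n : ℕ), by rw [← hαCV w hwV, hαw, hk', hc', zpow_mul, zpow_natCast]⟩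
      obtain ⟨s, hs⟩ := Subgroup.mem_zpowers_iff.1 hwz
      apply hαz
      have hsp : ¬ (p : ℤ) ∣ s := fun hd => hw1 (by
        rw [← hs, zpow_eq_of_dvd hzp (i := s) (j := 0) (by simpa using hd), zpow_zero])
      obtain ⟨x₀, y₀, hxy'⟩ := ((Nat.prime_iff_prime_int.1 hp.out).coprime_iff_not_dvd).2 hsp
      have hzw : z = w ^ y₀ := by
        rw [← hs, ← zpow_mul, zpow_eq_of_dvd hzp (i := s * y₀) (j := 1)
          ⟨-x₀, by linear_combination hxy'⟩, zpow_one]
      rw [hzw, hα.map_zpow' hwV, ← hzw]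
      exact Subgroup.zpow_mem _ ((Subgroup.zpowers_le.2 hwz) hαw') y₀
    -- `C = V`
    have hCV : ∀ c ∈ C, c ^ p = 1 := by
      by_contra hall
      push Not at hall
      obtain ⟨c₀, hc₀, hc₀p⟩ := hall
      haveI := finite_of_le hCS
      obtain ⟨m, hm2, hcm, hmax⟩ : ∃ m, 1 ≤ m ∧ (∃ c ∈ C, c ^ p ^ m ≠ 1) ∧
          ∀ c ∈ C, c ^ p ^ (m + 1) = 1 := by
        obtain ⟨E, hE⟩ : ∃ E, ∀ c ∈ C, c ^ p ^ E = 1 := by
          obtain ⟨E, hE⟩ := IsPGroup.iff_card.1 (isPGroup_of_le hS hCS)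
          refine ⟨E, fun c hc => ?_⟩
          rw [← hE]
          exact congrArg Subtype.val (pow_card_eq_one' (x := (⟨c, hc⟩ : C)))
        have hex : ∃ m, ∀ c ∈ C, c ^ p ^ (m + 1) = 1 :=
          ⟨E, fun c hc => by rw [pow_succ, pow_mul, hE c hc, one_pow]⟩
        have h0 : Nat.find hex ≠ 0 := fun e => hc₀p (by
          have := Nat.find_spec hex c₀ hc₀
          rwa [e, zero_add, pow_one] at this)
        refine ⟨Nat.find hex, by omega, ?_, Nat.find_spec hex⟩
        have := Nat.find_min hex (show Nat.find hex - 1 < Nat.find hex by omega)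
        push Not at this
        obtain ⟨c, hc, hc'⟩ := this
        exact ⟨c, hc, by rwa [show Nat.find hex - 1 + 1 = Nat.find hex by omega] at hc'⟩
      -- an element whose power lies outside `Z`
      obtain ⟨c₁, hc₁, hc₁v⟩ : ∃ c₁ ∈ C, c₁ ^ p ^ m ∉ Subgroup.zpowers z := by
        obtain ⟨c, hc, hc'⟩ := hcm
        by_cases hcz : c ^ p ^ m ∈ Subgroup.zpowers z
        · refine ⟨αC c, hαCC c hc, ?_⟩
          obtain ⟨t, ht⟩ := Subgroup.mem_zpowers_iff.1 hcz
          have htp : ¬ (p : ℤ) ∣ t := fun hd => hc' (by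
            rw [← ht, zpow_eq_of_dvd hzp (i := t) (j := 0) (by simpa using hd), zpow_zero])
          rw [← hαC.map_pow' hc, ← ht, hαC.map_zpow' hzC', hαCV z hzZ.1]
          intro hmem
          obtain ⟨x₀, y₀, hxy⟩ := ((Nat.prime_iff_prime_int.1 hp.out).coprime_iff_not_dvd).2 htp
          have := Subgroup.zpow_mem _ hmem y₀
          rw [← zpow_mul, zpow_eq_of_dvd (hVexp _ (hαV z hzZ.1)) (i := t * y₀) (j := 1)
            ⟨-x₀, by linear_combination hxy⟩, zpow_one] at this
          exact hαz this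
        · exact ⟨c, hc, hcz⟩
      have hv'V : c₁ ^ p ^ m ∈ V := ⟨P.pow_mem hc₁.1 _, by
        rw [pow_one, ← pow_mul, ← pow_succ, hmax c₁ hc₁]⟩
      obtain ⟨i, j, hij⟩ := hVgen _ hv'V
      have hj : ¬ (p : ℤ) ∣ j := fun hd => hc₁v (by
        rw [hij, zpow_eq_of_dvd hvp (i := j) (j := 0) (by simpa using hd), zpow_zero, mul_one]
        exact Subgroup.zpow_mem _ (Subgroup.mem_zpowers z) i)
      set d := c₁⁻¹ * (g * c₁ * g⁻¹) with hd
      have hgC : g * c₁ * g⁻¹ ∈ C := by
        refine ⟨P.mul_mem (P.mul_mem hgP hc₁.1) (P.inv_mem hgP), fun y hy => ?_⟩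
        have h1 := hc₁.2 _ (show g⁻¹ * y * g ∈ (V : Set Ω) by
          simpa using homn 1 g⁻¹ (inv_mem (hPS hgP)) y hy)
        calc y * (g * c₁ * g⁻¹) = g * ((g⁻¹ * y * g) * c₁) * g⁻¹ := by group
          _ = g * (c₁ * (g⁻¹ * y * g)) * g⁻¹ := by rw [h1]
          _ = (g * c₁ * g⁻¹) * y := by group
      have hdC : d ∈ C := C.mul_mem (C.inv_mem hc₁) hgC
      have hdm : d ^ p ^ m ≠ 1 := by
        intro e
        have h1 := (hreg c₁ hc₁.1 _ hgC.1 m).2 e
        rw [conj_pow, hij] at h1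
        have h2 : g * (z ^ i * v ^ j) * g⁻¹ = z ^ i * v ^ j * z ^ j := by
          calc g * (z ^ i * v ^ j) * g⁻¹ = (g * z * g⁻¹) ^ i * (g * v * g⁻¹) ^ j := by
                rw [conj_zpow, conj_zpow]; group
            _ = _ := by rw [hgz, hgv, hzv.symm.mul_zpow, mul_assoc]
        rw [h2, left_eq_mul] at h1
        have h3 := orderOf_dvd_iff_zpow_eq_one.2 h1
        rw [hzo] at h3
        exact hj h3
      obtain ⟨c, hc⟩ := hNmem g hgP c₁ hc₁.1
      have hda : d = c₁⁻¹ * (a : Ω) ^ c * c₁ := by rw [← hc, hd]; group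
      -- `d` is a power of `a`
      obtain ⟨R, hR⟩ : ∃ R : ℤ, g * d * g⁻¹ = d ^ R := by
        obtain ⟨e, he⟩ := Subgroup.mem_zpowers_iff.1
          (hN.conj_mem a (Subgroup.mem_zpowers a) ⟨g, hgP⟩)
        obtain ⟨e', he'⟩ := Subgroup.mem_zpowers_iff.1
          (hN.conj_mem a (Subgroup.mem_zpowers a) (⟨c₁, hc₁.1⟩⁻¹ : P))
        have e1 : g * (a : Ω) * g⁻¹ = (a : Ω) ^ e := by simpa [Subtype.ext_iff] using he.symm
        have e2 : c₁⁻¹ * (a : Ω) * c₁ = (a : Ω) ^ e' := by simpa [Subtype.ext_iff] using he'.symm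
        have hd' : d = (a : Ω) ^ (e' * c) := by
          rw [hda, zpow_mul, ← e2]
          have := conj_zpow (i := c) (a := c₁⁻¹) (b := (a : Ω))
          rw [inv_inv] at this
          exact this.symm
        refine ⟨e, ?_⟩
        rw [hd', ← conj_zpow, e1, ← zpow_mul, ← zpow_mul, mul_comm]
      have hconj : ∀ k : ℕ, g ^ k * c₁ * (g ^ k)⁻¹ = c₁ * d ^ (Cfsg.Lib.Transfer.Metacyclic.gsum R k) := by
        intro k
        induction k with
        | zero => simp [Cfsg.Lib.Transfer.Metacyclic.gsum]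
        | succ k ih =>
          calc g ^ (k + 1) * c₁ * (g ^ (k + 1))⁻¹ = g * (g ^ k * c₁ * (g ^ k)⁻¹) * g⁻¹ := by
                rw [pow_succ']; group
            _ = (g * c₁ * g⁻¹) * (g * d * g⁻¹) ^ (Cfsg.Lib.Transfer.Metacyclic.gsum R k) := by
              rw [ih, conj_zpow]; group
            _ = c₁ * d ^ (Cfsg.Lib.Transfer.Metacyclic.gsum R (k + 1)) := by
              rw [hR, show g * c₁ * g⁻¹ = c₁ * d by rw [hd, mul_inv_cancel_left], ← zpow_mul,
                mul_assoc, ← zpow_one_add]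
              congr 2
              simp only [Cfsg.Lib.Transfer.Metacyclic.gsum]
              rw [Finset.sum_range_succ', pow_zero, Finset.mul_sum, add_comm]
              congr 1
              exact Finset.sum_congr rfl fun l _ => pow_succ' R l |>.symm
      have hgpC : g ^ p ∈ C := by
        refine ⟨P.pow_mem hgP p, fun y hy => ?_⟩
        have hk : ∀ k : ℕ, g ^ k * v * (g ^ k)⁻¹ = v * z ^ k := by
          intro k
          induction k with
          | zero => simp
          | succ k ih =>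
            calc g ^ (k + 1) * v * (g ^ (k + 1))⁻¹ = g * (g ^ k * v * (g ^ k)⁻¹) * g⁻¹ := by
                  rw [pow_succ']; group
              _ = (g * v * g⁻¹) * (g * z * g⁻¹) ^ k := by rw [ih, conj_pow]; group
              _ = v * z ^ (k + 1) := by rw [hgv, hgz, mul_assoc, ← pow_succ']
        have h1 : Commute v (g ^ p) := by
          have h0 : g ^ p * v * (g ^ p)⁻¹ = v := by rw [hk, hzp, mul_one]
          exact (mul_inv_eq_iff_eq_mul.1 h0).symm
        obtain ⟨i', j', rfl⟩ := hVgen y hy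
        exact ((show Commute z (g ^ p) from (hzC _ (P.pow_mem hgP p)).symm).zpow_left i').mul_left
          (h1.zpow_left j')
      have h0 := hconj p
      rw [hCab _ hgpC _ hc₁, mul_inv_cancel_right, left_eq_mul] at h0
      have hR1 : (p : ℤ) ∣ R - 1 := by
        obtain ⟨s, hs⟩ := (IsPGroup.iff_orderOf.1 hPp) ⟨g, hgP⟩
        rw [← Subgroup.orderOf_coe] at hs
        have h1 := Cfsg.Lib.Transfer.Metacyclic.conj_pow_base hR (p ^ s)
        rw [← hs, pow_orderOf_eq_one, one_mul, inv_one, mul_one] at h1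
        have h2 : ((orderOf d : ℕ) : ℤ) ∣ R ^ p ^ s - 1 := by
          rw [orderOf_dvd_iff_zpow_eq_one, zpow_sub, zpow_one, ← hs, ← h1, mul_inv_cancel]
        have h3 : (p : ℤ) ∣ R ^ p ^ s - 1 := by
          refine (Int.natCast_dvd_natCast.2 ?_).trans h2
          obtain ⟨t, ht⟩ := (IsPGroup.iff_orderOf.1 hPp) ⟨d, hdC.1⟩
          rw [← Subgroup.orderOf_coe] at ht
          rcases t with _ | t
          · exact absurd (by rw [show d = 1 from orderOf_eq_one_iff.1 (by simpa using ht), one_pow]) hdm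
          · exact ht ▸ dvd_pow_self p t.succ_ne_zero
        rw [← ZMod.intCast_zmod_eq_zero_iff_dvd] at h3 ⊢
        push_cast at h3 ⊢
        rwa [ZMod.pow_card_pow] at h3
      obtain ⟨q, hq⟩ := Cfsg.Lib.Transfer.Metacyclic.gsum_eq (p := p) hp2 hR1 1
      rw [pow_one, pow_one] at hq
      rw [hq] at h0
      apply hdm
      obtain ⟨t, ht⟩ := (IsPGroup.iff_orderOf.1 hPp) ⟨d, hdC.1⟩
      rw [← Subgroup.orderOf_coe] at ht
      have h4 : ((orderOf d : ℕ) : ℤ) ∣ (p : ℤ) * (1 + (R - 1) * q) := by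
        rw [orderOf_dvd_iff_zpow_eq_one, mul_add, mul_one, ← mul_assoc]
        exact h0
      rw [ht, Nat.cast_pow] at h4
      have h5 : ((p : ℤ) ^ t) ∣ p := by
        refine (((Nat.prime_iff_prime_int.1 hp.out).coprime_iff_not_dvd).2 ?_).pow_left.dvd_of_dvd_mul_right h4
        intro hd'
        have := Int.dvd_sub hd' (hR1.mul_right q)
        rw [add_sub_cancel_right] at this
        exact (Nat.prime_iff_prime_int.1 hp.out).not_unit (isUnit_of_dvd_one this)
      have h6 : p ^ t ∣ p := by exact_mod_cast h5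
      rw [← orderOf_dvd_iff_pow_eq_one, ht]
      exact h6.trans (dvd_pow_self p (by omega))
    -- the torus
    obtain ⟨h, hh, hhV, hhz, hhv⟩ := exists_torus hp2 hVS (hPS hgP) hzZ.1 hvV hzp hvp hzv hVgen
      hgz hgv hv1 hα hαV hαv
    have hgk : ∀ k : ℕ, ∀ i j : ℤ, g ^ k * (z ^ i * v ^ j) * (g ^ k)⁻¹ = z ^ (i + k * j) * v ^ j := by
      intro k
      induction k with
      | zero => intro i j; simp
      | succ k ih =>
        intro i j
        calc g ^ (k + 1) * (z ^ i * v ^ j) * (g ^ (k + 1))⁻¹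
            = g * (g ^ k * (z ^ i * v ^ j) * (g ^ k)⁻¹) * g⁻¹ := by rw [pow_succ']; group
          _ = (g * z * g⁻¹) ^ (i + k * j) * (g * v * g⁻¹) ^ j := by rw [ih, conj_zpow, conj_zpow]; group
          _ = _ := by
            rw [hgz, hgv, hzv.symm.mul_zpow, (hzv.zpow_zpow j j).symm.eq, ← mul_assoc, ← zpow_add]
            push_cast; ring_nf
    obtain ⟨m₀, hm₀⟩ := hp.out.odd_of_ne_two hp2
    have hhalf : ((p : ℤ) + 1) / 2 = m₀ + 1 := by omega
    rw [hhalf] at hhv
    have hheval : ∀ i j : ℤ, h (z ^ i * v ^ j) = z ^ (2 * i) * v ^ ((m₀ + 1) * j) := by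
      intro i j
      rw [hh.map_mul (V.zpow_mem hzZ.1 _) (V.zpow_mem hvV _), hh.map_zpow' hzZ.1,
        hh.map_zpow' hvV, hhz, hhv, ← zpow_mul, ← zpow_mul]
    obtain ⟨e, he, hee⟩ := exists_extend_selfmap hS hF hVS hVn hh hhV
    have hgE : g ∈ extN S V h := by
      refine ⟨hVn (hPS hgP), g ^ 4, S.pow_mem (hPS hgP) 4, fun x hx => ?_⟩
      obtain ⟨i, j, rfl⟩ := hVgen x hx
      have h1 := hgk 1 i j
      rw [pow_one] at h1
      rw [h1, hheval, hheval, hgk]
      congr 1
      refine zpow_eq_of_dvd hzp ⟨-2 * j, ?_⟩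
      rw [hm₀]; push_cast; ring
    have heV : ∀ x ∈ V, x ∈ extN S V h := fun x hx => hh.le_extN hx
    set g' := e g with hg'
    have hg'P : g' ∈ P := StronglyClosed.mem hP he hgE hgP
    have hact : g' * v * g'⁻¹ = g ^ 4 * v * (g ^ 4)⁻¹ := by
      have h2 := he.map_conj hgE (heV v hvV)
      rw [hgv, hee _ (V.mul_mem hvV hzZ.1)] at h2
      -- express everything in the basis
      have h3 : e v = v ^ ((m₀ : ℤ) + 1) := by rw [hee v hvV, hhv]
      rw [h3, ← conj_zpow] at h2
      have h4 : h (v * z) = v ^ ((m₀ : ℤ) + 1) * z ^ (2 : ℤ) := by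
        rw [hh.map_mul hvV hzZ.1, hhz, hhv]
      rw [h4] at h2
      have h5 : g ^ 4 * v * (g ^ 4)⁻¹ = v * z ^ (4 : ℤ) := by
        have := hgk 4 0 1
        simp only [zpow_zero, one_mul, zpow_one, mul_one, zero_add] at this
        rw [this]; push_cast; exact (hzv.zpow_left 4).eq
      have h6 : g' * v * g'⁻¹ = (g' * v * g'⁻¹) ^ (((m₀ : ℤ) + 1) * 2) := by
        conv_lhs => rw [← zpow_one (g' * v * g'⁻¹)]
        refine zpow_eq_of_dvd (p := p) ?_ ⟨-1, by rw [hm₀]; push_cast; ring⟩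
        rw [conj_pow, hvp]; group
      rw [h6, zpow_mul, ← h2, h5, ((hzv.symm.zpow_left _).zpow_right _).mul_zpow, ← zpow_mul,
        ← zpow_mul]
      congr 1
      conv_rhs => rw [← zpow_one v]
      exact zpow_eq_of_dvd hvp ⟨1, by rw [hm₀]; push_cast; ring⟩
    set c := (g ^ 4)⁻¹ * g' with hcdef
    have hcC : c ∈ C := by
      refine ⟨P.mul_mem (P.inv_mem (P.pow_mem hgP 4)) hg'P, fun y hy => ?_⟩
      have hcv : Commute v c := by
        have : c * v * c⁻¹ = v := by
          calc c * v * c⁻¹ = (g ^ 4)⁻¹ * (g' * v * g'⁻¹) * g ^ 4 := by rw [hcdef]; group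
            _ = v := by rw [hact]; group
        exact (mul_inv_eq_iff_eq_mul.1 this).symm
      have hcz : Commute z c :=
        (hzC c (P.mul_mem (P.inv_mem (P.pow_mem hgP 4)) hg'P)).symm
      obtain ⟨i', j', rfl⟩ := hVgen y hy
      exact (hcz.zpow_left i').mul_left (hcv.zpow_left j')
    have hcp := hCV c hcC
    have hgp : g' ^ p ^ 1 = (g ^ 4) ^ p ^ 1 :=
      ((hreg (g ^ 4) (P.pow_mem hgP 4) g' hg'P 1).2 (by rw [pow_one]; exact hcp)).symm
    rw [pow_one] at hgp
    have hgpV : g ^ p ∈ V := by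
      have hgpC : g ^ p ∈ C := by
        refine ⟨P.pow_mem hgP p, fun y hy => ?_⟩
        obtain ⟨i', j', rfl⟩ := hVgen y hy
        have h7 := hgk p i' j'
        rw [zpow_eq_of_dvd hzp (i := i' + p * j') (j := i') ⟨j', by ring⟩] at h7
        exact (mul_inv_eq_iff_eq_mul.1 h7).symm
      refine ⟨hgpC.1, ?_⟩
      rw [pow_one]
      exact hCV _ hgpC
    obtain ⟨i, j, hij⟩ := hVgen _ hgpV
    have hj : (p : ℤ) ∣ j := by
      have h1 : g * g ^ p * g⁻¹ = g ^ p := by group
      have h2 := hgk 1 i j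
      rw [pow_one] at h2
      rw [hij, h2, mul_left_inj] at h1
      have h3 : z ^ ((1 : ℤ) * j) = 1 := by
        have : z ^ (i + ((1 : ℕ) : ℤ) * j) = z ^ i * z ^ ((1 : ℤ) * j) := by
          rw [← zpow_add]; norm_num
        rw [this, mul_eq_left] at h1
        exact h1
      rw [one_mul] at h3
      have h4 := orderOf_dvd_iff_zpow_eq_one.2 h3
      rwa [hzo] at h4
    have hgz' : g ^ p = z ^ i := by
      rw [hij, zpow_eq_of_dvd hvp (i := j) (j := 0) (by simpa using hj), zpow_zero, mul_one]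
    have hi : ¬ (p : ℤ) ∣ i := by
      intro hd
      rw [zpow_eq_of_dvd hzp (i := i) (j := 0) (by simpa using hd), zpow_zero] at hgz'
      have hgV : g ∈ V := ⟨hgP, by rw [pow_one]; exact hgz'⟩
      have h8 : g * v * g⁻¹ = v := by rw [(hVab g hgV v hvV).eq]; group
      rw [hgv, mul_eq_left] at h8
      exact hz1 h8
    have hfin : z ^ (2 * i) = z ^ (4 * i) := by
      have h9 := he.map_pow' hgE p
      rw [hgz', he.map_zpow' (heV z hzZ.1), hee z hzZ.1, hhz, ← zpow_mul, ← hg', hgp, ← pow_mul,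
        mul_comm 4 p, pow_mul, hgz'] at h9
      rw [h9, ← zpow_natCast (z ^ i), ← zpow_mul]
      congr 1
      push_cast; ring
    have h10 : z ^ (2 * i) = 1 := by
      have : z ^ (4 * i - 2 * i) = 1 := by rw [zpow_sub, hfin, mul_inv_cancel]
      rwa [show 4 * i - 2 * i = 2 * i by ring] at this
    have h11 := orderOf_dvd_iff_zpow_eq_one.2 h10
    rw [hzo] at h11
    rcases (Nat.prime_iff_prime_int.1 hp.out).dvd_or_dvd h11 with h' | h'
    · have h12 : p ∣ 2 := by exact_mod_cast h'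
      exact hp2 ((Nat.prime_dvd_prime_iff_eq hp.out Nat.prime_two).1 h12)
    · exact hi h'
  -- the series
  have hZS : ∀ x ∈ Z, x ^ p = 1 := fun x hx => hVexp x hx.1
  have hZcen : ∀ x ∈ Z, ∀ y ∈ P, y * x * y⁻¹ = x := fun x hx y hy =>
    mul_inv_eq_iff_eq_mul.2 (hx.2 y hy)
  obtain ⟨E, hE⟩ := IsPGroup.iff_card.1 hPp
  have homE : om hreg E = P := le_antisymm (homle E) fun x hx => ⟨hx, by
    rw [← hE]; exact congrArg Subtype.val (pow_card_eq_one' (x := (⟨x, hx⟩ : P)))⟩
  have hom0 : om hreg 0 = ⊥ := by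
    refine eq_bot_iff.2 fun x hx => ?_
    have := hx.2
    rw [pow_zero, pow_one] at this
    exact this
  rcases hZgen with hcen | ⟨hcZ, hcV⟩
  · refine isNormal_of_series hS hF (fun i => om hreg i) E hom0 homE (fun i _ => homc i) ?_
    intro i _ y hy x hx
    refine ⟨P.mul_mem (P.inv_mem hx.1) (P.mul_mem (P.mul_mem hy hx.1) (P.inv_mem hy)), ?_⟩
    refine (hreg x hx.1 _ (P.mul_mem (P.mul_mem hy hx.1) (P.inv_mem hy)) i).1 ?_
    rw [conj_pow]
    have hxV : x ^ p ^ i ∈ V := ⟨P.pow_mem hx.1 _, by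
      rw [pow_one, ← pow_mul, ← pow_succ, hx.2]⟩
    exact (mul_inv_eq_iff_eq_mul.2 (hcen hxV y hy)).symm
  · have hZ' : ∀ a ∈ Z, a ≠ 1 → ∀ b ∈ Z, ∃ t : ℕ, b = a ^ t := by
      intro u hu hu1 w hw
      have hgen : Subgroup.zpowers u = Z := eq_of_le_of_card_le (Subgroup.zpowers_le.2 hu) (by
        rw [hcZ, Nat.card_zpowers, orderOf_eq_prime (hZS u hu) hu1])
      rw [← hgen] at hw
      obtain ⟨t, ht⟩ := Subgroup.mem_zpowers_iff.1 hw
      refine ⟨(t % p).toNat, ?_⟩
      rw [← ht, ← zpow_natCast,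
        Int.toNat_of_nonneg (Int.emod_nonneg _ (Int.natCast_ne_zero.2 hp.out.ne_zero))]
      exact zpow_eq_of_dvd (hZS u hu) (Int.dvd_self_sub_emod)
    let W : ℕ → Subgroup Ω := fun n =>
      if n % 2 = 0 then om hreg (n / 2) else pre hreg Z hZ' (n / 2)
    have hWc : ∀ n, F.StronglyClosed (W n) := by
      intro n
      by_cases hn : n % 2 = 0
      · simp only [W, hn, if_true]; exact homc _
      · simp only [W, hn, if_false]
        exact stronglyClosed_iff.2 ⟨fun x hx => hPS hx.1, fun R f hf x hxR hx =>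
          ⟨StronglyClosed.mem hP hf hxR hx.1, by
            rw [← hf.map_pow' hxR]
            exact StronglyClosed.mem hZc hf (R.pow_mem hxR _) hx.2⟩⟩
    refine isNormal_of_series hS hF W (2 * E) (by simp [W, hom0]) (by simp [W, homE])
      (fun i _ => hWc i) ?_
    intro n _ y hy x hx
    rcases Nat.even_or_odd' n with ⟨i, rfl | rfl⟩
    · have hW1 : W (2 * i + 1) = pre hreg Z hZ' i := by
        simp only [W, show (2 * i + 1) % 2 ≠ 0 by omega, if_false,
          show (2 * i + 1) / 2 = i by omega]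
      have hW2 : W (2 * i) = om hreg i := by simp [W]
      rw [hW1] at hx
      rw [hW2]
      refine ⟨P.mul_mem (P.inv_mem hx.1) (P.mul_mem (P.mul_mem hy hx.1) (P.inv_mem hy)), ?_⟩
      refine (hreg x hx.1 _ (P.mul_mem (P.mul_mem hy hx.1) (P.inv_mem hy)) i).1 ?_
      rw [conj_pow, hZcen _ hx.2 y hy]
    · have hW1 : W (2 * i + 1 + 1) = om hreg (i + 1) := by
        simp only [W, show (2 * i + 1 + 1) % 2 = 0 by omega, if_true,
          show (2 * i + 1 + 1) / 2 = i + 1 by omega]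
      have hW2 : W (2 * i + 1) = pre hreg Z hZ' i := by
        simp only [W, show (2 * i + 1) % 2 ≠ 0 by omega, if_false,
          show (2 * i + 1) / 2 = i by omega]
      rw [hW1] at hx
      rw [hW2]
      set M := pre hreg Z hZ' i
      set K := om hreg (i + 1)
      have hKS : K ≤ S := (homle _).trans hPS
      haveI := finite_of_le hKS
      have hle : M ≤ K := fun u hu => ⟨hu.1, by rw [pow_succ, pow_mul, hZS _ hu.2]⟩
      have hMn : ∀ u ∈ K, u ∈ M → y * u * y⁻¹ ∈ M := fun u _ hu =>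
        ⟨P.mul_mem (P.mul_mem hy hu.1) (P.inv_mem hy), by rw [conj_pow, hZcen _ hu.2 y hy]; exact hu.2⟩
      refine conj_mem_coset_of_pgroup
        (F := K) (M := M) hPp hy (fun u hu => homn _ y (hPS hy) u hu) hMn ?_ hx
      -- the index is at most `p`
      have hcount : (om hreg i).relIndex K ≤ p ^ 2 := by
        rw [← hcV, Subgroup.relIndex, Subgroup.index]
        refine Nat.card_le_card_of_injective (fun q : K ⧸ (om hreg i).subgroupOf K =>
          (⟨(q.out : Ω) ^ p ^ i, ⟨P.pow_mem q.out.2.1 _, by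
            rw [pow_one, ← pow_mul, ← pow_succ]; exact q.out.2.2⟩⟩ : V)) ?_
        intro q q' hqq
        have h1 := (hreg _ q.out.2.1 _ q'.out.2.1 i).1 (congrArg Subtype.val hqq)
        rw [← QuotientGroup.out_eq' q, ← QuotientGroup.out_eq' q', QuotientGroup.eq]
        exact ⟨P.mul_mem (P.inv_mem q.out.2.1) q'.out.2.1, h1⟩
      have hoM : om hreg i ≤ M := fun u hu => ⟨hu.1, by rw [hu.2]; exact one_mem _⟩
      have hmul := Subgroup.relIndex_mul_relIndex _ _ _ hoM hle
      haveI := finite_of_le (hle.trans hKS)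
      have hne0 : (om hreg i).relIndex M ≠ 0 := by
        rw [Subgroup.relIndex]; exact Subgroup.FiniteIndex.index_ne_zero
      by_cases heq : (om hreg i).relIndex M = 1
      · -- then powers avoid `Z`
        have hMo : M ≤ om hreg i := Subgroup.relIndex_eq_one.1 heq
        rw [heq, one_mul] at hmul
        have hKp : IsPGroup p K := isPGroup_of_le hS hKS
        obtain ⟨k, hk⟩ : ∃ k, M.relIndex K = p ^ k := by
          obtain ⟨l, hl⟩ := IsPGroup.iff_card.1 hKp
          obtain ⟨k, -, hk⟩ := (Nat.dvd_prime_pow hp.out).1 (hl ▸ (M.subgroupOf K).index_dvd_card)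
          exact ⟨k, hk⟩
        by_contra hgt
        have hk2 : p ^ 2 ≤ (om hreg i).relIndex K := by
          rw [← hmul, hk]
          rw [hk] at hgt
          refine Nat.pow_le_pow_right hp.out.pos ?_
          by_contra hlt
          exact hgt (le_of_le_of_eq (Nat.pow_le_pow_right hp.out.pos (by omega : k ≤ 1)) (pow_one p))
        -- the power map is then onto `V`, so it hits `Z`
        let ψ : K ⧸ (om hreg i).subgroupOf K → V := fun q =>
          ⟨(q.out : Ω) ^ p ^ i, ⟨P.pow_mem q.out.2.1 _, by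
            rw [pow_one, ← pow_mul, ← pow_succ]; exact q.out.2.2⟩⟩
        have hψi : Function.Injective ψ := by
          intro q q' hqq
          have h1 := (hreg _ q.out.2.1 _ q'.out.2.1 i).1 (congrArg Subtype.val hqq)
          rw [← QuotientGroup.out_eq' q, ← QuotientGroup.out_eq' q', QuotientGroup.eq]
          exact ⟨P.mul_mem (P.inv_mem q.out.2.1) q'.out.2.1, h1⟩
        haveI := Fintype.ofFinite (K ⧸ (om hreg i).subgroupOf K)
        haveI := Fintype.ofFinite V
        have hbij : Function.Bijective ψ := by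
          refine (Fintype.bijective_iff_injective_and_card ψ).2 ⟨hψi, ?_⟩
          rw [← Nat.card_eq_fintype_card, ← Nat.card_eq_fintype_card, hcV, ← Subgroup.index,
            ← Subgroup.relIndex]
          exact le_antisymm hcount hk2
        have hZne : ∃ u ∈ Z, u ≠ 1 := by
          by_contra hall
          push Not at hall
          have : Z = ⊥ := eq_bot_iff.2 fun u hu => hall u hu
          rw [this, Subgroup.card_bot] at hcZ
          exact hp.out.one_lt.ne hcZ
        obtain ⟨u, huZ, hu1⟩ := hZne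
        obtain ⟨q, hq⟩ := hbij.2 ⟨u, huZ.1⟩
        have hqu : (q.out : Ω) ^ p ^ i = u := congrArg Subtype.val hq
        have := hMo (show (q.out : Ω) ∈ M from ⟨q.out.2.1, hqu ▸ huZ⟩)
        exact hu1 (hqu ▸ this.2)
      · have hMp : ∃ k, (om hreg i).relIndex M = p ^ k := by
          obtain ⟨l, hl⟩ := IsPGroup.iff_card.1 (isPGroup_of_le hS (hle.trans hKS))
          obtain ⟨k, -, hk⟩ := (Nat.dvd_prime_pow hp.out).1
            (hl ▸ ((om hreg i).subgroupOf M).index_dvd_card)
          exact ⟨k, hk⟩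
        obtain ⟨k, hk⟩ := hMp
        rcases k with _ | k
        · exact absurd (by simpa using hk) heq
        have h1 : p * M.relIndex K ≤ p * p := by
          calc p * M.relIndex K ≤ (om hreg i).relIndex M * M.relIndex K :=
                Nat.mul_le_mul_right _ (hk ▸ Nat.le_self_pow k.succ_ne_zero p)
            _ ≤ p ^ 2 := hmul ▸ hcount
            _ = p * p := pow_two p
        exact Nat.le_of_mul_le_mul_left h1 hp.out.pos

end Cfsg.Lib.Fusion.MetacyclicNormal
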