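import Mathlib
import Cfsg.Prelude.Def_Transfer
import Cfsg.Agent.Lib.Fusion.MetacyclicNormal
import Cfsg.Agent.Lib.Transfer.OmegaCentralizer
import Cfsg.Agent.Lib.Transfer.PGroupFrattini
import Cfsg.Agent.Lib.Classical.DihedralIso

/-!
Strongly closed subgroups with derived and Frattini subgroup of prime order are normal, outside
the two exceptional shapes.
-/

set_option autoImplicit false

open scoped Classical

namespace Cfsg.Lib.Fusion.GenExtraspecial

open Cfsg Cfsg.FusionSystem Cfsg.Lib.Fusion.MetacyclicNormal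

variable {Ω : Type*} [Group Ω] {p : ℕ} [hp : Fact p.Prime]

/-- The normal form data of the exceptional situation: an abelian subgroup `A` of exponent `p`
of `P`, with `v ∈ A`, `g` moving `v` to `v * z` and covering `P` modulo `A`. -/
structure Shape (p : ℕ) (P A : Subgroup Ω) (g z v : Ω) : Prop where
  le : A ≤ P
  gmem : g ∈ P
  zmem : z ∈ A
  vmem : v ∈ A
  exp : ∀ a ∈ A, a ^ p = 1
  comm : ∀ a ∈ A, ∀ b ∈ A, Commute a b
  zord : orderOf z = p
  gz : g * z * g⁻¹ = z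
  gv : g * v * g⁻¹ = v * z
  act : ∀ a ∈ A, ∃ n : ℤ, g * a * g⁻¹ = a * z ^ n
  cover : ∀ x ∈ P, ∃ k : ℤ, g ^ (-k) * x ∈ A
  gpow : ∃ f : ℕ, g ^ p = z ^ f

variable {P A : Subgroup Ω} {g z v : Ω}

theorem Shape.zp (h : Shape p P A g z v) : z ^ p = 1 := h.exp z h.zmem

theorem Shape.zdvd (h : Shape p P A g z v) {i : ℤ} (hi : z ^ i = 1) : (p : ℤ) ∣ i := by
  have := orderOf_dvd_iff_zpow_eq_one.2 hi
  rwa [h.zord] at this

theorem Shape.conj_zpow' (h : Shape p P A g z v) {a : Ω} (ha : a ∈ A) {n : ℤ}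
    (hn : g * a * g⁻¹ = a * z ^ n) (k : ℤ) : g ^ k * a * (g ^ k)⁻¹ = a * z ^ (n * k) := by
  have hc : Commute g z := mul_inv_eq_iff_eq_mul.1 h.gz
  induction k using Int.induction_on with
  | zero => simp
  | succ k ih =>
    calc g ^ ((k : ℤ) + 1) * a * (g ^ ((k : ℤ) + 1))⁻¹
        = g * (g ^ (k : ℤ) * a * (g ^ (k : ℤ))⁻¹) * g⁻¹ := by group
      _ = (g * a * g⁻¹) * (g * z * g⁻¹) ^ (n * k) := by rw [ih, conj_zpow]; group
      _ = a * z ^ (n * (k + 1)) := by rw [hn, h.gz, mul_assoc, ← zpow_add]; ring_nf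
  | pred k ih =>
    have h1 : g⁻¹ * a * g = a * z ^ (-n) := by
      calc g⁻¹ * a * g = g⁻¹ * ((g * a * g⁻¹) * z ^ (-n)) * g := by rw [hn]; group
        _ = a * (g⁻¹ * z ^ (-n) * g) := by group
        _ = a * z ^ (-n) := by rw [(hc.zpow_right (-n)).inv_left.eq]; group
    calc g ^ (-(k : ℤ) - 1) * a * (g ^ (-(k : ℤ) - 1))⁻¹
        = g⁻¹ * (g ^ (-(k : ℤ)) * a * (g ^ (-(k : ℤ)))⁻¹) * g := by group
      _ = (g⁻¹ * a * g) * (g⁻¹ * z ^ (n * -k) * g) := by rw [ih]; group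
      _ = a * z ^ (n * (-k - 1)) := by
        rw [h1, (hc.zpow_right _).inv_left.eq, inv_mul_cancel_right, mul_assoc, ← zpow_add]
        ring_nf

theorem Shape.mem_of_commute (h : Shape p P A g z v) {x : Ω} (hx : x ∈ P) (hxv : Commute x v) :
    x ∈ A := by
  obtain ⟨k, hk⟩ := h.cover x hx
  set a := g ^ (-k) * x with ha
  have h1 : g ^ k * v * (g ^ k)⁻¹ = v * z ^ ((1 : ℤ) * k) :=
    h.conj_zpow' h.vmem (by rw [zpow_one]; exact h.gv) k
  have h2 : x * v * x⁻¹ = v * z ^ k := by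
    have hxe : x = g ^ k * a := by rw [ha]; group
    calc x * v * x⁻¹ = g ^ k * (a * v * a⁻¹) * (g ^ k)⁻¹ := by rw [hxe]; group
      _ = v * z ^ k := by rw [mul_inv_eq_iff_eq_mul.2 (h.comm a hk v h.vmem), h1, one_mul]
  rw [mul_inv_eq_iff_eq_mul.2 hxv, left_eq_mul] at h2
  obtain ⟨c, rfl⟩ := h.zdvd h2
  obtain ⟨f, hf⟩ := h.gpow
  have hgp : g ^ ((p : ℤ) * c) ∈ A := by
    rw [zpow_mul, zpow_natCast, hf]
    exact A.zpow_mem (A.pow_mem h.zmem _) c
  have := A.mul_mem hgp hk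
  rwa [ha, ← mul_assoc, ← zpow_add, add_neg_cancel, zpow_zero, one_mul] at this

/-- For odd `p` and `g ^ p ≠ 1`, the elements of order `p` lie in `A`. -/
theorem Shape.mem_of_pow (h : Shape p P A g z v) (hp2 : p ≠ 2) {f : ℕ} (hf : g ^ p = z ^ f)
    (hfp : ¬ p ∣ f) {x : Ω} (hx : x ∈ P) (hxp : x ^ p = 1) : x ∈ A := by
  obtain ⟨k, hk⟩ := h.cover x hx
  set a := g ^ (-k) * x with ha
  have hxe : x = g ^ k * a := by rw [ha]; group
  obtain ⟨n, hn⟩ := h.act a hk
  have hgk := h.conj_zpow' hk hn k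
  have hcgz : Commute g z := mul_inv_eq_iff_eq_mul.1 h.gz
  have hc : a * g ^ k = g ^ k * a * (z ^ (-(n * k))) := by
    have h1 : g ^ k * a = a * z ^ (n * k) * g ^ k := by rw [← hgk]; group
    calc a * g ^ k = a * z ^ (n * k) * (z ^ (-(n * k)) * g ^ k) := by group
      _ = a * z ^ (n * k) * (g ^ k * z ^ (-(n * k))) := by rw [(hcgz.zpow_zpow k (-(n * k))).eq]
      _ = a * z ^ (n * k) * g ^ k * z ^ (-(n * k)) := by rw [← mul_assoc]
      _ = _ := by rw [← h1]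
  have hpow := Cfsg.Lib.Transfer.mul_pow_class_two (x := g ^ k) (y := a) hc
    (hcgz.zpow_zpow k _).symm (h.comm _ (A.zpow_mem h.zmem _) a hk) p
  obtain ⟨d, hd⟩ := (Nat.Prime.dvd_choose_self hp.out two_ne_zero
    (lt_of_le_of_ne hp.out.two_le (Ne.symm hp2)))
  have hzc : (z ^ (-(n * k))) ^ p.choose 2 = 1 := by
    rw [hd, pow_mul, h.exp _ (A.zpow_mem h.zmem _), one_pow]
  rw [← hxe, hxp, h.exp a hk, hzc, mul_one, mul_one] at hpow
  have h2 : z ^ ((f : ℤ) * k) = 1 := by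
    rw [zpow_mul, zpow_natCast, ← hf, hpow, ← zpow_natCast, ← zpow_natCast, ← zpow_mul, ← zpow_mul,
      mul_comm]
  rcases (Nat.prime_iff_prime_int.1 hp.out).dvd_or_dvd (h.zdvd h2) with hd' | hd'
  · exact absurd (by exact_mod_cast hd') hfp
  · obtain ⟨c, rfl⟩ := hd'
    rw [hxe]
    refine A.mul_mem ?_ hk
    rw [zpow_mul, zpow_natCast, hf]
    exact A.zpow_mem (A.pow_mem h.zmem _) c

/-- The product decomposition when `g ^ p = 1`. -/
theorem Shape.exists_decomp (h : Shape p P A g z v) [Finite P] :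
    ∃ A₀ : Subgroup Ω, A₀ ≤ A ∧
      (∀ a ∈ A₀, ∀ x ∈ Subgroup.closure ({g, v} : Set Ω), Commute x a) ∧
      Subgroup.closure ({g, v} : Set Ω) ≤ P ∧
      (∀ x ∈ P, ∃ e ∈ Subgroup.closure ({g, v} : Set Ω), ∃ a ∈ A₀, x = e * a) ∧
      z ∈ Subgroup.closure ({g, v} : Set Ω) ∧
      (∀ x ∈ Subgroup.closure ({g, v} : Set Ω), ∃ i j l : ℤ, x = g ^ i * v ^ j * z ^ l) ∧
      Disjoint (Subgroup.closure ({g, v} : Set Ω)) A₀ := by
  set E := Subgroup.closure ({g, v} : Set Ω) with hE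
  have hgE : g ∈ E := Subgroup.subset_closure (by simp)
  have hvE : v ∈ E := Subgroup.subset_closure (by simp)
  have hEP : E ≤ P := by
    rw [hE, Subgroup.closure_le]
    rintro x (rfl | rfl)
    · exact h.gmem
    · exact h.le h.vmem
  have hcgz : Commute g z := mul_inv_eq_iff_eq_mul.1 h.gz
  have hcvz : Commute v z := h.comm v h.vmem z h.zmem
  have hzE : z ∈ E := by
    have : z = v⁻¹ * (g * v * g⁻¹) := by rw [h.gv]; group
    rw [this]
    exact E.mul_mem (E.inv_mem hvE) (E.mul_mem (E.mul_mem hgE hvE) (E.inv_mem hgE))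
  have hform : ∀ x ∈ E, ∃ i j l : ℤ, x = g ^ i * v ^ j * z ^ l := by
    have hswap : ∀ i j : ℤ, v ^ j * g ^ i = g ^ i * v ^ j * z ^ (-(i * j)) := by
      intro i j
      have h1 : g ^ i * v * (g ^ i)⁻¹ = v * z ^ ((1 : ℤ) * i) :=
        h.conj_zpow' h.vmem (by rw [zpow_one]; exact h.gv) i
      have h2 : g ^ i * v ^ j * (g ^ i)⁻¹ = v ^ j * z ^ (i * j) := by
        rw [← conj_zpow, h1, one_mul, (hcvz.zpow_right i).mul_zpow, ← zpow_mul]
      have h3 : g ^ i * v ^ j = v ^ j * z ^ (i * j) * g ^ i := by rw [← h2]; group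
      rw [h3, mul_assoc, (hcgz.zpow_zpow i (-(i * j))).eq]
      group
    intro x hx
    induction hx using Subgroup.closure_induction with
    | mem y hy =>
      rcases hy with rfl | rfl
      · exact ⟨1, 0, 0, by simp⟩
      · exact ⟨0, 1, 0, by simp⟩
    | one => exact ⟨0, 0, 0, by simp⟩
    | mul x y _ _ hx hy =>
      obtain ⟨i, j, l, rfl⟩ := hx
      obtain ⟨i', j', l', rfl⟩ := hy
      refine ⟨i + i', j + j', -(i' * j) + l + l', ?_⟩
      calc g ^ i * v ^ j * z ^ l * (g ^ i' * v ^ j' * z ^ l')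
          = g ^ i * v ^ j * (z ^ l * g ^ i') * (v ^ j' * z ^ l') := by group
        _ = g ^ i * (v ^ j * g ^ i') * (z ^ l * v ^ j') * z ^ l' := by
          rw [← (hcgz.zpow_zpow i' l).eq]; group
        _ = g ^ i * (g ^ i' * v ^ j * z ^ (-(i' * j))) * (v ^ j' * z ^ l) * z ^ l' := by
          rw [hswap, (hcvz.zpow_zpow j' l).eq]
        _ = g ^ i * g ^ i' * v ^ j * (z ^ (-(i' * j)) * v ^ j') * z ^ l * z ^ l' := by group
        _ = g ^ i * g ^ i' * v ^ j * (v ^ j' * z ^ (-(i' * j))) * z ^ l * z ^ l' := by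
          rw [(hcvz.zpow_zpow j' (-(i' * j))).eq]
        _ = _ := by rw [zpow_add, zpow_add, zpow_add, zpow_add]; group
    | inv x _ hx =>
      obtain ⟨i, j, l, rfl⟩ := hx
      refine ⟨-i, -j, -l + -(-i * -j), ?_⟩
      calc (g ^ i * v ^ j * z ^ l)⁻¹ = z ^ (-l) * (v ^ (-j) * g ^ (-i)) := by group
        _ = z ^ (-l) * (g ^ (-i) * v ^ (-j)) * z ^ (-(-i * -j)) := by rw [hswap]; group
        _ = (g ^ (-i) * v ^ (-j)) * z ^ (-l) * z ^ (-(-i * -j)) := by
          rw [((hcgz.zpow_zpow (-i) (-l)).mul_left (hcvz.zpow_zpow (-j) (-l))).eq]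
        _ = _ := by rw [zpow_add]; group
  -- the central part of `A`
  set K := A ⊓ Subgroup.centralizer ({g} : Set Ω) with hK
  have hKA : K ≤ A := inf_le_left
  have hzK : z ∈ K := ⟨h.zmem, Subgroup.mem_centralizer_singleton_iff.2 hcgz.symm.eq⟩
  haveI : Finite A := Finite.of_injective _ (Subgroup.inclusion_injective h.le)
  haveI : Finite (Set.univ : Set (Subgroup A)) := Subtype.finite
  obtain ⟨B, hB, hBmax⟩ := Set.Finite.exists_maximalFor id
    {B : Subgroup A | B.map A.subtype ≤ K ∧ z ∉ B.map A.subtype} (Set.toFinite _) ⟨⊥, by simp, by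
      simp only [Subgroup.map_bot, Subgroup.mem_bot]
      intro e
      have := h.zord
      rw [e, orderOf_one] at this
      exact hp.out.one_lt.ne this⟩
  set A₀ := B.map A.subtype with hA₀
  have hA₀A : A₀ ≤ A := Subgroup.map_subtype_le B
  have hdec : ∀ k ∈ K, ∃ l : ℤ, ∃ a ∈ A₀, k = z ^ l * a := by
    intro k hk
    by_cases hkB : k ∈ A₀
    · exact ⟨0, k, hkB, by simp⟩
    set kA : A := ⟨k, hKA hk⟩
    have hle : (B ⊔ Subgroup.zpowers kA).map A.subtype ≤ K := by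
      rw [Subgroup.map_sup, MonoidHom.map_zpowers]
      exact sup_le hB.1 (Subgroup.zpowers_le.2 hk)
    have hz : z ∈ (B ⊔ Subgroup.zpowers kA).map A.subtype := by
      by_contra hz
      apply hkB
      have h1 : B ⊔ Subgroup.zpowers kA ≤ B := hBmax ⟨hle, hz⟩ le_sup_left
      exact ⟨kA, h1 (Subgroup.mem_sup_right (Subgroup.mem_zpowers _)), rfl⟩
    haveI : (Subgroup.zpowers kA).Normal := ⟨fun x hx y => by
      have : y * x = x * y := Subtype.ext (h.comm _ y.2 _ x.2).eq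
      rwa [this, mul_inv_cancel_right]⟩
    obtain ⟨y, hy, hye⟩ := hz
    rw [SetLike.mem_coe, Subgroup.mem_sup_of_normal_right] at hy
    obtain ⟨b, hb, c, hc, rfl⟩ := hy
    obtain ⟨t, rfl⟩ := Subgroup.mem_zpowers_iff.1 hc
    have hzb : z = (b : Ω) * k ^ t := by rw [← hye]; simp [kA]
    have ht : ¬ (p : ℤ) ∣ t := fun hd => by
      apply hB.2
      rw [zpow_eq_of_dvd (h.exp k (hKA hk)) (i := t) (j := 0) (by simpa using hd), zpow_zero,
        mul_one] at hzb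
      exact ⟨b, hb, hzb.symm⟩
    obtain ⟨x₀, y₀, hxy⟩ := ((Nat.prime_iff_prime_int.1 hp.out).coprime_iff_not_dvd).2 ht
    refine ⟨y₀, ((b : Ω) ^ y₀)⁻¹, A₀.inv_mem (A₀.zpow_mem ⟨b, hb, rfl⟩ _), ?_⟩
    rw [hzb, (h.comm _ b.2 _ (A.zpow_mem (hKA hk) t)).mul_zpow, ← zpow_mul,
      zpow_eq_of_dvd (h.exp k (hKA hk)) (i := t * y₀) (j := 1) ⟨-x₀, by linear_combination hxy⟩,
      zpow_one, (h.comm _ (A.zpow_mem b.2 y₀) _ (hKA hk)).eq]
    group
  have hA₀c : ∀ a ∈ A₀, ∀ x ∈ E, Commute x a := by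
    intro a ha x hx
    induction hx using Subgroup.closure_induction with
    | mem y hy =>
      rcases hy with rfl | rfl
      · exact (Subgroup.mem_centralizer_singleton_iff.1 (hB.1 ha).2).symm
      · exact h.comm _ h.vmem _ (hA₀A ha)
    | one => exact Commute.one_left a
    | mul x y _ _ hx hy => exact hx.mul_left hy
    | inv x _ hx => exact hx.inv_left
  refine ⟨A₀, hA₀A, hA₀c, hEP, fun x hx => ?_, hzE, hform, ?_⟩
  · obtain ⟨k, hk⟩ := h.cover x hx
    set a := g ^ (-k) * x with ha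
    obtain ⟨n, hn⟩ := h.act a hk
    have hb : v ^ (-n) * a ∈ K := by
      refine ⟨A.mul_mem (A.zpow_mem h.vmem _) hk, Subgroup.mem_centralizer_singleton_iff.2 ?_⟩
      have h1 : g * (v ^ (-n) * a) * g⁻¹ = v ^ (-n) * a := by
        calc g * (v ^ (-n) * a) * g⁻¹ = (g * v * g⁻¹) ^ (-n) * (g * a * g⁻¹) := by
              rw [conj_zpow]; group
          _ = v ^ (-n) * (z ^ (-n) * a) * z ^ n := by rw [h.gv, hcvz.mul_zpow, hn]; group
          _ = v ^ (-n) * a := by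
            rw [(h.comm _ (A.zpow_mem h.zmem _) a hk).eq]; group
      exact ((mul_inv_eq_iff_eq_mul.1 h1)).symm
    obtain ⟨l, b, hb', hbe⟩ := hdec _ hb
    refine ⟨g ^ k * v ^ n * z ^ l, E.mul_mem (E.mul_mem (E.zpow_mem hgE _) (E.zpow_mem hvE _))
      (E.zpow_mem hzE _), b, hb', ?_⟩
    rw [mul_assoc, ← hbe, ha]
    group
  · rw [Subgroup.disjoint_def]
    intro x hxE hxA
    obtain ⟨i, j, l, rfl⟩ := hform x hxE
    have hcv : Commute (g ^ i * v ^ j * z ^ l) v := h.comm _ (hA₀A hxA) _ h.vmem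
    have hc1 : Commute (g ^ i) v := by
      have h5 : g ^ i = (g ^ i * v ^ j * z ^ l) * ((z ^ l)⁻¹ * (v ^ j)⁻¹) := by group
      rw [h5]
      exact hcv.mul_left (((hcvz.zpow_right l).symm.inv_left).mul_left
        (((Commute.refl v).zpow_left j).inv_left))
    have hi : (p : ℤ) ∣ i := by
      have h6 := h.conj_zpow' h.vmem (n := 1) (by rw [zpow_one]; exact h.gv) i
      rw [mul_inv_eq_iff_eq_mul.2 hc1, left_eq_mul, one_mul] at h6
      exact h.zdvd h6
    have hgiA : g ^ i ∈ A ∧ Commute g (g ^ i) := by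
      obtain ⟨c, rfl⟩ := hi
      refine ⟨?_, (Commute.refl g).zpow_right _⟩
      obtain ⟨f, hf⟩ := h.gpow
      rw [zpow_mul, zpow_natCast, hf]
      exact A.zpow_mem (A.pow_mem h.zmem _) c
    have hcg : Commute g (g ^ i * v ^ j * z ^ l) :=
      (hA₀c _ hxA g hgE)
    have hcgv : Commute g (v ^ j) := by
      have h7 : v ^ j = (g ^ i)⁻¹ * (g ^ i * v ^ j * z ^ l) * (z ^ l)⁻¹ := by group
      rw [h7]
      exact (hgiA.2.inv_right.mul_right hcg).mul_right (hcgz.zpow_right l).inv_right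
    have hj : (p : ℤ) ∣ j := by
      have h8 : g * v ^ j * g⁻¹ = v ^ j * z ^ j := by rw [← conj_zpow, h.gv, hcvz.mul_zpow]
      rw [mul_inv_eq_iff_eq_mul.2 hcgv.eq, left_eq_mul] at h8
      exact h.zdvd h8
    obtain ⟨f, hf⟩ := h.gpow
    obtain ⟨c, rfl⟩ := hi
    have hvj : v ^ j = 1 := by
      obtain ⟨c', rfl⟩ := hj
      rw [zpow_mul, zpow_natCast, h.exp v h.vmem, one_zpow]
    have hxz : g ^ ((p : ℤ) * c) * v ^ j * z ^ l = z ^ ((f : ℤ) * c + l) := by
      rw [hvj, mul_one, zpow_mul, zpow_natCast, hf, zpow_add, zpow_mul z (f : ℤ), zpow_natCast]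
    rw [hxz] at hxA ⊢
    by_contra hne
    have hd : ¬ (p : ℤ) ∣ (f : ℤ) * c + l := fun hd => hne (by
      rw [zpow_eq_of_dvd h.zp (i := _) (j := 0) (by simpa using hd), zpow_zero])
    obtain ⟨x₀, y₀, hxy⟩ := ((Nat.prime_iff_prime_int.1 hp.out).coprime_iff_not_dvd).2 hd
    apply hB.2
    have := A₀.zpow_mem hxA y₀
    rwa [← zpow_mul, zpow_eq_of_dvd h.zp (i := _) (j := 1) ⟨-x₀, by linear_combination hxy⟩,
      zpow_one] at this

end Cfsg.Lib.Fusion.GenExtraspecial
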