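import Mathlib
import Cfsg.Agent.Lib.Fusion.GenExtraspecial
import Cfsg.Agent.Lib.Transfer.Critical

/-!
The two exceptional shapes.
-/

set_option autoImplicit false

open scoped Classical

namespace Cfsg.Lib.Fusion.GenExtraspecial

open Cfsg Cfsg.Lib.Fusion.MetacyclicNormal

universe u

variable {Ω : Type u} [Group Ω] {p : ℕ} [hp : Fact p.Prime] {P A : Subgroup Ω} {g z v : Ω}

theorem Shape.exists_product (h : Shape p P A g z v) [Finite P] :
    ∃ (E : Subgroup Ω) (A₁ : Type) (_ : CommGroup A₁), E = Subgroup.closure ({g, v} : Set Ω) ∧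
      (∀ a : A₁, a ^ p = 1) ∧ Nonempty (↥P ≃* ↥E × A₁) ∧
      (∀ x ∈ E, ∃ i j l : ℤ, x = g ^ i * v ^ j * z ^ l) ∧ z ∈ E ∧ E ≤ P := by
  obtain ⟨A₀, hA, hc, hEP, hsurj, hzE, hform, hdisj⟩ := h.exists_decomp
  set E := Subgroup.closure ({g, v} : Set Ω)
  have hA₀P : A₀ ≤ P := hA.trans h.le
  haveI : Finite A₀ := Finite.of_injective _ (Subgroup.inclusion_injective hA₀P)
  letI : CommGroup A₀ :=
    { (inferInstance : Group A₀) with
      mul_comm := fun a b => Subtype.ext (h.comm _ (hA a.2) _ (hA b.2)).eq }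
  let e : Shrink.{0} A₀ ≃* A₀ := Shrink.mulEquiv
  refine ⟨E, Shrink.{0} A₀, inferInstance, rfl, fun a => ?_, ⟨?_⟩, hform, hzE, hEP⟩
  · apply e.injective
    rw [map_pow, map_one]
    exact Subtype.ext (h.exp _ (hA (e a).2))
  · let f : ↥E × A₀ →* ↥P :=
      { toFun := fun x => ⟨(x.1 : Ω) * x.2, P.mul_mem (hEP x.1.2) (hA₀P x.2.2)⟩
        map_one' := Subtype.ext (by simp)
        map_mul' := fun x y => Subtype.ext (by
          show ((x.1 : Ω) * y.1) * ((x.2 : Ω) * y.2) = (x.1 : Ω) * x.2 * ((y.1 : Ω) * y.2)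
          rw [mul_assoc, ← mul_assoc (y.1 : Ω), (hc _ x.2.2 _ y.1.2).eq]
          group) }
    have hbij : Function.Bijective f := by
      constructor
      · rw [injective_iff_map_eq_one]
        rintro ⟨x, a⟩ hxa
        have h1 : (x : Ω) * a = 1 := congrArg Subtype.val hxa
        have h2 : (x : Ω) = (a : Ω)⁻¹ := eq_inv_of_mul_eq_one_left h1
        have h3 : (x : Ω) = 1 :=
          Subgroup.disjoint_def.1 hdisj x.2 (h2 ▸ A₀.inv_mem a.2)
        rw [h3, one_mul] at h1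
        exact Prod.ext (Subtype.ext h3) (Subtype.ext h1)
      · intro x
        obtain ⟨y, hy, a, ha, e'⟩ := hsurj x x.2
        exact ⟨(⟨y, hy⟩, ⟨a, ha⟩), Subtype.ext e'.symm⟩
    exact (MulEquiv.ofBijective f hbij).symm.trans (MulEquiv.prodCongr (MulEquiv.refl _) e.symm)

theorem Shape.iso_dihedral (h : Shape 2 P A g z v) (hg : g ^ 2 = 1) [Finite P] :
    ∃ (A₁ : Type) (_ : CommGroup A₁), (∀ a : A₁, a ^ 2 = 1) ∧
      Nonempty (↥P ≃* DihedralGroup 4 × A₁) := by
  obtain ⟨E, A₁, hA₁, hEdef, hexp, ⟨φ⟩, hform, hzE, hEP⟩ := h.exists_product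
  refine ⟨A₁, hA₁, hexp, ?_⟩
  have hgE : g ∈ E := hEdef ▸ Subgroup.subset_closure (by simp)
  have hvE : v ∈ E := hEdef ▸ Subgroup.subset_closure (by simp)
  set r : E := ⟨g * v, E.mul_mem hgE hvE⟩
  set s : E := ⟨g, hgE⟩
  have hg' : g⁻¹ = g := inv_eq_of_mul_eq_one_left (by rw [← pow_two, hg])
  have hv' : v⁻¹ = v := inv_eq_of_mul_eq_one_left (by rw [← pow_two, h.exp v h.vmem])
  have hr2 : (g * v) ^ 2 = z := by
    calc (g * v) ^ 2 = (g * v * g⁻¹) * (g ^ 2 * v) := by rw [pow_two, pow_two]; group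
      _ = v * z * v := by rw [h.gv, hg, one_mul]
      _ = z := by
        rw [mul_assoc, (h.comm z h.zmem v h.vmem).eq, ← mul_assoc, ← pow_two, h.exp v h.vmem,
          one_mul]
  have hr4 : orderOf r = 4 := by
    rw [← Subgroup.orderOf_coe]
    show orderOf (g * v) = 2 ^ (1 + 1)
    refine orderOf_eq_prime_pow ?_ ?_
    · rw [pow_one, hr2]
      intro e
      have := h.zord
      rw [e, orderOf_one] at this
      omega
    · rw [pow_succ, pow_one, pow_mul, hr2, h.zp]
  have hzR : (⟨z, hzE⟩ : E) ∈ Subgroup.zpowers r :=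
    Subgroup.mem_zpowers_iff.2 ⟨2, Subtype.ext (by
      rw [SubgroupClass.coe_zpow, show (2 : ℤ) = ((2 : ℕ) : ℤ) from rfl, zpow_natCast]
      exact hr2)⟩
  have hsr : s * r * s = r⁻¹ := Subtype.ext (by
    show g * (g * v) * g = (g * v)⁻¹
    rw [mul_inv_rev, hv', hg', ← mul_assoc, ← pow_two, hg, one_mul])
  have hss : s * s = 1 := Subtype.ext (by show g * g = 1; rw [← pow_two, hg])
  have hinv : ∀ x ∈ Subgroup.zpowers r, s * x * s = x⁻¹ := by
    intro x hx
    obtain ⟨k, rfl⟩ := Subgroup.mem_zpowers_iff.1 hx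
    have hsi : s⁻¹ = s := inv_eq_of_mul_eq_one_left hss
    calc s * r ^ k * s = s * r ^ k * s⁻¹ := by rw [hsi]
      _ = (r⁻¹) ^ k := by rw [← conj_zpow, hsi, hsr]
      _ = (r ^ k)⁻¹ := inv_zpow r k
  have hsR : s ∉ Subgroup.zpowers r := by
    intro hs
    obtain ⟨k, hk⟩ := Subgroup.mem_zpowers_iff.1 hs
    have h1 : s * r = r * s := by
      rw [← hk]; exact ((Commute.refl r).zpow_left k).eq
    have h2 : r = r⁻¹ := by rw [← hsr, h1, mul_assoc, hss, mul_one]
    have h3 : r ^ 2 = 1 := by rw [pow_two]; exact mul_eq_one_iff_eq_inv.2 h2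
    have := Nat.le_of_dvd two_pos (orderOf_dvd_of_pow_eq_one h3)
    omega
  have hgen : ∀ x : E, x ∈ Subgroup.zpowers r ∨ s * x ∈ Subgroup.zpowers r := by
    rintro ⟨x, hx⟩
    obtain ⟨i, j, l, rfl⟩ := hform x hx
    obtain ⟨a, rfl | rfl⟩ := Int.even_or_odd' i <;> obtain ⟨b, rfl | rfl⟩ := Int.even_or_odd' j
    all_goals
      simp only [_root_.zpow_add, zpow_mul, zpow_one,
        show g ^ (2 : ℤ) = 1 from by rw [show (2 : ℤ) = ((2 : ℕ) : ℤ) from rfl, zpow_natCast, hg],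
        show v ^ (2 : ℤ) = 1 from by
          rw [show (2 : ℤ) = ((2 : ℕ) : ℤ) from rfl, zpow_natCast, h.exp v h.vmem],
        one_zpow, one_mul, mul_one]
    · refine Or.inl ?_
      convert Subgroup.zpow_mem _ hzR l using 1
      exact Subtype.ext (by simp)
    · refine Or.inr ?_
      have := Subgroup.mul_mem _ (Subgroup.mem_zpowers r) (Subgroup.zpow_mem _ hzR l)
      convert this using 1
      exact Subtype.ext (by simp [r, s, mul_assoc])
    · refine Or.inr ?_
      have := Subgroup.zpow_mem _ hzR l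
      convert this using 1
      exact Subtype.ext (by
        show g * (g * z ^ l) = _
        rw [← mul_assoc, ← pow_two, hg, one_mul]; simp)
    · refine Or.inl ?_
      have := Subgroup.mul_mem _ (Subgroup.mem_zpowers r) (Subgroup.zpow_mem _ hzR l)
      convert this using 1
      exact Subtype.ext (by simp [r, mul_assoc])
  obtain ⟨ψ⟩ := Cfsg.Lib.Classical.nonempty_mulEquiv_dihedral (Subgroup.zpowers r)
    (by rw [Nat.card_zpowers, hr4]) (by norm_num : (4 : ℕ) ≠ 0) s hss hsR hinv hgen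
  exact ⟨φ.trans (MulEquiv.prodCongr ψ (MulEquiv.refl _))⟩

theorem Shape.iso_extraspecial (h : Shape p P A g z v) (hp2 : p ≠ 2) (hg : g ^ p = 1) [Finite P] :
    ∃ (E : Type) (_ : Group E) (A₁ : Type) (_ : CommGroup A₁), Cfsg.IsExtraspecial p E ∧
      Nat.card E = p ^ 3 ∧ Monoid.exponent E = p ∧ (∀ a : A₁, a ^ p = 1) ∧
      Nonempty (↥P ≃* E × A₁) := by
  obtain ⟨E, A₁, hA₁, hEdef, hexp, ⟨φ⟩, hform, hzE, hEP⟩ := h.exists_product
  haveI : Finite E := Finite.of_injective _ (Subgroup.inclusion_injective hEP)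
  let e : Shrink.{0} E ≃* E := Shrink.mulEquiv
  refine ⟨Shrink.{0} E, inferInstance, A₁, hA₁, ?_⟩
  have hgE : g ∈ E := hEdef ▸ Subgroup.subset_closure (by simp)
  have hvE : v ∈ E := hEdef ▸ Subgroup.subset_closure (by simp)
  have hcgz : Commute g z := mul_inv_eq_iff_eq_mul.1 h.gz
  have hcvz : Commute v z := h.comm v h.vmem z h.zmem
  have hconj : ∀ i : ℤ, g ^ i * v * (g ^ i)⁻¹ = v * z ^ i := fun i => by
    have := h.conj_zpow' h.vmem (n := 1) (by rw [zpow_one]; exact h.gv) i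
    rwa [one_mul] at this
  -- uniqueness of the normal form
  have huniq : ∀ i j l : ℤ, g ^ i * v ^ j * z ^ l = 1 →
      (p : ℤ) ∣ i ∧ (p : ℤ) ∣ j ∧ (p : ℤ) ∣ l := by
    intro i j l heq
    have hi : (p : ℤ) ∣ i := by
      have hc : Commute (g ^ i) v := by
        have h5 : g ^ i = (z ^ l)⁻¹ * (v ^ j)⁻¹ := by
          rw [← mul_inv_rev]
          exact eq_inv_of_mul_eq_one_left (by rw [← mul_assoc]; exact heq)
        rw [h5]
        exact (hcvz.zpow_right l).symm.inv_left.mul_left (((Commute.refl v).zpow_left j).inv_left)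
      have h6 := hconj i
      rw [mul_inv_eq_iff_eq_mul.2 hc, left_eq_mul] at h6
      exact h.zdvd h6
    have hgi : g ^ i = 1 := by
      rw [zpow_eq_of_dvd hg (i := i) (j := 0) (by simpa using hi), zpow_zero]
    rw [hgi, one_mul] at heq
    have hj : (p : ℤ) ∣ j := by
      have h8 : g * v ^ j * g⁻¹ = v ^ j * z ^ j := by rw [← conj_zpow, h.gv, hcvz.mul_zpow]
      have h9 : Commute g (v ^ j) := by
        rw [eq_inv_of_mul_eq_one_left heq]
        exact (hcgz.zpow_right l).inv_right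
      rw [mul_inv_eq_iff_eq_mul.2 h9.eq, left_eq_mul] at h8
      exact h.zdvd h8
    refine ⟨hi, hj, h.zdvd ?_⟩
    rwa [zpow_eq_of_dvd (h.exp v h.vmem) (i := j) (j := 0) (by simpa using hj), zpow_zero,
      one_mul] at heq
  have hgp' : (⟨g, hgE⟩ : E) ^ p = 1 := Subtype.ext (by simpa using hg)
  -- exponent
  have hpow : ∀ x : E, x ^ p = 1 := by
    rintro ⟨x, hx⟩
    obtain ⟨i, j, l, rfl⟩ := hform x hx
    refine Subtype.ext ?_
    show (g ^ i * v ^ j * z ^ l) ^ p = 1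
    have hcz : Commute (g ^ i * v ^ j) (z ^ l) :=
      (hcgz.zpow_zpow i l).mul_left (hcvz.zpow_zpow j l)
    rw [hcz.mul_pow, h.exp _ (A.zpow_mem h.zmem l), mul_one]
    have hgv : g ^ i * v ^ j * (g ^ i)⁻¹ = v ^ j * z ^ (i * j) := by
      rw [← conj_zpow, hconj, (hcvz.zpow_right i).mul_zpow, ← zpow_mul]
    have hc : v ^ j * g ^ i = g ^ i * v ^ j * z ^ (-(i * j)) := by
      have h3 : g ^ i * v ^ j = v ^ j * z ^ (i * j) * g ^ i := by rw [← hgv]; group
      rw [h3, mul_assoc, (hcgz.zpow_zpow i (-(i * j))).eq]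
      group
    rw [Cfsg.Lib.Transfer.mul_pow_class_two hc (hcgz.zpow_zpow i _).symm
      (hcvz.zpow_zpow j _).symm p, h.exp _ (A.zpow_mem h.vmem j)]
    obtain ⟨d, hd⟩ := Nat.Prime.dvd_choose_self hp.out two_ne_zero
      (lt_of_le_of_ne hp.out.two_le (Ne.symm hp2))
    rw [hd, pow_mul, h.exp _ (A.zpow_mem h.zmem _), one_pow, mul_one, mul_one, ← zpow_natCast,
      ← zpow_mul, mul_comm, zpow_mul, zpow_natCast, hg, one_zpow]
  have hz1 : (⟨z, hzE⟩ : E) ≠ 1 := fun e' => by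
    have := h.zord
    rw [show z = 1 from congrArg Subtype.val e', orderOf_one] at this
    exact hp.out.one_lt.ne this
  -- the centre
  have hcen : Subgroup.center E = Subgroup.zpowers ⟨z, hzE⟩ := by
    refine le_antisymm (fun x hx => ?_) (Subgroup.zpowers_le.2 ?_)
    · obtain ⟨x, hxE⟩ := x
      obtain ⟨i, j, l, rfl⟩ := hform x hxE
      have h1 := congrArg Subtype.val (Subgroup.mem_center_iff.1 hx ⟨v, hvE⟩)
      have h2 := congrArg Subtype.val (Subgroup.mem_center_iff.1 hx ⟨g, hgE⟩)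
      change v * (g ^ i * v ^ j * z ^ l) = g ^ i * v ^ j * z ^ l * v at h1
      change g * (g ^ i * v ^ j * z ^ l) = g ^ i * v ^ j * z ^ l * g at h2
      have hi : (p : ℤ) ∣ i := by
        have hc : Commute (g ^ i) v := by
          have h5 : g ^ i = (g ^ i * v ^ j * z ^ l) * ((z ^ l)⁻¹ * (v ^ j)⁻¹) := by group
          rw [h5]
          exact (show Commute (g ^ i * v ^ j * z ^ l) v from h1.symm).mul_left
            ((hcvz.zpow_right l).symm.inv_left.mul_left (((Commute.refl v).zpow_left j).inv_left))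
        have h6 := hconj i
        rw [mul_inv_eq_iff_eq_mul.2 hc, left_eq_mul] at h6
        exact h.zdvd h6
      have hgi : g ^ i = 1 := by
        rw [zpow_eq_of_dvd hg (i := i) (j := 0) (by simpa using hi), zpow_zero]
      simp only [hgi, one_mul] at h2
      have hj : (p : ℤ) ∣ j := by
        have h8 : g * v ^ j * g⁻¹ = v ^ j * z ^ j := by rw [← conj_zpow, h.gv, hcvz.mul_zpow]
        have h9 : Commute g (v ^ j) := by
          have h7 : v ^ j = (v ^ j * z ^ l) * (z ^ l)⁻¹ := by group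
          rw [h7]
          exact (show Commute g (v ^ j * z ^ l) from h2).mul_right (hcgz.zpow_right l).inv_right
        rw [mul_inv_eq_iff_eq_mul.2 h9.eq, left_eq_mul] at h8
        exact h.zdvd h8
      refine Subgroup.mem_zpowers_iff.2 ⟨l, Subtype.ext ?_⟩
      rw [SubgroupClass.coe_zpow]
      show z ^ l = g ^ i * v ^ j * z ^ l
      rw [hgi, zpow_eq_of_dvd (h.exp v h.vmem) (i := j) (j := 0) (by simpa using hj), zpow_zero,
        one_mul, one_mul]
    · refine Subgroup.mem_center_iff.2 fun x => Subtype.ext ?_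
      obtain ⟨x, hxE⟩ := x
      obtain ⟨i, j, l, rfl⟩ := hform x hxE
      exact (((hcgz.zpow_left i).mul_left (hcvz.zpow_left j)).mul_left
        ((Commute.refl z).zpow_left l)).eq
  have hcardZ : Nat.card (Subgroup.center E) = p := by
    rw [hcen, Nat.card_zpowers, orderOf_eq_prime (hpow _) hz1]
  have hEp : IsPGroup p E := fun x => ⟨1, by rw [pow_one]; exact hpow x⟩
  have hcomm : commutator E = Subgroup.center E := by
    refine le_antisymm ?_ ?_
    · rw [commutator_def, Subgroup.commutator_le]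
      intro x _ y _
      obtain ⟨x, hxE⟩ := x
      obtain ⟨y, hyE⟩ := y
      obtain ⟨i, j, l, rfl⟩ := hform x hxE
      obtain ⟨i', j', l', rfl⟩ := hform y hyE
      rw [hcen, commutatorElement_def]
      set G' : E := ⟨g, hgE⟩
      set V' : E := ⟨v, hvE⟩
      set Z' : E := ⟨z, hzE⟩
      haveI : (Subgroup.zpowers Z').Normal := hcen ▸ inferInstance
      rw [← QuotientGroup.eq_one_iff]
      have hcom : Commute (QuotientGroup.mk G' : E ⧸ Subgroup.zpowers Z') (QuotientGroup.mk V') := by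
        have h1 : G' * V' = V' * Z' * G' := Subtype.ext (by
          show g * v = v * z * g
          rw [← h.gv]; group)
        show (QuotientGroup.mk G' : E ⧸ Subgroup.zpowers Z') * QuotientGroup.mk V' = _
        rw [← QuotientGroup.mk_mul, h1, QuotientGroup.mk_mul, QuotientGroup.mk_mul,
          (QuotientGroup.eq_one_iff Z').2 (Subgroup.mem_zpowers _), mul_one]
      have hX : ∀ (a b c : ℤ) (hm : g ^ a * v ^ b * z ^ c ∈ E),
          (QuotientGroup.mk (⟨_, hm⟩ : E) : E ⧸ Subgroup.zpowers Z') =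
            QuotientGroup.mk G' ^ a * QuotientGroup.mk V' ^ b := by
        intro a b c hm
        rw [show (⟨_, hm⟩ : E) = G' ^ a * V' ^ b * Z' ^ c from Subtype.ext (by simp [G', V', Z']),
          QuotientGroup.mk_mul, QuotientGroup.mk_mul, QuotientGroup.mk_zpow,
          QuotientGroup.mk_zpow, QuotientGroup.mk_zpow,
          (QuotientGroup.eq_one_iff Z').2 (Subgroup.mem_zpowers _), one_zpow, mul_one]
      simp only [QuotientGroup.mk_mul, QuotientGroup.mk_inv, hX]
      set G'' := (QuotientGroup.mk G' : E ⧸ Subgroup.zpowers Z')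
      set V'' := (QuotientGroup.mk V' : E ⧸ Subgroup.zpowers Z')
      have hcc : Commute (G'' ^ i * V'' ^ j) (G'' ^ i' * V'' ^ j') :=
        (((Commute.refl G'').zpow_zpow i i').mul_right (hcom.zpow_zpow i j')).mul_left
          ((hcom.symm.zpow_zpow j i').mul_right ((Commute.refl V'').zpow_zpow j j'))
      rw [hcc.eq]
      group
    · rw [hcen, Subgroup.zpowers_le]
      have h1 : (⟨z, hzE⟩ : E) =
          (⟨v, hvE⟩ : E)⁻¹ * ⟨g, hgE⟩ * (⟨v, hvE⟩ : E)⁻¹⁻¹ * (⟨g, hgE⟩ : E)⁻¹ :=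
        Subtype.ext (by
          show z = v⁻¹ * g * v⁻¹⁻¹ * g⁻¹
          calc z = v⁻¹ * (g * v * g⁻¹) := by rw [h.gv]; group
            _ = v⁻¹ * g * v⁻¹⁻¹ * g⁻¹ := by group)
      rw [h1]
      exact Subgroup.commutator_mem_commutator (Subgroup.mem_top _) (Subgroup.mem_top _)
  have hfrat : frattini E = Subgroup.center E := by
    refine le_antisymm ?_ (hcomm ▸ Cfsg.Lib.Transfer.commutator_le_frattini hEp)
    exact Cfsg.Lib.Transfer.frattini_le_of_quotient (p := p) hcomm.le fun x => by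
      rw [hpow x]; exact one_mem _
  have hcard : Nat.card E = p ^ 3 := by
    let F : Fin p × Fin p × Fin p → E := fun t =>
      ⟨g ^ ((t.1 : ℕ) : ℤ) * v ^ ((t.2.1 : ℕ) : ℤ) * z ^ ((t.2.2 : ℕ) : ℤ),
        E.mul_mem (E.mul_mem (E.zpow_mem hgE _) (E.zpow_mem hvE _)) (E.zpow_mem hzE _)⟩
    have hred : ∀ i : ℤ, ∃ a : Fin p, (p : ℤ) ∣ i - ((a : ℕ) : ℤ) := fun i => by
      have hpos : (0 : ℤ) < p := by exact_mod_cast hp.out.pos
      refine ⟨⟨(i % p).toNat, ?_⟩, ?_⟩
      · have := Int.emod_lt_of_pos i hpos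
        have := Int.emod_nonneg i hpos.ne'
        omega
      · show (p : ℤ) ∣ i - ((i % p).toNat : ℤ)
        rw [Int.toNat_of_nonneg (Int.emod_nonneg i hpos.ne')]
        exact Int.dvd_self_sub_emod
    have hF : Function.Bijective F := by
      constructor
      · rintro ⟨a, b, c⟩ ⟨a', b', c'⟩ hFeq
        have h1 : g ^ ((a : ℕ) : ℤ) * v ^ ((b : ℕ) : ℤ) * z ^ ((c : ℕ) : ℤ) =
            g ^ ((a' : ℕ) : ℤ) * v ^ ((b' : ℕ) : ℤ) * z ^ ((c' : ℕ) : ℤ) := congrArg Subtype.val hFeq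
        -- conjugate by the common parts
        have key : g ^ (((a : ℕ) : ℤ) - (a' : ℕ)) * v ^ (((b : ℕ) : ℤ) - (b' : ℕ)) *
            z ^ (((c : ℕ) : ℤ) - (c' : ℕ)) = 1 := by
          rw [sub_eq_neg_add ((a : ℕ) : ℤ), zpow_add, zpow_sub, zpow_sub]
          have hcz1 : Commute (v ^ ((b' : ℕ) : ℤ))⁻¹ (z ^ ((c : ℕ) : ℤ)) :=
            (hcvz.zpow_zpow _ _).inv_left
          calc g ^ (-((a' : ℕ) : ℤ)) * g ^ ((a : ℕ) : ℤ) *
                (v ^ ((b : ℕ) : ℤ) * (v ^ ((b' : ℕ) : ℤ))⁻¹) *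
                (z ^ ((c : ℕ) : ℤ) * (z ^ ((c' : ℕ) : ℤ))⁻¹)
              = g ^ (-((a' : ℕ) : ℤ)) * g ^ ((a : ℕ) : ℤ) * v ^ ((b : ℕ) : ℤ) *
                ((v ^ ((b' : ℕ) : ℤ))⁻¹ * z ^ ((c : ℕ) : ℤ)) * (z ^ ((c' : ℕ) : ℤ))⁻¹ := by group
            _ = g ^ (-((a' : ℕ) : ℤ)) * (g ^ ((a : ℕ) : ℤ) * v ^ ((b : ℕ) : ℤ) *
                z ^ ((c : ℕ) : ℤ)) * ((v ^ ((b' : ℕ) : ℤ))⁻¹ * (z ^ ((c' : ℕ) : ℤ))⁻¹) := by
              rw [hcz1.eq]; group
            _ = g ^ (-((a' : ℕ) : ℤ)) * (g ^ ((a' : ℕ) : ℤ) * v ^ ((b' : ℕ) : ℤ) *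
                z ^ ((c' : ℕ) : ℤ)) * ((z ^ ((c' : ℕ) : ℤ))⁻¹ * (v ^ ((b' : ℕ) : ℤ))⁻¹) := by
              rw [h1, ((hcvz.zpow_zpow _ _).inv_inv).eq]
            _ = 1 := by group
        obtain ⟨hi, hj, hl⟩ := huniq _ _ _ key
        have hred' : ∀ a a' : Fin p, (p : ℤ) ∣ ((a : ℕ) : ℤ) - (a' : ℕ) → a = a' := by
          intro a a' hd
          apply Fin.ext
          have := Int.eq_zero_of_abs_lt_dvd hd (by
            have := a.2; have := a'.2
            rw [abs_lt]; constructor <;> omega)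
          omega
        rw [hred' _ _ hi, hred' _ _ hj, hred' _ _ hl]
      · rintro ⟨x, hx⟩
        obtain ⟨i, j, l, rfl⟩ := hform x hx
        obtain ⟨a, ha⟩ := hred i
        obtain ⟨b, hb⟩ := hred j
        obtain ⟨c, hc⟩ := hred l
        refine ⟨(a, b, c), Subtype.ext ?_⟩
        show g ^ ((a : ℕ) : ℤ) * v ^ ((b : ℕ) : ℤ) * z ^ ((c : ℕ) : ℤ) = g ^ i * v ^ j * z ^ l
        rw [zpow_eq_of_dvd hg ha, zpow_eq_of_dvd (h.exp v h.vmem) hb, zpow_eq_of_dvd h.zp hc]
    rw [← Nat.card_congr (Equiv.ofBijective F hF)]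
    simp [pow_succ, mul_assoc]
  refine ⟨⟨⟨hEp.of_equiv e.symm, ?_, ?_⟩, ?_⟩, ?_, ?_, hexp,
    ⟨φ.trans (MulEquiv.prodCongr e.symm (MulEquiv.refl _))⟩⟩
  all_goals
    have hmapc : (Subgroup.center E).map e.symm.toMonoidHom = Subgroup.center (Shrink.{0} E) := by
      ext x
      simp only [Subgroup.mem_map, Subgroup.mem_center_iff]
      constructor
      · rintro ⟨y, hy, rfl⟩ w
        apply e.injective
        simpa using hy (e w)
      · intro hx
        exact ⟨e x, fun w => e.symm.injective (by simpa using hx (e.symm w)), by simp⟩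
  · rw [← hmapc, ← hfrat]
    refine le_antisymm ?_ ?_
    · intro x hx
      have := frattini_le_comap_frattini_of_surjective (φ := e.toMonoidHom) e.surjective hx
      exact ⟨e x, this, by simp⟩
    · rw [Subgroup.map_le_iff_le_comap]
      exact frattini_le_comap_frattini_of_surjective (φ := e.symm.toMonoidHom) e.symm.surjective
  · rw [← hmapc, ← hcomm, commutator_def, commutator_def, Subgroup.map_commutator,
      Subgroup.map_top_of_surjective _ e.symm.surjective]
  · rw [← hmapc, Nat.card_congr (Subgroup.equivMapOfInjective _ _ e.symm.injective).toEquiv.symm,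
      hcardZ]
  · rw [Nat.card_congr e.toEquiv, hcard]
  · rw [Monoid.exponent_eq_of_mulEquiv e]
    refine ((Nat.dvd_prime hp.out).1 (Monoid.exponent_dvd_of_forall_pow_eq_one hpow)).resolve_left
      fun h1 => hz1 ?_
    have := Monoid.pow_exponent_eq_one (⟨z, hzE⟩ : E)
    rwa [h1, pow_one] at this

end Cfsg.Lib.Fusion.GenExtraspecial
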