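import Mathlib
import Cfsg.Agent.Lib.Fusion.GenExtraspecialShapes

/-!
A strongly closed subgroup with derived and Frattini subgroup of order `p` is normal in a saturated
fusion system, outside the two exceptional shapes.
-/

set_option autoImplicit false

open scoped Classical

namespace Cfsg.Lib.Fusion.GenExtraspecial

open Cfsg Cfsg.FusionSystem Cfsg.Lib.Fusion.MetacyclicNormal

variable {Ω : Type*} [Group Ω] {S : Subgroup Ω} {F : FusionSystem S} {p : ℕ} [hp : Fact p.Prime]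
  {P A : Subgroup Ω} {g z v : Ω}

/-- For odd `p`, the `p`-th power of `g ^ k * a`. -/
theorem Shape.pow_eq (h : Shape p P A g z v) (hp2 : p ≠ 2) (k : ℕ) {a : Ω} (ha : a ∈ A) :
    (g ^ k * a) ^ p = (g ^ p) ^ k := by
  obtain ⟨n, hn⟩ := h.act a ha
  have hgk := h.conj_zpow' ha hn k
  rw [zpow_natCast] at hgk
  have hcgz : Commute g z := mul_inv_eq_iff_eq_mul.1 h.gz
  have hc : a * g ^ k = g ^ k * a * (z ^ (-(n * k))) := by
    have h1 : g ^ k * a = a * z ^ (n * k) * g ^ k := by rw [← hgk]; group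
    calc a * g ^ k = a * z ^ (n * k) * (z ^ (-(n * k)) * g ^ k) := by group
      _ = a * z ^ (n * k) * (g ^ k * z ^ (-(n * k))) := by
        rw [((hcgz.zpow_right (-(n * k))).pow_left k).eq]
      _ = a * z ^ (n * k) * g ^ k * z ^ (-(n * k)) := by rw [← mul_assoc]
      _ = _ := by rw [← h1]
  rw [Cfsg.Lib.Transfer.mul_pow_class_two hc ((hcgz.zpow_right _).pow_left k).symm
    (h.comm _ (A.zpow_mem h.zmem _) a ha) p]
  obtain ⟨d, hd⟩ := (Nat.Prime.dvd_choose_self hp.out two_ne_zero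
    (lt_of_le_of_ne hp.out.two_le (Ne.symm hp2)))
  rw [h.exp a ha, hd, pow_mul (z ^ (-(n * k))), h.exp _ (A.zpow_mem h.zmem _), one_pow, mul_one,
    mul_one, ← pow_mul, ← pow_mul, mul_comm]

/-- The contradiction in the remaining case: a self-map of `A` sending `v` to `z`. -/
theorem false_of_selfmap [Finite S] (hS : IsPGroup p S) (hF : F.IsSaturated p)
    (hP : F.StronglyClosed P) (h : Shape p P A g z v) (hp2 : p ≠ 2) {f : ℕ} (hf : g ^ p = z ^ f)
    (hfp : ¬ p ∣ f) {α : Ω → Ω} (hα : Mor F A α) (hαA : ∀ x ∈ A, α x ∈ A) (hαv : α v = z) :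
    False := by
  have hAS : A ≤ S := h.le.trans hP.1
  have hgS : g ∈ S := hP.1 h.gmem
  haveI := finite_of_le hAS
  have hAn : S ≤ normalizerIn S A := fun s hs => mem_normalizerIn_of_conj hAS hs fun x hx =>
    h.mem_of_pow hp2 hf hfp (StronglyClosed.conj_mem hP hs (h.le hx))
      (by rw [conj_pow, h.exp x hx]; group)
  have hfn : F.IsFullyNormalized A := ⟨hAS, fun Q _ => by
    have := finite_of_le (normalizerIn_le (S := S) (P := A))
    exact Nat.card_le_card_of_injective _ (Subgroup.inclusion_injective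
      ((normalizerIn_le (S := S) (P := Q)).trans hAn))⟩
  have hcgz : Commute g z := mul_inv_eq_iff_eq_mul.1 h.gz
  have hzv : Commute z v := h.comm z h.zmem v h.vmem
  have hvp : v ^ p = 1 := h.exp v h.vmem
  have hzp : z ^ p = 1 := h.zp
  have hz1 : z ≠ 1 := fun e => by
    have := h.zord
    rw [e, orderOf_one] at this
    exact hp.out.one_lt.ne this
  -- the inverse of `α`
  obtain ⟨β, hβ, hβ1, hβ2, -⟩ := hα.exists_inv
  have himg : img A α = A := hα.img_eq_of_card_le hAS hαA le_rfl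
  rw [himg] at hβ hβ2
  have hβA : ∀ x ∈ A, β x ∈ A := fun x hx => (hβ2 x hx).2
  have hαβ : ∀ x ∈ A, α (β x) = x := fun x hx => (hβ2 x hx).1
  have hβz : β z = v := by rw [← hαv, hβ1 v h.vmem]
  have hgA : ∀ x ∈ A, g * x * g⁻¹ ∈ A := fun x hx => by
    obtain ⟨n, hn⟩ := h.act x hx
    rw [hn]; exact A.mul_mem hx (A.zpow_mem h.zmem n)
  -- conjugation by `g`, and its conjugate under `α`
  let τ : Ω → Ω := fun x => g * x * g⁻¹
  let σ : Ω → Ω := fun x => β (g * α x * g⁻¹)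
  have hτ : Mor F A τ := mor_conj hAS hgS
  have hσA : ∀ x ∈ A, σ x ∈ A := fun x hx => hβA _ (hgA _ (hαA x hx))
  have hσ : Mor F A σ := hβ.comp (hτ.comp hα hαA) fun x hx => hgA _ (hαA x hx)
  have hσact : ∀ a ∈ A, ∀ n : ℤ, g * α a * g⁻¹ = α a * z ^ n → σ a = a * v ^ n := by
    intro a ha n hn
    show β (g * α a * g⁻¹) = _
    rw [hn, hβ.map_mul (hαA a ha) (A.zpow_mem h.zmem n), hβ.map_zpow' h.zmem, hβz, hβ1 a ha]
  have hσv : σ v = v := by
    rw [hσact v h.vmem 0 (by rw [hαv, h.gz, zpow_zero, mul_one]), zpow_zero, mul_one]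
  obtain ⟨n₀, hn₀⟩ := h.act _ (hαA z h.zmem)
  by_cases hn₀p : (p : ℤ) ∣ n₀
  · -- `σ` and `τ` generate a `p`-group but do not commute
    have hσz : σ z = z := by
      rw [hσact z h.zmem n₀ hn₀, zpow_eq_of_dvd hvp (i := n₀) (j := 0) (by simpa using hn₀p),
        zpow_zero, mul_one]
    obtain ⟨t, htG, hte⟩ := hτ.exists_aut (hτ.img_eq_of_card_le hAS hgA le_rfl)
    obtain ⟨s, hsG, hse⟩ := hσ.exists_aut (hσ.img_eq_of_card_le hAS hσA le_rfl)
    obtain ⟨a', haG, hae⟩ := hα.exists_aut himg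
    have hconj : s = a'⁻¹ * t * a' := by
      refine aut_ext fun x hx => ?_
      have h1 : autFun (a' * s) x = autFun (t * a') x := by
        rw [autFun_mul _ _ hx, autFun_mul _ _ hx, hse x hx, hae _ (hσA x hx), hae x hx,
          hte _ (hαA x hx)]
        show α (β (g * α x * g⁻¹)) = g * α x * g⁻¹
        exact hαβ _ (hgA _ (hαA x hx))
      have h2 : autFun (a'⁻¹ * (a' * s)) x = autFun (a'⁻¹ * (t * a')) x := by
        rw [autFun_mul a'⁻¹ (a' * s) hx, autFun_mul a'⁻¹ (t * a') hx, h1]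
      simpa [mul_assoc] using h2
    -- the stabilizer of the chain
    let W : ℕ → Subgroup Ω := fun i =>
      if i = 0 then ⊥ else if i = 1 then Subgroup.zpowers z
        else if i = 2 then Subgroup.zpowers z ⊔ Subgroup.zpowers v else A
    let K : Subgroup (MulAut A) :=
      { carrier := {γ | γ ∈ F.autGroup A ∧ autFun γ z = z ∧
          (∃ i : ℤ, autFun γ v = v * z ^ i) ∧
          ∀ x ∈ A, x⁻¹ * autFun γ x ∈ Subgroup.zpowers z ⊔ Subgroup.zpowers v}
        one_mem' := ⟨Subgroup.one_mem _, by simp [autFun_apply _ h.zmem],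
          ⟨0, by simp [autFun_apply _ h.vmem]⟩, fun x hx => by simp [autFun_apply _ hx]⟩
        mul_mem' := by
          rintro γ δ ⟨hγ, hγz, ⟨i, hγv⟩, hγx⟩ ⟨hδ, hδz, ⟨j, hδv⟩, hδx⟩
          refine ⟨mul_mem hγ hδ, by rw [autFun_mul _ _ h.zmem, hδz, hγz], ⟨i + j, ?_⟩,
            fun x hx => ?_⟩
          · have hmor := (mem_autGroup_iff hAS).1 hγ
            rw [autFun_mul _ _ h.vmem, hδv, hmor.map_mul h.vmem (A.zpow_mem h.zmem j),
              hmor.map_zpow' h.zmem, hγz, hγv, mul_assoc, ← zpow_add]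
          · have := mul_mem (hδx x hx) (hγx _ (autFun_mem δ hx))
            rw [← autFun_mul γ δ hx] at this
            simpa [mul_assoc] using this
        inv_mem' := by
          rintro γ ⟨hγ, hγz, ⟨i, hγv⟩, hγx⟩
          have hmor := (mem_autGroup_iff hAS).1 hγ
          have hcanc : ∀ x ∈ A, autFun γ⁻¹ (autFun γ x) = x := fun x hx => by
            rw [← autFun_mul γ⁻¹ γ hx, inv_mul_cancel, autFun_apply _ hx]; rfl
          have hmor' := (mem_autGroup_iff hAS).1 (inv_mem hγ)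
          have hiz : autFun γ⁻¹ z = z := by
            have := hcanc z h.zmem
            rwa [hγz] at this
          refine ⟨inv_mem hγ, hiz, ⟨-i, ?_⟩, fun x hx => ?_⟩
          · have h1 := hcanc v h.vmem
            rw [hγv, hmor'.map_mul h.vmem (A.zpow_mem h.zmem i), hmor'.map_zpow' h.zmem, hiz] at h1
            rw [zpow_neg, ← h1, mul_inv_cancel_right, h1]
          · have h1 := inv_mem (hγx _ (autFun_mem γ⁻¹ hx))
            rw [← autFun_mul γ γ⁻¹ hx, mul_inv_cancel, autFun_apply (1 : MulAut A) hx] at h1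
            simpa using h1 }
    have hKp : IsPGroup p K := by
      refine isPGroup_of_stabilizes hS hAS W 3 (by simp [W]) (fun x hx => by simpa [W] using hx) ?_
      intro γ hγ i hi x hx hxW
      have hmor := (mem_autGroup_iff hAS).1 hγ.1
      obtain ⟨hγG, hγz, ⟨k, hγv⟩, hγx⟩ := hγ
      rcases (show i = 0 ∨ i = 1 ∨ i = 2 by omega) with rfl | rfl | rfl
      · simp only [W, Nat.zero_add, one_ne_zero, if_false, if_true] at hxW ⊢
        obtain ⟨c, rfl⟩ := Subgroup.mem_zpowers_iff.1 hxW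
        rw [hmor.map_zpow' h.zmem, hγz, inv_mul_cancel]
        exact one_mem _
      · simp only [W, show (1 + 1 : ℕ) = 2 from rfl, show (2 : ℕ) ≠ 0 by omega,
          show (2 : ℕ) ≠ 1 by omega, one_ne_zero, if_false, if_true] at hxW ⊢
        let M : Subgroup Ω :=
          { carrier := {x | x ∈ A ∧ x⁻¹ * autFun γ x ∈ Subgroup.zpowers z}
            one_mem' := ⟨A.one_mem, by rw [hmor.map_one]; simp⟩
            mul_mem' := by
              rintro x y ⟨hx, hx'⟩ ⟨hy, hy'⟩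
              refine ⟨A.mul_mem hx hy, ?_⟩
              have h1 := mul_mem hx' hy'
              have h2 : (x * y)⁻¹ * autFun γ (x * y) =
                  x⁻¹ * autFun γ x * (y⁻¹ * autFun γ y) := by
                rw [hmor.map_mul hx hy, mul_inv_rev]
                have hc := h.comm _ (A.mul_mem (A.inv_mem hx) (autFun_mem γ hx)) _ (A.inv_mem hy)
                calc y⁻¹ * x⁻¹ * (autFun γ x * autFun γ y)
                    = y⁻¹ * (x⁻¹ * autFun γ x) * autFun γ y := by group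
                  _ = (x⁻¹ * autFun γ x) * y⁻¹ * autFun γ y := by rw [hc.eq]
                  _ = _ := by group
              rwa [h2]
            inv_mem' := by
              rintro x ⟨hx, hx'⟩
              refine ⟨A.inv_mem hx, ?_⟩
              have h1 := inv_mem hx'
              have hc := h.comm _ (A.inv_mem (A.mul_mem (A.inv_mem hx) (autFun_mem γ hx))) _ hx
              have h2 : x⁻¹⁻¹ * autFun γ x⁻¹ = (x⁻¹ * autFun γ x)⁻¹ := by
                rw [hmor.map_inv hx]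
                calc x⁻¹⁻¹ * (autFun γ x)⁻¹ = x * (x⁻¹ * autFun γ x)⁻¹ * x⁻¹ := by group
                  _ = _ := by rw [← hc.eq]; group
              rwa [h2] }
        have hle : Subgroup.zpowers z ⊔ Subgroup.zpowers v ≤ M := by
          refine sup_le (Subgroup.zpowers_le.2 ⟨h.zmem, ?_⟩) (Subgroup.zpowers_le.2 ⟨h.vmem, ?_⟩)
          · rw [hγz, inv_mul_cancel]; exact one_mem _
          · rw [hγv, inv_mul_cancel_left]
            exact Subgroup.zpow_mem _ (Subgroup.mem_zpowers z) k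
        exact (hle hxW).2
      · simpa [W] using hγx x hx
    have htK : t ∈ K := by
      refine ⟨htG, by rw [hte z h.zmem]; exact h.gz, ⟨1, by rw [hte v h.vmem, zpow_one]; exact h.gv⟩,
        fun x hx => ?_⟩
      obtain ⟨n, hn⟩ := h.act x hx
      rw [hte x hx, show τ x = x * z ^ n from hn, inv_mul_cancel_left]
      exact Subgroup.mem_sup_left (Subgroup.zpow_mem _ (Subgroup.mem_zpowers z) n)
    have hsK : s ∈ K := by
      refine ⟨hsG, by rw [hse z h.zmem, hσz], ⟨0, by rw [hse v h.vmem, hσv, zpow_zero, mul_one]⟩,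
        fun x hx => ?_⟩
      obtain ⟨n, hn⟩ := h.act _ (hαA x hx)
      rw [hse x hx, hσact x hx n hn, inv_mul_cancel_left]
      exact Subgroup.mem_sup_right (Subgroup.zpow_mem _ (Subgroup.mem_zpowers v) n)
    obtain ⟨γ, hγ, hγK⟩ := exists_conj_le_autInducedBy (P := A)
      (fullyNormalized_axiom hS hF hfn).2 (A := K) (fun x hx => hx.1) hKp
    have hkey : ∀ δ ∈ F.autGroup A, δ * t * δ⁻¹ ∈ autInducedBy S A →
        δ * t * δ⁻¹ ∈ Subgroup.zpowers t := by
      intro δ hδ hmem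
      have hmor := (mem_autGroup_iff hAS).1 hδ
      obtain ⟨c, hc, hce⟩ := mem_autInducedBy_iff.1 hmem
      have hcx : ∀ x ∈ A, autFun δ (g * x * g⁻¹) = c * autFun δ x * c⁻¹ := by
        intro x hx
        rw [← hce _ (autFun_mem δ hx), ← autFun_mul (δ * t * δ⁻¹) δ hx, inv_mul_cancel_right,
          autFun_mul δ t hx, hte x hx]
      obtain ⟨e, he, hee⟩ := (isReceptive_iff.1 (receptive_of_fullyNormalized hS hF hfn)).2 A _
        hmor (img_autFun δ)
      have hgE : g ∈ extN S A (autFun δ) := ⟨hAn hgS, c, hc, hcx⟩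
      obtain ⟨k, hk⟩ := h.cover (e g) (StronglyClosed.mem hP he hgE h.gmem)
      refine Subgroup.mem_zpowers_iff.2 ⟨k, aut_ext fun x hx => ?_⟩
      have htk : ∀ k : ℤ, ∀ y ∈ A, autFun (t ^ k) y = g ^ k * y * (g ^ k)⁻¹ := by
        intro k
        induction k using Int.induction_on with
        | zero => intro y hy; simp [autFun_apply _ hy]
        | succ k ih =>
          intro y hy
          rw [zpow_add_one, autFun_mul _ _ hy, hte y hy, ih _ (hgA y hy)]
          show g ^ (k : ℤ) * (g * y * g⁻¹) * _ = _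
          group
        | pred k ih =>
          intro y hy
          have hy' := autFun_mem t⁻¹ hy
          have h1 : τ (autFun t⁻¹ y) = y := by
            rw [← hte _ hy', ← autFun_mul t t⁻¹ hy, mul_inv_cancel, autFun_apply _ hy]; rfl
          rw [zpow_sub_one, autFun_mul _ _ hy, ih _ hy']
          conv_rhs => rw [← h1]
          show _ = _ * (g * autFun t⁻¹ y * g⁻¹) * _
          group
      obtain ⟨y, hy, rfl⟩ : ∃ y ∈ A, autFun δ y = x :=
        ⟨autFun δ⁻¹ x, autFun_mem _ hx, by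
          rw [← autFun_mul δ δ⁻¹ hx, mul_inv_cancel, autFun_apply _ hx]; rfl⟩
      have hu := h.comm _ hk _ (autFun_mem δ hy)
      rw [htk k _ (autFun_mem δ hy), hce _ (autFun_mem δ hy), ← hcx y hy,
        ← hee _ (hgA y hy), he.map_conj hgE (hmor.le_extN hy), hee y hy]
      set u := g ^ (-k) * e g with hu'
      calc g ^ k * autFun δ y * (g ^ k)⁻¹ = g ^ k * (u * autFun δ y * u⁻¹) * (g ^ k)⁻¹ := by
            rw [hu.eq, mul_inv_cancel_right]
        _ = e g * autFun δ y * (e g)⁻¹ := by rw [hu']; group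
    have ht' := hkey γ hγ (hγK t htK)
    have hs' : γ * s * γ⁻¹ ∈ Subgroup.zpowers t := by
      have h1 : γ * s * γ⁻¹ = γ * a'⁻¹ * t * (γ * a'⁻¹)⁻¹ := by rw [hconj]; group
      rw [h1]
      exact hkey _ (mul_mem hγ (inv_mem haG)) (h1 ▸ hγK s hsK)
    obtain ⟨i, hi⟩ := Subgroup.mem_zpowers_iff.1 ht'
    obtain ⟨j, hj⟩ := Subgroup.mem_zpowers_iff.1 hs'
    have hst : s * t = t * s := by
      have h1 : (γ * s * γ⁻¹) * (γ * t * γ⁻¹) = (γ * t * γ⁻¹) * (γ * s * γ⁻¹) := by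
        rw [← hi, ← hj, ← zpow_add, ← zpow_add, add_comm]
      have h2 : γ * (s * t) * γ⁻¹ = γ * (t * s) * γ⁻¹ := by
        calc γ * (s * t) * γ⁻¹ = (γ * s * γ⁻¹) * (γ * t * γ⁻¹) := by group
          _ = (γ * t * γ⁻¹) * (γ * s * γ⁻¹) := h1
          _ = γ * (t * s) * γ⁻¹ := by group
      exact mul_left_cancel (mul_right_cancel h2)
    -- evaluate at the preimage of `v`
    have ha₀ := hβA v h.vmem
    obtain ⟨n, hn⟩ := h.act _ ha₀
    have hσa : σ (β v) = β v * v := by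
      rw [hσact _ ha₀ 1 (by rw [hαβ v h.vmem, zpow_one]; exact h.gv), zpow_one]
    have h3 := congrArg (fun u => autFun u (β v)) hst
    simp only [autFun_mul _ _ ha₀, hte _ ha₀, hse _ ha₀] at h3
    rw [hse _ (hgA _ ha₀), hte _ (hσA _ ha₀)] at h3
    change σ (g * β v * g⁻¹) = g * σ (β v) * g⁻¹ at h3
    rw [hn, hσ.map_mul ha₀ (A.zpow_mem h.zmem n), hσ.map_zpow' h.zmem, hσz, hσa] at h3
    have h4 : g * (β v * v) * g⁻¹ = β v * v * z ^ n * z := by
      calc g * (β v * v) * g⁻¹ = (g * β v * g⁻¹) * (g * v * g⁻¹) := by group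
        _ = β v * (z ^ n * v) * z := by rw [hn, h.gv]; group
        _ = β v * v * z ^ n * z := by rw [(hzv.zpow_left n).eq]; group
    rw [h4, left_eq_mul] at h3
    exact hz1 h3
  · -- the torus
    obtain ⟨x₀, y₀, hxy⟩ := ((Nat.prime_iff_prime_int.1 hp.out).coprime_iff_not_dvd).2 hn₀p
    have hσz : σ z = z * v ^ n₀ := hσact z h.zmem n₀ hn₀
    have hform : ∀ a ∈ A, ∃ i j : ℤ, ∃ k ∈ A, g * k * g⁻¹ = k ∧ σ k = k ∧
        a = z ^ i * v ^ j * k := by
      intro a ha
      obtain ⟨j, hj⟩ := h.act a ha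
      obtain ⟨m', hm'⟩ := h.act _ (hαA a ha)
      have hk : z ^ (-(m' * y₀)) * v ^ (-j) * a ∈ A :=
        A.mul_mem (A.mul_mem (A.zpow_mem h.zmem _) (A.zpow_mem h.vmem _)) ha
      refine ⟨m' * y₀, j, _, hk, ?_, ?_, ?_⟩
      · calc g * (z ^ (-(m' * y₀)) * v ^ (-j) * a) * g⁻¹
            = (g * z * g⁻¹) ^ (-(m' * y₀)) * (g * v * g⁻¹) ^ (-j) * (g * a * g⁻¹) := by
              rw [conj_zpow, conj_zpow]; group
          _ = z ^ (-(m' * y₀)) * v ^ (-j) * (z ^ (-j) * a) * z ^ j := by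
              rw [h.gz, h.gv, hzv.symm.mul_zpow, hj]; group
          _ = _ := by
              rw [(h.comm _ (A.zpow_mem h.zmem _) a ha).eq]; group
      · rw [hσ.map_mul (A.mul_mem (A.zpow_mem h.zmem _) (A.zpow_mem h.vmem _)) ha,
          hσ.map_mul (A.zpow_mem h.zmem _) (A.zpow_mem h.vmem _), hσ.map_zpow' h.zmem,
          hσ.map_zpow' h.vmem, hσz, hσv, hσact a ha m' hm', (hzv.zpow_right n₀).mul_zpow,
          ← zpow_mul]
        calc z ^ (-(m' * y₀)) * v ^ (n₀ * -(m' * y₀)) * v ^ (-j) * (a * v ^ m')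
            = z ^ (-(m' * y₀)) * v ^ (n₀ * -(m' * y₀)) * v ^ (-j) * (v ^ m' * a) := by
              rw [(h.comm a ha _ (A.zpow_mem h.vmem m')).eq]
          _ = z ^ (-(m' * y₀)) * v ^ (n₀ * -(m' * y₀) + -j + m') * a := by
              rw [zpow_add, zpow_add]; group
          _ = _ := by
              rw [zpow_eq_of_dvd hvp (i := n₀ * -(m' * y₀) + -j + m') (j := -j)
                ⟨m' * x₀, by linear_combination -m' * hxy⟩]
      · rw [(hzv.zpow_zpow (m' * y₀) j).eq]
        group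
    -- powers of the two transvections
    have hτk : ∀ q : ℕ, Mor F A (τ^[q]) ∧ (∀ x ∈ A, τ^[q] x ∈ A) ∧
        ∀ (i j : ℤ) (k : Ω), k ∈ A → g * k * g⁻¹ = k →
          τ^[q] (z ^ i * v ^ j * k) = z ^ (i + q * j) * v ^ j * k := by
      intro q
      induction q with
      | zero => exact ⟨mor_id hAS, fun x hx => hx, fun i j k _ _ => by simp⟩
      | succ q ih =>
        rw [Function.iterate_succ']
        refine ⟨hτ.comp ih.1 ih.2.1, fun x hx => hgA _ (ih.2.1 x hx), fun i j k hk hgk => ?_⟩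
        rw [Function.comp_apply, ih.2.2 i j k hk hgk]
        show g * _ * g⁻¹ = _
        calc g * (z ^ (i + q * j) * v ^ j * k) * g⁻¹
            = (g * z * g⁻¹) ^ (i + q * j) * (g * v * g⁻¹) ^ j * (g * k * g⁻¹) := by
              rw [conj_zpow, conj_zpow]; group
          _ = z ^ (i + q * j) * z ^ j * v ^ j * k := by
              rw [h.gz, h.gv, hgk, hzv.symm.mul_zpow, (hzv.zpow_zpow j j).symm.eq, ← mul_assoc]
          _ = _ := by rw [← zpow_add]; push_cast; ring_nf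
    have hσk : ∀ q : ℕ, Mor F A (σ^[q]) ∧ (∀ x ∈ A, σ^[q] x ∈ A) ∧
        ∀ (i j : ℤ) (k : Ω), k ∈ A → σ k = k →
          σ^[q] (z ^ i * v ^ j * k) = z ^ i * v ^ (j + q * n₀ * i) * k := by
      intro q
      induction q with
      | zero => exact ⟨mor_id hAS, fun x hx => hx, fun i j k _ _ => by simp⟩
      | succ q ih =>
        rw [Function.iterate_succ']
        refine ⟨hσ.comp ih.1 ih.2.1, fun x hx => hσA _ (ih.2.1 x hx), fun i j k hk hσk' => ?_⟩
        rw [Function.comp_apply, ih.2.2 i j k hk hσk',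
          hσ.map_mul (A.mul_mem (A.zpow_mem h.zmem _) (A.zpow_mem h.vmem _)) hk,
          hσ.map_mul (A.zpow_mem h.zmem _) (A.zpow_mem h.vmem _), hσ.map_zpow' h.zmem,
          hσ.map_zpow' h.vmem, hσz, hσv, hσk', (hzv.zpow_right n₀).mul_zpow, ← zpow_mul,
          mul_assoc (z ^ i), ← zpow_add]
        push_cast; ring_nf
    have hL : ∀ y : ℤ, ∃ q : ℕ, ∀ (i j : ℤ) (k : Ω), k ∈ A → σ k = k →
        σ^[q] (z ^ i * v ^ j * k) = z ^ i * v ^ (j + y * i) * k := by
      intro y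
      refine ⟨((y * y₀) % p).toNat, fun i j k hk hk' => ?_⟩
      rw [(hσk _).2.2 i j k hk hk',
        Int.toNat_of_nonneg (Int.emod_nonneg _ (Int.natCast_ne_zero.2 hp.out.ne_zero))]
      congr 2
      refine zpow_eq_of_dvd hvp ⟨-((y * y₀ / p) * n₀ * i) - y * x₀ * i, ?_⟩
      rw [Int.emod_def]
      linear_combination y * i * hxy
    obtain ⟨q1, hq1⟩ := hL 1
    obtain ⟨q2, hq2⟩ := hL (-2)
    obtain ⟨m, hm⟩ := hp.out.odd_of_ne_two hp2
    let T : Ω → Ω := fun x => τ^[1] (σ^[q1] (τ^[m] (σ^[q2] x)))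
    have hTA : ∀ x ∈ A, T x ∈ A := fun x hx =>
      (hτk 1).2.1 _ ((hσk q1).2.1 _ ((hτk m).2.1 _ ((hσk q2).2.1 x hx)))
    have hT : Mor F A T :=
      (hτk 1).1.comp ((hσk q1).1.comp ((hτk m).1.comp (hσk q2).1 (hσk q2).2.1)
        fun x hx => (hτk m).2.1 _ ((hσk q2).2.1 x hx))
        fun x hx => (hσk q1).2.1 _ ((hτk m).2.1 _ ((hσk q2).2.1 x hx))
    have hTk : ∀ (i j : ℤ) (k : Ω), k ∈ A → g * k * g⁻¹ = k → σ k = k →
        T (z ^ i * v ^ j * k) = z ^ (2 * i) * v ^ ((m + 1) * j) * k := by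
      intro i j k hk hgk hσk'
      simp only [T]
      rw [hq2 i j k hk hσk', (hτk m).2.2 _ _ k hk hgk, hq1 _ _ k hk hσk',
        (hτk 1).2.2 _ _ k hk hgk]
      congr 2
      · exact zpow_eq_of_dvd hzp ⟨j - 2 * i, by rw [hm]; push_cast; ring⟩
      · exact zpow_eq_of_dvd hvp ⟨-i, by rw [hm]; push_cast; ring⟩
    have hTz : T z = z ^ (2 : ℤ) := by
      simpa [hσ.map_one] using hTk 1 0 1 A.one_mem (by group) hσ.map_one
    have hgcomm : ∀ x ∈ A, T (g * x * g⁻¹) = g ^ 4 * T x * (g ^ 4)⁻¹ := by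
      intro x hx
      obtain ⟨i, j, k, hk, hgk, hσk', rfl⟩ := hform x hx
      have h1 : g * (z ^ i * v ^ j * k) * g⁻¹ = z ^ (i + j) * v ^ j * k := by
        have := (hτk 1).2.2 i j k hk hgk
        simpa [τ] using this
      have h2 : ∀ y ∈ A, τ^[4] y = g ^ 4 * y * (g ^ 4)⁻¹ := fun y _ => by
        show g * (g * (g * (g * y * g⁻¹) * g⁻¹) * g⁻¹) * g⁻¹ = _
        simp [pow_succ, mul_assoc]
      rw [← h2 _ (hTA _ hx), h1, hTk _ _ k hk hgk hσk', hTk _ _ k hk hgk hσk',
        (hτk 4).2.2 _ _ k hk hgk]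
      congr 2
      exact zpow_eq_of_dvd hzp ⟨-2 * j, by rw [hm]; push_cast; ring⟩
    obtain ⟨e, he, hee⟩ := exists_extend_selfmap hS hF hAS hAn hT hTA
    have hgE : g ∈ extN S A T := ⟨hAn hgS, g ^ 4, S.pow_mem hgS 4, hgcomm⟩
    have hegP : e g ∈ P := StronglyClosed.mem hP he hgE h.gmem
    set u := (g ^ 4)⁻¹ * e g with hu
    have huA : u ∈ A := by
      refine h.mem_of_commute (P.mul_mem (P.inv_mem (P.pow_mem h.gmem 4)) hegP) ?_
      obtain ⟨y, hy, hyv⟩ : ∃ y ∈ A, T y = v := by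
        have := hT.img_eq_of_card_le hAS hTA le_rfl
        have hv' : v ∈ img A T := by rw [this]; exact h.vmem
        exact hT.mem_img.1 hv'
      have h3 : e g * v * (e g)⁻¹ = g ^ 4 * v * (g ^ 4)⁻¹ := by
        conv_lhs => rw [← hyv, ← hee y hy, ← he.map_conj hgE (hT.le_extN hy), hee _ (hgA y hy),
          hgcomm y hy, hyv]
      apply mul_inv_eq_iff_eq_mul.1
      calc u * v * u⁻¹ = (g ^ 4)⁻¹ * (e g * v * (e g)⁻¹) * g ^ 4 := by rw [hu]; group
        _ = v := by rw [h3]; group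
    have heg : e g = g ^ 4 * u := by rw [hu, mul_inv_cancel_left]
    have h4 := he.map_pow' hgE p
    rw [hf, heg, h.pow_eq hp2 4 huA, hf, hee _ (A.pow_mem h.zmem f), hT.map_pow' h.zmem, hTz,
      ← zpow_natCast (z ^ (2 : ℤ)), ← zpow_mul, ← pow_mul, ← zpow_natCast z (f * 4)] at h4
    have h5 : z ^ (2 * (f : ℤ)) = 1 := by
      have : z ^ (((f * 4 : ℕ) : ℤ) - 2 * f) = 1 := by rw [zpow_sub, h4, mul_inv_cancel]
      rwa [show (((f * 4 : ℕ) : ℤ) - 2 * f) = 2 * f by push_cast; ring] at this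
    rcases (Nat.prime_iff_prime_int.1 hp.out).dvd_or_dvd (h.zdvd h5) with h' | h'
    · have h6 : p ∣ 2 := by exact_mod_cast h'
      exact hp2 ((Nat.prime_dvd_prime_iff_eq hp.out Nat.prime_two).1 h6)
    · exact hfp (by exact_mod_cast h')

/-- A strongly closed subgroup with Frattini and derived subgroup of order `p` is normal, unless it
has one of the two exceptional shapes. -/
theorem isNormal_of_genExtraspecial [Finite S] (hS : IsPGroup p S) (hF : F.IsSaturated p)
    (hP : F.StronglyClosed P)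
    (hge : frattini ↥P = commutator ↥P ∧ Nat.card ↥(commutator ↥P) = p)
    (h2 : p = 2 → ¬ ∃ (A : Type) (_ : CommGroup A), (∀ a : A, a ^ 2 = 1) ∧
      Nonempty (↥P ≃* DihedralGroup 4 × A))
    (hodd : p ≠ 2 → ¬ ∃ (E : Type) (_ : Group E) (A : Type) (_ : CommGroup A),
      Cfsg.IsExtraspecial p E ∧ Nat.card E = p ^ 3 ∧ Monoid.exponent E = p ∧
        (∀ a : A, a ^ p = 1) ∧ Nonempty (↥P ≃* E × A)) : F.IsNormal P := by
  have hPS : P ≤ S := hP.1
  haveI := finite_of_le hPS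
  have hPp : IsPGroup p P := isPGroup_of_le hS hPS
  set C := ⁅P, P⁆ with hC
  have hmap : (commutator ↥P).map P.subtype = C := Subgroup.map_subtype_commutator P
  have hCP : C ≤ P := hmap ▸ Subgroup.map_subtype_le _
  have hcardC : Nat.card C = p := by
    rw [← hmap, ← Nat.card_congr
      (Subgroup.equivMapOfInjective _ _ P.subtype_injective).toEquiv, hge.2]
  haveI := finite_of_le (hCP.trans hPS)
  have hcommC : ∀ x ∈ P, ∀ y ∈ P, x * y * x⁻¹ * y⁻¹ ∈ C := fun x hx y hy =>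
    Subgroup.commutator_mem_commutator hx hy
  have hpowC : ∀ x ∈ P, x ^ p ∈ C := fun x hx => by
    have h1 := Cfsg.Lib.Transfer.pow_mem_frattini hPp ⟨x, hx⟩
    rw [hge.1] at h1
    rw [← hmap]
    exact ⟨_, h1, rfl⟩
  have hCn : ∀ s ∈ S, ∀ x ∈ C, s * x * s⁻¹ ∈ C := by
    intro s hs x hx
    rw [hC, Subgroup.commutator_def] at hx
    induction hx using Subgroup.closure_induction with
    | mem y hy =>
      obtain ⟨a, ha, b, hb, rfl⟩ := hy
      rw [conjugate_commutatorElement]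
      exact Subgroup.commutator_mem_commutator (StronglyClosed.conj_mem hP hs ha)
        (StronglyClosed.conj_mem hP hs hb)
    | one => simp
    | mul x y _ _ hx hy =>
      rw [show s * (x * y) * s⁻¹ = (s * x * s⁻¹) * (s * y * s⁻¹) by group]
      exact C.mul_mem hx hy
    | inv x _ hx =>
      rw [show s * x⁻¹ * s⁻¹ = (s * x * s⁻¹)⁻¹ by group]
      exact C.inv_mem hx
  have hCcen : ∀ x ∈ C, ∀ s ∈ S, s * x * s⁻¹ = x := by
    intro x hx s hs
    have h1 := conj_mem_coset_of_pgroup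
      (F := C) (M := ⊥) hS hs (hCn s hs) (fun y _ hy => by
        rw [Subgroup.mem_bot] at hy ⊢; simp [hy])
      (by rw [Subgroup.relIndex_bot_left, hcardC]) hx
    rw [Subgroup.mem_bot, inv_mul_eq_one] at h1
    exact h1.symm
  by_cases hCc : F.StronglyClosed C
  · refine isNormal_of_series hS hF
      (fun i => if i = 0 then ⊥ else if i = 1 then C else P) 2 (by simp) (by simp) ?_ ?_
    · intro i _
      rcases (show i = 0 ∨ i = 1 ∨ 2 ≤ i by omega) with rfl | rfl | hi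
      · simp only [if_true]
        exact stronglyClosed_iff.2 ⟨bot_le, fun R φ hφ x _ hx => by
          rw [Subgroup.mem_bot] at hx
          subst hx
          simp [hφ.map_one]⟩
      · simpa using hCc
      · simpa [show i ≠ 0 by omega, show i ≠ 1 by omega] using hP
    · intro i hi a ha x hx
      rcases (show i = 0 ∨ i = 1 by omega) with rfl | rfl
      · simp only [Nat.zero_add, one_ne_zero, if_false, if_true] at hx ⊢
        rw [hCcen x hx a (hPS ha), inv_mul_cancel]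
        exact one_mem _
      · simp only [show (1 + 1 : ℕ) = 2 from rfl, show (2 : ℕ) ≠ 0 by omega,
          show (2 : ℕ) ≠ 1 by omega, one_ne_zero, if_false, if_true] at hx ⊢
        have := hcommC x⁻¹ (P.inv_mem hx) a ha
        simpa [mul_assoc] using this
  exfalso
  obtain ⟨R, φ, hφ, z, hzR, hzC, hvC⟩ : ∃ R φ, Mor F R φ ∧ ∃ z, z ∈ R ∧ z ∈ C ∧ φ z ∉ C := by
    by_contra hno
    push Not at hno
    exact hCc (stronglyClosed_iff.2 ⟨hCP.trans hPS, fun R φ hφ x hxR hx => hno R φ hφ x hxR hx⟩)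
  set v := φ z with hvdef
  have hz1 : z ≠ 1 := fun e => hvC (by rw [hvdef, e, hφ.map_one]; exact C.one_mem)
  have hzp : z ^ p = 1 := by
    rw [← hcardC]
    exact congrArg Subtype.val (pow_card_eq_one' (x := (⟨z, hzC⟩ : C)))
  have hzo : orderOf z = p := orderOf_eq_prime hzp hz1
  have hCz : C = Subgroup.zpowers z := (eq_of_le_of_card_le (Subgroup.zpowers_le.2 hzC)
    (by rw [hcardC, Nat.card_zpowers, hzo])).symm
  have hvP : v ∈ P := StronglyClosed.mem hP hφ hzR (hCP hzC)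
  have hvp : v ^ p = 1 := by rw [hvdef, ← hφ.map_pow' hzR, hzp, hφ.map_one]
  have hzS : z ∈ S := hPS (hCP hzC)
  have hzcen : ∀ y ∈ S, y * z * y⁻¹ = z := fun y hy => hCcen z hzC y hy
  set A := P ⊓ Subgroup.centralizer ({v} : Set Ω) with hA
  have hAmem : ∀ {x : Ω}, x ∈ A ↔ x ∈ P ∧ Commute x v := fun {x} => by
    rw [hA, Subgroup.mem_inf, Subgroup.mem_centralizer_singleton_iff]
    exact Iff.rfl
  have hzA : z ∈ A := hAmem.2 ⟨hCP hzC, (mul_inv_eq_iff_eq_mul.1 (hzcen v (hPS hvP))).symm⟩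
  have hvA : v ∈ A := hAmem.2 ⟨hvP, Commute.refl v⟩
  -- a map on `A` taking `v` to `z`
  obtain ⟨α, hα, hαP, hαv⟩ : ∃ α, Mor F A α ∧ (∀ x ∈ A, α x ∈ P) ∧ α v = z := by
    have hzf : F.IsFullyCentralized (Subgroup.zpowers z) := by
      refine ⟨Subgroup.zpowers_le.2 hzS, fun Q _ => ?_⟩
      have hCS : centralizerIn S (Subgroup.zpowers z) = S := by
        refine le_antisymm centralizerIn_le fun s hs => mem_centralizerIn_iff.2 ⟨hs, ?_⟩
        intro x hx
        obtain ⟨i, rfl⟩ := Subgroup.mem_zpowers_iff.1 hx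
        rw [← conj_zpow, hzcen s hs]
      rw [hCS]
      exact Nat.card_le_card_of_injective _
        (Subgroup.inclusion_injective (centralizerIn_le (S := S) (P := Q)))
    have hφ' := hφ.restrict (Subgroup.zpowers_le.2 hzR)
    obtain ⟨ψ, hψ, hψ1, -, hψ3⟩ := hφ'.exists_inv
    have hvimg : v ∈ img (Subgroup.zpowers z) φ := mem_img_of_mem (Subgroup.mem_zpowers z)
    have hψi : img (img (Subgroup.zpowers z) φ) ψ = Subgroup.zpowers z := hψ3
    obtain ⟨e, he, hee⟩ :=
      (isReceptive_iff.1 (fullyCentralized_axiom hS hF hzf)).2 _ ψ hψ hψi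
    have hAe : A ≤ extN S (img (Subgroup.zpowers z) φ) ψ := fun x hx =>
      centralizerIn_le_extN (mem_centralizerIn_iff.2 ⟨hPS (hAmem.1 hx).1, fun y hy => by
        obtain ⟨w, hw, rfl⟩ := hφ'.mem_img.1 hy
        obtain ⟨i, rfl⟩ := Subgroup.mem_zpowers_iff.1 hw
        rw [hφ'.map_zpow' (Subgroup.mem_zpowers z)]
        rw [((hAmem.1 hx).2.zpow_right i).eq, mul_inv_cancel_right]⟩)
    have he' := he.restrict hAe
    refine ⟨e, he', fun x hx => StronglyClosed.mem hP he' hx (hAmem.1 hx).1, ?_⟩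
    rw [hee v hvimg]
    exact hψ1 z (Subgroup.mem_zpowers z)
  -- `A` is abelian of exponent `p`
  have hkill : ∀ x ∈ A, x ∈ C → α x ∈ C → x = 1 := by
    intro x hx hxC hαxC
    rw [hCz] at hαxC
    obtain ⟨j, hj⟩ := Subgroup.mem_zpowers_iff.1 hαxC
    have hxv : x = v ^ j :=
      hα.eq_of_eq hx (A.zpow_mem hvA j) (by rw [hα.map_zpow' hvA, hαv, hj])
    rw [hxv]
    by_cases hjp : (p : ℤ) ∣ j
    · rw [zpow_eq_of_dvd hvp (i := j) (j := 0) (by simpa using hjp), zpow_zero]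
    exfalso
    obtain ⟨x₀, y₀, hxy⟩ := ((Nat.prime_iff_prime_int.1 hp.out).coprime_iff_not_dvd).2 hjp
    apply hvC
    rw [hxv] at hxC
    have := C.zpow_mem hxC y₀
    rwa [← zpow_mul, zpow_eq_of_dvd hvp (i := j * y₀) (j := 1)
      ⟨-x₀, by linear_combination hxy⟩, zpow_one] at this
  have hexp : ∀ a ∈ A, a ^ p = 1 := fun a ha =>
    hkill _ (A.pow_mem ha p) (hpowC a (hAmem.1 ha).1)
      (by rw [hα.map_pow' ha]; exact hpowC _ (hαP a ha))
  have hab : ∀ a ∈ A, ∀ b ∈ A, Commute a b := fun a ha b hb => by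
    have hm : a * b * a⁻¹ ∈ A := A.mul_mem (A.mul_mem ha hb) (A.inv_mem ha)
    have h1 := hkill _ (A.mul_mem hm (A.inv_mem hb)) (hcommC a (hAmem.1 ha).1 b (hAmem.1 hb).1) (by
      rw [hα.map_mul hm (A.inv_mem hb), hα.map_conj ha hb, hα.map_inv hb]
      exact hcommC _ (hαP a ha) _ (hαP b hb))
    exact mul_inv_eq_iff_eq_mul.1 (mul_inv_eq_one.1 h1)
  -- an element moving `v`
  obtain ⟨g, hgP, hgv⟩ : ∃ g ∈ P, g * v * g⁻¹ = v * z := by
    obtain ⟨g₀, hg₀, hne⟩ : ∃ g₀ ∈ P, g₀ * v * g₀⁻¹ ≠ v := by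
      by_contra hall
      push Not at hall
      have hAP : ∀ x ∈ P, x ∈ A := fun x hx =>
        hAmem.2 ⟨hx, mul_inv_eq_iff_eq_mul.1 (hall x hx)⟩
      have : C ≤ ⊥ := Subgroup.commutator_le.2 fun x hx y hy => by
        rw [Subgroup.mem_bot, commutatorElement_eq_one_iff_mul_comm]
        exact (hab x (hAP x hx) y (hAP y hy)).eq
      exact hz1 (this hzC)
    have hmem : v⁻¹ * (g₀ * v * g₀⁻¹) ∈ Subgroup.zpowers z := by
      rw [← hCz]
      have := hcommC v⁻¹ (P.inv_mem hvP) g₀ hg₀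
      simpa [mul_assoc] using this
    obtain ⟨c, hc⟩ := Subgroup.mem_zpowers_iff.1 hmem
    have hg0v : g₀ * v * g₀⁻¹ = v * z ^ c := by rw [hc]; group
    have hcp : ¬ (p : ℤ) ∣ c := fun hd => hne (by
      rw [hg0v, zpow_eq_of_dvd hzp (i := c) (j := 0) (by simpa using hd), zpow_zero, mul_one])
    obtain ⟨x₀, y₀, hxy⟩ := ((Nat.prime_iff_prime_int.1 hp.out).coprime_iff_not_dvd).2 hcp
    have hpow : ∀ k : ℕ, g₀ ^ k * v * (g₀ ^ k)⁻¹ = v * z ^ (c * k) := by
      intro k
      induction k with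
      | zero => simp
      | succ k ih =>
        calc g₀ ^ (k + 1) * v * (g₀ ^ (k + 1))⁻¹ = g₀ * (g₀ ^ k * v * (g₀ ^ k)⁻¹) * g₀⁻¹ := by
              rw [pow_succ']; group
          _ = (g₀ * v * g₀⁻¹) * (g₀ * z * g₀⁻¹) ^ (c * k) := by rw [ih, conj_zpow]; group
          _ = v * z ^ (c * ((k + 1 : ℕ) : ℤ)) := by
            rw [hg0v, hzcen g₀ (hPS hg₀), mul_assoc, ← zpow_add]
            push_cast; ring_nf
    refine ⟨g₀ ^ (y₀ % p).toNat, P.pow_mem hg₀ _, ?_⟩
    rw [hpow, Int.toNat_of_nonneg (Int.emod_nonneg _ (Int.natCast_ne_zero.2 hp.out.ne_zero))]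
    conv_rhs => rw [← zpow_one z]
    congr 1
    refine zpow_eq_of_dvd hzp ⟨-(c * (y₀ / p)) - x₀, ?_⟩
    rw [Int.emod_def]
    linear_combination hxy
  have hshape : ∀ g ∈ P, g * v * g⁻¹ = v * z → Shape p P A g z v := by
    intro g hgP hgv
    have hgz := hzcen g (hPS hgP)
    refine ⟨inf_le_left, hgP, hzA, hvA, hexp, hab, hzo, hgz, hgv, fun a ha => ?_, fun x hx => ?_,
      ?_⟩
    · have : a⁻¹ * (g * a * g⁻¹) ∈ Subgroup.zpowers z := by
        rw [← hCz]
        simpa [mul_assoc] using hcommC a⁻¹ (P.inv_mem (hAmem.1 ha).1) g hgP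
      obtain ⟨n, hn⟩ := Subgroup.mem_zpowers_iff.1 this
      exact ⟨n, by rw [hn]; group⟩
    · have : v⁻¹ * (x * v * x⁻¹) ∈ Subgroup.zpowers z := by
        rw [← hCz]
        simpa [mul_assoc] using hcommC v⁻¹ (P.inv_mem hvP) x hx
      obtain ⟨k, hk⟩ := Subgroup.mem_zpowers_iff.1 this
      have hcgz : Commute g z := mul_inv_eq_iff_eq_mul.1 hgz
      have hgk : ∀ k : ℤ, g ^ k * v * (g ^ k)⁻¹ = v * z ^ k := by
        intro k
        induction k using Int.induction_on with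
        | zero => simp
        | succ k ih =>
          calc g ^ ((k : ℤ) + 1) * v * (g ^ ((k : ℤ) + 1))⁻¹
              = g * (g ^ (k : ℤ) * v * (g ^ (k : ℤ))⁻¹) * g⁻¹ := by group
            _ = (g * v * g⁻¹) * (g * z * g⁻¹) ^ (k : ℤ) := by rw [ih, conj_zpow]; group
            _ = v * z ^ ((k : ℤ) + 1) := by rw [hgv, hgz, zpow_add_one]; group
        | pred k ih =>
          calc g ^ (-(k : ℤ) - 1) * v * (g ^ (-(k : ℤ) - 1))⁻¹
              = g⁻¹ * (g ^ (-(k : ℤ)) * v * (g ^ (-(k : ℤ)))⁻¹) * g := by group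
            _ = g⁻¹ * ((g * v * g⁻¹) * z ^ (-(k : ℤ) - 1)) * g := by
              rw [ih, hgv, zpow_sub_one]; group
            _ = v * (g⁻¹ * z ^ (-(k : ℤ) - 1) * g) := by group
            _ = _ := by rw [(hcgz.zpow_right _).inv_left.eq]; group
      refine ⟨k, hAmem.2 ⟨P.mul_mem (P.zpow_mem hgP _) hx, ?_⟩⟩
      apply mul_inv_eq_iff_eq_mul.1
      calc g ^ (-k) * x * v * (g ^ (-k) * x)⁻¹ = g ^ (-k) * (x * v * x⁻¹) * (g ^ (-k))⁻¹ := by group
        _ = (g ^ (-k) * v * (g ^ (-k))⁻¹) * (g ^ (-k) * z * (g ^ (-k))⁻¹) ^ k := by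
          rw [show x * v * x⁻¹ = v * z ^ k by rw [hk]; group, conj_zpow]; group
        _ = v := by
          rw [hgk, hzcen _ (hPS (P.zpow_mem hgP _)), mul_assoc, ← zpow_add, neg_add_cancel,
            zpow_zero, mul_one]
    · obtain ⟨i, hi⟩ := Subgroup.mem_zpowers_iff.1 (hCz ▸ hpowC g hgP)
      refine ⟨(i % p).toNat, ?_⟩
      rw [← hi, ← zpow_natCast z,
        Int.toNat_of_nonneg (Int.emod_nonneg _ (Int.natCast_ne_zero.2 hp.out.ne_zero))]
      exact zpow_eq_of_dvd hzp (Int.dvd_self_sub_emod)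
  have hsh := hshape g hgP hgv
  obtain ⟨f, hf⟩ := hsh.gpow
  by_cases hp2 : p = 2
  · subst hp2
    obtain ⟨g', hg'P, hg'v, hg'⟩ : ∃ g' ∈ P, g' * v * g'⁻¹ = v * z ∧ g' ^ 2 = 1 := by
      rcases Nat.even_or_odd' f with ⟨b, rfl | rfl⟩
      · exact ⟨g, hgP, hgv, by rw [hf, pow_mul, hzp, one_pow]⟩
      · refine ⟨g * v, P.mul_mem hgP hvP, ?_, ?_⟩
        · rw [← hgv]; group
        · have hgz : g ^ 2 = z := by rw [hf, pow_succ, pow_mul, hzp, one_pow, one_mul]
          calc (g * v) ^ 2 = (g * v * g⁻¹) * (g ^ 2 * v) := by rw [pow_two, pow_two]; group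
            _ = v * (z * z) * v := by rw [hgv, hgz]; group
            _ = 1 := by rw [← pow_two, hzp, mul_one, ← pow_two, hvp]
    exact h2 rfl ((hshape g' hg'P hg'v).iso_dihedral hg')
  · by_cases hfp : p ∣ f
    · obtain ⟨b, rfl⟩ := hfp
      exact hodd hp2 (hsh.iso_extraspecial hp2 (by rw [hf, pow_mul, hzp, one_pow]))
    · exact false_of_selfmap hS hF hP hsh hp2 hf hfp hα (fun x hx =>
        hsh.mem_of_pow hp2 hf hfp (hαP x hx)
          (by rw [← hα.map_pow' hx, hexp x hx, hα.map_one])) hαv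

end Cfsg.Lib.Fusion.GenExtraspecial
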