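import Mathlib
import Cfsg.Prelude.Def_FusionComponents
import Cfsg.Agent.Lib.Fusion.Hyperfocal
import Cfsg.Agent.Lib.Transfer.GroupHyperfocal
import Cfsg.Agent.Lib.Fusion.GroupSubsystem

/-!
Subsystems of `p`-power index: generation by residual automorphisms, normality, the group case.
-/

set_option autoImplicit false
set_option linter.style.haveILetI false

open scoped Classical

namespace Cfsg.Lib.Fusion.PPowerIndex

open Cfsg Cfsg.FusionSystem Cfsg.Lib.Fusion

universe u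

variable {Ω : Type u} [Group Ω] {p : ℕ}

/-- The maps of `D` lying in a smaller subgroup form a system there. -/
def restr {U : Subgroup Ω} (D : FusionSystem U) (T : Subgroup Ω) (hT : T ≤ U) : FusionSystem T where
  Hom P := {φ | φ ∈ D.Hom P ∧ P ≤ T ∧ ∀ x : P, φ x ∈ T}
  le_of_mem h := ⟨h.2.1, h.2.2⟩
  injective_of_mem h := D.injective_of_mem h.1
  conj_mem := fun {P g} hP hg => ⟨D.conj_mem (hP.trans hT) (hT hg), hP,
    fun x => T.mul_mem (T.mul_mem hg (hP x.2)) (T.inv_mem hg)⟩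
  comp_mem := fun {P Q φ ψ} hφ hψ h =>
    ⟨D.comp_mem hφ.1 hψ.1 h, hφ.2.1, fun x => hψ.2.2 _⟩
  inv_mem := fun {P φ} hφ => by
    obtain ⟨ψ, hψ, he⟩ := D.inv_mem hφ.1
    refine ⟨ψ, ⟨hψ, ?_, ?_⟩, he⟩
    · rintro _ ⟨x, rfl⟩
      exact hφ.2.2 x
    · rintro ⟨_, x, rfl⟩
      rw [he x]
      exact hφ.2.1 x.2

theorem mor_restr_iff {U T : Subgroup Ω} {D : FusionSystem U} {hT : T ≤ U} {P : Subgroup Ω} {f : Ω → Ω} :
    Mor (restr D T hT) P f ↔ Mor D P f ∧ P ≤ T ∧ ∀ x ∈ P, f x ∈ T :=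
  ⟨fun ⟨φ, ⟨hφ, hP, hφT⟩, he⟩ => ⟨⟨φ, hφ, he⟩, hP, fun x hx => he ⟨x, hx⟩ ▸ hφT ⟨x, hx⟩⟩,
    fun ⟨⟨φ, hφ, he⟩, hP, hf⟩ => ⟨φ, ⟨hφ, hP, fun x => (he x).symm ▸ hf x x.2⟩, he⟩⟩

/-- A saturated system is generated by inner maps and automorphisms of order prime to `p`. -/
theorem mor_le_of_coprime {T U : Subgroup Ω} [Finite T] [Fact p.Prime] (hp : IsPGroup p T)
    {E : FusionSystem T} (hE : E.IsSaturated p) {D : FusionSystem U} (hTU : T ≤ U)
    (hres : ∀ P, P ≤ T → ∀ α ∈ E.autGroup P, (orderOf α).Coprime p → α ∈ D.autGroup P) :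
    ∀ P f, Mor E P f → Mor D P f := by
  suffices h : ∀ P f, Mor E P f → Mor (restr D T hTU) P f from fun P f hf => (mor_restr_iff.1 (h P f hf)).1
  refine mor_le_of_autGroup hp hE fun P hP _ α hα => ?_
  obtain ⟨β, c, hβ, hc, he⟩ := exists_residual_mul hp hE hP hα
  have hβD : (β : MulAut P) ∈ D.autGroup P := by
    refine (show pResidual p (E.autGroup P) ≤ (D.autGroup P).comap (E.autGroup P).subtype from
      (Subgroup.closure_le _).2 fun γ hγ => ?_) hβ
    exact hres P hP.1 _ γ.2 (show (orderOf (γ : MulAut P)).Coprime p by rw [Subgroup.orderOf_coe]; exact hγ)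
  have hm : Mor D P (fun x => autFun (β : MulAut P) (c * x * c⁻¹)) :=
    ((mem_autGroup_iff (hP.1.trans hTU)).1 hβD).comp (mor_conj (hP.1.trans hTU) (hTU hc))
      fun x hx => (he ⟨x, hx⟩).1
  refine mor_restr_iff.2 ⟨hm.congr fun x hx => ?_, hP.1, fun x hx => hP.1 (autFun_mem α hx)⟩
  obtain ⟨h, hh⟩ := he ⟨x, hx⟩
  rw [autFun_apply α hx, hh, autFun_apply _ h]

variable {S T : Subgroup Ω}

theorem mem_residual_of_coprime {F : FusionSystem S} {E : FusionSystem T} (hEi : E.HasPPowerIndexIn F p)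
    {P : Subgroup Ω} (hP : P ≤ T) {α : MulAut P} (hα : α ∈ F.autGroup P) (ho : (orderOf α).Coprime p) :
    α ∈ E.autGroup P :=
  hEi.2.2 P hP ⟨⟨α, hα⟩, Cfsg.Lib.Transfer.coprime_orderOf_mem_pResidual (by rwa [Subgroup.orderOf_mk]), rfl⟩

theorem autGroup_mono {F : FusionSystem S} {E : FusionSystem T} (h : E.IsSubsystemOf F) {P : Subgroup Ω}
    (hP : P ≤ T) : E.autGroup P ≤ F.autGroup P := fun _ hα =>
  (mem_autGroup_iff (hP.trans (le_of_isSubsystemOf h))).2 (((mem_autGroup_iff hP).1 hα).of_subsystem h)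

/-- Saturated subsystems lie in every subsystem of `p`-power index over a larger subgroup. -/
theorem isSubsystemOf_pPower [Finite S] [Fact p.Prime] (hS : IsPGroup p S) {F : FusionSystem S}
    {E : FusionSystem T} (hEs : E.IsSaturated p) (hEF : E.IsSubsystemOf F) {U : Subgroup Ω} {F₀ : FusionSystem U}
    (hTU : T ≤ U) (hidx : F₀.HasPPowerIndexIn F p) : E.IsSubsystemOf F₀ := by
  have hTS := le_of_isSubsystemOf hEF
  haveI := finite_of_le hTS
  intro P
  refine hom_subset_iff.2 fun f hf => ?_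
  exact mor_le_of_coprime (isPGroup_of_le hS hTS) hEs hTU
    (fun R hR α hα ho => mem_residual_of_coprime hidx (hR.trans hTU) (autGroup_mono hEF hR hα) ho) P f hf

/-- Subsystems over `T ≥ hyp(F)`, normal in `S`: `T` is strongly closed. -/
theorem stronglyClosed_of_hyperfocal_le [Finite S] [Fact p.Prime] (hS : IsPGroup p S) {F : FusionSystem S}
    (hF : F.IsSaturated p) (hTS : T ≤ S) (hn : (T.subgroupOf S).Normal) (hT : F.hyperfocalSubgroup p ≤ T) :
    F.StronglyClosed T := by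
  have hconj : ∀ c ∈ S, ∀ x ∈ T, c * x * c⁻¹ ∈ T := fun c hc x hx => hn.conj_mem ⟨x, hTS hx⟩ hx ⟨c, hc⟩
  have hK : RelCond S (fun x y : Ω => x ∈ T ↔ y ∈ T) :=
    { refl := fun _ _ => Iff.rfl
      symm := fun _ _ _ _ h => h.symm
      trans := fun _ _ _ _ _ _ h h' => h.trans h'
      conj := fun c hc x _ => ⟨hconj c hc x, fun h => by
        have h1 := hconj c⁻¹ (S.inv_mem hc) _ h
        simpa [mul_assoc] using h1⟩ }
  refine stronglyClosed_iff.2 ⟨hTS, fun R f hf x hx hxT => ?_⟩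
  refine (rel_of_autGroup hS hF (P := R) hK (fun P hP α hα z => ?_) hf hx).1 hxT
  obtain ⟨β, c, hβ, hc, he⟩ := exists_residual_mul hS hF hP hα
  obtain ⟨h, hz⟩ := he z
  have h1 : (c * (z : Ω) * c⁻¹)⁻¹ * ((α z : P) : Ω) ∈ T := by
    rw [hz]
    exact hT (mem_hyperfocal_of_residual hP.1 hβ ⟨_, h⟩)
  refine (hK.conj c hc _ (hP.1 z.2)).trans ⟨fun h2 => ?_, fun h2 => ?_⟩
  · have := T.mul_mem h2 h1
    rwa [mul_inv_cancel_left] at this
  · have := T.mul_mem h2 (T.inv_mem h1)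
    rwa [mul_inv_rev, inv_inv, mul_inv_cancel_left] at this

section Normal

variable {F : FusionSystem S} {E : FusionSystem T}

/-- The system over `T` of maps whose transport by `a` lies in `E`. -/
def twist (E : FusionSystem T) (α : MulAut T) : FusionSystem T where
  Hom P := {φ | P ≤ T ∧ (∀ x : P, φ x ∈ T) ∧ Function.Injective φ ∧
    ∃ χ, Mor E (img P (autFun α)) χ ∧ ∀ x : P, χ (autFun α x) = autFun α (φ x)}
  le_of_mem h := ⟨h.1, h.2.1⟩
  injective_of_mem h := h.2.2.1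
  conj_mem := fun {P g} hP hg => by
    refine ⟨hP, fun x => T.mul_mem (T.mul_mem hg (hP x.2)) (T.inv_mem hg), fun a b hab => ?_,
      fun y => autFun α g * y * (autFun α g)⁻¹, mor_conj (img_le fun x hx => autFun_mem α (hP hx)) (autFun_mem α hg), fun x => ?_⟩
    · exact Subtype.ext (mul_left_cancel (mul_right_cancel (show g * (a : Ω) * g⁻¹ = g * (b : Ω) * g⁻¹ from hab)))
    · show _ = autFun α (g * (x : Ω) * g⁻¹)
      rw [autFun_apply α (T.mul_mem (T.mul_mem hg (hP x.2)) (T.inv_mem hg)), autFun_apply α hg, autFun_apply α (hP x.2),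
        show (⟨g * x * g⁻¹, T.mul_mem (T.mul_mem hg (hP x.2)) (T.inv_mem hg)⟩ : T) = ⟨g, hg⟩ * ⟨x, hP x.2⟩ * ⟨g, hg⟩⁻¹ from rfl,
        map_mul, map_mul, map_inv]
      rfl
  comp_mem := by
    rintro P Q φ ψ ⟨hP, hφT, hφi, χ, hχ, hχe⟩ ⟨hQ, hψT, hψi, χ', hχ', hχe'⟩ h
    refine ⟨hP, fun x => hψT _, hψi.comp fun a b hab => hφi (congrArg Subtype.val hab), fun y => χ' (χ y),
      hχ'.comp hχ fun y hy => ?_, fun x => ?_⟩
    · obtain ⟨x, hx, rfl⟩ := ((mor_id (F := E) le_rfl).restrict le_rfl |> fun _ =>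
        (show ∃ x ∈ P, autFun α x = y from by
          have : img P (autFun α) ≤ ((P.subgroupOf T).map (α : T ≃* T).toMonoidHom).map T.subtype :=
            img_le fun x hx => ⟨α ⟨x, hP hx⟩, ⟨⟨x, hP hx⟩, hx, rfl⟩, (autFun_apply α (hP hx)).symm⟩
          obtain ⟨_, ⟨z, hz, rfl⟩, rfl⟩ := this hy
          exact ⟨z, hz, autFun_coe α z⟩))
      rw [hχe ⟨x, hx⟩]
      exact mem_img_of_mem (h ⟨x, hx⟩)
    · show χ' (χ (autFun α x)) = autFun α (ψ ⟨φ x, h x⟩)
      rw [hχe, ← hχe' ⟨φ x, h x⟩]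
  inv_mem := by
    rintro P φ ⟨hP, hφT, hφi, χ, hχ, hχe⟩
    let e := MonoidHom.ofInjective hφi
    obtain ⟨k, hk, hk1, -, -⟩ := hχ.exists_inv
    refine ⟨P.subtype.comp e.symm.toMonoidHom, ⟨?_, fun y => hP (e.symm y).2, Subtype.val_injective.comp e.symm.injective,
      k, hk.restrict (img_le ?_), fun y => ?_⟩, fun x => congrArg Subtype.val (e.symm_apply_apply x)⟩
    · rintro _ ⟨x, rfl⟩; exact hφT x
    · rintro _ ⟨x, rfl⟩
      rw [← hχe x]
      exact mem_img_of_mem (mem_img_of_mem x.2)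
    · obtain ⟨_, x, rfl⟩ := y
      show k (autFun α (φ x)) = autFun α ((e.symm (e x) : P) : Ω)
      rw [e.symm_apply_apply, ← hχe x]
      exact hk1 _ (mem_img_of_mem x.2)

/-- Invariance. -/
theorem transport [Finite S] [Fact p.Prime] (hS : IsPGroup p S) (hTS : T ≤ S) (hEs : E.IsSaturated p)
    (hEi : E.HasPPowerIndexIn F p) {α : MulAut T} (hα : α ∈ F.autGroup T) {P : Subgroup Ω} {f : Ω → Ω}
    (hf : Mor E P f) : ∃ χ, Mor E (img P (autFun α)) χ ∧ ∀ x ∈ P, χ (autFun α x) = autFun α (f x) := by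
  haveI := finite_of_le hTS
  have h : Mor (twist E α) P f := by
    refine mor_le_of_coprime (isPGroup_of_le hS hTS) hEs le_rfl (fun R hR β hβ ho => ?_) P f hf
    have hαR : Mor F R (autFun α) := ((mem_autGroup_iff hTS).1 hα).restrict hR
    obtain ⟨e, he⟩ := hαR.exists_equiv rfl
    have h1 : MulAut.congr e β ∈ F.autGroup (img R (autFun α)) :=
      hαR.map_autGroup_le e he ⟨β, autGroup_mono hEi.1 hR hβ, rfl⟩
    have hQT : img R (autFun α) ≤ T := img_le fun x hx => autFun_mem α (hR hx)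
    have h2 := mem_residual_of_coprime hEi hQT h1 (by rwa [MulEquiv.orderOf_eq])
    refine (mem_autGroup_iff_hom hR).2 ⟨hR, fun x => hR (β x).2, Subtype.val_injective.comp β.injective,
      _, (mem_autGroup_iff hQT).1 h2, fun x => ?_⟩
    rw [← he x, autFun_congr_apply, he]
    rfl
  obtain ⟨φ, ⟨-, -, -, χ, hχ, hχe⟩, he⟩ := h
  exact ⟨χ, hχ, fun x hx => by rw [← he ⟨x, hx⟩]; exact hχe ⟨x, hx⟩⟩

/-- The maps that factor on `T` through `Aut_F(T)` and `E`. -/
def frat [Finite S] [Fact p.Prime] (hS : IsPGroup p S) (hsc : F.StronglyClosed T) (hEs : E.IsSaturated p)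
    (hEi : E.HasPPowerIndexIn F p) : FusionSystem S where
  Hom R := {φ | φ ∈ F.Hom R ∧ ∃ α ∈ F.autGroup T, ∃ g, Mor E (R ⊓ T) g ∧ ∀ x ∈ R ⊓ T, extFun φ x = autFun α (g x)}
  le_of_mem h := F.le_of_mem h.1
  injective_of_mem h := F.injective_of_mem h.1
  conj_mem := fun {P c} hP hc => by
    obtain ⟨α, hα, hαe⟩ := (mor_conj (F := F) hsc.1 hc).exists_aut
      ((mor_conj (F := F) hsc.1 hc).img_eq_of_card_le hsc.1 (fun x hx => StronglyClosed.conj_mem hsc hc hx) le_rfl)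
    refine ⟨F.conj_mem hP hc, α, hα, fun x => x, mor_id inf_le_right, fun x hx => ?_⟩
    rw [extFun_apply _ hx.1, hαe x hx.2]
    rfl
  comp_mem := by
    rintro P Q φ ψ ⟨hφ, α, hα, g, hg, hge⟩ ⟨hψ, α', hα', g', hg', hge'⟩ h
    have hmem : ∀ x ∈ P ⊓ T, autFun α (g x) ∈ Q ⊓ T := fun x hx =>
      ⟨by rw [← hge x hx, extFun_apply φ hx.1]; exact h ⟨x, hx.1⟩, autFun_mem α (hg.mem hx)⟩
    obtain ⟨χ, hχ, hχe⟩ := transport hS hsc.1 hEs hEi (inv_mem hα) hg'
    have hinv : ∀ y ∈ T, autFun α⁻¹ (autFun α y) = y := fun y hy => by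
      rw [← autFun_mul α⁻¹ α hy, inv_mul_cancel, autFun_apply _ hy]; rfl
    have hinv' : ∀ y ∈ T, autFun α (autFun α⁻¹ y) = y := fun y hy => by
      rw [← autFun_mul α α⁻¹ hy, mul_inv_cancel, autFun_apply _ hy]; rfl
    have hgm : ∀ x ∈ P ⊓ T, g x ∈ img (Q ⊓ T) (autFun α⁻¹) := fun x hx => by
      rw [← hinv _ (hg.mem hx)]
      exact mem_img_of_mem (hmem x hx)
    refine ⟨F.comp_mem hφ hψ h, α' * α, mul_mem hα' hα, fun x => χ (g x), hχ.comp hg hgm, fun x hx => ?_⟩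
    have h2 := hχe _ (hmem x hx)
    rw [hinv _ (hg.mem hx)] at h2
    rw [extFun_apply _ hx.1, autFun_mul _ _ (hχ.mem (hgm x hx)), h2, hinv' _ (hg'.mem (hmem x hx)),
      ← hge' _ (hmem x hx), ← hge x hx, extFun_apply φ hx.1, extFun_apply ψ (h ⟨x, hx.1⟩)]
    rfl
  inv_mem := by
    rintro P φ ⟨hφ, α, hα, g, hg, hge⟩
    obtain ⟨ψ, hψ, hψe⟩ := F.inv_mem hφ
    obtain ⟨k, hk, hk1, -, -⟩ := hg.exists_inv
    obtain ⟨χ, hχ, hχe⟩ := transport hS hsc.1 hEs hEi hα hk
    have hback : ∀ y ∈ φ.range ⊓ T, ∃ x ∈ P ⊓ T, autFun α (g x) = y ∧ extFun ψ y = x := by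
      rintro y ⟨⟨x, rfl⟩, hyT⟩
      have h1 : extFun ψ (φ x) = x := (extFun_apply ψ ⟨x, rfl⟩).trans (hψe x)
      have hx : (x : Ω) ∈ P ⊓ T := ⟨x.2, h1 ▸ StronglyClosed.mem hsc (mor_extFun hψ) ⟨x, rfl⟩ hyT⟩
      exact ⟨x, hx, by rw [← hge _ hx, extFun_coe], h1⟩
    have hdom : φ.range ⊓ T ≤ img (img (P ⊓ T) g) (autFun α) := fun y hy => by
      obtain ⟨x, hx, he, -⟩ := hback y hy
      rw [← he]
      exact mem_img_of_mem (mem_img_of_mem hx)
    refine ⟨ψ, ⟨hψ, α⁻¹, inv_mem hα, χ, hχ.restrict hdom, fun y hy => ?_⟩, hψe⟩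
    obtain ⟨x, hx, he, he'⟩ := hback y hy
    rw [he', ← he, hχe _ (mem_img_of_mem hx), hk1 x hx, ← autFun_mul _ _ hx.2, inv_mul_cancel, autFun_apply _ hx.2]
    rfl

theorem autFun_pow_agree {Q R : Subgroup Ω} (hRQ : R ≤ Q) (γ : MulAut Q) (δ : MulAut R)
    (h : ∀ x ∈ R, autFun δ x = autFun γ x) : ∀ (n : ℕ), ∀ x ∈ R, autFun (δ ^ n) x = autFun (γ ^ n) x := by
  intro n
  induction n with
  | zero => exact fun x hx => by rw [pow_zero, pow_zero, autFun_apply _ hx, autFun_apply _ (hRQ hx)]; rfl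
  | succ n ih =>
    intro x hx
    rw [pow_succ', pow_succ', autFun_mul _ _ hx, autFun_mul _ _ (hRQ hx), ← ih x hx,
      h _ (autFun_mem (δ ^ n) hx)]

theorem orderOf_restrict_dvd {Q R : Subgroup Ω} (hRQ : R ≤ Q) (γ : MulAut Q) (δ : MulAut R)
    (h : ∀ x ∈ R, autFun δ x = autFun γ x) : orderOf δ ∣ orderOf γ :=
  orderOf_dvd_of_pow_eq_one (aut_ext fun x hx => by
    rw [autFun_pow_agree hRQ γ δ h _ x hx, pow_orderOf_eq_one, autFun_apply _ hx, autFun_apply _ (hRQ hx)]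
    rfl)

theorem frattini_factor [Finite S] [Fact p.Prime] (hS : IsPGroup p S) (hF : F.IsSaturated p)
    (hsc : F.StronglyClosed T) (hEs : E.IsSaturated p) (hEi : E.HasPPowerIndexIn F p)
    {R : Subgroup Ω} (hR : R ≤ T) {f : Ω → Ω} (hf : Mor F R f) :
    ∃ α ∈ F.autGroup T, ∃ g, Mor E R g ∧ ∀ x ∈ R, f x = autFun α (g x) := by
  obtain ⟨φ, ⟨-, α, hα, g, hg, hge⟩, he⟩ := mor_le_of_coprime (D := frat hS hsc hEs hEi) hS hF le_rfl
    (fun Q hQ γ hγ ho => by
      have hm : Mor F (Q ⊓ T) (autFun γ) := ((mem_autGroup_iff hQ).1 hγ).restrict inf_le_left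
      obtain ⟨δ, hδ, hδe⟩ := hm.exists_aut (hm.img_eq_of_card_le (inf_le_left.trans hQ)
        (fun x hx => ⟨autFun_mem γ hx.1, StronglyClosed.mem hsc hm hx hx.2⟩) le_rfl)
      have hδE : δ ∈ E.autGroup (Q ⊓ T) := mem_residual_of_coprime hEi inf_le_right hδ
        (ho.coprime_dvd_left (orderOf_restrict_dvd inf_le_left γ δ hδe))
      refine (mem_autGroup_iff_hom hQ).2 ⟨(mem_autGroup_iff_hom hQ).1 hγ, 1, one_mem _, autFun δ,
        (mem_autGroup_iff inf_le_right).1 hδE, fun x hx => ?_⟩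
      rw [extFun_apply _ hx.1, autFun_apply (1 : MulAut T) (autFun_mem δ hx).2]
      show ((γ ⟨x, hx.1⟩ : Q) : Ω) = autFun δ x
      rw [hδe x hx, autFun_apply γ hx.1]) R f hf
  refine ⟨α, hα, g, hg.restrict (le_inf le_rfl hR), fun x hx => ?_⟩
  rw [← he ⟨x, hx⟩, ← extFun_coe φ ⟨x, hx⟩]
  exact hge x ⟨hx, hR hx⟩

theorem isInvariant [Finite S] [Fact p.Prime] (hS : IsPGroup p S) (hF : F.IsSaturated p)
    (hsc : F.StronglyClosed T) (hEs : E.IsSaturated p) (hEi : E.HasPPowerIndexIn F p) : E.IsInvariantIn F := by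
  refine ⟨hEi.1, hsc, fun P hPT φ hφ α hα => ?_, fun P hP φ hφ => ?_⟩
  · obtain ⟨χ, hχ, hχe⟩ := transport hS hsc.1 hEs hEi hα (mor_extFun hφ)
    have hle : (P.subgroupOf T).map (T.subtype.comp α.toMonoidHom) ≤ img P (autFun α) := by
      rintro _ ⟨x, hx, rfl⟩
      rw [show (T.subtype.comp α.toMonoidHom) x = autFun α (x : Ω) from (autFun_coe α x).symm]
      exact mem_img_of_mem hx
    obtain ⟨χ', hχ', he⟩ := (hχ.restrict hle).exists_hom
    refine ⟨χ', hχ', fun x hφx hαx => ?_⟩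
    rw [he, ← autFun_apply α (hPT x.2), hχe _ x.2, extFun_coe, autFun_apply α hφx]
  · obtain ⟨α, hα, g, hg, hge⟩ := frattini_factor hS hF hsc hEs hEi hP (mor_extFun hφ)
    obtain ⟨φ₀, hφ₀, he⟩ := hg.exists_hom
    refine ⟨α, hα, φ₀, hφ₀, fun x hx => ?_⟩
    rw [← extFun_coe φ x, hge _ x.2, ← he x, autFun_apply α hx]

/-- The extension condition. -/
theorem extension [Finite S] [hp : Fact p.Prime] (hS : IsPGroup p S) (hF : F.IsSaturated p)
    (hsc : F.StronglyClosed T) (hT : F.hyperfocalSubgroup p ≤ T) (hEs : E.IsSaturated p)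
    (hEi : E.HasPPowerIndexIn F p) {α : MulAut T} (hα : α ∈ E.autGroup T) :
    ∃ β ∈ F.autGroup (T ⊔ centralizerIn S T),
      (∀ x : T, ((β (Subgroup.inclusion le_sup_left x) : ↥(T ⊔ centralizerIn S T)) : Ω) = ((α x : T) : Ω)) ∧
      ∀ c : ↥(T ⊔ centralizerIn S T), (c : Ω) ∈ centralizerIn S T →
        (c : Ω)⁻¹ * ((β c : ↥(T ⊔ centralizerIn S T)) : Ω) ∈ T ⊓ Subgroup.centralizer (T : Set Ω) := by
  haveI := finite_of_le hsc.1
  set R := T ⊔ centralizerIn S T with hR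
  have hRS : R ≤ S := sup_le hsc.1 centralizerIn_le
  haveI := finite_mulAut_of_le hRS
  let Good : Subgroup (MulAut T) :=
    { carrier := {α | ∃ β ∈ F.autGroup R, (∀ x ∈ T, autFun β x = autFun α x) ∧
        ∀ c ∈ centralizerIn S T, c⁻¹ * autFun β c ∈ T ⊓ Subgroup.centralizer (T : Set Ω) ∧ autFun β c ∈ centralizerIn S T}
      one_mem' := ⟨1, one_mem _, fun x hx => by rw [autFun_apply _ hx, autFun_apply _ (le_sup_left (a := T) hx)]; rfl,
        fun c hc => by
          rw [autFun_apply _ (le_sup_right (b := centralizerIn S T) hc)]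
          exact ⟨by simp, hc⟩⟩
      mul_mem' := by
        rintro a b ⟨β, hβ, h1, h2⟩ ⟨γ, hγ, h3, h4⟩
        refine ⟨β * γ, mul_mem hβ hγ, fun x hx => ?_, fun c hc => ?_⟩
        · rw [autFun_mul _ _ (le_sup_left (a := T) hx), h3 x hx, autFun_mul _ _ hx, h1 _ (autFun_mem b hx)]
        · rw [autFun_mul _ _ (le_sup_right (b := centralizerIn S T) hc)]
          obtain ⟨h5, h6⟩ := h4 c hc
          obtain ⟨h7, h8⟩ := h2 _ h6
          exact ⟨by simpa [mul_assoc] using mul_mem h5 h7, h8⟩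
      inv_mem' := by
        rintro a ⟨β, hβ, h1, h2⟩
        have hc' : ∀ c ∈ centralizerIn S T, autFun β⁻¹ c ∈ centralizerIn S T := by
          intro c hc
          haveI := finite_of_le (centralizerIn_le (S := S) (P := T))
          let f : centralizerIn S T → centralizerIn S T := fun d => ⟨autFun β d, (h2 d d.2).2⟩
          obtain ⟨d, hd⟩ := ((Finite.injective_iff_surjective (f := f)).1 fun d d' hdd => Subtype.ext
            (((mem_autGroup_iff hRS).1 hβ).eq_of_eq (le_sup_right (a := T) d.2) (le_sup_right (a := T) d'.2)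
              (congrArg Subtype.val hdd))) ⟨c, hc⟩
          rw [← show autFun β d = c from congrArg Subtype.val hd, ← autFun_mul _ _ (le_sup_right (a := T) d.2),
            inv_mul_cancel, autFun_apply _ (le_sup_right (a := T) d.2)]
          exact d.2
        refine ⟨β⁻¹, inv_mem hβ, fun x hx => ?_, fun c hc => ⟨?_, hc' c hc⟩⟩
        · have h5 := h1 _ (autFun_mem a⁻¹ hx)
          rw [← autFun_mul _ _ hx, mul_inv_cancel, show autFun (1 : MulAut T) x = x from autFun_apply _ hx] at h5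
          conv_lhs => rw [← h5]
          rw [← autFun_mul _ _ (le_sup_left (b := centralizerIn S T) (autFun_mem a⁻¹ hx)), inv_mul_cancel,
            autFun_apply _ (le_sup_left (b := centralizerIn S T) (autFun_mem a⁻¹ hx))]
          rfl
        · have h5 := (h2 _ (hc' c hc)).1
          rw [← autFun_mul _ _ (le_sup_right (a := T) hc), mul_inv_cancel,
            show autFun (1 : MulAut R) c = c from autFun_apply _ (le_sup_right (a := T) hc)] at h5
          have h6 := inv_mem h5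
          simpa using h6 }
  suffices hg : α ∈ Good by
    obtain ⟨β, hβ, h1, h2⟩ := hg
    refine ⟨β, hβ, fun x => ?_, fun c hc => ?_⟩
    · rw [← autFun_coe β]
      exact (h1 x x.2).trans (autFun_coe α x)
    · rw [← autFun_coe β]
      exact (h2 c hc).1
  obtain ⟨β, t, hβ, ht, he⟩ := exists_residual_mul (isPGroup_of_le hS hsc.1) hEs (fullyNormalized_top (F := E)) hα
  have hinn : MulAut.conj (⟨t, ht⟩ : T) ∈ Good := by
    obtain ⟨γ, hγ, hγe⟩ := (mor_conj (F := F) hRS (hsc.1 ht)).exists_aut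
      ((mor_conj (F := F) hRS (hsc.1 ht)).img_eq_of_card_le hRS
        (fun x hx => R.mul_mem (R.mul_mem (le_sup_left (a := T) ht) hx) (R.inv_mem (le_sup_left (a := T) ht))) le_rfl)
    refine ⟨γ, hγ, fun x hx => ?_, fun c hc => ?_⟩
    · rw [hγe x (le_sup_left (a := T) hx), autFun_apply _ hx]; rfl
    · rw [hγe c (le_sup_right (a := T) hc)]
      have h5 : t * c * t⁻¹ = c := by
        have := (mem_centralizerIn_iff.1 hc).2 t ht
        calc t * c * t⁻¹ = (c * t * c⁻¹) * c * t⁻¹ := by rw [this]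
          _ = c * t * t⁻¹ := by rw [inv_mul_cancel_right]
          _ = c := mul_inv_cancel_right c t
      rw [h5]
      exact ⟨by simp, hc⟩
  have hαe : α = (β : MulAut T) * MulAut.conj (⟨t, ht⟩ : T) := MulEquiv.ext fun x => by
    obtain ⟨h, hh⟩ := he x
    rw [hh]; rfl
  rw [hαe]
  refine Good.mul_mem ?_ hinn
  refine (show pResidual p (E.autGroup T) ≤ Good.comap (E.autGroup T).subtype from
    (Subgroup.closure_le _).2 fun γ hγ => ?_) hβ
  show (γ : MulAut T) ∈ Good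
  have hγF : (γ : MulAut T) ∈ F.autGroup T := autGroup_mono hEi.1 le_rfl γ.2
  have hfn : F.IsFullyNormalized T := ⟨hsc.1, fun Q hQ => by
    obtain ⟨f, hf, rfl⟩ := Cfsg.Lib.Fusion.isConj_iff.1 hQ
    rw [hf.img_eq_of_card_le hsc.1 (fun x hx => StronglyClosed.mem hsc hf hx hx) le_rfl]⟩
  obtain ⟨-, hrec⟩ := isReceptive_iff.1 (receptive_of_fullyNormalized hS hF hfn)
  obtain ⟨k, hk, hke⟩ := hrec T _ ((mem_autGroup_iff hsc.1).1 hγF) (img_autFun _)
  have hle : R ≤ extN S T (autFun (γ : MulAut T)) := by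
    refine sup_le (fun x hx => ⟨le_normalizerIn hsc.1 hx, autFun (γ : MulAut T) x, hsc.1 (autFun_mem _ hx), fun y hy => ?_⟩)
      fun x hx => ⟨centralizerIn_le_normalizerIn hx, 1, S.one_mem, fun y hy => ?_⟩
    · exact ((mem_autGroup_iff hsc.1).1 hγF).map_conj hx hy
    · rw [(mem_centralizerIn_iff.1 hx).2 y hy]; group
  have hkR := hk.restrict hle
  have hkC : ∀ c ∈ centralizerIn S T, k c ∈ centralizerIn S T := fun c hc => by
    have h5 := hkR.mem_centralizerIn le_sup_left (le_sup_right (a := T) hc) hc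
    rwa [img_congr hke, img_autFun] at h5
  obtain ⟨β₀, hβ₀, hβ₀e⟩ := hkR.exists_aut (hkR.img_eq_of_card_le hRS (fun x hx => by
    have : img R k ≤ R := by
      rw [img, Subgroup.closure_le]
      rintro _ ⟨y, hy, rfl⟩
      refine Subgroup.closure_induction (p := fun y _ => k y ∈ R) ?_ ?_ ?_ ?_
        (show y ∈ Subgroup.closure ((T : Set Ω) ∪ (centralizerIn S T : Set Ω)) by
          rw [Subgroup.closure_union, Subgroup.closure_eq, Subgroup.closure_eq]; exact hy)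
      · rintro z (hz | hz)
        · rw [hke z hz]; exact le_sup_left (b := centralizerIn S T) (autFun_mem _ hz)
        · exact le_sup_right (a := T) (hkC z hz)
      · rw [hkR.map_one]; exact one_mem _
      · intro a b ha hb h1 h2
        rw [Subgroup.closure_union, Subgroup.closure_eq, Subgroup.closure_eq] at ha hb
        rw [hkR.map_mul ha hb]; exact mul_mem h1 h2
      · intro a ha h1
        rw [Subgroup.closure_union, Subgroup.closure_eq, Subgroup.closure_eq] at ha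
        rw [hkR.map_inv ha]; exact inv_mem h1
    exact this (mem_img_of_mem hx)) le_rfl)
  have hagree : ∀ x ∈ T, autFun (γ : MulAut T) x = autFun β₀ x := fun x hx => by
    rw [hβ₀e x (le_sup_left (b := centralizerIn S T) hx), hke x hx]
  set a := p ^ (orderOf β₀).factorization p
  set b := orderOf β₀ / a
  have hab : a * b = orderOf β₀ := Nat.ordProj_mul_ordCompl_eq_self _ p
  have hb : b.Coprime p := (Nat.coprime_ordCompl hp.out (orderOf_pos β₀).ne').symm
  obtain ⟨m, hm1, hm2⟩ := Nat.chineseRemainder (show b.Coprime a from hb.pow_right _) 1 0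
  have hgo : (orderOf (γ : MulAut T)).Coprime p := by rw [Subgroup.orderOf_coe]; exact hγ
  have hγm : (γ : MulAut T) ^ m = γ := by
    conv_rhs => rw [← pow_one (γ : MulAut T)]
    rw [pow_eq_pow_iff_modEq]
    exact hm1.of_dvd ((hgo.pow_right _).dvd_of_dvd_mul_left (hab.symm ▸ orderOf_restrict_dvd le_sup_left β₀ _ hagree))
  have hbo : (orderOf (β₀ ^ m)).Coprime p := by
    refine hb.coprime_dvd_left (orderOf_dvd_of_pow_eq_one ?_)
    obtain ⟨q, hq⟩ : a ∣ m := Nat.modEq_zero_iff_dvd.1 hm2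
    rw [← pow_mul, hq, show a * q * b = orderOf β₀ * q by rw [← hab]; ring, pow_mul, pow_orderOf_eq_one, one_pow]
  have hmC : ∀ n : ℕ, ∀ c ∈ centralizerIn S T, autFun (β₀ ^ n) c ∈ centralizerIn S T := by
    intro n
    induction n with
    | zero => exact fun c hc => by rw [pow_zero, autFun_apply _ (le_sup_right (a := T) hc)]; exact hc
    | succ n ih =>
      intro c hc
      rw [pow_succ', autFun_mul _ _ (le_sup_right (a := T) hc), hβ₀e _ (le_sup_right (a := T) (ih c hc))]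
      exact hkC _ (ih c hc)
  refine ⟨β₀ ^ m, pow_mem hβ₀ m, fun x hx => ?_, fun c hc => ⟨⟨hT ?_, ?_⟩, hmC m c hc⟩⟩
  · rw [← autFun_pow_agree le_sup_left β₀ _ hagree m x hx, hγm]
  · have h5 := mem_hyperfocal_of_residual (F := F) (α := ⟨β₀ ^ m, pow_mem hβ₀ m⟩) hRS
      (Cfsg.Lib.Transfer.coprime_orderOf_mem_pResidual (by rwa [Subgroup.orderOf_mk])) ⟨c, le_sup_right (a := T) hc⟩
    rw [autFun_apply _ (le_sup_right (a := T) hc)]
    exact h5
  · exact Subgroup.mul_mem _ (Subgroup.inv_mem _ (Subgroup.mem_inf.1 hc).2) (Subgroup.mem_inf.1 (hmC m c hc)).2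

theorem isNormalIn [Finite S] [Fact p.Prime] (hS : IsPGroup p S) (hF : F.IsSaturated p) (hTS : T ≤ S)
    (hn : (T.subgroupOf S).Normal) (hT : F.hyperfocalSubgroup p ≤ T) (hEs : E.IsSaturated p)
    (hEi : E.HasPPowerIndexIn F p) : E.IsNormalIn F p :=
  have hsc := stronglyClosed_of_hyperfocal_le hS hF hTS hn hT
  ⟨⟨hEs, hF, isInvariant hS hF hsc hEs hEi⟩, fun _ hα => extension hS hF hsc hT hEs hEi hα⟩

end Normal

/-- The residual system of a group. -/
theorem residual_group {G : Type u} [Group G] [Finite G] [hp : Fact p.Prime] (S : Sylow p G) {T : Subgroup G}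
    (hT : T = (S : Subgroup G) ⊓ pResidual p G) (E : FusionSystem T) (hEs : E.IsSaturated p)
    (hEi : E.HasPPowerIndexIn (groupFusionSystem (S : Subgroup G)) p)
    (h : (S : Subgroup G) ⊓ pResidual p G ≤ pResidual p G) (P : Subgroup G) :
    E.Hom P = (fusionSystemOfSubgroup (pResidual p G) ((S : Subgroup G) ⊓ pResidual p G) h).Hom P := by
  subst hT
  haveI := Cfsg.Lib.Transfer.pResidual_normal (G := G) p
  set K := pResidual p G
  set D := fusionSystemOfSubgroup K ((S : Subgroup G) ⊓ K) h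
  have hD : D.IsSaturated p := (normal_of_normal S K).1.1
  have hpT : IsPGroup p ↥((S : Subgroup G) ⊓ K) := isPGroup_of_le S.2 inf_le_left
  have hDF : D.IsSubsystemOf (groupFusionSystem (S : Subgroup G)) := fun Q φ hφ =>
    ⟨hφ.1.trans inf_le_left, fun x => (hφ.2.1 x).1, hφ.2.2.imp fun g hg => hg.2⟩
  refine hom_eq_iff.2 fun f => ⟨fun hf => ?_, fun hf => ?_⟩
  · refine mor_le_of_coprime hpT hEs le_rfl (fun R hR α hα ho => ?_) P f hf
    obtain ⟨-, c, hc⟩ := mor_group_iff.1 ((mem_autGroup_iff (hR.trans inf_le_left)).1 (autGroup_mono hEi.1 hR hα))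
    obtain ⟨d, -, hd, hde⟩ := Cfsg.Lib.Transfer.GroupHyperfocal.exists_coprime_realizer (M := ⊤) (Subgroup.mem_top c)
      (fun y => (autFun_coe α y).symm.trans (hc y y.2).1) ho
    exact (mem_autGroup_iff_hom hR).2 ⟨hR, fun x => hR (α x).2, d, Cfsg.Lib.Transfer.coprime_orderOf_mem_pResidual hd, hde⟩
  · exact mor_le_of_coprime hpT hD le_rfl
      (fun R hR α hα ho => mem_residual_of_coprime hEi hR (autGroup_mono hDF hR hα) ho) P f hf

end Cfsg.Lib.Fusion.PPowerIndex
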