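import Mathlib
import Cfsg.Prelude.Def_FusionSystem
import Cfsg.Agent.Lib.Fusion.StableSet
import Cfsg.Agent.Lib.Fusion.BisetTransfer

/-!
Every system over a finite group is realized inside a finite group: a weighted set of graphs of maps whose
marks depend only on the size of the subgroup, and finite sets with equal marks are isomorphic.
-/

set_option autoImplicit false
set_option linter.style.haveILetI false

open scoped Classical

namespace Cfsg.Lib.Fusion

open Cfsg Cfsg.FusionSystem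

universe u

/-- The points fixed by `H` in the action given by `α`. -/
def permFix {A X : Type*} [Group A] (α : A →* Equiv.Perm X) (H : Subgroup A) : Set X :=
  {x | ∀ a ∈ H, α a x = x}

/-- Finite sets with equal marks are isomorphic. -/
theorem exists_equiv_of_marks {A X Y : Type*} [Group A] [Finite A] [Finite X] [Finite Y]
    (α : A →* Equiv.Perm X) (β : A →* Equiv.Perm Y)
    (h : ∀ H : Subgroup A, Nat.card (permFix α H) = Nat.card (permFix β H)) :
    ∃ f : X ≃ Y, ∀ a x, f (α a x) = β a (f x) := by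
  let stX : X → Subgroup A := fun x =>
    { carrier := {a | α a x = x}, mul_mem' := fun {a b} ha hb => show α (a * b) x = x by
        rw [map_mul, Equiv.Perm.mul_apply, hb, ha]
      one_mem' := by show α 1 x = x; rw [map_one]; rfl
      inv_mem' := fun {a} ha => show α a⁻¹ x = x by
        conv_lhs => rw [← show α a x = x from ha]
        rw [← Equiv.Perm.mul_apply, ← map_mul, inv_mul_cancel, map_one]; rfl }
  let stY : Y → Subgroup A := fun x =>
    { carrier := {a | β a x = x}, mul_mem' := fun {a b} ha hb => show β (a * b) x = x by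
        rw [map_mul, Equiv.Perm.mul_apply, hb, ha]
      one_mem' := by show β 1 x = x; rw [map_one]; rfl
      inv_mem' := fun {a} ha => show β a⁻¹ x = x by
        conv_lhs => rw [← show β a x = x from ha]
        rw [← Equiv.Perm.mul_apply, ← map_mul, inv_mul_cancel, map_one]; rfl }
  suffices key : ∀ n, ∀ s : Set X, ∀ t : Set Y, s.ncard = n → (∀ a, ∀ x ∈ s, α a x ∈ s) →
      (∀ a, ∀ y ∈ t, β a y ∈ t) → (∀ H, (s ∩ permFix α H).ncard = (t ∩ permFix β H).ncard) →
      ∃ e : s ≃ t, ∀ (a : A) (x : s) (hx : α a x ∈ s), (e ⟨α a x, hx⟩ : Y) = β a (e x) by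
    obtain ⟨e, he⟩ := key _ Set.univ Set.univ rfl (fun _ _ _ => trivial) (fun _ _ _ => trivial)
      fun H => by
        rw [Set.univ_inter, Set.univ_inter, ← Nat.card_coe_set_eq, ← Nat.card_coe_set_eq]; exact h H
    exact ⟨(Equiv.Set.univ X).symm.trans (e.trans (Equiv.Set.univ Y)), fun a x => he a ⟨x, trivial⟩ trivial⟩
  intro n
  induction n using Nat.strong_induction_on with
  | _ n ih =>
  intro s t hn hs ht hm
  rcases s.eq_empty_or_nonempty with rfl | hne
  · have h1 := hm ⊥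
    rw [Set.empty_inter, Set.ncard_empty, eq_comm, Set.ncard_eq_zero] at h1
    have : t = ∅ := Set.eq_empty_of_forall_notMem fun y hy =>
      h1.le ⟨hy, fun a ha => by rw [Subgroup.mem_bot.1 ha, map_one]; rfl⟩
    subst this
    exact ⟨Equiv.equivOfIsEmpty _ _, fun a x => x.2.elim⟩
  obtain ⟨x, hx, hmax⟩ := (Set.toFinite s).exists_maximalFor (fun z => Nat.card (stX z)) s hne
  obtain ⟨y, hy, hyf⟩ : (t ∩ permFix β (stX x)).Nonempty := by
    rw [← Set.ncard_pos, ← hm, Set.ncard_pos]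
    exact ⟨x, hx, fun a ha => ha⟩
  have hle : stX x ≤ stY y := fun a ha => hyf a ha
  have heq : stX x = stY y := by
    obtain ⟨x', hx', hxf⟩ : (s ∩ permFix α (stY y)).Nonempty := by
      rw [← Set.ncard_pos, hm, Set.ncard_pos]
      exact ⟨y, hy, fun a ha => ha⟩
    have h1 : stY y ≤ stX x' := fun a ha => hxf a ha
    refine Subgroup.eq_of_le_of_card_ge hle ((Subgroup.card_le_of_le h1).trans ?_)
    exact le_of_not_gt fun hlt => absurd (hmax hx' hlt.le) (not_le.2 hlt)
  set Ox : Set X := Set.range fun a => α a x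
  set Oy : Set Y := Set.range fun a => β a y
  have hst : ∀ a b, α a x = α b x ↔ β a y = β b y := fun a b => by
    have h1 : a⁻¹ * b ∈ stX x ↔ a⁻¹ * b ∈ stY y := by rw [heq]
    change α (a⁻¹ * b) x = x ↔ β (a⁻¹ * b) y = y at h1
    rw [map_mul, map_mul, map_inv, map_inv, Equiv.Perm.mul_apply, Equiv.Perm.mul_apply,
      Equiv.Perm.inv_eq_iff_eq, Equiv.Perm.inv_eq_iff_eq] at h1
    exact ⟨fun e => (h1.1 e.symm).symm, fun e => (h1.2 e.symm).symm⟩
  let eO : Ox ≃ Oy := Equiv.ofBijective (fun z => ⟨β z.2.choose y, _, rfl⟩)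
    ⟨fun z w hzw => Subtype.ext (by
        rw [← z.2.choose_spec, ← w.2.choose_spec]
        exact (hst _ _).2 (congrArg Subtype.val hzw)),
      fun ⟨_, a, rfl⟩ => ⟨⟨α a x, a, rfl⟩, Subtype.ext
        ((hst _ a).1 (⟨a, rfl⟩ : ∃ b, α b x = α a x).choose_spec)⟩⟩
  have heO : ∀ a (hz : α a x ∈ Ox), (eO ⟨_, hz⟩ : Y) = β a y := fun a hz => (hst _ a).1 hz.choose_spec
  have hOx : ∀ a z, z ∈ Ox ↔ α a z ∈ Ox := fun a z => by
    constructor
    · rintro ⟨b, rfl⟩; exact ⟨a * b, by simp [Equiv.Perm.mul_apply]⟩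
    · rintro ⟨b, hb⟩; exact ⟨a⁻¹ * b, (α a).injective (by simpa [Equiv.Perm.mul_apply] using hb)⟩
  have hOy : ∀ a z, z ∈ Oy ↔ β a z ∈ Oy := fun a z => by
    constructor
    · rintro ⟨b, rfl⟩; exact ⟨a * b, by simp [Equiv.Perm.mul_apply]⟩
    · rintro ⟨b, hb⟩; exact ⟨a⁻¹ * b, (β a).injective (by simpa [Equiv.Perm.mul_apply] using hb)⟩
  have hOs : Ox ⊆ s := by rintro _ ⟨a, rfl⟩; exact hs a x hx
  have hOt : Oy ⊆ t := by rintro _ ⟨a, rfl⟩; exact ht a y hy
  have hfix : ∀ H, (Ox ∩ permFix α H).ncard = (Oy ∩ permFix β H).ncard := fun H => by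
    have hiff : ∀ z : Ox, z.1 ∈ permFix α H ↔ (eO z).1 ∈ permFix β H := by
      rintro ⟨_, a, rfl⟩
      have h9 : (eO ⟨α a x, a, rfl⟩ : Y) = β a y := heO a _
      refine Iff.trans ?_ (Iff.of_eq (congrArg (· ∈ permFix β H) h9)).symm
      refine forall₂_congr fun c _ => ?_
      rw [← Equiv.Perm.mul_apply, ← map_mul, ← Equiv.Perm.mul_apply, ← map_mul]
      exact hst _ _
    rw [← Nat.card_coe_set_eq, ← Nat.card_coe_set_eq]
    exact Nat.card_congr ((Equiv.Set.sep Ox (· ∈ permFix α H)).trans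
      ((eO.subtypeEquiv hiff).trans (Equiv.Set.sep Oy (· ∈ permFix β H)).symm))
  obtain ⟨e, he⟩ := ih (s \ Ox).ncard
    (hn ▸ Set.ncard_lt_ncard ⟨fun z hz => hz.1, fun h' => (h' hx).2 ⟨1, by simp⟩⟩)
    (s \ Ox) (t \ Oy) rfl (fun a z hz => ⟨hs a z hz.1, fun h' => hz.2 ((hOx a z).2 h')⟩)
    (fun a z hz => ⟨ht a z hz.1, fun h' => hz.2 ((hOy a z).2 h')⟩) fun H => by
      have eX : (s \ Ox) ∩ permFix α H = (s ∩ permFix α H) \ (Ox ∩ permFix α H) := by ext; simp; tauto
      have eY : (t \ Oy) ∩ permFix β H = (t ∩ permFix β H) \ (Oy ∩ permFix β H) := by ext; simp; tauto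
      rw [eX, eY,
        Set.ncard_diff (Set.inter_subset_inter_left _ hOs), Set.ncard_diff (Set.inter_subset_inter_left _ hOt),
        hm, hfix]
  have heq' : ∀ a (w : Ox) (hw : α a w ∈ Ox), (eO ⟨_, hw⟩ : Y) = β a (eO w) := by
    rintro a ⟨_, b, rfl⟩ hw
    have h1 : (eO ⟨α b x, b, rfl⟩ : Y) = β b y := heO b _
    show _ = β a (eO ⟨α b x, b, rfl⟩ : Y)
    rw [h1]
    have h2 := heO (a * b) ⟨a * b, rfl⟩
    simp only [map_mul, Equiv.Perm.mul_apply] at h2
    exact h2
  refine ⟨(Equiv.Set.sumDiffSubset hOs).symm.trans ((eO.sumCongr e).trans (Equiv.Set.sumDiffSubset hOt)),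
    fun a z hz => ?_⟩
  by_cases hzO : (z : X) ∈ Ox
  · rw [Equiv.trans_apply, Equiv.trans_apply, Equiv.trans_apply, Equiv.trans_apply,
      Equiv.Set.sumDiffSubset_symm_apply_of_mem _ hzO,
      Equiv.Set.sumDiffSubset_symm_apply_of_mem _ ((hOx a z).1 hzO)]
    simp only [Equiv.sumCongr_apply, Sum.map_inl, Equiv.Set.sumDiffSubset_apply_inl]
    exact heq' a ⟨z, hzO⟩ _
  · rw [Equiv.trans_apply, Equiv.trans_apply, Equiv.trans_apply, Equiv.trans_apply,
      Equiv.Set.sumDiffSubset_symm_apply_of_notMem _ hzO,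
      Equiv.Set.sumDiffSubset_symm_apply_of_notMem _ fun h' => hzO ((hOx a z).2 h')]
    simp only [Equiv.sumCongr_apply, Sum.map_inr, Equiv.Set.sumDiffSubset_apply_inr]
    exact he a ⟨z, z.2, hzO⟩ _

variable {Ω : Type u} [Group Ω] {S : Subgroup Ω} {F : FusionSystem S}

/-- A weighted set of graphs whose marks depend only on the size, with positive weight at the diagonal of `S`. -/
theorem exists_const_marks [Finite S] : ∃ c : Subgroup (↥S × ↥S) → ℕ, (∀ H, c H ≠ 0 → Graph F H) ∧
    c (diagT S) ≠ 0 ∧ ∃ v : ℕ → ℕ, ∀ K, Graph F K → Stable.mark c K = v (Nat.card K) := by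
  letI := Fintype.ofFinite (Subgroup (↥S × ↥S))
  have hconj : ∀ {K : Subgroup (↥S × ↥S)}, Graph F K → ∀ t, Graph F (K.map (MulAut.conj t).toMonoidHom) :=
    fun {K} hK t => (proj_conj K t hK).1
  let w : Subgroup (↥S × ↥S) → ℕ := fun K => ∑ H : Subgroup (↥S × ↥S), if Nat.card H = Nat.card K then Stable.mk1 K H else 0
  have hw0 : ∀ K, 0 < w K := fun K => Finset.sum_pos' (fun _ _ => Nat.zero_le _)
    ⟨K, Finset.mem_univ _, by rw [if_pos rfl]; exact Stable.mk1_self_pos K⟩
  let W : ℕ := ∏ K : Subgroup (↥S × ↥S), w K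
  have hW : ∀ K, W / w K * w K = W := fun K => Nat.div_mul_cancel (Finset.dvd_prod_of_mem _ (Finset.mem_univ K))
  suffices key : ∀ m, ∃ c : Subgroup (↥S × ↥S) → ℕ, (∀ H, c H ≠ 0 → Graph F H) ∧ c (diagT S) ≠ 0 ∧
      ∃ v : ℕ → ℕ, ∀ K, Graph F K → Nat.card S < Nat.card K + m → Stable.mark c K = v (Nat.card K) by
    obtain ⟨c, h1, h2, v, hv⟩ := key (Nat.card S)
    exact ⟨c, h1, h2, v, fun K hK => hv K hK (Nat.lt_add_of_pos_left Nat.card_pos)⟩
  intro m
  induction m with
  | zero =>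
    refine ⟨fun H => if H = diagT S then 1 else 0, fun H hH => ?_, by simp, fun _ => 0, fun K hK hlt => ?_⟩
    · by_cases e : H = diagT S
      · exact e ▸ graph_diagT le_rfl
      · simp [e] at hH
    · have h1 := hK.card_eq.trans_le (Subgroup.card_le_of_le (proj_le K))
      omega
  | succ m ih =>
    obtain ⟨c, hc, hc0, v, hv⟩ := ih
    by_cases hmS : Nat.card S < m
    · exact ⟨c, hc, hc0, v, fun K hK _ => hv K hK (by omega)⟩
    set n := Nat.card S - m with hn
    let M := Finset.univ.sup (Stable.mark c)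
    let d : Subgroup (↥S × ↥S) → ℕ := fun H =>
      if Graph F H ∧ Nat.card H = n then W / w H * (M - Stable.mark c H) else 0
    refine ⟨fun H => W * c H + d H, fun H hH => ?_, ?_, Function.update (fun k => W * v k) n (W * M), fun K hK hlt => ?_⟩
    · rcases Nat.eq_zero_or_pos (c H) with e | e
      · simp only [e, mul_zero, zero_add, d] at hH
        exact (ite_ne_right_iff.1 hH).1.1
      · exact hc H e.ne'
    · exact (Nat.add_pos_left (Nat.mul_pos (Finset.prod_pos fun K _ => hw0 K) (Nat.pos_of_ne_zero hc0)) _).ne'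
    have hsum : Stable.mark (fun H => W * c H + d H) K = W * Stable.mark c K + ∑ H, d H * Stable.mk1 K H := by
      simp only [Stable.mark]
      rw [Finset.mul_sum, ← Finset.sum_add_distrib]
      refine Finset.sum_congr ?_ fun H _ => by ring
      ext; simp
    rw [hsum]
    by_cases hKn : Nat.card K = n
    · rw [hKn, Function.update_self]
      have h1 : ∀ H, d H * Stable.mk1 K H =
          W / w K * (M - Stable.mark c K) * (if Nat.card H = Nat.card K then Stable.mk1 K H else 0) := by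
        intro H
        by_cases h0 : Stable.mk1 K H = 0
        · simp [h0]
        by_cases hHn : Nat.card H = n
        · obtain ⟨t, rfl⟩ := Stable.exists_conj_eq h0 (hHn.trans hKn.symm).le
          have hwt : w (K.map (MulAut.conj t).toMonoidHom) = w K := by
            simp only [w, Stable.mk1_conj,
              Subgroup.card_map_of_injective (f := (MulAut.conj t).toMonoidHom) (MulAut.conj t).injective]
          simp only [d, if_pos (⟨hconj hK t, hHn⟩ : _ ∧ _), if_pos (hHn.trans hKn.symm), hwt, Stable.mark_conj]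
        · simp only [d, if_neg fun e : _ ∧ _ => hHn e.2, if_neg (fun e : Nat.card H = Nat.card K => hHn (e.trans hKn)), zero_mul, mul_zero]
      rw [Finset.sum_congr rfl fun H _ => h1 H, ← Finset.mul_sum]
      have hM : Stable.mark c K ≤ M := Finset.le_sup (f := Stable.mark c) (Finset.mem_univ K)
      rw [show W / w K * (M - Stable.mark c K) * w K = W / w K * w K * (M - Stable.mark c K) by ring, hW,
        ← mul_add, Nat.add_sub_cancel' hM]
    · rw [Function.update_of_ne hKn, hv K hK (by omega), Finset.sum_eq_zero, add_zero]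
      intro H _
      by_cases h0 : Stable.mk1 K H = 0
      · simp [h0]
      · have h3 := Stable.card_le_of_mk1 h0
        simp only [d]
        rw [if_neg fun e : _ ∧ _ => by omega, zero_mul]

/-- Every system over a finite group is realized inside a finite group. -/
theorem exists_realizing [Finite S] (F : FusionSystem S) :
    ∃ (G : Type u) (_ : Group G) (_ : Finite G) (ι : ↥S →* G), F.IsRealizedBy ι := by
  obtain ⟨c, hc, hc0, v, hv⟩ := exists_const_marks (F := F)
  letI := Fintype.ofFinite (Subgroup (↥S × ↥S))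
  let X := Σ i : Σ H : Subgroup (↥S × ↥S), Fin (c H), (↥S × ↥S) ⧸ i.1
  letI actX : MulAction (↥S × ↥S) X :=
    { smul := fun a q => ⟨q.1, a • q.2⟩
      one_smul := fun q => Sigma.ext rfl (heq_of_eq (one_smul _ _))
      mul_smul := fun a b q => Sigma.ext rfl (heq_of_eq (mul_smul _ _ _)) }
  let act := MulAction.toPermHom (↥S × ↥S) X
  have hmark : ∀ L, Nat.card (permFix act L) = Stable.mark c L := fun L => by
    let e : permFix act L ≃ Σ i : Σ H : Subgroup (↥S × ↥S), Fin (c H), Stable.fixSet L i.1 :=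
      { toFun := fun q => ⟨q.1.1, q.1.2, fun k hk => eq_of_heq (Sigma.ext_iff.1 (q.2 k hk)).2⟩
        invFun := fun q => ⟨⟨q.1, q.2.1⟩, fun k hk => Sigma.ext rfl (heq_of_eq (q.2.2 k hk))⟩
        left_inv := fun _ => rfl
        right_inv := fun _ => rfl }
    rw [Nat.card_congr e, Nat.card_sigma, Fintype.sum_sigma, Stable.mark]
    refine Finset.sum_congr (by ext; simp) fun H _ => ?_
    simp [Stable.mk1]
  let right : ↥S →* Equiv.Perm X := act.comp (MonoidHom.inr ↥S ↥S)
  let C : Subgroup (Equiv.Perm X) := Subgroup.centralizer (right.range : Set (Equiv.Perm X))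
  let ι : ↥S →* C := (act.comp (MonoidHom.inl ↥S ↥S)).codRestrict C fun s => by
    refine Subgroup.mem_centralizer_iff.2 ?_
    rintro _ ⟨r, rfl⟩
    show act _ * act _ = act _ * act _
    rw [← map_mul, ← map_mul]
    simp
  let x₀ : X := ⟨⟨diagT S, ⟨0, Nat.pos_of_ne_zero hc0⟩⟩, QuotientGroup.mk 1⟩
  have hx₀ : ∀ a : ↥S × ↥S, act a x₀ = x₀ ↔ a ∈ diagT (S := S) S := fun a => by
    show (⟨x₀.1, a • QuotientGroup.mk 1⟩ : X) = ⟨x₀.1, QuotientGroup.mk 1⟩ ↔ _
    rw [Sigma.ext_iff]
    simp only [true_and, heq_eq_eq]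
    refine (Stable.smul_mk_iff (K := (⊥ : Subgroup (↥S × ↥S))) (k := a) (t := (1 : ↥S × ↥S))).trans ?_
    simp [x₀]
  refine ⟨C, inferInstance, inferInstance, ι, fun s t hst => ?_, fun P hP φ hφ => ⟨fun hmem => ?_, ?_⟩⟩
  · have h1 : act (s, 1) x₀ = act (t, 1) x₀ := congrArg (fun g : C => g.1 x₀) hst
    have h2 : act ((t, 1)⁻¹ * (s, 1)) x₀ = x₀ := by
      rw [map_mul, Equiv.Perm.mul_apply, h1, ← Equiv.Perm.mul_apply, ← map_mul, inv_mul_cancel, map_one]
      rfl
    have h3 := (mem_diagT.1 ((hx₀ _).1 h2)).2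
    simp only [Prod.inv_mk, Prod.mk_mul_mk, inv_one, mul_one] at h3
    exact (inv_mul_eq_one.1 h3.symm).symm
  · -- maps of the system are induced by elements of `C`
    have := finite_of_le hP
    let ρ₁ : ↥P × ↥S →* ↥S × ↥S := (Subgroup.inclusion hP).prodMap (MonoidHom.id ↥S)
    let ρ₂ : ↥P × ↥S →* ↥S × ↥S := (φ.codRestrict S hφ).prodMap (MonoidHom.id ↥S)
    have hm := mor_extFun hmem
    obtain ⟨j, hj, hj1, hj2, -⟩ := hm.exists_inv
    have himg : ∀ u : P, φ u ∈ img P (extFun φ) := fun u => extFun_coe φ u ▸ mem_img_of_mem u.2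
    obtain ⟨f, hf⟩ := exists_equiv_of_marks (act.comp ρ₁) (act.comp ρ₂) fun H => by
      have hfix : ∀ ρ : ↥P × ↥S →* ↥S × ↥S, permFix (act.comp ρ) H = permFix act (H.map ρ) := fun ρ => by
        ext q
        exact ⟨fun h => by rintro _ ⟨a, ha, rfl⟩; exact h a ha, fun h a ha => h _ ⟨a, ha, rfl⟩⟩
      have hinj : Function.Injective (φ.codRestrict S hφ) := fun a b hab =>
        F.injective_of_mem hmem (congrArg Subtype.val hab)
      have hcard : Nat.card (H.map ρ₁) = Nat.card (H.map ρ₂) := by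
        rw [Subgroup.card_map_of_injective (Prod.map_injective.2 ⟨Subgroup.inclusion_injective hP, Function.injective_id⟩),
          Subgroup.card_map_of_injective (Prod.map_injective.2 ⟨hinj, Function.injective_id⟩)]
      have hiff : Graph F (H.map ρ₁) ↔ Graph F (H.map ρ₂) := by
        constructor
        · intro hg
          refine (hg.transport hm (mor_id le_rfl) ?_ (fun h _ => h.2.2) ?_ ?_).1
          · rintro _ ⟨a, -, rfl⟩; exact a.1.2
          · rintro _ ⟨a, ha, rfl⟩; exact ⟨ρ₁ a, ⟨a, ha, rfl⟩, (extFun_coe φ a.1).symm, rfl⟩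
          · rintro _ ⟨a, ha, rfl⟩; exact ⟨ρ₂ a, ⟨a, ha, rfl⟩, (extFun_coe φ a.1).symm, rfl⟩
        · intro hg
          have hback : ∀ u : P, j (φ u) = u := fun u => by rw [← extFun_coe φ u]; exact hj1 _ u.2
          refine (hg.transport hj (mor_id le_rfl) ?_ (fun h _ => h.2.2) ?_ ?_).1
          · rintro _ ⟨a, -, rfl⟩; exact himg a.1
          · rintro _ ⟨a, ha, rfl⟩; exact ⟨ρ₂ a, ⟨a, ha, rfl⟩, (hback a.1).symm, rfl⟩
          · rintro _ ⟨a, ha, rfl⟩; exact ⟨ρ₁ a, ⟨a, ha, rfl⟩, (hback a.1).symm, rfl⟩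
      rw [hfix, hfix, hmark, hmark]
      by_cases hg : Graph F (H.map ρ₁)
      · rw [hv _ hg, hv _ (hiff.1 hg), hcard]
      · rw [Stable.mark_eq_zero, Stable.mark_eq_zero]
        all_goals
          intro K hK
          refine of_not_not fun h0 => hg ?_
          obtain ⟨t, ht⟩ := Stable.exists_conj_le h0
          have h2 := (proj_conj _ t⁻¹ ((hc K hK).mono ht)).1
          rw [Subgroup.map_map, show (MulAut.conj t⁻¹).toMonoidHom.comp (MulAut.conj t).toMonoidHom =
            MonoidHom.id _ from MonoidHom.ext fun x => by simp [mul_assoc], Subgroup.map_id] at h2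
        · exact hiff.2 h2
        · exact h2
    have hfC : f ∈ C := by
      refine Subgroup.mem_centralizer_iff.2 ?_
      rintro _ ⟨r, rfl⟩
      refine Equiv.ext fun q => ?_
      have h1 := hf (1, r) q
      simp only [MonoidHom.comp_apply, ρ₁, ρ₂, MonoidHom.coe_prodMap, Prod.map_apply, map_one, MonoidHom.id_apply] at h1
      exact h1.symm
    refine ⟨⟨f, hfC⟩, fun u => Subtype.ext (Equiv.ext fun q => ?_)⟩
    have h1 := hf (u, 1) (f.symm q)
    rw [Equiv.apply_symm_apply] at h1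
    exact h1.symm
  · rintro ⟨⟨g, hgC⟩, hg⟩
    set y := g x₀ with hy
    let ψ : ↥P →* ↥S × ↥S := (φ.codRestrict S hφ).prod (Subgroup.inclusion hP)
    have hfix : y ∈ permFix act ψ.range := by
      rintro _ ⟨u, rfl⟩
      have hu := hg u
      have h1 : act (⟨φ u, hφ u⟩, 1) = g * act (Subgroup.inclusion hP u, 1) * g⁻¹ := congrArg Subtype.val hu
      have h2 : act (1, Subgroup.inclusion hP u) * g = g * act (1, Subgroup.inclusion hP u) :=
        Subgroup.mem_centralizer_iff.1 hgC _ ⟨_, rfl⟩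
      have h3 : act (ψ u) * g = g * act (Subgroup.inclusion hP u, Subgroup.inclusion hP u) := by
        rw [show ψ u = (1, Subgroup.inclusion hP u) * (⟨φ u, hφ u⟩, 1) from Prod.ext (one_mul _).symm (mul_one _).symm,
          map_mul, h1, mul_assoc, mul_assoc, mul_assoc, inv_mul_cancel, mul_one, ← mul_assoc, h2, mul_assoc,
          ← map_mul, Prod.mk_mul_mk, one_mul, mul_one]
      show act (ψ u) (g x₀) = g x₀
      rw [← Equiv.Perm.mul_apply, h3, Equiv.Perm.mul_apply, (hx₀ _).2 (mem_diagT.2 ⟨hP u.2, rfl⟩)]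
    obtain ⟨K, hK, h0⟩ : ∃ K, c K ≠ 0 ∧ Stable.mk1 ψ.range K ≠ 0 := by
      by_contra hne
      push Not at hne
      have h1 : Nat.card (permFix act ψ.range) = 0 := (hmark _).trans (Stable.mark_eq_zero hne)
      exact (Nat.card_ne_zero.2 ⟨⟨⟨y, hfix⟩⟩, inferInstance⟩) h1
    obtain ⟨t, ht⟩ := Stable.exists_conj_le h0
    have h2 := (proj_conj _ t⁻¹ ((hc K hK).mono ht)).1
    rw [Subgroup.map_map, show (MulAut.conj t⁻¹).toMonoidHom.comp (MulAut.conj t).toMonoidHom =
      MonoidHom.id _ from MonoidHom.ext fun x => by simp [mul_assoc], Subgroup.map_id] at h2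
    obtain ⟨k, hk, hke⟩ := h2
    have hku : ∀ u : P, k (φ u) = u := fun u => hke (ψ u) ⟨u, rfl⟩
    obtain ⟨j, hj, hj1, -, -⟩ := hk.exists_inv
    have hPimg : P ≤ img (proj ψ.range) k := fun x hx => by
      have h5 := mem_img_of_mem (f := k) (mem_proj (show ψ ⟨x, hx⟩ ∈ ψ.range from ⟨_, rfl⟩))
      rwa [show ((ψ ⟨x, hx⟩).1 : Ω) = φ ⟨x, hx⟩ from rfl, hku] at h5
    exact (hj.restrict hPimg).mem_hom fun u => by
      have h4 := hj1 _ (mem_proj (⟨u, rfl⟩ : ψ u ∈ ψ.range))
      rw [show ((ψ u).1 : Ω) = φ u from rfl, hku] at h4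
      exact h4.symm

end Cfsg.Lib.Fusion
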