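import Mathlib
import Cfsg.Agent.Lib.Fusion.Basic
import Cfsg.Prelude.Def_FusionComponents

/-!
# The direct product of two fusion systems
-/

set_option autoImplicit false

namespace Cfsg.Lib.Fusion

open Cfsg Cfsg.FusionSystem Subgroup

variable {Ω₁ Ω₂ : Type*} [Group Ω₁] [Group Ω₂] {S₁ : Subgroup Ω₁} {S₂ : Subgroup Ω₂}

/-- The maps of the product in the language of functions. -/
def prodHom (F₁ : FusionSystem S₁) (F₂ : FusionSystem S₂) (P : Subgroup (Ω₁ × Ω₂)) :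
    Set (P →* Ω₁ × Ω₂) :=
  {φ | P ≤ S₁.prod S₂ ∧ ∃ f g, Mor F₁ (P.map (MonoidHom.fst Ω₁ Ω₂)) f ∧
    Mor F₂ (P.map (MonoidHom.snd Ω₁ Ω₂)) g ∧ ∀ x : P, φ x = (f x.1.1, g x.1.2)}

theorem mem_fst {P : Subgroup (Ω₁ × Ω₂)} (x : P) : x.1.1 ∈ P.map (MonoidHom.fst Ω₁ Ω₂) :=
  ⟨x.1, x.2, rfl⟩

theorem mem_snd {P : Subgroup (Ω₁ × Ω₂)} (x : P) : x.1.2 ∈ P.map (MonoidHom.snd Ω₁ Ω₂) :=
  ⟨x.1, x.2, rfl⟩

/-- The product system. -/
def prodSystem (F₁ : FusionSystem S₁) (F₂ : FusionSystem S₂) : FusionSystem (S₁.prod S₂) where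
  Hom := prodHom F₁ F₂
  le_of_mem := by
    rintro P φ ⟨hP, f, g, hf, hg, he⟩
    refine ⟨hP, fun x => ?_⟩
    rw [he]
    exact ⟨hf.mem (mem_fst x), hg.mem (mem_snd x)⟩
  injective_of_mem := by
    rintro P φ ⟨hP, f, g, hf, hg, he⟩ x y h
    rw [he, he, Prod.ext_iff] at h
    exact Subtype.ext (Prod.ext (hf.injOn (mem_fst x) (mem_fst y) h.1) (hg.injOn (mem_snd x) (mem_snd y) h.2))
  conj_mem := by
    intro P s hP hs
    refine ⟨hP, fun x => s.1 * x * s.1⁻¹, fun x => s.2 * x * s.2⁻¹, mor_conj ?_ hs.1, mor_conj ?_ hs.2,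
      fun x => rfl⟩
    · rintro _ ⟨x, hx, rfl⟩; exact (hP hx).1
    · rintro _ ⟨x, hx, rfl⟩; exact (hP hx).2
  comp_mem := by
    intro P Q φ ψ hφ hψ h
    obtain ⟨hP, f, g, hf, hg, he⟩ := hφ
    obtain ⟨-, f', g', hf', hg', he'⟩ := hψ
    refine ⟨hP, fun x => f' (f x), fun x => g' (g x), ?_, ?_, fun x => ?_⟩
    · refine hf'.comp hf ?_
      rintro _ ⟨x, hx, rfl⟩
      exact ⟨φ ⟨x, hx⟩, h _, by rw [he]; rfl⟩
    · refine hg'.comp hg ?_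
      rintro _ ⟨x, hx, rfl⟩
      exact ⟨φ ⟨x, hx⟩, h _, by rw [he]; rfl⟩
    · show ψ ⟨φ x, h x⟩ = _
      rw [he']
      simp only [he]
  inv_mem := by
    rintro P φ ⟨hP, f, g, hf, hg, he⟩
    have hinj : Function.Injective φ := fun x y h => by
      rw [he, he, Prod.ext_iff] at h
      exact Subtype.ext (Prod.ext (hf.injOn (mem_fst x) (mem_fst y) h.1)
        (hg.injOn (mem_snd x) (mem_snd y) h.2))
    let e := MonoidHom.ofInjective hinj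
    refine ⟨P.subtype.comp e.symm.toMonoidHom, ?_, fun x => ?_⟩
    · obtain ⟨k, hk, hk1, -, -⟩ := hf.exists_inv
      obtain ⟨l, hl, hl1, -, -⟩ := hg.exists_inv
      have e1 : φ.range.map (MonoidHom.fst Ω₁ Ω₂) = img (P.map (MonoidHom.fst Ω₁ Ω₂)) f := by
        refine le_antisymm ?_ (img_le ?_)
        · rintro _ ⟨_, ⟨x, rfl⟩, rfl⟩
          rw [he]
          exact mem_img_of_mem (mem_fst x)
        · rintro _ ⟨x, hx, rfl⟩
          exact ⟨φ ⟨x, hx⟩, ⟨_, rfl⟩, by rw [he]; rfl⟩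
      have e2 : φ.range.map (MonoidHom.snd Ω₁ Ω₂) = img (P.map (MonoidHom.snd Ω₁ Ω₂)) g := by
        refine le_antisymm ?_ (img_le ?_)
        · rintro _ ⟨_, ⟨x, rfl⟩, rfl⟩
          rw [he]
          exact mem_img_of_mem (mem_snd x)
        · rintro _ ⟨x, hx, rfl⟩
          exact ⟨φ ⟨x, hx⟩, ⟨_, rfl⟩, by rw [he]; rfl⟩
      refine ⟨?_, k, l, e1 ▸ hk, e2 ▸ hl, fun y => ?_⟩
      · rintro _ ⟨x, rfl⟩
        rw [he]
        exact ⟨hf.mem (mem_fst x), hg.mem (mem_snd x)⟩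
      · obtain ⟨x, rfl⟩ := e.surjective y
        show ((e.symm (e x) : P) : Ω₁ × Ω₂) = _
        rw [e.symm_apply_apply]
        show x.1 = (k (φ x).1, l (φ x).2)
        rw [he, hk1 _ (mem_fst x), hl1 _ (mem_snd x)]
    · show ((e.symm ⟨φ x, _⟩ : P) : Ω₁ × Ω₂) = x
      exact congrArg Subtype.val (e.symm_apply_apply x)

theorem isProductSystem_prodSystem (F₁ : FusionSystem S₁) (F₂ : FusionSystem S₂) :
    IsProductSystem F₁ F₂ (prodSystem F₁ F₂) := by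
  intro P φ
  constructor
  · rintro ⟨hP, f, g, hf, hg, he⟩
    obtain ⟨φ₁, h1, e1⟩ := hf.exists_hom
    obtain ⟨φ₂, h2, e2⟩ := hg.exists_hom
    exact ⟨hP, φ₁, h1, φ₂, h2, fun x _ _ => by rw [he, e1, e2]⟩
  · rintro ⟨hP, φ₁, h1, φ₂, h2, he⟩
    refine ⟨hP, _, _, mor_extFun h1, mor_extFun h2, fun x => ?_⟩
    rw [he x (mem_fst x) (mem_snd x), ← extFun_apply φ₁, ← extFun_apply φ₂]

end Cfsg.Lib.Fusion
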