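import Mathlib
import Cfsg.Agent.Lib.Fusion.ProductExists
import Cfsg.Agent.Lib.Fusion.Saturation

/-!
# The product of two saturated systems is saturated
-/

set_option autoImplicit false

namespace Cfsg.Lib.Fusion

open Cfsg Cfsg.FusionSystem Subgroup

variable {Ω₁ Ω₂ : Type*} [Group Ω₁] [Group Ω₂] {S₁ : Subgroup Ω₁} {S₂ : Subgroup Ω₂}
  {F₁ : FusionSystem S₁} {F₂ : FusionSystem S₂} {E : FusionSystem (S₁.prod S₂)} {P : Subgroup (Ω₁ × Ω₂)}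

/-- The first projection of a subgroup. -/
abbrev pr₁ (P : Subgroup (Ω₁ × Ω₂)) : Subgroup Ω₁ := P.map (MonoidHom.fst Ω₁ Ω₂)

/-- The second projection of a subgroup. -/
abbrev pr₂ (P : Subgroup (Ω₁ × Ω₂)) : Subgroup Ω₂ := P.map (MonoidHom.snd Ω₁ Ω₂)

theorem eq_prodSystem (hE : IsProductSystem F₁ F₂ E) : E = prodSystem F₁ F₂ :=
  system_ext fun P => Set.ext fun φ => (hE P φ).trans ((isProductSystem_prodSystem F₁ F₂) P φ).symm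

theorem mor_prod_iff {f : Ω₁ × Ω₂ → Ω₁ × Ω₂} : Mor (prodSystem F₁ F₂) P f ↔
    P ≤ S₁.prod S₂ ∧ ∃ f₁ f₂, Mor F₁ (pr₁ P) f₁ ∧ Mor F₂ (pr₂ P) f₂ ∧ ∀ x ∈ P, f x = (f₁ x.1, f₂ x.2) := by
  constructor
  · rintro ⟨φ, ⟨hP, f₁, f₂, h₁, h₂, he⟩, hφ⟩
    exact ⟨hP, f₁, f₂, h₁, h₂, fun x hx => (hφ ⟨x, hx⟩).symm.trans (he _)⟩
  · rintro ⟨hP, f₁, f₂, h₁, h₂, he⟩
    refine ⟨MonoidHom.mk' (fun x : P => (f₁ x.1.1, f₂ x.1.2)) fun x y => ?_, ⟨hP, f₁, f₂, h₁, h₂, fun x => rfl⟩,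
      fun x => (he x x.2).symm⟩
    exact Prod.ext (h₁.map_mul (mem_fst x) (mem_fst y)) (h₂.map_mul (mem_snd x) (mem_snd y))

theorem pr₁_img {f : Ω₁ × Ω₂ → Ω₁ × Ω₂} {f₁ : Ω₁ → Ω₁} {f₂ : Ω₂ → Ω₂} (h : Mor (prodSystem F₁ F₂) P f)
    (he : ∀ x ∈ P, f x = (f₁ x.1, f₂ x.2)) : pr₁ (img P f) = img (pr₁ P) f₁ := by
  refine le_antisymm ?_ (img_le ?_)
  · rintro _ ⟨y, hy, rfl⟩
    obtain ⟨x, hx, rfl⟩ := h.mem_img.1 hy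
    rw [he x hx]
    exact mem_img_of_mem ⟨x, hx, rfl⟩
  · rintro _ ⟨x, hx, rfl⟩
    exact ⟨f x, mem_img_of_mem hx, by rw [he x hx]; rfl⟩

theorem pr₂_img {f : Ω₁ × Ω₂ → Ω₁ × Ω₂} {f₁ : Ω₁ → Ω₁} {f₂ : Ω₂ → Ω₂} (h : Mor (prodSystem F₁ F₂) P f)
    (he : ∀ x ∈ P, f x = (f₁ x.1, f₂ x.2)) : pr₂ (img P f) = img (pr₂ P) f₂ := by
  refine le_antisymm ?_ (img_le ?_)
  · rintro _ ⟨y, hy, rfl⟩
    obtain ⟨x, hx, rfl⟩ := h.mem_img.1 hy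
    rw [he x hx]
    exact mem_img_of_mem ⟨x, hx, rfl⟩
  · rintro _ ⟨x, hx, rfl⟩
    exact ⟨f x, mem_img_of_mem hx, by rw [he x hx]; rfl⟩

theorem pr₁_le (hP : P ≤ S₁.prod S₂) : pr₁ P ≤ S₁ := by
  rintro _ ⟨x, hx, rfl⟩; exact (hP hx).1

theorem pr₂_le (hP : P ≤ S₁.prod S₂) : pr₂ P ≤ S₂ := by
  rintro _ ⟨x, hx, rfl⟩; exact (hP hx).2

theorem receptive_of_projections [Finite S₁] [Finite S₂] (hP : P ≤ S₁.prod S₂)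
    (h₁ : F₁.IsReceptive (pr₁ P)) (h₂ : F₂.IsReceptive (pr₂ P)) :
    (prodSystem F₁ F₂).IsReceptive P := by
  refine isReceptive_iff.2 ⟨hP, fun R f hf hi => ?_⟩
  obtain ⟨hR, f₁, f₂, hf₁, hf₂, he⟩ := mor_prod_iff.1 hf
  obtain ⟨k₁, hk₁, hk₁e⟩ := (isReceptive_iff.1 h₁).2 (pr₁ R) f₁ hf₁ (by rw [← pr₁_img hf he, hi])
  obtain ⟨k₂, hk₂, hk₂e⟩ := (isReceptive_iff.1 h₂).2 (pr₂ R) f₂ hf₂ (by rw [← pr₂_img hf he, hi])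
  have hN₁ : pr₁ (extN (S₁.prod S₂) R f) ≤ extN S₁ (pr₁ R) f₁ := by
    rintro _ ⟨c, ⟨hc, d, hd, hde⟩, rfl⟩
    refine ⟨mem_normalizerIn_of_conj (pr₁_le hR) (normalizerIn_le hc).1 ?_, d.1, hd.1, ?_⟩
    · rintro _ ⟨x, hx, rfl⟩
      exact ⟨c * x * c⁻¹, conj_mem_of_mem_normalizerIn hc hx, rfl⟩
    · rintro _ ⟨x, hx, rfl⟩
      have h := hde x hx
      rw [he _ (conj_mem_of_mem_normalizerIn hc hx), he x hx] at h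
      exact congrArg Prod.fst h
  have hN₂ : pr₂ (extN (S₁.prod S₂) R f) ≤ extN S₂ (pr₂ R) f₂ := by
    rintro _ ⟨c, ⟨hc, d, hd, hde⟩, rfl⟩
    refine ⟨mem_normalizerIn_of_conj (pr₂_le hR) (normalizerIn_le hc).2 ?_, d.2, hd.2, ?_⟩
    · rintro _ ⟨x, hx, rfl⟩
      exact ⟨c * x * c⁻¹, conj_mem_of_mem_normalizerIn hc hx, rfl⟩
    · rintro _ ⟨x, hx, rfl⟩
      have h := hde x hx
      rw [he _ (conj_mem_of_mem_normalizerIn hc hx), he x hx] at h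
      exact congrArg Prod.snd h
  refine ⟨fun x => (k₁ x.1, k₂ x.2), mor_prod_iff.2 ⟨extN_le, k₁, k₂, hk₁.restrict hN₁, hk₂.restrict hN₂,
    fun x _ => rfl⟩, fun x hx => ?_⟩
  show (k₁ x.1, k₂ x.2) = f x
  rw [he x hx]
  exact Prod.ext (hk₁e _ ⟨x, hx, rfl⟩) (hk₂e _ ⟨x, hx, rfl⟩)

/-- The projection of a group of automorphisms of a subgroup to one of its images. -/
theorem exists_proj {Ω Ω' : Type*} [Group Ω] [Group Ω'] {P : Subgroup Ω} {Q : Subgroup Ω'} (π : Ω → Ω')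
    (hπ : ∀ y ∈ Q, ∃ x ∈ P, π x = y) (hπm : ∀ x ∈ P, π x ∈ Q) (T : Subgroup (MulAut P))
    (A : Subgroup (MulAut Q)) (h : ∀ t ∈ T, ∃ α ∈ A, ∀ x ∈ P, π (autFun t x) = autFun α (π x)) :
    ∃ ρ : T →* MulAut Q, ρ.range ≤ A ∧ ∀ (t : T), ∀ x ∈ P, π (autFun (t : MulAut P) x) = autFun (ρ t) (π x) := by
  choose α hα hαe using h
  refine ⟨MonoidHom.mk' (fun t => α t t.2) fun s t => aut_ext fun y hy => ?_, ?_, fun t => hαe t t.2⟩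
  · obtain ⟨x, hx, rfl⟩ := hπ y hy
    rw [← hαe _ _ x hx, autFun_mul _ _ (hπm x hx), ← hαe _ _ x hx, ← hαe _ _ _ (autFun_mem _ hx),
      Subgroup.coe_mul, autFun_mul _ _ hx]
  · rintro _ ⟨t, rfl⟩
    exact hα t t.2

/-- S5137. -/
theorem product_saturated [Finite S₁] [Finite S₂] {p : ℕ} [Fact p.Prime] (h₁ : IsPGroup p S₁)
    (h₂ : IsPGroup p S₂) (hF₁ : F₁.IsSaturated p) (hF₂ : F₂.IsSaturated p)
    (hE : IsProductSystem F₁ F₂ E) : E.IsSaturated p := by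
  classical
  obtain rfl := eq_prodSystem hE
  haveI : Finite ↥(S₁.prod S₂) := Finite.of_equiv _ (Subgroup.prodEquiv S₁ S₂).symm.toEquiv
  have hS : IsPGroup p ↥(S₁.prod S₂) := by
    obtain ⟨a, ha⟩ := IsPGroup.iff_card.1 h₁
    obtain ⟨b, hb⟩ := IsPGroup.iff_card.1 h₂
    refine IsPGroup.of_card (n := a + b) ?_
    rw [Nat.card_congr (Subgroup.prodEquiv S₁ S₂).toEquiv, Nat.card_prod, ha, hb, pow_add]
  intro P hP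
  obtain ⟨Q₁, hc₁, ha₁, hr₁⟩ := hF₁ _ (pr₁_le hP)
  obtain ⟨Q₂, hc₂, ha₂, hr₂⟩ := hF₂ _ (pr₂_le hP)
  obtain ⟨f₁, hf₁, hi₁⟩ := isConj_iff.1 hc₁
  obtain ⟨f₂, hf₂, hi₂⟩ := isConj_iff.1 hc₂
  have hf : Mor (prodSystem F₁ F₂) P fun x => (f₁ x.1, f₂ x.2) :=
    mor_prod_iff.2 ⟨hP, f₁, f₂, hf₁, hf₂, fun _ _ => rfl⟩
  set P' := img P fun x => (f₁ x.1, f₂ x.2)
  have hP' : P' ≤ S₁.prod S₂ := hf.img_le_top
  have hp₁ : pr₁ P' = Q₁ := (pr₁_img hf fun _ _ => rfl).trans hi₁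
  have hp₂ : pr₂ P' = Q₂ := (pr₂_img hf fun _ _ => rfl).trans hi₂
  have := finite_mulAut_of_le hP'
  obtain ⟨T₀⟩ : Nonempty (Sylow p ((prodSystem F₁ F₂).autGroup P')) := inferInstance
  set T := (T₀ : Subgroup ((prodSystem F₁ F₂).autGroup P')).map ((prodSystem F₁ F₂).autGroup P').subtype
  have hTp : IsPGroup p T := T₀.isPGroup'.map _
  have hTle : T ≤ (prodSystem F₁ F₂).autGroup P' := Subgroup.map_subtype_le _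
  have hlift : ∀ t ∈ T, (∃ α ∈ F₁.autGroup Q₁, ∀ x ∈ P', (autFun t x).1 = autFun α x.1) ∧
      ∃ α ∈ F₂.autGroup Q₂, ∀ x ∈ P', (autFun t x).2 = autFun α x.2 := by
    intro t ht
    have hm := (mem_autGroup_iff hP').1 (hTle ht)
    obtain ⟨-, g₁, g₂, hg₁, hg₂, hge⟩ := mor_prod_iff.1 hm
    have e₁ := pr₁_img hm hge
    have e₂ := pr₂_img hm hge
    rw [img_autFun, hp₁] at e₁
    rw [img_autFun, hp₂] at e₂
    rw [hp₁] at hg₁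
    rw [hp₂] at hg₂
    obtain ⟨α, hα, hαe⟩ := hg₁.exists_aut e₁.symm
    obtain ⟨β, hβ, hβe⟩ := hg₂.exists_aut e₂.symm
    exact ⟨⟨α, hα, fun x hx => by rw [hge x hx, hαe _ (hp₁ ▸ ⟨x, hx, rfl⟩)]⟩,
      β, hβ, fun x hx => by rw [hge x hx, hβe _ (hp₂ ▸ ⟨x, hx, rfl⟩)]⟩
  obtain ⟨ρ₁, hρ₁, hρ₁e⟩ := exists_proj (P := P') (Q := Q₁) Prod.fst (fun y hy => by
      rw [← hp₁] at hy; obtain ⟨x, hx, rfl⟩ := hy; exact ⟨x, hx, rfl⟩)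
    (fun x hx => hp₁ ▸ ⟨x, hx, rfl⟩) T _ fun t ht => (hlift t ht).1
  obtain ⟨ρ₂, hρ₂, hρ₂e⟩ := exists_proj (P := P') (Q := Q₂) Prod.snd (fun y hy => by
      rw [← hp₂] at hy; obtain ⟨x, hx, rfl⟩ := hy; exact ⟨x, hx, rfl⟩)
    (fun x hx => hp₂ ▸ ⟨x, hx, rfl⟩) T _ fun t ht => (hlift t ht).2
  obtain ⟨γ₁, hγ₁, hγ₁A⟩ := exists_conj_le_autInducedBy ha₁ hρ₁
    (hTp.of_surjective _ ρ₁.rangeRestrict_surjective)
  obtain ⟨γ₂, hγ₂, hγ₂A⟩ := exists_conj_le_autInducedBy ha₂ hρ₂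
    (hTp.of_surjective _ ρ₂.rangeRestrict_surjective)
  have hh : Mor (prodSystem F₁ F₂) P' fun x => (autFun γ₁ x.1, autFun γ₂ x.2) :=
    mor_prod_iff.2 ⟨hP', _, _, hp₁.symm ▸ (mem_autGroup_iff ha₁.1).1 hγ₁,
      hp₂.symm ▸ (mem_autGroup_iff ha₂.1).1 hγ₂, fun _ _ => rfl⟩
  set P'' := img P' fun x => (autFun γ₁ x.1, autFun γ₂ x.2)
  have hP'' : P'' ≤ S₁.prod S₂ := hh.img_le_top
  have hq₁ : pr₁ P'' = Q₁ := by rw [pr₁_img hh fun _ _ => rfl, hp₁, img_autFun]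
  have hq₂ : pr₂ P'' = Q₂ := by rw [pr₂_img hh fun _ _ => rfl, hp₂, img_autFun]
  refine ⟨P'', isConj_trans hf.isConj hh.isConj, ?_, receptive_of_projections hP'' (hq₁ ▸ hr₁) (hq₂ ▸ hr₂)⟩
  obtain ⟨e, hee⟩ := hh.exists_equiv rfl
  rw [fullyAutomized_iff hS hP'']
  have := finite_mulAut_of_le hP''
  have hle := autInducedBy_le_autGroup (F := prodSystem F₁ F₂) hP''
  have hcardT : Nat.card T = p ^ (Nat.card ((prodSystem F₁ F₂).autGroup P'')).factorization p := by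
    rw [isConj_card_autGroup hh.isConj, ← T₀.card_eq_multiplicity]
    exact Subgroup.card_map_of_injective ((prodSystem F₁ F₂).autGroup P').subtype_injective
  refine le_antisymm ?_ (hcardT ▸ ?_)
  · obtain ⟨a, ha⟩ := IsPGroup.iff_card.1 (isPGroup_autInducedBy (P := P'') hS)
    have hdvd := Subgroup.card_dvd_of_le hle
    rw [ha] at hdvd ⊢
    exact Nat.pow_le_pow_right (Fact.out : p.Prime).pos
      ((Nat.Prime.pow_dvd_iff_le_factorization Fact.out Nat.card_pos.ne').1 hdvd)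
  rw [← Subgroup.card_map_of_injective (f := (MulAut.congr e).toMonoidHom) (MulAut.congr e).injective]
  refine Nat.le_of_dvd Nat.card_pos (Subgroup.card_dvd_of_le ?_)
  rintro _ ⟨t, ht, rfl⟩
  obtain ⟨d₁, hd₁, hd₁e⟩ := mem_autInducedBy_iff.1 (hγ₁A _ ⟨⟨t, ht⟩, rfl⟩)
  obtain ⟨d₂, hd₂, hd₂e⟩ := mem_autInducedBy_iff.1 (hγ₂A _ ⟨⟨t, ht⟩, rfl⟩)
  refine mem_autInducedBy_iff.2 ⟨(d₁, d₂), ⟨hd₁, hd₂⟩, fun y hy => ?_⟩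
  obtain ⟨x, hx, rfl⟩ := hh.mem_img.1 hy
  have hx₁ : x.1 ∈ Q₁ := hp₁ ▸ ⟨x, hx, rfl⟩
  have hx₂ : x.2 ∈ Q₂ := hp₂ ▸ ⟨x, hx, rfl⟩
  have h := autFun_congr_apply e t ⟨x, hx⟩
  rw [hee] at h
  show autFun (MulAut.congr e t) _ = _
  rw [h, hee, ← autFun_apply t hx, hρ₁e ⟨t, ht⟩ x hx, hρ₂e ⟨t, ht⟩ x hx]
  have k₁ := hd₁e _ (autFun_mem γ₁ hx₁)
  have k₂ := hd₂e _ (autFun_mem γ₂ hx₂)
  rw [autFun_mul _ _ (autFun_mem γ₁ hx₁), ← autFun_mul γ₁⁻¹ γ₁ hx₁, inv_mul_cancel,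
    autFun_apply (1 : MulAut Q₁) hx₁, MulAut.one_apply, autFun_mul γ₁ _ hx₁] at k₁
  rw [autFun_mul _ _ (autFun_mem γ₂ hx₂), ← autFun_mul γ₂⁻¹ γ₂ hx₂, inv_mul_cancel,
    autFun_apply (1 : MulAut Q₂) hx₂, MulAut.one_apply, autFun_mul γ₂ _ hx₂] at k₂
  exact Prod.ext k₁ k₂

end Cfsg.Lib.Fusion
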