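import Mathlib
import Cfsg.Prelude.Def_FusionReduction
import Cfsg.Agent.Lib.Fusion.PPowerIndex

/-!
The hyperfocal subgroup of a subsystem of `p`-power index, and uniqueness of residual limits.
-/

set_option autoImplicit false
set_option linter.style.haveILetI false

open scoped Classical

namespace Cfsg.Lib.Fusion.ResidualLimit

open Cfsg Cfsg.FusionSystem Cfsg.Lib.Fusion Cfsg.Lib.Fusion.PPowerIndex

universe u

variable {Ω : Type u} [Group Ω] {p : ℕ}

/-- Same maps. -/
def Same {S T : Subgroup Ω} (F : FusionSystem S) (E : FusionSystem T) : Prop := ∀ P : Subgroup Ω, F.Hom P = E.Hom P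

theorem Same.eq {S T : Subgroup Ω} {F : FusionSystem S} {E : FusionSystem T} (h : Same F E) : S = T :=
  le_antisymm
    (le_of_isSubsystemOf (E := F) (F := E) fun P => (h P).le)
    (le_of_isSubsystemOf (E := E) (F := F) fun P => (h P).ge)

theorem same_of_mutual {S T : Subgroup Ω} {F : FusionSystem S} {E : FusionSystem T}
    (h₁ : F.IsSubsystemOf E) (h₂ : E.IsSubsystemOf F) : Same F E := fun P => Set.Subset.antisymm (h₁ P) (h₂ P)

theorem hyperfocal_mono {S T : Subgroup Ω} {F : FusionSystem S} {E : FusionSystem T} (h : E.IsSubsystemOf F) :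
    E.hyperfocalSubgroup p ≤ F.hyperfocalSubgroup p := by
  refine Cfsg.Lib.Transfer.GroupHyperfocal.hyperfocal_le_of _ fun P hP α hα ho x => ?_
  exact mem_hyperfocal_of_residual (hP.trans (le_of_isSubsystemOf h)) (α := ⟨α, autGroup_mono h hP hα⟩)
    (Cfsg.Lib.Transfer.coprime_orderOf_mem_pResidual (by rwa [Subgroup.orderOf_mk])) x

theorem hyperfocal_eq [hp : Fact p.Prime] {S T : Subgroup Ω} [Finite S] (hS : IsPGroup p S) {F : FusionSystem S}
    (hF : F.IsSaturated p) {E : FusionSystem T} (hEi : E.HasPPowerIndexIn F p) (hsc : F.StronglyClosed T) :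
    E.hyperfocalSubgroup p = F.hyperfocalSubgroup p := by
  refine le_antisymm (hyperfocal_mono hEi.1) ?_
  set H := E.hyperfocalSubgroup p with hH
  refine Cfsg.Lib.Transfer.GroupHyperfocal.hyperfocal_le_of _ fun Q hQ β hβ ho x => ?_
  have hTS := hsc.1
  have hm : Mor F (Q ⊓ T) (autFun β) := ((mem_autGroup_iff hQ).1 hβ).restrict inf_le_left
  obtain ⟨δ, hδ, hδe⟩ := hm.exists_aut (hm.img_eq_of_card_le (inf_le_left.trans hQ)
    (fun y hy => ⟨autFun_mem β hy.1, StronglyClosed.mem hsc hm hy hy.2⟩) le_rfl)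
  have hod : (orderOf δ).Coprime p := ho.coprime_dvd_left (orderOf_restrict_dvd inf_le_left β δ hδe)
  have hδE : δ ∈ E.autGroup (Q ⊓ T) := mem_residual_of_coprime hEi inf_le_right hδ hod
  set a := (x : Ω)⁻¹ * (β x : Ω) with ha
  have haT : a ∈ Q ⊓ T := ⟨Q.mul_mem (Q.inv_mem x.2) (β x).2,
    hEi.2.1 (mem_hyperfocal_of_residual (F := F) (α := ⟨β, hβ⟩) hQ
      (Cfsg.Lib.Transfer.coprime_orderOf_mem_pResidual (by rwa [Subgroup.orderOf_mk])) x)⟩
  have hstep : ∀ i : ℕ, a⁻¹ * autFun (β ^ i) a ∈ H := fun i => by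
    rw [← autFun_pow_agree inf_le_left β δ hδe i a haT, autFun_apply _ haT]
    exact mem_hyperfocal_of_residual (F := E) (α := ⟨δ ^ i, pow_mem hδE i⟩) inf_le_right
      (Cfsg.Lib.Transfer.coprime_orderOf_mem_pResidual (by
        rw [Subgroup.orderOf_mk]
        exact hod.coprime_dvd_left (orderOf_pow_dvd i))) ⟨a, haT⟩
  have hprod : ∀ k : ℕ, (a ^ k)⁻¹ * ((x : Ω)⁻¹ * ((β ^ k) x : Ω)) ∈ H := by
    intro k
    induction k with
    | zero => simp
    | succ k ih =>
      have h2 : ((β ^ (k + 1)) x : Ω) = ((β ^ k) x : Ω) * autFun (β ^ k) a := by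
        rw [autFun_apply _ haT.1, ← Subgroup.coe_mul, ← map_mul, pow_succ, MulAut.mul_apply]
        congr 1
        refine congrArg (β ^ k) (Subtype.ext ?_)
        show ((β x : Q) : Ω) = (x : Ω) * a
        rw [ha, mul_inv_cancel_left]
      have h3 := hyperfocal_conj_mem (T.inv_mem haT.2) ih
      have h4 := H.mul_mem h3 (hstep k)
      have h5 : (a ^ (k + 1))⁻¹ * ((x : Ω)⁻¹ * ((β ^ (k + 1)) x : Ω)) =
          a⁻¹ * ((a ^ k)⁻¹ * ((x : Ω)⁻¹ * ((β ^ k) x : Ω))) * a⁻¹⁻¹ * (a⁻¹ * autFun (β ^ k) a) := by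
        rw [h2, pow_succ]
        group
      rw [h5]
      exact h4
  haveI := finite_mulAut_of_le hQ
  have hn := hprod (orderOf β)
  rw [pow_orderOf_eq_one, MulAut.one_apply, inv_mul_cancel, mul_one, inv_mem_iff] at hn
  obtain ⟨k, hk⟩ := isPGroup_of_le hS hTS ⟨a, haT.2⟩
  have hak : a ^ p ^ k = 1 := congrArg Subtype.val hk
  have hg := Nat.gcd_eq_gcd_ab (orderOf β) (p ^ k)
  rw [Nat.coprime_iff_gcd_eq_one.1 (ho.pow_right k), Nat.cast_one] at hg
  have : a = (a ^ orderOf β) ^ Nat.gcdA (orderOf β) (p ^ k) := by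
    conv_lhs => rw [← zpow_one a, hg, zpow_add, zpow_mul, zpow_mul, zpow_natCast, zpow_natCast, hak, one_zpow, mul_one]
  rw [this]
  exact H.zpow_mem hn _

theorem pResidual_same [Fact p.Prime] {S U : Subgroup Ω} [Finite S] (hS : IsPGroup p S) {F : FusionSystem S}
    {D : FusionSystem (F.hyperfocalSubgroup p)} (hD : F.IsPResidual p D) {D' : FusionSystem U}
    (hU : U = F.hyperfocalSubgroup p) (hs : D'.IsSaturated p) (hi : D'.HasPPowerIndexIn F p) : Same D D' :=
  same_of_mutual (isSubsystemOf_pPower hS hD.1 hD.2.1 hU.ge hi)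
    (isSubsystemOf_pPower hS hs hi.1 hU.le hD.2)

theorem pPrime_same {S : Subgroup Ω} {F : FusionSystem S} {D D' : FusionSystem S}
    (hD : F.IsPPrimeResidual p D) (hD' : F.IsPPrimeResidual p D') : D = D' :=
  system_ext (same_of_mutual (hD.2.2 D' hD'.1 hD'.2.1) (hD'.2.2 D hD.1 hD.2.1))

theorem pPrime_transfer {S T : Subgroup Ω} {F : FusionSystem S} {E : FusionSystem T} (h : Same F E)
    {D : FusionSystem S} (hD : F.IsPPrimeResidual p D) {D' : FusionSystem T} (hD' : E.IsPPrimeResidual p D') :
    Same D D' := by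
  obtain rfl := h.eq
  obtain rfl := system_ext h
  rw [pPrime_same hD hD']
  exact fun _ => rfl

/-- A stable system is its only residual limit. -/
theorem limit_of_stable {U S : Subgroup Ω} {Einf : FusionSystem U} {F : FusionSystem S}
    (h : Einf.IsResidualLimitOf F p) :
    Fact p.Prime → Finite S → IsPGroup p S → F.hyperfocalSubgroup p = S → F.IsPPrimeResidual p F → Same Einf F := by
  induction h with
  | stable F p _ _ => exact fun _ _ _ _ _ => fun _ => rfl
  | @step S E F p D D' hD hD' hlim ih =>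
    intro hp hfin hS hst hres
    haveI := hp
    have h1 : Same D F := pResidual_same hS hD hst.symm hres.1
      ⟨fun _ => le_rfl, hst.le, fun P _ => Subgroup.map_subtype_le _⟩
    have h2 : Same D' F := pPrime_transfer h1 hD' hres
    have h3 := h2.eq
    have hfin' : Finite ↥(F.hyperfocalSubgroup p) := finite_of_le hyperfocal_le
    refine fun P => (ih hp hfin' (isPGroup_of_le hS hyperfocal_le) ?_ ?_ P).trans (h2 P)
    · have : ∀ {U : Subgroup Ω} (G : FusionSystem U), Same G F → G.hyperfocalSubgroup p = U := by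
        intro U G hG
        obtain rfl := hG.eq
        obtain rfl := system_ext hG
        exact hst
      exact this D' h2
    · have : ∀ {U : Subgroup Ω} (G : FusionSystem U), Same G F → G.IsPPrimeResidual p G := by
        intro U G hG
        obtain rfl := hG.eq
        obtain rfl := system_ext hG
        exact hres
      exact this D' h2

/-- Residual limits are unique. -/
theorem limit_unique {U S : Subgroup Ω} {Finf : FusionSystem U} {F : FusionSystem S}
    (h : Finf.IsResidualLimitOf F p) :
    Fact p.Prime → Finite S → IsPGroup p S → ∀ {V T : Subgroup Ω} (Einf : FusionSystem V) (E : FusionSystem T),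
      Same F E → Einf.IsResidualLimitOf E p → Same Finf Einf := by
  induction h with
  | stable F p hst hres =>
    intro hp hfin hS V T Einf E hsame hE
    obtain rfl := hsame.eq
    obtain rfl := system_ext hsame
    exact fun P => (limit_of_stable hE hp hfin hS hst hres P).symm
  | @step S E' F p D D' hD hD' hlim ih =>
    intro hp hfin hS V T Einf E hsame hE
    haveI := hp
    obtain rfl := hsame.eq
    obtain rfl := system_ext hsame
    cases hE with
    | stable _ _ hst hres =>
      exact limit_of_stable (IsResidualLimitOf.step _ _ D D' hD hD' hlim) hp hfin hS hst hres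
    | step _ _ C C' hC hC' hlim' =>
      have hfin' : Finite ↥(F.hyperfocalSubgroup p) := finite_of_le hyperfocal_le
      have h1 : Same D C := pResidual_same hS hD rfl hC.1 hC.2
      exact ih hp hfin' (isPGroup_of_le hS hyperfocal_le) _ C' (pPrime_transfer h1 hD' hC') hlim'

theorem limit_eq [Fact p.Prime] {S T U V : Subgroup Ω} [Finite S] (hS : IsPGroup p S) {F : FusionSystem S}
    (hF : F.IsSaturated p) {E : FusionSystem T} (hE : E.IsNormalIn F p) (hidx : E.HasPPowerIndexIn F p)
    {Finf : FusionSystem U} (hFinf : Finf.IsResidualLimitOf F p)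
    {Einf : FusionSystem V} (hEinf : Einf.IsResidualLimitOf E p) : Same Finf Einf := by
  have hEs := hE.1.1
  have hTS := le_of_isSubsystemOf hidx.1
  have hh := hyperfocal_eq hS hF hidx hE.1.2.2.2.1
  haveI := finite_of_le hTS
  have hTp := isPGroup_of_le hS hTS
  cases hFinf with
  | stable _ _ hst hres =>
    have h1 : Same _ E := same_of_mutual
      (isSubsystemOf_pPower hS hF (fun _ => le_rfl) (hst.ge.trans hidx.2.1) hidx) hidx.1
    exact limit_unique (IsResidualLimitOf.stable _ p hst hres) ‹_› ‹_› hS Einf E h1 hEinf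
  | step _ _ D D' hD hD' hlim =>
    haveI : Finite ↥(F.hyperfocalSubgroup p) := finite_of_le hyperfocal_le
    cases hEinf with
    | stable _ _ hst hres =>
      have h1 : Same D _ := pResidual_same hS hD (hst.symm.trans hh) hEs hidx
      exact limit_unique hlim ‹_› ‹_› (isPGroup_of_le hS hyperfocal_le) _ _ (pPrime_transfer h1 hD' hres)
        (IsResidualLimitOf.stable _ p hst hres)
    | step _ _ C C' hC hC' hlim' =>
      have hCF : C.IsSubsystemOf F := fun P φ hφ => hidx.1 P (hC.2.1 P hφ)
      have h1 : Same D C := by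
        refine pResidual_same hS hD hh hC.1 ⟨hCF, hh.ge, fun P hP => ?_⟩
        rw [Subgroup.map_le_iff_le_comap]
        refine (Subgroup.closure_le _).2 fun γ hγ => ?_
        have ho : (orderOf (γ : MulAut P)).Coprime p := by rw [Subgroup.orderOf_coe]; exact hγ
        exact mem_residual_of_coprime hC.2 hP (mem_residual_of_coprime hidx (hP.trans hyperfocal_le) γ.2 ho) ho
      exact limit_unique hlim ‹_› ‹_› (isPGroup_of_le hS hyperfocal_le) Einf C' (pPrime_transfer h1 hD' hC') hlim'

end Cfsg.Lib.Fusion.ResidualLimit
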