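import Mathlib
import Cfsg.Prelude.Def_FusionSystem
import Cfsg.Agent.Lib.Fusion.Alperin
import Cfsg.Agent.Lib.Fusion.Essential
import Cfsg.Agent.Lib.Fusion.Saturation
import Cfsg.Agent.Lib.Fusion.LocalSystem
import Cfsg.Agent.Lib.Fusion.ExtSystem

/-!
`p`-stability of a saturated system is decided in the normalizers of the centric radical subgroups.
-/

set_option autoImplicit false
set_option linter.style.haveILetI false

open scoped Classical

namespace Cfsg.Lib.Fusion.StableLocal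

open Cfsg Cfsg.FusionSystem Cfsg.Lib.Fusion

variable {Ω : Type*} [Group Ω] {S : Subgroup Ω} [Finite S] {p : ℕ} [Fact p.Prime]

/-- Quadratic automorphisms of `Q` lie in the core of the automizer. -/
def StableAt (p : ℕ) {T : Subgroup Ω} (F : Cfsg.FusionSystem T) (Q : Subgroup Ω) : Prop :=
  ∀ χ : MulAut ↥Q, χ ∈ F.autGroup Q → (∀ a : ↥Q, (χ a⁻¹) * a * (χ a⁻¹) * (χ (χ a)) = 1) →
    χ ∈ ((pCore p ↥(F.autGroup Q)).map (F.autGroup Q).subtype : Subgroup (MulAut ↥Q))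

variable {F : Cfsg.FusionSystem S} {Q Q' R : Subgroup Ω}

/-- The property moves along conjugacy. -/
theorem stableAt_of_isConj (h : F.IsConj Q Q') (hst : StableAt p F Q') : StableAt p F Q := by
  obtain ⟨f, hf, hfi⟩ := isConj_iff.1 h
  obtain ⟨e, he⟩ := hf.exists_equiv hfi
  obtain ⟨k, hk, hk1, -, hki⟩ := hf.exists_inv
  rw [hfi] at hk hki
  have hek : ∀ y : Q', (e.symm y : Ω) = k y := fun y => by
    obtain ⟨x, rfl⟩ := e.surjective y
    rw [e.symm_apply_apply, he, hk1 x x.2]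
  haveI := finite_of_le hf.le
  haveI := finite_mulAut_of_le hf.le
  haveI := finite_of_le hk.le
  haveI := finite_mulAut_of_le hk.le
  intro χ hχ hq
  have hle := hf.map_autGroup_le e he
  have hle' := hk.map_autGroup_le e.symm hek
  let r : F.autGroup Q' →* F.autGroup Q :=
    ((MulAut.congr e.symm).toMonoidHom.comp (F.autGroup Q').subtype).codRestrict _ fun a =>
      hle' ⟨a, a.2, rfl⟩
  have hr : Function.Surjective r := fun a => by
    refine ⟨⟨MulAut.congr e (a : MulAut Q), hle ⟨a, a.2, rfl⟩⟩, Subtype.ext (MulEquiv.ext fun x => ?_)⟩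
    simp [r, MulAut.congr]
  have hq' : ∀ a : Q', (MulAut.congr e χ a⁻¹) * a * (MulAut.congr e χ a⁻¹) * (MulAut.congr e χ (MulAut.congr e χ a)) = 1 := fun a => by
    obtain ⟨x, rfl⟩ := e.surjective a
    have hc : ∀ z : Q, MulAut.congr e χ (e z) = e (χ z) := fun z => by simp [MulAut.congr]
    rw [← map_inv e, hc, hc, hc, ← map_mul, ← map_mul, ← map_mul, hq, map_one]
  obtain ⟨z, hz, hze⟩ := hst (MulAut.congr e χ) (hle ⟨χ, hχ, rfl⟩) hq'
  refine ⟨r z, ?_, ?_⟩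
  · exact Cfsg.Lib.Solv.le_pCore (Subgroup.Normal.map (inferInstance : (pCore p (F.autGroup Q')).Normal) r hr)
      ((Cfsg.Lib.Solv.isPGroup_pCore (G := F.autGroup Q') p).map r) ⟨z, hz, rfl⟩
  · show MulAut.congr e.symm (z : MulAut Q') = χ
    rw [show (z : MulAut Q') = MulAut.congr e χ from hze]
    exact MulEquiv.ext fun x => by simp [MulAut.congr]

/-- Every automorphism of `Q` in the system extends to `R`. -/
def Ext (F : Cfsg.FusionSystem S) (Q R : Subgroup Ω) : Prop :=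
  Q ≤ R ∧ R ≤ S ∧ ∀ f, Mor F Q f → img Q f = Q →
    ∃ k, Mor F R k ∧ (∀ x ∈ Q, k x = f x) ∧ img R k = R

theorem ext_img (h : Ext F Q R) {g : Ω → Ω} (hg : Mor F R g) : Ext F (img Q g) (img R g) := by
  obtain ⟨hQR, hRS, hext⟩ := h
  refine ⟨img_mono hQR, hg.img_le_top, fun f hf hfi => ?_⟩
  obtain ⟨j, hj, hj1, hj2, hji⟩ := hg.exists_inv
  have hgQ := hg.restrict hQR
  have hfmem : ∀ y ∈ img Q g, f y ∈ img Q g := fun y hy => hfi ▸ mem_img_of_mem hy
  have hjQ : ∀ y ∈ img Q g, j y ∈ Q := fun y hy => by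
    obtain ⟨x, hx, rfl⟩ := hgQ.mem_img.1 hy
    rw [hj1 x (hQR hx)]; exact hx
  have hh : Mor F Q (fun x => j (f (g x))) :=
    (hj.restrict (img_mono hQR)).comp (hf.comp hgQ fun x hx => mem_img_of_mem hx)
      fun x hx => hfmem _ (mem_img_of_mem hx)
  have hhi : img Q (fun x => j (f (g x))) = Q :=
    hh.img_eq_of_card_le (hQR.trans hRS) (fun x hx => hjQ _ (hfmem _ (mem_img_of_mem hx))) le_rfl
  obtain ⟨k, hk, hke, hki⟩ := hext _ hh hhi
  have hkm : ∀ x ∈ R, k x ∈ R := fun x hx => hki ▸ mem_img_of_mem hx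
  have hjm : ∀ y ∈ img R g, j y ∈ R := fun y hy => hji ▸ mem_img_of_mem hy
  have hK : Mor F (img R g) (fun y => g (k (j y))) :=
    hg.comp (hk.comp hj hjm) fun y hy => hkm _ (hjm y hy)
  refine ⟨_, hK, fun y hy => ?_,
    hK.img_eq_of_card_le hg.img_le_top (fun y hy => mem_img_of_mem (hkm _ (hjm y hy))) le_rfl⟩
  obtain ⟨x, hx, rfl⟩ := hgQ.mem_img.1 hy
  show g (k (j (g x))) = f (g x)
  rw [hj1 x (hQR hx), hke x hx]
  exact (hj2 _ (img_mono hQR (hfmem _ (mem_img_of_mem hx)))).1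

set_option maxHeartbeats 1000000 in
/-- The criterion. -/
theorem stableAt_of_local (hS : IsPGroup p S) (hF : F.IsSaturated p)
    (h : ∀ R, F.IsFullyNormalized R → F.IsCentric R → F.IsRadical p R →
      ∀ N : Cfsg.FusionSystem (normalizerIn S R), F.IsNormalizerSystem R N →
        ∀ Q, N.IsFullyNormalized Q → StableAt p N Q)
    (hQS : Q ≤ S) : StableAt p F Q := by
  -- a starting pair
  obtain ⟨Q₁, hQ₁, hQ₁n⟩ := exists_fullyNormalized F hQS
  have hrec := receptive_of_fullyNormalized hS hF hQ₁n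
  set C := centralizerIn S Q₁
  have hCN : ∀ c ∈ C, ∀ x ∈ Q₁, c * x * c⁻¹ = x := fun c hc => (mem_centralizerIn_iff.1 hc).2
  have hRS : Q₁ ⊔ C ≤ S := sup_le hQ₁n.1 centralizerIn_le
  have hRc : F.IsCentric (Q₁ ⊔ C) := by
    refine ⟨hRS, fun R hR => ?_⟩
    obtain ⟨g, hg, rfl⟩ := isConj_iff.1 hR
    intro z hz
    obtain ⟨Q₂, hQ₂⟩ : ∃ Q₂, Q₂ = img Q₁ g := ⟨_, rfl⟩
    have hconj : F.IsConj Q₁ Q₂ := hQ₂ ▸ (hg.restrict le_sup_left).isConj
    have hCle : img C g ≤ centralizerIn S Q₂ := img_le fun c hc =>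
      hQ₂ ▸ hg.mem_centralizerIn le_sup_left (Subgroup.mem_sup_right hc) hc
    have heq : img C g = centralizerIn S Q₂ := by
      haveI := finite_of_le (centralizerIn_le (S := S) (P := Q₂))
      refine Subgroup.eq_of_le_of_card_ge hCle ?_
      rw [(hg.restrict le_sup_right).card_img]
      exact (fullyNormalized_axiom hS hF hQ₁n).1.2 Q₂ hconj
    have hz2 : z ∈ centralizerIn S Q₂ := by
      refine mem_centralizerIn_iff.2 ⟨centralizerIn_le hz, fun x hx => ?_⟩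
      exact (mem_centralizerIn_iff.1 hz).2 x (img_mono le_sup_left (hQ₂ ▸ hx))
    rw [← heq] at hz2
    exact img_mono le_sup_right hz2
  have hExt₁ : Ext F Q₁ (Q₁ ⊔ C) := by
    refine ⟨le_sup_left, hRS, fun f hf hfi => ?_⟩
    obtain ⟨k, hk, hke⟩ := (isReceptive_iff.1 hrec).2 Q₁ f hf hfi
    have hle : Q₁ ⊔ C ≤ extN S Q₁ f := sup_le hf.le_extN centralizerIn_le_extN
    have hk' := hk.restrict hle
    refine ⟨k, hk', hke, hk'.img_eq_of_card_le hRS (fun x hx => ?_) le_rfl⟩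
    obtain ⟨φ, -, hφ⟩ := hk'.exists_hom
    have hW : Q₁ ⊔ C ≤ ((Q₁ ⊔ C).comap φ).map (Q₁ ⊔ C).subtype := by
      refine sup_le (fun y hy => ?_) fun c hc => ?_
      · refine ⟨⟨y, Subgroup.mem_sup_left hy⟩, ?_, rfl⟩
        show φ _ ∈ Q₁ ⊔ C
        rw [hφ ⟨y, Subgroup.mem_sup_left hy⟩, hke y hy]
        exact Subgroup.mem_sup_left (hfi ▸ mem_img_of_mem hy)
      · refine ⟨⟨c, Subgroup.mem_sup_right hc⟩, ?_, rfl⟩
        show φ _ ∈ Q₁ ⊔ C
        rw [hφ ⟨c, Subgroup.mem_sup_right hc⟩]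
        have h1 := hk'.mem_centralizerIn le_sup_left (Subgroup.mem_sup_right hc) hc
        rw [img_congr hke, hfi] at h1
        exact Subgroup.mem_sup_right h1
    obtain ⟨y, hy, hye⟩ := hW hx
    rw [← hye, show k ((Q₁ ⊔ C).subtype y) = φ y from (hφ y).symm]
    exact hy
  -- a largest pair
  set P := {R : Subgroup Ω | ∃ Q₂, F.IsConj Q Q₂ ∧ F.IsCentric R ∧ Ext F Q₂ R}
  have hfin : P.Finite := (finite_subgroups_le S).subset fun R ⟨_, _, _, hE⟩ => hE.2.1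
  obtain ⟨R, ⟨Q₂, hQ₂, hRc', hExt⟩, hmax⟩ :=
    Set.exists_max_image P (fun R => Nat.card R) hfin ⟨_, Q₁, hQ₁, hRc, hExt₁⟩
  obtain ⟨R₁, hR₁, hR₁n⟩ := exists_fullyNormalized F hExt.2.1
  obtain ⟨g, hg, rfl⟩ := isConj_iff.1 hR₁
  set Q₃ := img Q₂ g
  have hQ₃ : F.IsConj Q Q₃ := isConj_trans hQ₂ (hg.restrict hExt.1).isConj
  have hExt₃ : Ext F Q₃ (img R g) := ext_img hExt hg
  have hR₁c : F.IsCentric (img R g) :=
    ⟨hg.img_le_top, fun R' hR' => hRc'.2 R' (isConj_trans hg.isConj hR')⟩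
  set R₁ := img R g
  haveI := finite_of_le hR₁n.1
  haveI := finite_mulAut_of_le hR₁n.1
  have hrad : F.IsRadical p R₁ := by
    refine ⟨hR₁n.1, le_antisymm ?_ (inn_le_pCore hS hR₁n.1)⟩
    set K := (pCore p (F.autGroup R₁)).map (F.autGroup R₁).subtype with hK
    by_contra hne
    obtain ⟨hc, ha⟩ := fullyNormalized_axiom hS hF hR₁n
    have hKle : K ≤ F.autGroup R₁ := Subgroup.map_subtype_le _
    have hKn : ∀ γ ∈ F.autGroup R₁, ∀ a ∈ K, γ * a * γ⁻¹ ∈ K := by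
      rintro γ hγ _ ⟨a, ha', rfl⟩
      exact Subgroup.mem_map.2 ⟨⟨γ, hγ⟩ * a * ⟨γ, hγ⟩⁻¹, pCore_conj_mem _ ha', by simp⟩
    have hKp : IsPGroup p K := IsPGroup.map (Cfsg.Lib.Solv.isPGroup_pCore (G := F.autGroup R₁) p) _
    have hKS : K ≤ autInducedBy S R₁ := le_autInducedBy_of_normal ha hKle hKp hKn
    set R' : Subgroup Ω := (K.comap (conjAut S R₁)).map (normalizerIn S R₁).subtype with hR'
    have hR'S : R' ≤ S := (Subgroup.map_subtype_le _).trans normalizerIn_le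
    have hR₁R' : R₁ ≤ R' := fun x hx => ⟨⟨x, le_normalizerIn hR₁n.1 hx⟩, by
      refine inn_le_pCore (F := F) hS hR₁n.1 ?_
      rw [inn_eq_autInducedBy]
      exact mem_autInducedBy_iff.2 ⟨x, hx, fun y hy => autFun_conjAut _ hy⟩, rfl⟩
    have hR'c : F.IsCentric R' := by
      refine ⟨hR'S, fun R'' hR'' => ?_⟩
      obtain ⟨u, hu, rfl⟩ := isConj_iff.1 hR''
      intro z hz
      refine img_mono hR₁R' (hR₁c.2 _ (hu.restrict hR₁R').isConj (mem_centralizerIn_iff.2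
        ⟨centralizerIn_le hz, fun x hx => (mem_centralizerIn_iff.1 hz).2 x (img_mono hR₁R' hx)⟩))
    have hExt' : Ext F Q₃ R' := by
      refine ⟨hExt₃.1.trans hR₁R', hR'S, fun f hf hfi => ?_⟩
      obtain ⟨k, hk, hke, hki⟩ := hExt₃.2.2 f hf hfi
      obtain ⟨γ, hγ, hγe⟩ := hk.exists_aut hki
      obtain ⟨m, hm, hme⟩ := (isReceptive_iff.1 (fullyCentralized_axiom hS hF hc)).2 R₁ _
        ((mem_autGroup_iff hR₁n.1).1 hγ) (img_autFun γ)
      have hle : R' ≤ extN S R₁ (autFun γ) := by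
        rintro _ ⟨⟨c, hcN⟩, hcK, rfl⟩
        exact mem_extN_of_conj_mem hcN (hKS (hKn γ hγ _ hcK))
      have hm' := hm.restrict hle
      refine ⟨m, hm', fun x hx => by rw [hme x (hExt₃.1 hx), hγe x (hExt₃.1 hx), hke x hx],
        hm'.img_eq_of_card_le hR'S (fun y hy => ?_) le_rfl⟩
      obtain ⟨⟨c, hcN⟩, hcK, rfl⟩ := hy
      have hcR' : c ∈ R' := ⟨⟨c, hcN⟩, hcK, rfl⟩
      have hi1 : img R₁ m = R₁ := (img_congr hme).trans (img_autFun γ)
      have hmc : m c ∈ normalizerIn S R₁ := hi1 ▸ hm'.mem_normalizerIn hR₁R' hcR' hcN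
      refine ⟨⟨m c, hmc⟩, ?_, rfl⟩
      show conjAut S R₁ ⟨m c, hmc⟩ ∈ K
      have : conjAut S R₁ ⟨m c, hmc⟩ = γ * conjAut S R₁ ⟨c, hcN⟩ * γ⁻¹ := by
        rw [eq_mul_inv_iff_mul_eq]
        refine aut_ext fun x hx => ?_
        rw [autFun_mul _ _ hx, autFun_mul _ _ hx, autFun_conjAut _ (autFun_mem γ hx),
          autFun_conjAut _ hx, ← hme _ hx, ← hme _ (conj_mem_of_mem_normalizerIn hcN hx)]
        exact (hm'.map_conj hcR' (hR₁R' hx)).symm
      rw [this]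
      exact hKn γ hγ _ hcK
    have hlt : R₁ < R' := by
      refine lt_of_le_of_ne hR₁R' fun e => hne fun a ha' => ?_
      have h1 := hKS ha'
      rw [← range_conjAut] at h1
      obtain ⟨⟨c, hcN⟩, rfl⟩ := h1
      have hcR : c ∈ R₁ := e ▸ (⟨⟨c, hcN⟩, ha', rfl⟩ : c ∈ R')
      rw [inn_eq_autInducedBy]
      exact mem_autInducedBy_iff.2 ⟨c, hcR, fun x hx => autFun_conjAut _ hx⟩
    have h1 := hmax R' ⟨Q₃, hQ₃, hR'c, hExt'⟩
    have h2 : Nat.card R₁ < Nat.card R' := card_lt_of_lt hR'S hlt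
    rw [hg.card_img] at h2
    exact absurd h1 (not_le.2 h2)
  -- the local system
  set N := normalizerExt F R₁ (normalizerIn S R₁) hR₁n.1 le_rfl
  have hN := isNormalizerSystem_normalizerExt (F := F) hR₁n.1
  have hNF : N.IsSubsystemOf F := fun P φ hφ => (hN P ▸ hφ : φ ∈ F.normalizerHom R₁ P).1
  have hR₁T : R₁ ≤ normalizerIn S R₁ := le_normalizerIn hR₁n.1
  haveI : Finite ↥(normalizerIn S R₁) := finite_of_le normalizerIn_le
  obtain ⟨Q₄, hQ₄, hQ₄n⟩ := exists_fullyNormalized N (hExt₃.1.trans hR₁T)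
  obtain ⟨u, hu, rfl⟩ := isConj_iff.1 hQ₄
  obtain ⟨-, -, w, hw, hwe, hwR⟩ := mor_normalizerExt_iff.1 hu
  have hwm := hw.restrict (le_sup_right : R₁ ≤ Q₃ ⊔ R₁)
  have hExt₄ : Ext F (img Q₃ u) R₁ := by
    have h1 := ext_img hExt₃ hwm
    rwa [img_congr hwe, hwR] at h1
  have hQ₄conj : F.IsConj Q (img Q₃ u) := isConj_trans hQ₃ (hu.of_subsystem hNF).isConj
  refine stableAt_of_isConj hQ₄conj ?_
  set Q₅ := img Q₃ u
  have heq : N.autGroup Q₅ = F.autGroup Q₅ := by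
    refine le_antisymm (fun a ha => ?_) fun a ha => ?_
    · exact (mem_autGroup_iff (isConj_le_right hQ₄conj)).2
        (((mem_autGroup_iff hQ₄n.1).1 ha).of_subsystem hNF)
    · have ha' := (mem_autGroup_iff (isConj_le_right hQ₄conj)).1 ha
      obtain ⟨k, hk, hke, hki⟩ := hExt₄.2.2 _ ha' (img_autFun a)
      refine (mem_autGroup_iff hQ₄n.1).2 (mor_normalizerExt_iff.2 ⟨hQ₄n.1, fun x hx => hQ₄n.1 (autFun_mem a hx), k,
        hk.source_congr (sup_eq_right.2 hExt₄.1).symm, hke, hki⟩)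
  intro χ hχ hq
  have hmem := h R₁ hR₁n hR₁c hrad N hN Q₅ hQ₄n χ (heq.symm ▸ hχ) hq
  rwa [heq] at hmem

/-- The local systems of a stable system are stable. -/
theorem stableAt_local (hst : ∀ Q, F.IsFullyNormalized Q → StableAt p F Q) {R : Subgroup Ω}
    (N : Cfsg.FusionSystem (normalizerIn S R)) (hN : F.IsNormalizerSystem R N)
    (Q : Subgroup Ω) (hQ : N.IsFullyNormalized Q) : StableAt p N Q := by
  have hQS : Q ≤ S := hQ.1.trans normalizerIn_le
  obtain ⟨Q', hQ', hQ'n⟩ := exists_fullyNormalized F hQS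
  have hNF : N.IsSubsystemOf F := fun P φ hφ => (hN P ▸ hφ : φ ∈ F.normalizerHom R P).1
  intro χ hχ hq
  have hle : N.autGroup Q ≤ F.autGroup Q := fun a ha =>
    (mem_autGroup_iff hQS).2 (((mem_autGroup_iff hQ.1).1 ha).of_subsystem hNF)
  obtain ⟨z, hz, hze⟩ := stableAt_of_isConj hQ' (hst Q' hQ'n) χ (hle hχ) hq
  haveI := finite_of_le hQS
  haveI := finite_mulAut_of_le hQS
  refine ⟨⟨χ, hχ⟩, ?_, rfl⟩
  have hmem : (⟨χ, hχ⟩ : N.autGroup Q) ∈ (pCore p (F.autGroup Q)).comap (Subgroup.inclusion hle) := by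
    show Subgroup.inclusion hle ⟨χ, hχ⟩ ∈ pCore p (F.autGroup Q)
    rwa [show Subgroup.inclusion hle ⟨χ, hχ⟩ = z from Subtype.ext hze.symm]
  exact Cfsg.Lib.Solv.le_pCore inferInstance
    ((Cfsg.Lib.Solv.isPGroup_pCore (G := F.autGroup Q) p).comap_of_injective _
      (Subgroup.inclusion_injective hle)) hmem

end Cfsg.Lib.Fusion.StableLocal
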