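import Mathlib
import Cfsg.Prelude.Def_FusionSystem
import Cfsg.Agent.Lib.Fusion.ChainCriterion
import Cfsg.Agent.Lib.Fusion.Realized
import Cfsg.Agent.Lib.Fusion.Essential

/-!
Supersoluble fusion systems.
-/

set_option autoImplicit false
set_option linter.style.haveILetI false

open scoped Classical commutatorElement Pointwise

namespace Cfsg.Lib.Fusion.Supersoluble

open Cfsg Cfsg.FusionSystem Cfsg.Lib.Fusion

universe u

variable {p : ℕ} [Fact p.Prime]

/-- Endomorphisms of a cyclic group commute. -/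
theorem mulAut_comm {Q : Type*} [Group Q] [IsCyclic Q] (a b : MulAut Q) : a * b = b * a := by
  obtain ⟨m, hm⟩ := MonoidHom.map_cyclic a.toMonoidHom
  obtain ⟨n, hn⟩ := MonoidHom.map_cyclic b.toMonoidHom
  refine MulEquiv.ext fun g => ?_
  show a (b g) = b (a g)
  rw [show a (b g) = (b g) ^ m from hm _, show b (a g) = (a g) ^ n from hn _,
    show b g = g ^ n from hn g, show a g = g ^ m from hm g, ← zpow_mul, ← zpow_mul, mul_comm]

/-- A coprime automorphism of a cyclic `p`-group has order dividing `p - 1`. -/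
theorem mulAut_pow {Q : Type*} [Group Q] [Finite Q] [IsCyclic Q] (hQ : IsPGroup p Q) (a : MulAut Q)
    (ha : (orderOf a).Coprime p) : a ^ (p - 1) = 1 := by
  obtain ⟨k, hk⟩ := IsPGroup.iff_card.1 hQ
  have h1 : orderOf a ∣ Nat.totient (Nat.card Q) := (orderOf_dvd_natCard a).trans (dvd_of_eq (IsCyclic.card_mulAut Q))
  rw [hk] at h1
  refine orderOf_dvd_iff_pow_eq_one.1 ?_
  rcases Nat.eq_zero_or_pos k with h | h
  · subst h
    rw [pow_zero, Nat.totient_one] at h1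
    rw [Nat.dvd_one.1 h1]
    exact one_dvd _
  · rw [Nat.totient_prime_pow Fact.out h] at h1
    exact (Nat.Coprime.pow_right _ ha).dvd_of_dvd_mul_left h1

variable {Ω : Type u} [Group Ω] {S P : Subgroup Ω} [Finite S]

/-- The data of a chain with cyclic steps, invariant under a group of automorphisms. -/
structure Data (p : ℕ) (S P : Subgroup Ω) (A : Subgroup (MulAut ↥P)) (V : ℕ → Subgroup Ω) (n : ℕ) : Prop where
  pgroup : IsPGroup p S
  le : P ≤ S
  bot : V 0 = ⊥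
  top : ∀ x ∈ P, x ∈ V n
  leS : ∀ i ≤ n, V i ≤ S
  mono : ∀ i < n, V i ≤ V (i + 1)
  norm : ∀ i ≤ n, S ≤ Subgroup.normalizer (V i : Set Ω)
  inv : ∀ γ ∈ A, ∀ i ≤ n, ∀ x ∈ P, x ∈ V i → autFun γ x ∈ V i
  cyc : ∀ i < n, ∃ a ∈ S, V (i + 1) = V i ⊔ Subgroup.zpowers a

variable {A : Subgroup (MulAut ↥P)} {V : ℕ → Subgroup Ω} {n : ℕ}

/-- The elements of `A` stabilizing the chain form a normal `p`-subgroup with the two properties. -/
theorem exists_stab (D : Data p S P A V n) :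
    ∃ K : Subgroup ↥A, K.Normal ∧ IsPGroup p K ∧ (∀ γ δ : A, ⁅γ, δ⁆ ∈ K) ∧
      ∀ γ : A, (orderOf γ).Coprime p → γ ^ (p - 1) ∈ K := by
  haveI := finite_of_le D.le
  suffices hlayer : ∀ i < n, ∃ K : Subgroup ↥A, K.Normal ∧ (∀ γ δ : A, ⁅γ, δ⁆ ∈ K) ∧
      (∀ γ : A, (orderOf γ).Coprime p → γ ^ (p - 1) ∈ K) ∧
      ∀ γ ∈ K, ∀ x ∈ P, x ∈ V (i + 1) → x⁻¹ * autFun (γ : MulAut ↥P) x ∈ V i by
    choose K hKn hKc hKp hKs using hlayer
    refine ⟨⨅ (i : ℕ) (h : i < n), K i h, Subgroup.normal_iInf_normal fun i => Subgroup.normal_iInf_normal (hKn i),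
      ?_, fun γ δ => ?_, fun γ hγ => ?_⟩
    · have h := isPGroup_of_stabilizes D.pgroup D.le V n D.bot D.top
        (A := (⨅ (i : ℕ) (h : i < n), K i h).map A.subtype) (by
          rintro _ ⟨γ, hγ, rfl⟩ i hi x hx hxV
          exact hKs i hi γ (Subgroup.mem_iInf.1 (Subgroup.mem_iInf.1 hγ i) hi) x hx hxV)
      exact h.of_equiv (Subgroup.equivMapOfInjective _ A.subtype A.subtype_injective).symm
    · exact Subgroup.mem_iInf.2 fun i => Subgroup.mem_iInf.2 fun h => hKc i h γ δ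
    · exact Subgroup.mem_iInf.2 fun i => Subgroup.mem_iInf.2 fun h => hKp i h γ hγ
  intro i hi
  let U : Subgroup ↥P := (V (i + 1)).subgroupOf P
  let W : Subgroup ↥U := ((V i).subgroupOf P).subgroupOf U
  haveI hWn : W.Normal := ⟨fun w hw g => by
    show ((g : ↥P) : Ω) * ((w : ↥P) : Ω) * ((g : ↥P) : Ω)⁻¹ ∈ V i
    exact (Subgroup.mem_normalizer_iff.1 (D.norm i hi.le (D.le (g : ↥P).2)) _).1 hw⟩
  obtain ⟨a, -, ha⟩ := D.cyc i hi
  haveI hWB : ((V i).subgroupOf (V (i + 1))).Normal := Subgroup.normal_subgroupOf_of_le_normalizer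
    ((D.leS (i + 1) hi).trans (D.norm i hi.le))
  let q := QuotientGroup.mk' ((V i).subgroupOf (V (i + 1)))
  have hcycB : IsCyclic (↥(V (i + 1)) ⧸ (V i).subgroupOf (V (i + 1))) := by
    have haV : a ∈ V (i + 1) := ha.ge (Subgroup.mem_sup_right (Subgroup.mem_zpowers a))
    refine ⟨⟨q ⟨a, haV⟩, fun z => ?_⟩⟩
    obtain ⟨⟨z, hz⟩, rfl⟩ := QuotientGroup.mk'_surjective _ z
    have hz' := hz
    rw [ha, ← SetLike.mem_coe, Subgroup.coe_mul_of_right_le_normalizer_left _ _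
      (Subgroup.zpowers_le.2 (D.norm i hi.le (D.leS (i + 1) hi haV)))] at hz'
    obtain ⟨w, hw, t, ht, rfl⟩ := hz'
    obtain ⟨j, rfl⟩ := ht
    refine ⟨j, ?_⟩
    show q ⟨a, haV⟩ ^ j = q ⟨w * a ^ j, hz⟩
    rw [← map_zpow, show (⟨w * a ^ j, hz⟩ : ↥(V (i + 1))) = ⟨w, D.mono i hi hw⟩ * ⟨a, haV⟩ ^ j from Subtype.ext rfl,
      map_mul, show q ⟨w, D.mono i hi hw⟩ = 1 from (QuotientGroup.eq_one_iff _).2 hw, one_mul]
  let r : ↥U →* ↥(V (i + 1)) :=
    { toFun := fun x => ⟨((x : ↥P) : Ω), x.2⟩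
      map_one' := rfl
      map_mul' := fun _ _ => rfl }
  let emb : ↥U ⧸ W →* ↥(V (i + 1)) ⧸ (V i).subgroupOf (V (i + 1)) :=
    QuotientGroup.map W _ r fun w hw => hw
  haveI : IsCyclic (↥U ⧸ W) := by
    refine isCyclic_of_injective emb ((injective_iff_map_eq_one emb).2 fun z hz => ?_)
    induction z using QuotientGroup.induction_on with
    | _ z => exact (QuotientGroup.eq_one_iff z).2 ((QuotientGroup.eq_one_iff (r z)).1 hz)
  have hUp : IsPGroup p (↥U ⧸ W) := ((isPGroup_of_le D.pgroup D.le).to_subgroup U).to_quotient W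
  have hU : ∀ (γ : A) (x : ↥U), (γ : MulAut ↥P) (x : ↥P) ∈ U := fun γ x => by
    show (((γ : MulAut ↥P) (x : ↥P) : ↥P) : Ω) ∈ V (i + 1)
    rw [← autFun_coe]
    exact D.inv _ γ.2 (i + 1) hi _ (x : ↥P).2 x.2
  let res : A → MulAut ↥U := fun γ =>
    { toFun := fun x => ⟨(γ : MulAut ↥P) x, hU γ x⟩
      invFun := fun x => ⟨((γ⁻¹ : A) : MulAut ↥P) x, hU γ⁻¹ x⟩
      left_inv := fun x => Subtype.ext (by simp)
      right_inv := fun x => Subtype.ext (by simp)
      map_mul' := fun x y => Subtype.ext (map_mul (γ : MulAut ↥P) (x : ↥P) y) }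
  have hres : ∀ γ, W.map (res γ : ↥U ≃* ↥U).toMonoidHom = W := by
    intro γ
    refine le_antisymm ?_ fun y hy => ?_
    · rintro _ ⟨x, hx, rfl⟩
      show (((γ : MulAut ↥P) (x : ↥P) : ↥P) : Ω) ∈ V i
      rw [← autFun_coe]
      exact D.inv _ γ.2 i hi.le _ (x : ↥P).2 hx
    · refine ⟨(res γ).symm y, ?_, (res γ).apply_symm_apply y⟩
      show ((((γ⁻¹ : A) : MulAut ↥P) (y : ↥P) : ↥P) : Ω) ∈ V i
      rw [← autFun_coe]
      exact D.inv _ (γ⁻¹ : A).2 i hi.le _ (y : ↥P).2 hy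
  let θ : A →* MulAut (↥U ⧸ W) := MonoidHom.mk' (fun γ => QuotientGroup.congr W W (res γ) (hres γ))
    fun γ δ => MulEquiv.ext fun z => by
      induction z using QuotientGroup.induction_on with
      | _ z => rfl
  refine ⟨θ.ker, inferInstance, fun γ δ => ?_, fun γ hγ => ?_, fun γ hγ x hx hxV => ?_⟩
  · rw [MonoidHom.mem_ker, map_commutatorElement]
    exact commutatorElement_eq_one_iff_mul_comm.2 (mulAut_comm _ _)
  · rw [MonoidHom.mem_ker, map_pow]
    exact mulAut_pow hUp _ (hγ.coprime_dvd_left (orderOf_map_dvd θ γ))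
  · have h1 : θ γ (QuotientGroup.mk (⟨⟨x, hx⟩, hxV⟩ : ↥U)) = QuotientGroup.mk (⟨⟨x, hx⟩, hxV⟩ : ↥U) := by
      rw [MonoidHom.mem_ker.1 hγ, MulAut.one_apply]
    have h3 : QuotientGroup.mk (res γ (⟨⟨x, hx⟩, hxV⟩ : ↥U)) = (QuotientGroup.mk (⟨⟨x, hx⟩, hxV⟩ : ↥U) : ↥U ⧸ W) := h1
    have h2 : ((x : Ω))⁻¹ * (((γ : MulAut ↥P) ⟨x, hx⟩ : ↥P) : Ω) ∈ V i := by
      have h5 := QuotientGroup.eq.1 h3.symm
      exact h5
    rwa [autFun_apply _ hx]

/-- The supersolubility property. -/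
def SupSol (F : Cfsg.FusionSystem S) : Prop :=
  ∃ (m : ℕ) (c : Fin (m + 1) → Subgroup Ω), c 0 = ⊥ ∧ c (Fin.last m) = S ∧ (∀ i : Fin (m + 1), F.StronglyClosed (c i)) ∧
    ∀ i : Fin m, c i.castSucc ≤ c i.succ ∧ ∃ x ∈ S, c i.succ = c i.castSucc ⊔ Subgroup.zpowers x

omit [Finite S] [Fact p.Prime] in
theorem data_of_supSol {F : Cfsg.FusionSystem S} (hS : IsPGroup p S) (h : SupSol F) (hP : P ≤ S)
    (hA : ∀ γ ∈ A, Mor F P (autFun γ)) : ∃ V n, Data p S P A V n := by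
  obtain ⟨m, c, h0, hlast, hsc, hstep⟩ := h
  let V : ℕ → Subgroup Ω := fun i => if h : i ≤ m then c ⟨i, Nat.lt_succ_of_le h⟩ else S
  have hV : ∀ (i : ℕ) (h : i ≤ m), V i = c ⟨i, Nat.lt_succ_of_le h⟩ := fun i h => dif_pos h
  refine ⟨V, m, ⟨hS, hP, (hV 0 (Nat.zero_le m)).trans h0, fun x hx => ?_, fun i hi => ?_, fun i hi => ?_,
    fun i hi => ?_, fun γ hγ i hi x hx hxV => ?_, fun i hi => ?_⟩⟩
  · rw [hV m le_rfl, show (⟨m, Nat.lt_succ_of_le le_rfl⟩ : Fin (m + 1)) = Fin.last m from rfl, hlast]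
    exact hP hx
  · rw [hV i hi]; exact (hsc _).1
  · rw [hV i hi.le, hV (i + 1) hi]
    exact (hstep ⟨i, hi⟩).1
  · rw [hV i hi]; exact StronglyClosed.le_normalizer (hsc _)
  · rw [hV i hi] at hxV ⊢
    exact StronglyClosed.mem (hsc _) (hA γ hγ) hx hxV
  · obtain ⟨-, x, hx, hxe⟩ := hstep ⟨i, hi⟩
    refine ⟨x, hx, ?_⟩
    rw [hV i hi.le, hV (i + 1) hi]
    exact hxe

/-- Supersoluble systems have a normal `S`. -/
theorem isNormal_of_supSol {F : Cfsg.FusionSystem S} (hS : IsPGroup p S) (hF : F.IsSaturated p)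
    (h : SupSol F) : F.IsNormal S := by
  refine isNormal_top_of_closed hS hF fun P hn hc hr => ?_
  obtain ⟨V, n, D⟩ := data_of_supSol (A := F.autGroup P) hS h hn.1 fun γ hγ => (mem_autGroup_iff hn.1).1 hγ
  obtain ⟨K, hKn, hKp, hKc, -⟩ := exists_stab D
  haveI := finite_mulAut_of_le hn.1
  obtain ⟨R, hR⟩ := hKp.exists_le_sylow
  refine ⟨R, ⟨fun r hr g => ?_⟩⟩
  have := R.mul_mem (hR (hKc g r)) hr
  rwa [commutatorElement_def, inv_mul_cancel_right] at this

/-- The system on `S` of a group realizing it. -/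
def realizedSys {L : Type*} [Group L] (ι : S →* L) : Cfsg.FusionSystem S where
  Hom P := {φ | ∃ (hP : P ≤ S) (hφ : ∀ x : P, φ x ∈ S), ∃ g : L, ∀ x : P, Function.Injective φ ∧
    ι ⟨φ x, hφ x⟩ = g * ι ⟨x, hP x.2⟩ * g⁻¹}
  le_of_mem := fun ⟨hP, hφ, _⟩ => ⟨hP, hφ⟩
  injective_of_mem := fun ⟨_, _, _, h⟩ => (h 1).1
  conj_mem := fun {P g} hP hg => ⟨hP, fun x => S.mul_mem (S.mul_mem hg (hP x.2)) (S.inv_mem hg), ι ⟨g, hg⟩,
    fun x => ⟨fun a b hab => Subtype.ext (mul_left_cancel (mul_right_cancel hab)), by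
      rw [← map_inv, ← map_mul, ← map_mul]; rfl⟩⟩
  comp_mem := by
    rintro P Q φ ψ ⟨hP, hφ, g, hg⟩ ⟨hQ, hψ, h, hh⟩ hm
    refine ⟨hP, fun x => hψ _, h * g, fun x => ⟨(hh 1).1.comp fun a b hab => (hg 1).1 (congrArg Subtype.val hab), ?_⟩⟩
    refine (hh ⟨φ x, hm x⟩).2.trans ?_
    show h * ι ⟨φ x, _⟩ * h⁻¹ = _
    rw [(hg x).2]
    group
  inv_mem := by
    rintro P φ ⟨hP, hφ, g, hg⟩
    let e := MonoidHom.ofInjective (hg 1).1
    refine ⟨P.subtype.comp e.symm.toMonoidHom, ⟨?_, fun y => hP (e.symm y).2, g⁻¹, fun y => ⟨?_, ?_⟩⟩,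
      fun x => congrArg Subtype.val (e.symm_apply_apply x)⟩
    · rintro _ ⟨x, rfl⟩
      exact hφ x
    · exact Subtype.val_injective.comp e.symm.injective
    · obtain ⟨_, x, rfl⟩ := y
      show ι ⟨((e.symm (e x) : P) : Ω), _⟩ = g⁻¹ * ι ⟨φ x, _⟩ * g⁻¹⁻¹
      simp only [e.symm_apply_apply]
      rw [(hg x).2]
      group

/-- The coprime automorphisms of a group all whose systems are supersoluble. -/
theorem aut_restricted (hS : IsPGroup p S)
    (h : ∀ F : Cfsg.FusionSystem S, F.IsSaturated p → SupSol F) (H : Subgroup (MulAut ↥S))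
    (hH : (Nat.card ↥H).Coprime p) : IsMulCommutative ↥H ∧ ∀ x ∈ H, x ^ (p - 1) = 1 := by
  haveI := finite_mulAut_of_le (le_refl S)
  let ι : S →* S ⋊[H.subtype] H := SemidirectProduct.inl
  haveI : Finite (S ⋊[H.subtype] H) := Finite.of_equiv _ SemidirectProduct.equivProd.symm
  let F := realizedSys ι
  have hι : F.IsRealizedBy ι := ⟨SemidirectProduct.inl_injective, fun P hP φ hφ => ⟨fun ⟨_, _, g, hg⟩ =>
    ⟨g, fun x => (hg x).2⟩, fun ⟨g, hg⟩ => ⟨hP, hφ, g, fun x => ⟨fun a b hab => by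
      have h1 := (hg a).symm.trans ((congrArg ι (Subtype.ext hab : (⟨φ a, hφ a⟩ : S) = ⟨φ b, hφ b⟩)).trans (hg b))
      have h4 : ι ⟨(a : Ω), hP a.2⟩ = ι ⟨(b : Ω), hP b.2⟩ := mul_left_cancel (mul_right_cancel h1)
      have h5 : (⟨(a : Ω), hP a.2⟩ : S) = ⟨(b : Ω), hP b.2⟩ := SemidirectProduct.inl_injective h4
      exact Subtype.ext (congrArg (fun s : S => (s : Ω)) h5 : (a : Ω) = b),
      hg x⟩⟩⟩⟩
  have hidx : ι.range.index = Nat.card H := by
    rw [SemidirectProduct.range_inl_eq_ker_rightHom, Subgroup.index_ker,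
      MonoidHom.range_eq_top.2 SemidirectProduct.rightHom_surjective, Subgroup.card_top]
  have hrp : IsPGroup p ι.range := hS.of_surjective _ (MonoidHom.rangeRestrict_surjective ι)
  have hsat : F.IsSaturated p := saturated_of_realized hS hι
    (hrp.toSylow (by rw [hidx]; exact fun hd => (Fact.out : p.Prime).ne_one (Nat.eq_one_of_dvd_coprimes hH hd dvd_rfl)))
    (IsPGroup.toSylow_coe _ _)
  have hmor : ∀ a ∈ H, Mor F S (autFun a) := fun a ha =>
    mor_of_conj hι le_rfl (fun x hx => autFun_mem a hx) (SemidirectProduct.inr ⟨a, ha⟩) fun x hx => by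
      rw [iotaFun_apply ι (autFun_mem a hx), iotaFun_apply ι hx, ← map_inv]
      exact (congrArg ι (show (⟨autFun a x, autFun_mem a hx⟩ : ↥S) = a ⟨x, hx⟩ from Subtype.ext (autFun_apply a hx))).trans (SemidirectProduct.inl_aut (⟨a, ha⟩ : H) (⟨x, hx⟩ : ↥S))
  obtain ⟨V, n, D⟩ := data_of_supSol (A := H) hS (h F hsat) le_rfl hmor
  obtain ⟨K, -, hKp, hKc, hKpow⟩ := exists_stab D
  have hK : ∀ z ∈ K, z = 1 := fun z hz => by
    obtain ⟨k, hk⟩ := hKp ⟨z, hz⟩
    rw [← orderOf_eq_one_iff]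
    exact Nat.eq_one_of_dvd_coprimes (hH.pow_right k) (orderOf_dvd_natCard z)
      (orderOf_dvd_of_pow_eq_one (congrArg Subtype.val hk))
  refine ⟨⟨⟨fun a b => commutatorElement_eq_one_iff_mul_comm.1 (hK _ (hKc a b))⟩⟩, fun x hx => ?_⟩
  exact congrArg Subtype.val (hK _ (hKpow ⟨x, hx⟩ (hH.coprime_dvd_left (orderOf_dvd_natCard _))))

/-- An element of a commuting family of exponent dividing `p - 1` has an eigenvector. -/
theorem exists_eigen {U : Type*} [CommGroup U] (hU : ∀ v : U, v ^ p = 1) (h : MulAut U)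
    (hh : h ^ (p - 1) = 1) (W : Subgroup U) (hW : ∀ v ∈ W, h v ∈ W) (hne : W ≠ ⊥) :
    ∃ v ∈ W, v ≠ 1 ∧ ∃ k : ℕ, h v = v ^ k := by
  have hp := (Fact.out : p.Prime)
  haveI : NeZero p := ⟨hp.ne_zero⟩
  obtain ⟨⟨u, huW⟩, hu⟩ := Subgroup.ne_bot_iff_exists_ne_one.1 hne
  replace hu : u ≠ 1 := fun e => hu (Subtype.ext e)
  have hpow : ∀ (w : U) (a b : ℕ), (a : ZMod p) = b → w ^ a = w ^ b := fun w a b hab => by
    rw [pow_eq_pow_mod a (hU w), pow_eq_pow_mod b (hU w),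
      show a % p = b % p from (ZMod.natCast_eq_natCast_iff' a b p).1 hab]
  let f : (ZMod p)ˣ → ℕ → U := fun a i => ((h ^ i) u) ^ (((a : ZMod p) ^ i).val)
  have hiW : ∀ i : ℕ, (h ^ i) u ∈ W := fun i => by
    induction i with
    | zero => exact huW
    | succ i ih => rw [pow_succ', MulAut.mul_apply]; exact hW _ ih
  have hfper : ∀ a, f a (p - 1) = f a 0 := fun a => by
    simp only [f]
    rw [hh, ← Units.val_pow_eq_pow_val, ZMod.units_pow_card_sub_one_eq_one, pow_zero, pow_zero, Units.val_one]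
  let v : (ZMod p)ˣ → U := fun a => ∏ i ∈ Finset.range (p - 1), f a i
  have hvW : ∀ a, v a ∈ W := fun a => W.prod_mem fun i _ => W.pow_mem (hiW i) _
  have hva : ∀ a, h (v a) ^ (a : ZMod p).val = v a := by
    intro a
    simp only [v]
    rw [map_prod, ← Finset.prod_pow, Finset.prod_congr rfl (fun i _ => show h (f a i) ^ (a : ZMod p).val = f a (i + 1) from ?_)]
    · have h1 := Finset.prod_range_succ (f a) (p - 1)
      rw [Finset.prod_range_succ' (f a) (p - 1), hfper] at h1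
      exact mul_right_cancel h1
    · simp only [f, map_pow]
      rw [← pow_mul, pow_succ' h i, MulAut.mul_apply]
      exact hpow _ _ _ (by rw [Nat.cast_mul, ZMod.natCast_zmod_val, ZMod.natCast_zmod_val, ZMod.natCast_zmod_val, pow_succ])
  obtain ⟨a, ha⟩ : ∃ a, v a ≠ 1 := by
    by_contra hall
    push Not at hall
    have h1 : ∏ a, v a = u⁻¹ := by
      simp only [v, f]
      rw [Finset.prod_comm, Finset.prod_congr rfl (fun i _ => Finset.prod_pow_eq_pow_sum _ _ _)]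
      have hp2 := hp.two_le
      rw [Finset.prod_eq_single_of_mem 0 (Finset.mem_range.2 (by omega))]
      · rw [pow_zero h, MulAut.one_apply]
        apply eq_inv_of_mul_eq_one_left
        rw [← pow_succ]
        refine (hpow _ _ 0 ?_).trans (pow_zero _)
        rw [Nat.cast_add, Nat.cast_sum, Nat.cast_zero, Nat.cast_one]
        simp only [pow_zero, ZMod.val_one_eq_one_mod, Nat.one_mod_eq_one.2 hp.ne_one, Nat.cast_one, Finset.sum_const,
          Finset.card_univ, ZMod.card_units, nsmul_eq_mul, mul_one]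
        rw [← Nat.cast_one (R := ZMod p), ← Nat.cast_add, Nat.sub_add_cancel hp.one_le, ZMod.natCast_self]
      · intro i hi hi0
        refine (hpow _ _ 0 ?_).trans (pow_zero _)
        rw [Nat.cast_sum, Nat.cast_zero, Finset.sum_congr rfl (fun a _ => ZMod.natCast_zmod_val _)]
        rw [FiniteField.sum_pow_units, ZMod.card, if_neg]
        intro hd
        have := Nat.le_of_dvd (Nat.pos_of_ne_zero hi0) hd
        have := Finset.mem_range.1 hi
        omega
    rw [Finset.prod_eq_one fun a _ => hall a, eq_comm, inv_eq_one] at h1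
    exact hu h1
  refine ⟨v a, hvW a, ha, ((a⁻¹ : (ZMod p)ˣ) : ZMod p).val, ?_⟩
  calc h (v a) = h (v a) ^ ((a : ZMod p).val * ((a⁻¹ : (ZMod p)ˣ) : ZMod p).val) := by
        conv_lhs => rw [← pow_one (h (v a))]
        exact hpow _ _ _ (by rw [Nat.cast_one, Nat.cast_mul, ZMod.natCast_zmod_val, ZMod.natCast_zmod_val, Units.mul_inv])
    _ = v a ^ ((a⁻¹ : (ZMod p)ˣ) : ZMod p).val := by rw [pow_mul, hva]

/-- A commuting family of such automorphisms has a common eigenvector. -/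
theorem exists_common {U : Type*} [CommGroup U] [Finite U] (hU : ∀ v : U, v ^ p = 1) (hne : Nontrivial U)
    {H : Type*} [Group H] (ρ : H →* MulAut U) (hc : ∀ a b : H, a * b = b * a) (he : ∀ a : H, a ^ (p - 1) = 1) :
    ∃ z : U, z ≠ 1 ∧ ∀ a : H, ρ a z ∈ Subgroup.zpowers z := by
  obtain ⟨W, hW, hmin⟩ := Set.exists_min_image {W : Subgroup U | W ≠ ⊥ ∧ ∀ a, ∀ v ∈ W, ρ a v ∈ W}
    (fun W => Nat.card W) (Set.toFinite _) ⟨⊤, top_ne_bot, fun a v _ => Subgroup.mem_top _⟩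
  obtain ⟨⟨z, hzW⟩, hz⟩ := Subgroup.ne_bot_iff_exists_ne_one.1 hW.1
  refine ⟨z, fun e => hz (Subtype.ext e), fun a => ?_⟩
  obtain ⟨v, hvW, hv, k, hk⟩ := exists_eigen hU (ρ a) (by rw [← map_pow, he, map_one]) W (hW.2 a) hW.1
  let W' : Subgroup U :=
    { carrier := {w | w ∈ W ∧ ρ a w = w ^ k}
      one_mem' := ⟨W.one_mem, by simp⟩
      mul_mem' := fun hx hy => ⟨W.mul_mem hx.1 hy.1, by rw [map_mul, hx.2, hy.2, mul_pow]⟩
      inv_mem' := fun hx => ⟨W.inv_mem hx.1, by rw [map_inv, hx.2, inv_pow]⟩ }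
  have hle : W' ≤ W := fun w hw => hw.1
  have hW' : W' = W := Subgroup.eq_of_le_of_card_ge hle (hmin W' ⟨fun e => hv (Subgroup.mem_bot.1 (e ▸ (show v ∈ W' from ⟨hvW, hk⟩))),
    fun b w hw => ⟨hW.2 b w hw.1, by rw [← map_pow, ← hw.2, ← MulAut.mul_apply, ← MulAut.mul_apply, ← map_mul, ← map_mul, hc]⟩⟩)
  rw [(hW'.symm.le hzW).2]
  exact Subgroup.pow_mem _ (Subgroup.mem_zpowers z) k

/-- The converse. -/
theorem supSol_of_resistant {F : Cfsg.FusionSystem S} (hS : IsPGroup p S) (hF : F.IsSaturated p)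
    (hN : F.IsNormal S)
    (hA : ∀ H : Subgroup (MulAut ↥S), (Nat.card ↥H).Coprime p → IsMulCommutative ↥H ∧ ∀ h ∈ H, h ^ (p - 1) = 1) :
    SupSol F := by
  haveI := finite_mulAut_of_le (le_refl S)
  set A := F.autGroup S
  have hInnA : Inn ↥S ≤ A := inn_le_autGroup le_rfl
  haveI hI : ((Inn ↥S).subgroupOf A).Normal := innOf_normal F S
  have hcopI : (Nat.card ((Inn ↥S).subgroupOf A)).Coprime ((Inn ↥S).subgroupOf A).index := by
    obtain ⟨-, ha⟩ := fullyNormalized_axiom hS hF (fullyNormalized_top (F := F))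
    obtain ⟨-, T₀, hT₀⟩ := ha
    rw [← inn_eq_autInducedBy] at hT₀
    rw [← hT₀]
    exact T₀.card_coprime_index
  obtain ⟨H₀, hH₀⟩ := Subgroup.exists_right_complement'_of_coprime hcopI
  set H := H₀.map A.subtype with hHdef
  have hHc : (Nat.card ↥H).Coprime p := by
    rw [hHdef, Subgroup.card_map_of_injective A.subtype_injective, ← hH₀.symm.index_eq_card]
    refine Nat.Coprime.symm ((Fact.out : p.Prime).coprime_iff_not_dvd.2 ?_)
    obtain ⟨-, ha⟩ := fullyNormalized_axiom hS hF (fullyNormalized_top (F := F))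
    obtain ⟨-, T₀, hT₀⟩ := ha
    rw [← inn_eq_autInducedBy] at hT₀
    rw [← hT₀]
    exact T₀.not_dvd_index
  obtain ⟨hHab, hHexp⟩ := hA H hHc
  have hHA : H ≤ A := Subgroup.map_subtype_le _
  have hdec : ∀ γ ∈ A, ∃ i ∈ Inn ↥S, ∃ h ∈ H, γ = i * h := fun γ hγ => by
    have h1 : (⟨γ, hγ⟩ : A) ∈ ((((Inn ↥S).subgroupOf A : Subgroup A) : Set A) * (H₀ : Set A)) := by
      rw [hH₀.mul_eq]; exact Set.mem_univ _
    obtain ⟨i, hi, h, hh, he⟩ := h1
    exact ⟨i, hi, h, ⟨h, hh, rfl⟩, (congrArg Subtype.val he).symm⟩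
  -- a step
  have hstep : ∀ C, F.StronglyClosed C → ∃ D, F.StronglyClosed D ∧ C ≤ D ∧ (C ≠ S → C < D) ∧
      ∃ x ∈ S, D = C ⊔ Subgroup.zpowers x := by
    intro C hC
    by_cases hCS : C = S
    · exact ⟨C, hC, le_rfl, fun h => absurd hCS h, 1, S.one_mem, by
        rw [Subgroup.zpowers_one_eq_bot, sup_bot_eq]⟩
    set C' := C.subgroupOf S with hC'
    haveI hC'n : C'.Normal := Subgroup.normal_subgroupOf_of_le_normalizer (StronglyClosed.le_normalizer hC)
    have hGp : IsPGroup p (↥S ⧸ C') := hS.to_quotient C'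
    haveI : Nontrivial (↥S ⧸ C') := by
      rw [QuotientGroup.nontrivial_iff, Ne, Subgroup.subgroupOf_eq_top]
      exact fun h => hCS (le_antisymm hC.1 h)
    let U : Subgroup (↥S ⧸ C') :=
      { carrier := {z | z ∈ Subgroup.center (↥S ⧸ C') ∧ z ^ p = 1}
        one_mem' := ⟨one_mem _, one_pow _⟩
        mul_mem' := fun {a b} ha hb => ⟨mul_mem ha.1 hb.1, by
          rw [(show Commute a b from (Subgroup.mem_center_iff.1 hb.1 a)).mul_pow, ha.2, hb.2, one_mul]⟩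
        inv_mem' := fun {a} ha => ⟨inv_mem ha.1, by rw [inv_pow, ha.2, inv_one]⟩ }
    haveI hUc : IsMulCommutative ↥U := ⟨⟨fun a b => Subtype.ext (Subgroup.mem_center_iff.1 b.2.1 a)⟩⟩
    letI : CommGroup ↥U := { (inferInstance : Group ↥U) with mul_comm := hUc.is_comm.comm }
    have hUne : Nontrivial ↥U := by
      haveI := hGp.center_nontrivial
      obtain ⟨k, hk⟩ := IsPGroup.iff_card.1 (hGp.to_subgroup (Subgroup.center _))
      have hk0 : k ≠ 0 := fun e => by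
        have := Finite.one_lt_card (α := Subgroup.center (↥S ⧸ C'))
        rw [hk, e, pow_zero] at this; omega
      obtain ⟨z, hz⟩ := exists_prime_orderOf_dvd_card' (G := Subgroup.center (↥S ⧸ C')) p (by
        rw [hk]; exact dvd_pow_self p hk0)
      refine ⟨⟨⟨z, z.2, congrArg Subtype.val (hz ▸ pow_orderOf_eq_one z)⟩, 1, fun e => ?_⟩⟩
      have : z = 1 := Subtype.ext (congrArg (fun t : U => (t : ↥S ⧸ C')) e)
      rw [this, orderOf_one] at hz
      exact (Fact.out : p.Prime).ne_one hz.symm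
    have hCinv : ∀ γ ∈ A, C'.map (γ : ↥S ≃* ↥S).toMonoidHom = C' := by
      intro γ hγ
      refine Subgroup.eq_of_le_of_card_ge ?_ (le_of_eq (Subgroup.card_map_of_injective γ.injective).symm)
      rintro _ ⟨x, hx, rfl⟩
      show ((γ x : ↥S) : Ω) ∈ C
      rw [← autFun_coe]
      exact StronglyClosed.mem hC ((mem_autGroup_iff le_rfl).1 hγ) x.2 hx
    let ρ₀ : H →* MulAut (↥S ⧸ C') := MonoidHom.mk' (fun h => QuotientGroup.congr C' C' (h : MulAut ↥S) (hCinv _ (hHA h.2)))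
      fun a b => MulEquiv.ext fun z => by
        induction z using QuotientGroup.induction_on with
        | _ z => rfl
    have hUinv : ∀ (a : H), ∀ z ∈ U, ρ₀ a z ∈ U := by
      rintro a z ⟨hz, hzp⟩
      refine ⟨Subgroup.mem_center_iff.2 fun w => ?_, by rw [← map_pow, hzp, map_one]⟩
      obtain ⟨w, rfl⟩ := (ρ₀ a).surjective w
      rw [← map_mul, ← map_mul, Subgroup.mem_center_iff.1 hz]
    let ρ : H →* MulAut ↥U := MonoidHom.mk' (fun a =>
      { toFun := fun z => ⟨ρ₀ a z, hUinv a z z.2⟩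
        invFun := fun z => ⟨ρ₀ a⁻¹ z, hUinv a⁻¹ z z.2⟩
        left_inv := fun z => Subtype.ext (by simp)
        right_inv := fun z => Subtype.ext (by simp)
        map_mul' := fun x y => Subtype.ext (map_mul (ρ₀ a) (x : ↥S ⧸ C') y) })
      fun a b => MulEquiv.ext fun z => Subtype.ext (by rw [MulAut.mul_apply]; simp)
    obtain ⟨z, hz1, hzinv⟩ := exists_common (fun v : ↥U => Subtype.ext v.2.2) hUne ρ
      (fun a b => hHab.is_comm.comm a b) (fun a => Subtype.ext (hHexp a a.2))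
    obtain ⟨x, hx⟩ := QuotientGroup.mk_surjective (z : ↥S ⧸ C')
    set D := C ⊔ Subgroup.zpowers (x : Ω) with hD
    have hDS : D ≤ S := sup_le hC.1 (Subgroup.zpowers_le.2 x.2)
    have hxD : ∀ (y : ↥S) (j : ℤ), (QuotientGroup.mk y : ↥S ⧸ C') = QuotientGroup.mk x ^ j → (y : Ω) ∈ D := by
      intro y j he
      rw [← QuotientGroup.mk_zpow, QuotientGroup.eq] at he
      have h2 : (y : Ω) = (x : Ω) ^ j * (((y⁻¹ * x ^ j : ↥S) : Ω))⁻¹ := by
        simp only [Subgroup.coe_mul, Subgroup.coe_inv, SubgroupClass.coe_zpow]; group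
      rw [h2]
      exact D.mul_mem (Subgroup.mem_sup_right (Subgroup.zpow_mem _ (Subgroup.mem_zpowers _) j))
        (D.inv_mem (Subgroup.mem_sup_left he))
    have hgood : ∀ γ ∈ A, ((γ x : ↥S) : Ω) ∈ D := by
      intro γ hγ
      obtain ⟨i, ⟨s, hs⟩, h, hh, rfl⟩ := hdec γ hγ
      obtain ⟨j, hj⟩ := hzinv ⟨h, hh⟩
      refine hxD _ j ?_
      have h1 : (QuotientGroup.mk (h x) : ↥S ⧸ C') = QuotientGroup.mk x ^ j := by
        have h2 := congrArg (fun t : U => (t : ↥S ⧸ C')) hj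
        simp only [SubgroupClass.coe_zpow] at h2
        rw [hx]
        refine Eq.trans ?_ h2.symm
        show _ = ρ₀ ⟨h, hh⟩ (z : ↥S ⧸ C')
        rw [← hx]
        rfl
      rw [← hs, MulAut.mul_apply, show (MulAut.conj s) (h x) = s * h x * s⁻¹ from rfl, QuotientGroup.mk_mul,
        QuotientGroup.mk_mul, h1]
      have hcen : (QuotientGroup.mk x : ↥S ⧸ C') ∈ Subgroup.center _ := hx ▸ z.2.1
      rw [Subgroup.mem_center_iff.1 (Subgroup.zpow_mem _ hcen j) _, QuotientGroup.mk_inv, mul_inv_cancel_right]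
    refine ⟨D, stronglyClosed_iff.2 ⟨hDS, fun R f hf y hy hyD => ?_⟩, le_sup_left, fun _ => lt_of_le_of_ne le_sup_left fun e => ?_, x, x.2, rfl⟩
    · obtain ⟨k, hk, hke, hki⟩ := (isNormal_iff.1 hN).2 R f hf
      obtain ⟨γ, hγ, hγe⟩ := (hk.restrict le_sup_right).exists_aut hki
      rw [← hke y hy, ← hγe y (hDS hyD)]
      have hmem : D.subgroupOf S ≤ (D.subgroupOf S).comap (γ : ↥S ≃* ↥S).toMonoidHom := by
        rw [hD, Subgroup.subgroupOf_sup hC.1 (Subgroup.zpowers_le.2 x.2)]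
        refine sup_le (fun c hc => Subgroup.mem_sup_left ?_) ?_
        · exact (hCinv γ hγ).le ⟨c, hc, rfl⟩
        · rintro w hw
          obtain ⟨j, hj⟩ := Subgroup.mem_subgroupOf.1 hw
          have hwx : w = x ^ j := Subtype.ext (by rw [SubgroupClass.coe_zpow]; exact hj.symm)
          subst hwx
          rw [← Subgroup.subgroupOf_sup hC.1 (Subgroup.zpowers_le.2 x.2), ← hD]
          show γ (x ^ j) ∈ D.subgroupOf S
          rw [map_zpow]
          exact Subgroup.zpow_mem _ (show γ x ∈ D.subgroupOf S from hgood γ hγ) j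
      rw [autFun_apply γ (hDS hyD)]
      exact hmem (show (⟨y, hDS hyD⟩ : ↥S) ∈ D.subgroupOf S from hyD)
    · refine hz1 (Subtype.ext ?_)
      show (z : ↥S ⧸ C') = 1
      rw [← hx]
      exact (QuotientGroup.eq_one_iff x).2 (show (x : Ω) ∈ C by rw [e]; exact Subgroup.mem_sup_right (Subgroup.mem_zpowers _))
  choose nxt hnsc hnle hnlt hngen using hstep
  have hbot : F.StronglyClosed ⊥ := stronglyClosed_iff.2 ⟨bot_le, fun R f hf x hx hx1 => by
    rw [Subgroup.mem_bot] at hx1 ⊢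
    subst hx1
    exact hf.map_one⟩
  let W : ℕ → {C : Subgroup Ω // F.StronglyClosed C} := fun i =>
    Nat.rec ⟨⊥, hbot⟩ (fun _ C => ⟨nxt C.1 C.2, hnsc C.1 C.2⟩) i
  have hgrow : ∀ i, (W i).1 = S ∨ i < Nat.card (W i).1 := by
    intro i
    induction i with
    | zero => exact Or.inr (by haveI := finite_of_le (hbot.1); exact Nat.card_pos)
    | succ i ih =>
      by_cases he : (W i).1 = S
      · exact Or.inl (le_antisymm (W (i + 1)).2.1 (he.ge.trans (hnle _ (W i).2)))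
      · have hlt : (W i).1 < (W (i + 1)).1 := hnlt _ (W i).2 he
        exact Or.inr (lt_of_le_of_lt (Nat.succ_le_of_lt (ih.resolve_left he)) (card_lt_of_lt (W (i + 1)).2.1 hlt))
  refine ⟨Nat.card ↥S, fun i => (W i.val).1, rfl, ?_, fun i => (W i.val).2, fun i => ?_⟩
  · rcases hgrow (Nat.card ↥S) with h | h
    · exact h
    · exact absurd (Subgroup.card_le_of_le (W (Nat.card ↥S)).2.1) (not_le.2 h)
  · exact ⟨hnle _ (W i.val).2, hngen _ (W i.val).2⟩

end Cfsg.Lib.Fusion.Supersoluble
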