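import Mathlib
import Cfsg.Prelude.Def_FusionSystem
import Cfsg.Agent.Lib.Fusion.Supersoluble
import Cfsg.Agent.Lib.Fusion.Hyperfocal

/-!
Abelian groups all whose fusion systems are supersoluble.
-/

set_option autoImplicit false
set_option linter.style.haveILetI false

open scoped Classical

namespace Cfsg.Lib.Fusion.SupersolubleAbelian

open Cfsg Cfsg.FusionSystem Cfsg.Lib.Fusion Cfsg.Lib.Fusion.Supersoluble

universe u

variable {p : ℕ} [Fact p.Prime]

section Pair

variable (A : Type*) [CommGroup A]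

/-- Exchange of the factors. -/
def swapAut : MulAut (A × A) := MulEquiv.prodComm

/-- Rotation by a quarter. -/
def rotAut : MulAut (A × A) :=
  { toFun := fun x => (x.2⁻¹, x.1)
    invFun := fun x => (x.2, x.1⁻¹)
    left_inv := fun x => Prod.ext rfl (inv_inv _)
    right_inv := fun x => Prod.ext (inv_inv _) rfl
    map_mul' := fun x y => Prod.ext (mul_inv _ _) rfl }

/-- An automorphism of order three. -/
def cycAut : MulAut (A × A) :=
  { toFun := fun x => (x.2⁻¹, x.1 * x.2⁻¹)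
    invFun := fun x => (x.2 * x.1⁻¹, x.1⁻¹)
    left_inv := fun x => by ext <;> simp
    right_inv := fun x => by ext <;> simp
    map_mul' := fun x y => Prod.ext (mul_inv _ _) (by
      show x.1 * y.1 * (x.2 * y.2)⁻¹ = x.1 * x.2⁻¹ * (y.1 * y.2⁻¹)
      rw [mul_inv, mul_mul_mul_comm]) }

end Pair

theorem exists_bad {A : Type*} [CommGroup A] [Finite A] (g : A) (hg : g ≠ 1) (h2 : p ≠ 2 → g ≠ g⁻¹) :
    ∃ K : Subgroup (MulAut (A × A)), (Nat.card ↥K).Coprime p ∧
      ¬ ((∀ a ∈ K, ∀ b ∈ K, a * b = b * a) ∧ ∀ a ∈ K, a ^ (p - 1) = 1) := by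
  haveI : Finite (MulAut (A × A)) := Finite.of_injective (fun f : MulAut (A × A) => (f : A × A → A × A)) fun a b h => MulEquiv.ext fun x => congrFun h x
  by_cases hp : p = 2
  · refine ⟨Subgroup.zpowers (cycAut A), ?_, fun h => hg ?_⟩
    · subst hp
      refine Nat.Coprime.coprime_dvd_left ?_ (by decide : (3 : ℕ).Coprime 2)
      rw [Nat.card_zpowers]
      refine orderOf_dvd_of_pow_eq_one (MulEquiv.ext fun x => ?_)
      simp only [pow_succ, pow_zero, one_mul, MulAut.mul_apply, MulAut.one_apply]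
      ext <;> simp [cycAut]
    · have h1 := congrArg (fun f : MulAut (A × A) => (f (g, 1)).1) (h.2 _ (Subgroup.mem_zpowers _))
      subst hp
      simp [cycAut] at h1
      exact h1.symm
  · have hrot : IsPGroup 2 (Subgroup.zpowers (rotAut A)) := by
      refine IsPGroup.iff_card.2 ?_
      rw [Nat.card_zpowers]
      obtain ⟨k, -, hk⟩ := (Nat.dvd_prime_pow Nat.prime_two).1 (show orderOf (rotAut A) ∣ 2 ^ 2 by
        refine orderOf_dvd_of_pow_eq_one (MulEquiv.ext fun x => ?_)
        simp only [pow_succ, pow_zero, one_mul, MulAut.mul_apply, MulAut.one_apply, Nat.reducePow, Nat.reduceMul]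
        ext <;> simp [rotAut])
      exact ⟨k, hk⟩
    have hs2 : swapAut A * swapAut A = 1 := MulEquiv.ext fun x => rfl
    have hswap : IsPGroup 2 (Subgroup.zpowers (swapAut A)) := by
      refine IsPGroup.iff_card.2 ?_
      rw [Nat.card_zpowers]
      obtain ⟨k, -, hk⟩ := (Nat.dvd_prime_pow Nat.prime_two).1 (show orderOf (swapAut A) ∣ 2 ^ 1 by
        refine orderOf_dvd_of_pow_eq_one ?_
        rw [pow_one, sq, hs2])
      exact ⟨k, hk⟩
    have hsi : (swapAut A)⁻¹ = swapAut A := inv_eq_of_mul_eq_one_right hs2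
    have hconj : swapAut A * rotAut A * (swapAut A)⁻¹ = (rotAut A)⁻¹ := by
      rw [hsi]
      exact MulEquiv.ext fun x => rfl
    have hle : Subgroup.zpowers (swapAut A) ≤ Subgroup.normalizer (Subgroup.zpowers (rotAut A) : Set (MulAut (A × A))) := by
      have h1 : ∀ r ∈ Subgroup.zpowers (rotAut A), swapAut A * r * (swapAut A)⁻¹ ∈ Subgroup.zpowers (rotAut A) := by
        rintro _ ⟨j, rfl⟩
        rw [← conj_zpow, hconj, inv_zpow]
        exact inv_mem (Subgroup.zpow_mem _ (Subgroup.mem_zpowers _) j)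
      refine Subgroup.zpowers_le.2 (Subgroup.mem_normalizer_iff.2 fun r => ⟨h1 r, fun hr => ?_⟩)
      have h3 := h1 _ hr
      rwa [hsi, show swapAut A * (swapAut A * r * swapAut A) * swapAut A = swapAut A * swapAut A * r * (swapAut A * swapAut A) by group,
        hs2, one_mul, mul_one] at h3
    refine ⟨Subgroup.zpowers (rotAut A) ⊔ Subgroup.zpowers (swapAut A), ?_, fun h => h2 hp ?_⟩
    · obtain ⟨k, hk⟩ := IsPGroup.iff_card.1 (hrot.to_sup_of_normal_left' hswap hle)
      rw [hk]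
      exact Nat.Coprime.pow_left _ ((Nat.coprime_primes Nat.prime_two Fact.out).2 (Ne.symm hp))
    · have h1 := congrArg (fun f : MulAut (A × A) => (f (g, 1)).1) (h.1 _ (Subgroup.mem_sup_left (Subgroup.mem_zpowers _)) _ (Subgroup.mem_sup_right (Subgroup.mem_zpowers _)))
      simp [rotAut, swapAut] at h1
      exact h1.symm

/-- A repeated invariant yields a coprime automorphism group which is not small. -/
theorem not_all_of_repeat {Ω : Type u} [Group Ω] {S : Subgroup Ω} [Finite S] (hS : IsPGroup p S) {n : ℕ} (hn : 0 < n)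
    {H : Type} [CommGroup H] (e : ↥S ≃* (Multiplicative (ZMod (p ^ n)) × Multiplicative (ZMod (p ^ n))) × H) :
    ¬ ∀ F : Cfsg.FusionSystem S, F.IsSaturated p → SupSol F := by
  intro h
  haveI : NeZero (p ^ n) := ⟨pow_ne_zero _ (Fact.out : p.Prime).ne_zero⟩
  let A := Multiplicative (ZMod (p ^ n))
  have h1 : 1 < p ^ n := Nat.one_lt_pow hn.ne' (Fact.out : p.Prime).one_lt
  haveI : Fact (1 < p ^ n) := ⟨h1⟩
  have hg : (Multiplicative.ofAdd (1 : ZMod (p ^ n)) : A) ≠ 1 := fun he => one_ne_zero (α := ZMod (p ^ n)) (congrArg (Multiplicative.toAdd (α := ZMod (p ^ n))) he)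
  obtain ⟨K, hK, hbad⟩ := exists_bad (p := p) (Multiplicative.ofAdd (1 : ZMod (p ^ n)) : A) hg (fun hp he => by
    have h2 : ((2 : ℕ) : ZMod (p ^ n)) = 0 := by
      have h3 : (1 : ZMod (p ^ n)) = -1 := congrArg Multiplicative.toAdd he
      calc ((2 : ℕ) : ZMod (p ^ n)) = 1 + 1 := by norm_num
        _ = -1 + 1 := by rw [← h3]
        _ = 0 := neg_add_cancel 1
    exact hp ((Nat.prime_dvd_prime_iff_eq Fact.out Nat.prime_two).1 ((dvd_pow_self p hn.ne').trans ((ZMod.natCast_eq_zero_iff _ _).1 h2))))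
  let Φ : MulAut (A × A) →* MulAut ↥S := MonoidHom.mk' (fun x => e.trans ((MulEquiv.prodCongr x (MulEquiv.refl H)).trans e.symm))
    fun x y => MulEquiv.ext fun s => by simp; rfl
  have hΦ : Function.Injective Φ := fun x y hxy => MulEquiv.ext fun a => by
    have h2 := congrArg (fun f : MulAut ↥S => (e (f (e.symm (a, 1)))).1) hxy
    simp [Φ] at h2
    exact h2
  obtain ⟨hc, he⟩ := aut_restricted hS h (K.map Φ) (by rwa [Subgroup.card_map_of_injective hΦ])
  exact hbad ⟨fun a ha b hb => hΦ (by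
      rw [map_mul, map_mul]
      exact congrArg Subtype.val (hc.is_comm.comm ⟨_, a, ha, rfl⟩ ⟨_, b, hb, rfl⟩)),
    fun a ha => hΦ (by rw [map_pow, map_one]; exact he _ ⟨a, ha, rfl⟩)⟩

section Distinct

variable {G : Type*} [CommGroup G]

/-- The layer subgroups `G ^ (p ^ j) ∩ G[p]`. -/
def layer (p : ℕ) (G : Type*) [CommGroup G] (j : ℕ) : Subgroup G :=
  (powMonoidHom (p ^ j) : G →* G).range ⊓ (powMonoidHom p : G →* G).ker

omit [Fact p.Prime] in
theorem mem_layer {x : G} {j : ℕ} : x ∈ layer p G j ↔ (∃ z, z ^ p ^ j = x) ∧ x ^ p = 1 := Iff.rfl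

/-- No invariant is repeated: the layers grow by at most `p`. -/
theorem exists_layer_zpow [Finite G] (hG : IsPGroup p G)
    (hd : ¬ ∃ (n : ℕ) (H : Type) (_ : CommGroup H), 0 < n ∧ Nonempty (G ≃* (Multiplicative (ZMod (p ^ n)) × Multiplicative (ZMod (p ^ n))) × H))
    {j : ℕ} {x y : G} (hx : x ∈ layer p G j) (hy : y ∈ layer p G j) (hy' : y ∉ layer p G (j + 1)) :
    ∃ k : ℤ, x * y ^ (-k) ∈ layer p G (j + 1) := by
  have hp := (Fact.out : p.Prime)
  obtain ⟨ι, hι, m, hm, ⟨e⟩⟩ := CommGroup.equiv_prod_multiplicative_zmod_of_finite G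
  haveI : ∀ i, NeZero (m i) := fun i => ⟨(zero_lt_one.trans (hm i)).ne'⟩
  have hpow : ∀ i, ∃ a, 0 < a ∧ m i = p ^ a := by
    intro i
    obtain ⟨a, ha⟩ := IsPGroup.iff_card.1 (hG.of_surjective ((Pi.evalMonoidHom _ i).comp e.toMonoidHom) (by
      intro w
      exact ⟨e.symm (Pi.mulSingle i w), by simp⟩))
    rw [Nat.card_congr Multiplicative.toAdd, Nat.card_zmod] at ha
    refine ⟨a, Nat.pos_of_ne_zero fun h0 => ?_, ha⟩
    have := hm i
    rw [ha, h0, pow_zero] at this
    omega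
  choose a ha0 ha using hpow
  have hinj : Function.Injective a := by
    intro i i' hii
    by_contra hne
    let P : ι → Prop := fun l => l ≠ i ∧ l ≠ i'
    have hP : ∀ l, l ≠ i → l ≠ i' → P l := fun l h h' => ⟨h, h'⟩
    refine hd ⟨a i, (∀ l : {l // P l}, Multiplicative (ZMod (m l))), inferInstance, ha0 i, ⟨e.trans ?_⟩⟩
    have ei : Multiplicative (ZMod (m i)) ≃* Multiplicative (ZMod (p ^ a i)) := (ZMod.ringEquivCongr (ha i)).toAddEquiv.toMultiplicative
    have ei' : Multiplicative (ZMod (m i')) ≃* Multiplicative (ZMod (p ^ a i)) :=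
      (ZMod.ringEquivCongr ((ha i').trans (by rw [hii]))).toAddEquiv.toMultiplicative
    exact
      { toFun := fun f => ((ei (f i), ei' (f i')), fun l => f l)
        invFun := fun t => Function.update (Function.update (fun l => if h : P l then t.2 ⟨l, h⟩ else 1) i' (ei'.symm t.1.2)) i (ei.symm t.1.1)
        left_inv := fun f => by
          funext l
          rcases eq_or_ne l i with rfl | h
          · simp
          simp only [Function.update_of_ne h]
          rcases eq_or_ne l i' with rfl | h'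
          · simp
          simp only [Function.update_of_ne h', dif_pos (hP l h h')]
        right_inv := fun t => by
          refine Prod.ext (Prod.ext ?_ ?_) (funext fun l => ?_)
          · simp
          · simp [Function.update_of_ne (Ne.symm hne)]
          · simp [Function.update_of_ne l.2.1, Function.update_of_ne l.2.2, l.2]
        map_mul' := fun f g => by
          refine Prod.ext (Prod.ext ?_ ?_) (funext fun l => rfl) <;> simp }
  -- membership in the next layer
  have hmem : ∀ z ∈ layer p G j, (∀ i, a i = j + 1 → e z i = 1) → z ∈ layer p G (j + 1) := by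
    intro z hz h1
    obtain ⟨⟨w, hw⟩, hzp⟩ := mem_layer.1 hz
    have key : ∀ i, ∃ v : Multiplicative (ZMod (m i)), v ^ p ^ (j + 1) = e z i := by
      intro i
      rcases lt_trichotomy (a i) (j + 1) with h | h | h
      · refine ⟨1, ?_⟩
        rw [one_pow, ← hw, map_pow, Pi.pow_apply]
        refine (orderOf_dvd_iff_pow_eq_one.1 ((orderOf_dvd_natCard _).trans ?_)).symm
        rw [Nat.card_congr Multiplicative.toAdd, Nat.card_zmod, ha i]
        exact pow_dvd_pow p (by omega)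
      · exact ⟨1, by rw [one_pow, h1 i h]⟩
      · obtain ⟨g, hg⟩ := IsCyclic.exists_generator (α := Multiplicative (ZMod (m i)))
        obtain ⟨k, hk⟩ := mem_powers_iff_mem_zpowers.2 (hg (e z i))
        have hk : g ^ k = e z i := hk
        have ho : orderOf g = p ^ a i := by
          rw [orderOf_eq_card_of_forall_mem_zpowers hg, Nat.card_congr Multiplicative.toAdd, Nat.card_zmod, ha i]
        have hd1 : p ^ a i ∣ k * p := by
          rw [← ho, orderOf_dvd_iff_pow_eq_one, pow_mul, hk, ← Pi.pow_apply, ← map_pow, hzp, map_one, Pi.one_apply]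
        obtain ⟨c, hc⟩ : p ^ (j + 1) ∣ k := by
          refine (pow_dvd_pow p (show j + 1 ≤ a i - 1 by omega)).trans ?_
          refine Nat.dvd_of_mul_dvd_mul_right hp.pos ?_
          rwa [← pow_succ, show a i - 1 + 1 = a i by omega]
        exact ⟨g ^ c, by rw [← pow_mul, mul_comm, ← hc, hk]⟩
    choose v hv using key
    exact mem_layer.2 ⟨⟨e.symm v, e.injective (by rw [map_pow, e.apply_symm_apply]; exact funext hv)⟩, hzp⟩
  obtain ⟨i, hi, hyi⟩ : ∃ i, a i = j + 1 ∧ e y i ≠ 1 := by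
    by_contra h
    push Not at h
    exact hy' (hmem y hy h)
  obtain ⟨k, hk⟩ : ∃ k : ℤ, e y i ^ k = e x i := by
    have hyp : e y i ^ p = 1 := by rw [← Pi.pow_apply, ← map_pow, (mem_layer.1 hy).2, map_one, Pi.one_apply]
    have hxp : e x i ^ p = 1 := by rw [← Pi.pow_apply, ← map_pow, (mem_layer.1 hx).2, map_one, Pi.one_apply]
    have hle : (Subgroup.zpowers (e y i) : Set (Multiplicative (ZMod (m i)))).toFinset ⊆ Finset.univ.filter (fun t => t ^ p = 1) := by
      intro t ht
      obtain ⟨n, rfl⟩ := Set.mem_toFinset.1 ht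
      refine Finset.mem_filter.2 ⟨Finset.mem_univ _, ?_⟩
      rw [← zpow_natCast, ← zpow_mul, mul_comm, zpow_mul, zpow_natCast, hyp, one_zpow]
    have heq := Finset.eq_of_subset_of_card_le hle ((IsCyclic.card_pow_eq_one_le hp.pos).trans (by
      rw [Set.toFinset_card, ← Nat.card_eq_fintype_card]
      show p ≤ Nat.card (Subgroup.zpowers (e y i))
      rw [Nat.card_zpowers, orderOf_eq_prime hyp hyi]))
    have hm2 : e x i ∈ Finset.univ.filter (fun t : Multiplicative (ZMod (m i)) => t ^ p = 1) := Finset.mem_filter.2 ⟨Finset.mem_univ _, hxp⟩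
    rw [← heq] at hm2
    exact Subgroup.mem_zpowers_iff.1 (Set.mem_toFinset.1 hm2)
  refine ⟨k, hmem _ (mul_mem hx (zpow_mem hy _)) fun i' hi' => ?_⟩
  obtain rfl := hinj (hi'.trans hi.symm)
  rw [map_mul, map_zpow, Pi.mul_apply, Pi.pow_apply, ← hk, ← zpow_add, add_neg_cancel, zpow_zero]

/-- The members of the characteristic chain. -/
def X (p : ℕ) (G : Type*) [CommGroup G] (i j : ℕ) : Subgroup G := (layer p G j).comap (powMonoidHom (p ^ i))

omit [Fact p.Prime] in
theorem X_inv (f : G ≃* G) {i j : ℕ} {x : G} (hx : x ∈ X p G i j) : f x ∈ X p G i j := by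
  have h0 : x ^ p ^ i ∈ layer p G j := hx
  obtain ⟨⟨z, hz⟩, h⟩ := mem_layer.1 h0
  show (f x) ^ p ^ i ∈ layer p G j
  rw [← map_pow]
  exact mem_layer.2 ⟨⟨f z, by rw [← map_pow, hz]⟩, by rw [← map_pow, h, map_one]⟩

theorem X_step [Finite G] (hG : IsPGroup p G)
    (hd : ¬ ∃ (n : ℕ) (H : Type) (_ : CommGroup H), 0 < n ∧ Nonempty (G ≃* (Multiplicative (ZMod (p ^ n)) × Multiplicative (ZMod (p ^ n))) × H))
    (i j : ℕ) : X p G i (j + 1) ≤ X p G i j ∧ ∃ a, X p G i j = X p G i (j + 1) ⊔ Subgroup.zpowers a := by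
  have hle : X p G i (j + 1) ≤ X p G i j := fun x hx => by
    have h0 : x ^ p ^ i ∈ layer p G (j + 1) := hx
    obtain ⟨⟨z, hz⟩, h⟩ := mem_layer.1 h0
    show x ^ p ^ i ∈ layer p G j
    exact mem_layer.2 ⟨⟨z ^ p, by rw [← pow_mul, ← pow_succ']; exact hz⟩, h⟩
  refine ⟨hle, ?_⟩
  by_cases h : X p G i j ≤ X p G i (j + 1)
  · exact ⟨1, by rw [Subgroup.zpowers_one_eq_bot, sup_bot_eq]; exact le_antisymm h hle⟩
  obtain ⟨a, ha, ha'⟩ := SetLike.not_le_iff_exists.1 h
  refine ⟨a, le_antisymm (fun x hx => ?_) (sup_le hle (Subgroup.zpowers_le.2 ha))⟩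
  obtain ⟨k, hk⟩ := exists_layer_zpow hG hd hx ha ha'
  have h1 : x * a ^ (-k) ∈ X p G i (j + 1) := by
    show (powMonoidHom (p ^ i) : G →* G) (x * a ^ (-k)) ∈ layer p G (j + 1)
    rw [map_mul, map_zpow]
    exact hk
  rw [show x = x * a ^ (-k) * a ^ k by rw [mul_assoc, ← zpow_add, neg_add_cancel, zpow_zero, mul_one]]
  exact Subgroup.mul_mem_sup h1 (Subgroup.zpow_mem _ (Subgroup.mem_zpowers _) k)

end Distinct

/-- Distinct invariants give supersolubility. -/
theorem supSol_of_distinct {Ω : Type u} [Group Ω] {S : Subgroup Ω} [Finite S] (hS : IsPGroup p S)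
    (hab : IsMulCommutative ↥S)
    (hd : ¬ ∃ (n : ℕ) (H : Type) (_ : CommGroup H), 0 < n ∧ Nonempty (↥S ≃* (Multiplicative (ZMod (p ^ n)) × Multiplicative (ZMod (p ^ n))) × H))
    (F : Cfsg.FusionSystem S) (hF : F.IsSaturated p) : SupSol F := by
  letI : CommGroup ↥S := { (inferInstance : Group ↥S) with mul_comm := hab.is_comm.comm }
  obtain ⟨E, hE⟩ := IsPGroup.iff_card.1 hS
  have hE1 : ∀ x : ↥S, ∀ k, E ≤ k → x ^ p ^ k = 1 := fun x k hk =>
    orderOf_dvd_iff_pow_eq_one.1 ((orderOf_dvd_natCard x).trans (hE ▸ pow_dvd_pow p hk))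
  set N := E + 1 with hN
  let V : ℕ → Subgroup ↥S := fun k => X p ↥S (k / N) (N - k % N)
  have hN0 : ∀ i, ∀ x : ↥S, x ∈ X p ↥S i N ↔ x ^ p ^ i = 1 := fun i x => by
    refine ⟨fun hx => ?_, fun hx => ?_⟩
    · have h0 : x ^ p ^ i ∈ layer p ↥S N := hx
      obtain ⟨⟨z, hz⟩, -⟩ := mem_layer.1 h0
      rw [← hz, hE1 z N (Nat.le_succ E)]
    · show x ^ p ^ i ∈ layer p ↥S N
      rw [hx]
      exact one_mem _
  have hsucc : ∀ i, X p ↥S (i + 1) N = X p ↥S i 0 := fun i => by
    ext x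
    rw [hN0]
    refine Iff.trans ?_ (Iff.symm (show x ∈ X p ↥S i 0 ↔ (∃ z, z ^ p ^ 0 = x ^ p ^ i) ∧ (x ^ p ^ i) ^ p = 1 from Iff.rfl))
    rw [← pow_mul, ← pow_succ]
    exact ⟨fun h => ⟨⟨x ^ p ^ i, by rw [pow_zero, pow_one]⟩, h⟩, fun h => h.2⟩
  have hstep : ∀ k, V k ≤ V (k + 1) ∧ ∃ a, V (k + 1) = V k ⊔ Subgroup.zpowers a := by
    intro k
    have hlt : k % N < N := Nat.mod_lt _ ((show 0 < N by omega))
    obtain ⟨j, hj⟩ : ∃ j, N - k % N = j + 1 := ⟨N - k % N - 1, by omega⟩
    have hdm := Nat.div_add_mod k N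
    have h1 : V (k + 1) = X p ↥S (k / N) j := by
      rcases Nat.lt_or_ge (k % N + 1) N with h | h
      · have : (k + 1) / N = k / N ∧ (k + 1) % N = k % N + 1 := (Nat.div_mod_unique ((show 0 < N by omega))).2 ⟨by omega, h⟩
        show X p ↥S ((k + 1) / N) (N - (k + 1) % N) = _
        rw [this.1, this.2, show N - (k % N + 1) = j by omega]
      · have : (k + 1) / N = k / N + 1 ∧ (k + 1) % N = 0 := (Nat.div_mod_unique ((show 0 < N by omega))).2 ⟨by rw [Nat.mul_add, Nat.mul_one]; omega, (show 0 < N by omega)⟩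
        show X p ↥S ((k + 1) / N) (N - (k + 1) % N) = _
        rw [this.1, this.2, Nat.sub_zero, hsucc, show j = 0 by omega]
    rw [h1]
    show X p ↥S (k / N) (N - k % N) ≤ _ ∧ ∃ a, _ = X p ↥S (k / N) (N - k % N) ⊔ _
    rw [hj]
    exact X_step hS hd (k / N) j
  refine ⟨N * N, fun k => (V k.val).map S.subtype, ?_, ?_, fun k => ?_, fun k => ?_⟩
  · rw [Subgroup.map_eq_bot_iff_of_injective _ S.subtype_injective, eq_bot_iff]
    intro x hx
    show x = 1
    have h0 : x ∈ X p ↥S 0 N := by simpa [V] using hx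
    simpa using (hN0 0 x).1 h0
  · show (V (N * N)).map S.subtype = S
    rw [show V (N * N) = ⊤ from Subgroup.eq_top_iff' _ |>.2 fun x => ?_, ← MonoidHom.range_eq_map, Subgroup.range_subtype]
    have hd1 : N * N / N = N := Nat.mul_div_cancel _ ((show 0 < N by omega))
    show x ∈ X p ↥S (N * N / N) (N - N * N % N)
    rw [hd1, Nat.mul_mod_left, Nat.sub_zero]
    exact (hN0 N x).2 (hE1 x N (Nat.le_succ E))
  · refine stronglyClosed_iff.2 ⟨Subgroup.map_subtype_le _, fun R f hf y hy hyV => ?_⟩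
    obtain ⟨β, -, hβ⟩ := exists_aut_of_abelian hS hF (fun a ha b hb => congrArg Subtype.val (hab.is_comm.comm ⟨a, ha⟩ ⟨b, hb⟩)) hf
    obtain ⟨z, hz, rfl⟩ := hyV
    rw [← hβ _ hy]
    show autFun β (z : Ω) ∈ (V k.val).map S.subtype
    rw [autFun_apply β z.2]
    exact ⟨β z, X_inv β hz, rfl⟩
  · obtain ⟨hle, a, ha⟩ := hstep k.val
    exact ⟨Subgroup.map_mono hle, (a : Ω), a.2, by
      show (V (k.val + 1)).map S.subtype = (V k.val).map S.subtype ⊔ _
      rw [ha, Subgroup.map_sup, MonoidHom.map_zpowers]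
      rfl⟩

end Cfsg.Lib.Fusion.SupersolubleAbelian
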