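import Mathlib
import Cfsg.Prelude.Def_FusionSystem
import Cfsg.Agent.Lib.Fusion.DerivedOrderP
import Cfsg.Agent.Lib.Fusion.MetacyclicTorus

/-!
Saturated systems on a nonabelian `p`-group with a unique abelian subgroup `A` of index `p`:
the essential subgroups other than `A`.

With `Z` the centre and `δ : a ↦ [x, a]` for some `x` outside `A`, the essential subgroups
other than `A` are `Z⟨x⟩` and `δ⁻¹(Z)⟨x⟩`, and their existence forces `|Z ∩ S'| = p`.
-/

set_option autoImplicit false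
set_option maxHeartbeats 800000

open scoped Classical commutatorElement

namespace Cfsg.Lib.Fusion.UniqueAbelian

open Cfsg Cfsg.FusionSystem Transvection

variable {Ω : Type*} [Group Ω] {S A : Subgroup Ω} {F : FusionSystem S} {E : Subgroup Ω} {p : ℕ}

/-- The standing hypotheses on the abelian subgroup `A`. -/
structure Setting (p : ℕ) (S A : Subgroup Ω) : Prop where
  le : A ≤ S
  comm : ∀ a ∈ A, ∀ b ∈ A, a * b = b * a
  index : A.relIndex S = p
  uniq : ∀ B ≤ S, (∀ a ∈ B, ∀ b ∈ B, a * b = b * a) → B.relIndex S = p → B = A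
  nonab : ¬ ∀ a ∈ S, ∀ b ∈ S, a * b = b * a

/-- The commutator with a fixed element. -/
def del (x a : Ω) : Ω := x * a * x⁻¹ * a⁻¹

variable [Finite S] [hp : Fact p.Prime] (hS : IsPGroup p S) (hA : Setting p S A)
include hS hA

theorem normal {s a : Ω} (hs : s ∈ S) (ha : a ∈ A) : s * a * s⁻¹ ∈ A := by
  obtain ⟨k, hk⟩ := IsPGroup.iff_card.1 hS
  have hk0 : k ≠ 0 := by
    rintro rfl
    have h1 : A.relIndex S ∣ Nat.card S := (A.subgroupOf S).index_dvd_card
    rw [hA.index, hk, pow_zero, Nat.dvd_one] at h1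
    exact hp.out.ne_one h1
  have hn : (A.subgroupOf S).Normal := Subgroup.normal_of_index_eq_minFac_card (by
    rw [hk, Nat.Prime.pow_minFac hp.out hk0]
    exact hA.index)
  exact hn.conj_mem ⟨a, hA.le ha⟩ ha ⟨s, hs⟩

theorem le_normalizer : S ≤ Subgroup.normalizer (A : Set Ω) := fun s hs =>
  (mem_normalizerIn_of_conj hA.le hs fun _ ha => normal hS hA hs ha).2

/-- `S` is generated by `A` and any element outside it. -/
theorem gen {x : Ω} (hx : x ∈ S) (hxA : x ∉ A) {s : Ω} (hs : s ∈ S) :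
    ∃ a ∈ A, ∃ i : ℤ, s = a * x ^ i := by
  have : (A.subgroupOf S).Normal := ⟨fun n hn g => normal hS hA g.2 hn⟩
  have hcard : Nat.card (↥S ⧸ A.subgroupOf S) = p := hA.index
  have hne : (QuotientGroup.mk' (A.subgroupOf S)) ⟨x, hx⟩ ≠ 1 := fun h =>
    hxA ((QuotientGroup.eq_one_iff (⟨x, hx⟩ : S)).1 h)
  obtain ⟨i, hi⟩ := mem_zpowers_of_prime_card hcard hne (g' := QuotientGroup.mk' (A.subgroupOf S) ⟨s, hs⟩)
  refine ⟨s * (x ^ i)⁻¹, ?_, i, by group⟩
  have h1 : (⟨s, hs⟩ : S) * ((⟨x, hx⟩ : S) ^ i)⁻¹ ∈ A.subgroupOf S := by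
    refine (QuotientGroup.eq_one_iff _).1 ?_
    show QuotientGroup.mk' (A.subgroupOf S) _ = 1
    rw [map_mul, map_inv, map_zpow]
    exact mul_inv_eq_one.2 hi.symm
  simpa [Subgroup.mem_subgroupOf] using h1

theorem centre_le : centralizerIn S S ≤ A := by
  intro z hz
  by_contra hzA
  obtain ⟨hzS, hzc⟩ := mem_centre_iff.1 hz
  refine hA.nonab fun u hu v hv => ?_
  obtain ⟨a, ha, i, rfl⟩ := gen hS hA hzS hzA hu
  obtain ⟨b, hb, j, rfl⟩ := gen hS hA hzS hzA hv
  have h1 : ∀ w ∈ S, ∀ k : ℤ, Commute (z ^ k) w := fun w hw k =>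
    Commute.zpow_left (show Commute z w from (hzc w hw).symm) k
  calc a * z ^ i * (b * z ^ j) = a * b * (z ^ i * z ^ j) := by
        rw [mul_assoc, ← mul_assoc (z ^ i), (h1 b (hA.le hb) i).eq]; group
    _ = b * a * (z ^ j * z ^ i) := by rw [hA.comm a ha b hb, ← zpow_add, ← zpow_add, add_comm]
    _ = b * z ^ j * (a * z ^ i) := by
        rw [mul_assoc b (z ^ j), ← mul_assoc (z ^ j), (h1 a (hA.le ha) j).eq]; group

theorem mem_centre {x a : Ω} (hx : x ∈ S) (hxA : x ∉ A) (ha : a ∈ A) (h : x * a = a * x) :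
    a ∈ centralizerIn S S := by
  refine mem_centre_iff.2 ⟨hA.le ha, fun c hc => ?_⟩
  obtain ⟨b, hb, i, rfl⟩ := gen hS hA hx hxA hc
  have h1 : Commute (x ^ i) a := Commute.zpow_left (show Commute x a from h) i
  exact (Commute.mul_left (show Commute b a from hA.comm b hb a ha) h1).eq

theorem del_mem {x a : Ω} (hx : x ∈ S) (ha : a ∈ A) : del x a ∈ A :=
  A.mul_mem (normal hS hA hx ha) (A.inv_mem ha)

theorem del_mul {x a b : Ω} (hx : x ∈ S) (ha : a ∈ A) (hb : b ∈ A) :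
    del x (a * b) = del x a * del x b := by
  have h1 := del_mem hS hA hx hb
  calc del x (a * b) = del x a * (a * del x b * a⁻¹) := by unfold del; group
    _ = del x a * del x b := by rw [hA.comm a ha _ h1, mul_inv_cancel_right]

/-- The elements of `A` whose commutator with `x` lies in `M`. -/
def pre {x : Ω} (hx : x ∈ S) (M : Subgroup Ω) : Subgroup Ω where
  carrier := {a | a ∈ A ∧ del x a ∈ M}
  one_mem' := ⟨A.one_mem, by simp [del, M.one_mem]⟩
  mul_mem' := fun {a b} ha hb => ⟨A.mul_mem ha.1 hb.1, by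
    rw [del_mul hS hA hx ha.1 hb.1]
    exact M.mul_mem ha.2 hb.2⟩
  inv_mem' := fun {a} ha => ⟨A.inv_mem ha.1, by
    have h := del_mul hS hA hx ha.1 (A.inv_mem ha.1)
    rw [mul_inv_cancel, show del x (1 : Ω) = 1 by simp [del]] at h
    rw [eq_inv_of_mul_eq_one_right h.symm]
    exact M.inv_mem ha.2⟩

theorem mem_pre {x a : Ω} {hx : x ∈ S} {M : Subgroup Ω} :
    a ∈ pre hS hA hx M ↔ a ∈ A ∧ del x a ∈ M := Iff.rfl

theorem del_mem_derived {x a : Ω} (hx : x ∈ S) (ha : a ∈ A) : del x a ∈ ⁅S, S⁆ := by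
  have h := Subgroup.commutator_mem_commutator hx (hA.le ha)
  rwa [commutatorElement_def] at h

omit [Finite S] in
theorem derived_le_self : ⁅S, S⁆ ≤ S := derived_le

/-- The derived subgroup consists of the commutators `[x, a]`. -/
theorem derived_eq {x : Ω} (hx : x ∈ S) (hxA : x ∉ A) {d : Ω} (hd : d ∈ ⁅S, S⁆) :
    ∃ a ∈ A, del x a = d := by
  let K : Subgroup Ω :=
    { carrier := {d | ∃ a ∈ A, del x a = d}
      one_mem' := ⟨1, A.one_mem, by simp [del]⟩
      mul_mem' := by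
        rintro _ _ ⟨a, ha, rfl⟩ ⟨b, hb, rfl⟩
        exact ⟨a * b, A.mul_mem ha hb, del_mul hS hA hx ha hb⟩
      inv_mem' := by
        rintro _ ⟨a, ha, rfl⟩
        refine ⟨a⁻¹, A.inv_mem ha, ?_⟩
        have h := del_mul hS hA hx ha (A.inv_mem ha)
        rw [mul_inv_cancel, show del x (1 : Ω) = 1 by simp [del]] at h
        exact eq_inv_of_mul_eq_one_right h.symm }
  have hKA : ∀ k ∈ K, k ∈ A := by
    rintro _ ⟨a, ha, rfl⟩
    exact del_mem hS hA hx ha
  have hKx : ∀ k ∈ K, x * k * x⁻¹ ∈ K := by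
    rintro _ ⟨a, ha, rfl⟩
    exact ⟨x * a * x⁻¹, normal hS hA hx ha, by unfold del; group⟩
  have hKn : ∀ s ∈ S, ∀ k ∈ K, s * k * s⁻¹ ∈ K := by
    intro s hs k hk
    have hxn : x ∈ normalizerIn S K :=
      mem_normalizerIn_of_conj (fun k hk => hA.le (hKA k hk)) hx hKx
    obtain ⟨a, ha, i, rfl⟩ := gen hS hA hx hxA hs
    have h1 := conj_mem_of_mem_normalizerIn ((normalizerIn S K).zpow_mem hxn i) hk
    rw [show a * x ^ i * k * (a * x ^ i)⁻¹ = a * (x ^ i * k * (x ^ i)⁻¹) * a⁻¹ by group,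
      hA.comm a ha _ (hKA _ h1), mul_inv_cancel_right]
    exact h1
  -- `[u, ·] ∈ K` is a subgroup condition
  have hsub : ∀ u ∈ S, (∀ a ∈ A, ⁅u, a⁆ ∈ K) → ⁅u, x⁆ ∈ K → ∀ v ∈ S, ⁅u, v⁆ ∈ K := by
    intro u hu hua hux
    let U : Subgroup Ω :=
      { carrier := {v | v ∈ S ∧ ⁅u, v⁆ ∈ K}
        one_mem' := ⟨S.one_mem, by simp [commutatorElement_def, K.one_mem]⟩
        mul_mem' := fun {v w} hv hw => ⟨S.mul_mem hv.1 hw.1, by
          rw [show ⁅u, v * w⁆ = ⁅u, v⁆ * (v * ⁅u, w⁆ * v⁻¹) by simp only [commutatorElement_def]; group]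
          exact K.mul_mem hv.2 (hKn v hv.1 _ hw.2)⟩
        inv_mem' := fun {v} hv => ⟨S.inv_mem hv.1, by
          rw [show ⁅u, v⁻¹⁆ = v⁻¹ * ⁅u, v⁆⁻¹ * v⁻¹⁻¹ by simp only [commutatorElement_def]; group]
          exact hKn _ (S.inv_mem hv.1) _ (K.inv_mem hv.2)⟩ }
    intro v hv
    obtain ⟨a, ha, i, rfl⟩ := gen hS hA hx hxA hv
    exact (U.mul_mem ⟨hA.le ha, hua a ha⟩ (U.zpow_mem ⟨hx, hux⟩ i)).2
  have hxall : ∀ v ∈ S, ⁅x, v⁆ ∈ K := hsub x hx (fun a ha => ⟨a, ha, (commutatorElement_def x a).symm⟩)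
    (by simp [commutatorElement_def, K.one_mem])
  have haall : ∀ a ∈ A, ∀ v ∈ S, ⁅a, v⁆ ∈ K := fun a ha => hsub a (hA.le ha)
    (fun b hb => by
      rw [commutatorElement_def, hA.comm a ha b hb]
      simp [K.one_mem])
    (by
      rw [← commutatorElement_inv]
      exact K.inv_mem ⟨a, ha, (commutatorElement_def x a).symm⟩)
  have hle : ⁅S, S⁆ ≤ K := Subgroup.commutator_le.2 fun u hu v hv => by
    rw [← commutatorElement_inv]
    refine K.inv_mem (hsub v hv (fun a ha => ?_) ?_ u hu)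
    · rw [← commutatorElement_inv]
      exact K.inv_mem (haall a ha v hv)
    · rw [← commutatorElement_inv]
      exact K.inv_mem (hxall v hv)
  exact hle hd

theorem derived_le_A : ⁅S, S⁆ ≤ A := by
  obtain ⟨x, hx, hxA⟩ : ∃ x ∈ S, x ∉ A := by
    by_contra h
    push Not at h
    exact hA.nonab fun a ha b hb => hA.comm a (h a ha) b (h b hb)
  intro d hd
  obtain ⟨a, ha, rfl⟩ := derived_eq hS hA hx hxA hd
  exact del_mem hS hA hx ha

theorem card_pre {x : Ω} (hx : x ∈ S) (hxA : x ∉ A) (M : Subgroup Ω) :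
    Nat.card (pre hS hA hx M) =
      Nat.card (centralizerIn S S) * Nat.card ↥(M ⊓ ⁅S, S⁆) := by
  let f : pre hS hA hx M →* ↥(M ⊓ ⁅S, S⁆) :=
    { toFun := fun a => ⟨del x a, a.2.2, del_mem_derived hS hA hx a.2.1⟩
      map_one' := Subtype.ext (by simp [del])
      map_mul' := fun a b => Subtype.ext (del_mul hS hA hx a.2.1 b.2.1) }
  have hf : Function.Surjective f := by
    rintro ⟨d, hdM, hdD⟩
    obtain ⟨a, ha, rfl⟩ := derived_eq hS hA hx hxA hdD
    exact ⟨⟨a, ha, hdM⟩, rfl⟩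
  have hker : f.ker = (centralizerIn S S).subgroupOf (pre hS hA hx M) := by
    ext a
    rw [MonoidHom.mem_ker, Subgroup.mem_subgroupOf, Subtype.ext_iff]
    show del x a = 1 ↔ _
    rw [del, mul_inv_eq_one, mul_inv_eq_iff_eq_mul]
    exact ⟨mem_centre hS hA hx hxA a.2.1, fun h => (mem_centre_iff.1 h).2 x hx⟩
  have hZ : centralizerIn S S ≤ pre hS hA hx M := fun z hz => ⟨centre_le hS hA hz, by
    rw [show del x z = 1 by rw [del, (mem_centre_iff.1 hz).2 x hx, mul_inv_cancel_right, mul_inv_cancel]]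
    exact M.one_mem⟩
  rw [← Subgroup.card_mul_index f.ker, Subgroup.index_ker, MonoidHom.range_eq_top.2 hf,
    Subgroup.card_top, hker, Nat.card_congr (Subgroup.subgroupOfEquivOfLe hZ).toEquiv]

/-- A subgroup with an element outside `A` is `p` times as large as its part in `A`. -/
theorem card_eq_mul {H : Subgroup Ω} (hH : H ≤ S) {x : Ω} (hx : x ∈ H) (hxA : x ∉ A) :
    Nat.card H = Nat.card ↥(H ⊓ A) * p := by
  have : (A.subgroupOf S).Normal := ⟨fun n hn g => normal hS hA g.2 hn⟩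
  have h1 : A.relIndex H ∣ p := by
    rw [← hA.index, ← Subgroup.relIndex_subgroupOf hH]
    exact Subgroup.relIndex_dvd_index_of_normal (A.subgroupOf S) _
  have h2 : A.relIndex H = p := ((Nat.dvd_prime hp.out).1 h1).resolve_left fun h =>
    hxA (Subgroup.relIndex_eq_one.1 h hx)
  rw [← (A.subgroupOf H).card_mul_index, show (A.subgroupOf H).index = p from h2,
    ← Subgroup.inf_subgroupOf_left, Nat.card_congr (Subgroup.subgroupOfEquivOfLe inf_le_left).toEquiv]

/-- An element of `A` whose action on the essential subgroup `E` stabilizes the chain through an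
invariant subgroup `V` lies in `E`. -/
theorem mem_of_stabilizes (hE : F.IsEssential p E) {V : Subgroup Ω} (hV : V ≤ E)
    (hVinv : ∀ γ ∈ F.autGroup E, ∀ v ∈ V, autFun γ v ∈ V)
    {c : Ω} (hc : c ∈ normalizerIn S E) (hcV : ∀ v ∈ V, c * v * c⁻¹ = v)
    (hcE : ∀ y ∈ E, y⁻¹ * (c * y * c⁻¹) ∈ V) : c ∈ E := by
  have hES := hE.1.1
  have := finite_mulAut_of_le hES
  let Γ : Subgroup (MulAut E) :=
    { carrier := {γ | γ ∈ F.autGroup E ∧ (∀ v ∈ V, autFun γ v = v) ∧ ∀ y ∈ E, y⁻¹ * autFun γ y ∈ V}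
      one_mem' := ⟨one_mem _, fun v hv => by rw [autFun_apply _ (hV hv)]; rfl, fun y hy => by
        rw [autFun_apply _ hy]
        simp [V.one_mem]⟩
      mul_mem' := fun {a b} ha hb => ⟨mul_mem ha.1 hb.1, fun v hv => by
          rw [autFun_mul _ _ (hV hv), hb.2.1 v hv, ha.2.1 v hv], fun y hy => by
          have h1 := autFun_mem b hy
          have h2 := V.mul_mem (hb.2.2 y hy) (ha.2.2 _ h1)
          rw [mul_assoc, mul_inv_cancel_left, ← autFun_mul _ _ hy] at h2
          exact h2⟩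
      inv_mem' := fun {a} ha => ⟨inv_mem ha.1, fun v hv => by
          conv_lhs => rw [← ha.2.1 v hv]
          rw [← autFun_mul _ _ (hV hv), inv_mul_cancel, autFun_apply _ (hV hv)]
          rfl, fun y hy => by
          have h1 := autFun_mem a⁻¹ hy
          have h2 := V.inv_mem (ha.2.2 _ h1)
          rw [← autFun_mul _ _ hy, mul_inv_cancel, mul_inv_rev, inv_inv, autFun_apply (1 : MulAut E) hy] at h2
          exact h2⟩ }
  have hp' : IsPGroup p Γ := by
    refine isPGroup_of_stabilizes hS hES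
      (fun i => if i = 0 then ⊥ else if i = 1 then V else E) 2 (if_pos rfl)
      (fun x hx => by simpa using hx) fun γ hγ i hi x hx hxW => ?_
    interval_cases i
    · simp only [zero_add, one_ne_zero, if_false, if_true] at hxW
      simp [hγ.2.1 x hxW]
    · simpa using hγ.2.2 x hx
  refine mem_of_conjAut_mem_inn hE.1 hc (le_inn_of_radical (radical_of_essential hS hE)
    (A := Γ) (fun γ hγ => hγ.1) hp' ?_ ?_)
  · intro g hg a ha
    refine ⟨mul_mem (mul_mem hg ha.1) (inv_mem hg), fun v hv => ?_, fun y hy => ?_⟩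
    · have h1 := hVinv _ (inv_mem hg) v hv
      rw [autFun_mul _ _ (hV hv), autFun_mul _ _ (hV h1), ha.2.1 _ h1, ← autFun_mul _ _ (hV hv),
        mul_inv_cancel, autFun_apply _ (hV hv)]
      rfl
    · have h1 := autFun_mem g⁻¹ hy
      have h2 := hVinv g hg _ (ha.2.2 _ h1)
      have hm := (mem_autGroup_iff hES).1 hg
      rw [hm.map_mul (E.inv_mem h1) (autFun_mem _ h1), hm.map_inv h1,
        ← autFun_mul g g⁻¹ hy, mul_inv_cancel, autFun_apply (1 : MulAut E) hy,
        ← autFun_mul g a h1, ← autFun_mul (g * a) g⁻¹ hy] at h2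
      exact h2
  · exact ⟨autInducedBy_le_autGroup hES (range_conjAut S E ▸ ⟨_, rfl⟩),
      fun v hv => by rw [autFun_conjAut _ (hV hv)]; exact hcV v hv,
      fun y hy => by rw [autFun_conjAut _ hy]; exact hcE y hy⟩

theorem exists_out (hE : F.IsEssential p E) (hne : E ≠ A) : ∃ x ∈ E, x ∉ A := by
  by_contra h
  push Not at h
  refine hne (le_antisymm h fun a ha => hE.1.2 E (isConj_refl hE.1.1) ?_)
  exact mem_centralizerIn_iff.2 ⟨hA.le ha, fun y hy => by
    rw [hA.comm a ha y (h y hy), mul_inv_cancel_right]⟩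

theorem conj_eq_del {x c : Ω} (hx : x ∈ S) (hc : c ∈ A) : c * x * c⁻¹ = (del x c)⁻¹ * x := by
  unfold del
  group

/-- `N_S(E) ∩ A` consists of the elements of `A` with commutator in `E`. -/
theorem normalizer_inf (hES : E ≤ S) {x : Ω} (hxE : x ∈ E) (hxA : x ∉ A) :
    normalizerIn S E ⊓ A = pre hS hA (hES hxE) E := by
  have hx := hES hxE
  refine le_antisymm (fun c hc => ⟨hc.2, ?hle⟩) fun c hc => ⟨?hge, hc.1⟩
  case hle =>
    have h1 := conj_mem_of_mem_normalizerIn hc.1 hxE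
    rw [conj_eq_del hS hA hx hc.2] at h1
    simpa using E.mul_mem h1 (E.inv_mem hxE)
  case hge =>
    refine mem_normalizerIn_of_conj hES (hA.le hc.1) fun y hy => ?_
    obtain ⟨b, hb, i, rfl⟩ := gen hS hA hx hxA (hES hy)
    have hbE : b ∈ E := by simpa using E.mul_mem hy (E.inv_mem (E.zpow_mem hxE i))
    rw [show c * (b * x ^ i) * c⁻¹ = (c * b * c⁻¹) * (c * x ^ i * c⁻¹) by group,
      hA.comm c hc.1 b hb, mul_inv_cancel_right, ← conj_zpow, conj_eq_del hS hA hx hc.1]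
    exact E.mul_mem hbE (E.zpow_mem (E.mul_mem (E.inv_mem hc.2) hxE) i)

/-- Elements of `A` normalizing `E` move each element within its coset of `V`, provided they do so
with `x`. -/
theorem moves_into (hES : E ≤ S) {x c : Ω} (hxE : x ∈ E) (hxA : x ∉ A) (hc : c ∈ A)
    {V : Subgroup Ω} (hVA : V ≤ A) (hVx : ∀ v ∈ V, x * v * x⁻¹ ∈ V)
    (hd : del x c ∈ V) : ∀ y ∈ E, y⁻¹ * (c * y * c⁻¹) ∈ V := by
  have hx := hES hxE
  have hn : ∀ s ∈ S, ∀ v ∈ V, s * v * s⁻¹ ∈ V := by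
    intro s hs v hv
    have hxn : x ∈ normalizerIn S V := mem_normalizerIn_of_conj (hVA.trans hA.le) hx hVx
    obtain ⟨a, ha, i, rfl⟩ := gen hS hA hx hxA hs
    have h1 := conj_mem_of_mem_normalizerIn ((normalizerIn S V).zpow_mem hxn i) hv
    rw [show a * x ^ i * v * (a * x ^ i)⁻¹ = a * (x ^ i * v * (x ^ i)⁻¹) * a⁻¹ by group,
      hA.comm a ha _ (hVA h1), mul_inv_cancel_right]
    exact h1
  let U : Subgroup Ω :=
    { carrier := {y | y ∈ S ∧ y⁻¹ * (c * y * c⁻¹) ∈ V}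
      one_mem' := ⟨S.one_mem, by simp [V.one_mem]⟩
      mul_mem' := fun {y z} hy hz => ⟨S.mul_mem hy.1 hz.1, by
        rw [show (y * z)⁻¹ * (c * (y * z) * c⁻¹) =
          (z⁻¹ * (y⁻¹ * (c * y * c⁻¹)) * z⁻¹⁻¹) * (z⁻¹ * (c * z * c⁻¹)) by group]
        exact V.mul_mem (hn _ (S.inv_mem hz.1) _ hy.2) hz.2⟩
      inv_mem' := fun {y} hy => ⟨S.inv_mem hy.1, by
        rw [show y⁻¹⁻¹ * (c * y⁻¹ * c⁻¹) = y * (y⁻¹ * (c * y * c⁻¹))⁻¹ * y⁻¹ by group]
        exact hn y hy.1 _ (V.inv_mem hy.2)⟩ }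
  intro y hy
  obtain ⟨b, hb, i, rfl⟩ := gen hS hA hx hxA (hES hy)
  have hxU : x ∈ U := ⟨hx, by
    rw [conj_eq_del hS hA hx hc, show x⁻¹ * ((del x c)⁻¹ * x) = x⁻¹ * (del x c)⁻¹ * x⁻¹⁻¹ by group]
    exact hn _ (S.inv_mem hx) _ (V.inv_mem hd)⟩
  have hbU : b ∈ U := ⟨hA.le hb, by rw [hA.comm c hc b hb, mul_inv_cancel_right, inv_mul_cancel]; exact V.one_mem⟩
  exact (U.mul_mem hbU (U.zpow_mem hxU i)).2

theorem centre_eq_inf_A (hE : F.IsEssential p E) (hab : ∀ x ∈ E, ∀ y ∈ E, x * y = y * x) {x : Ω}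
    (hxE : x ∈ E) (hxA : x ∉ A) : E ⊓ A = centralizerIn S S :=
  le_antisymm (fun b hb => mem_centre hS hA (hE.1.1 hxE) hxA hb.2 (hab x hxE b hb.1))
    (le_inf (centre_le_centric hE.1) (centre_le hS hA))

theorem eq_sup (hES : E ≤ S) {x : Ω} (hxE : x ∈ E) (hxA : x ∉ A) :
    E = (E ⊓ A) ⊔ Subgroup.zpowers x := by
  refine le_antisymm (fun y hy => ?_) (sup_le inf_le_left (Subgroup.zpowers_le.2 hxE))
  obtain ⟨b, hb, i, rfl⟩ := gen hS hA (hES hxE) hxA (hES hy)
  refine Subgroup.mul_mem_sup ⟨?_, hb⟩ (Subgroup.zpow_mem_zpowers x i)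
  simpa using E.mul_mem hy (E.inv_mem (E.zpow_mem hxE i))

theorem centre_fix_aut (hE : F.IsEssential p E) {x : Ω} (hxE : x ∈ E) (hxA : x ∉ A)
    (hZE : ∀ z ∈ E, (∀ y ∈ E, z * y = y * z) → z ∈ centralizerIn S S) :
    ∀ γ ∈ F.autGroup E, ∀ v ∈ centralizerIn S S, autFun γ v ∈ centralizerIn S S := by
  intro γ hγ v hv
  have hvE := centre_le_centric hE.1 hv
  refine hZE _ (autFun_mem γ hvE) fun y hy => ?_
  obtain ⟨y', rfl⟩ : ∃ y' : E, ((γ y' : E) : Ω) = y :=
    ⟨γ.symm ⟨y, hy⟩, by rw [MulEquiv.apply_symm_apply]⟩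
  rw [autFun_apply γ hvE, ← Subgroup.coe_mul, ← Subgroup.coe_mul, ← map_mul, ← map_mul]
  refine congrArg (fun t : E => ((γ t : E) : Ω)) (Subtype.ext ?_)
  exact ((mem_centre_iff.1 hv).2 y' (hE.1.1 y'.2)).symm

theorem inf_derived_le_centre {x : Ω} (hx : x ∈ S) (hxA : x ∉ A) {M : Subgroup Ω} (hM : M ≤ centralizerIn S S)
    {c : Ω} (hc : c ∈ pre hS hA hx M) : del x c ∈ centralizerIn S S ⊓ ⁅S, S⁆ :=
  ⟨hM hc.2, del_mem_derived hS hA hx hc.1⟩

/-- For an essential subgroup with nonabelian `E`: `E ∩ A = δ⁻¹(Z)`, of index `p` over `Z`, and of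
index `p` in `N_S(E) ∩ A`. -/
theorem nonabelian_shape (hE : F.IsEssential p E) (hF : F.IsSaturated p) {x : Ω} (hxE : x ∈ E)
    (hxA : x ∉ A) (hnab : ¬ ∀ x ∈ E, ∀ y ∈ E, x * y = y * x) :
    Nat.card ↥(centralizerIn S S ⊓ ⁅S, S⁆) = p ∧
      E ⊓ A = pre hS hA (hE.1.1 hxE) (centralizerIn S S) ∧
      (∀ z ∈ E, (∀ y ∈ E, z * y = y * z) → z ∈ centralizerIn S S) ∧
      Nat.card ↥(normalizerIn S E ⊓ A) = Nat.card ↥(E ⊓ A) * p := by
  have hES := hE.1.1
  have hx := hES hxE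
  have := finite_of_le hES
  have := finite_of_le hA.le
  set Z := centralizerIn S S with hZdef
  set B := E ⊓ A with hBdef
  have hBA : B ≤ A := inf_le_right
  have hZB : Z ≤ B := le_inf (centre_le_centric hE.1) (centre_le hS hA)
  have := finite_of_le (hBA.trans hA.le)
  have := finite_of_le (centralizerIn_le : Z ≤ S)
  obtain ⟨b₀, hb₀, hb₀x⟩ : ∃ b ∈ B, x * b ≠ b * x := by
    by_contra h
    push Not at h
    refine hnab fun u hu v hv => ?_
    obtain ⟨a, ha, i, rfl⟩ := gen hS hA hx hxA (hES hu)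
    obtain ⟨b, hb, j, rfl⟩ := gen hS hA hx hxA (hES hv)
    have hZc : ∀ a' ∈ A, a' * x ^ (0 : ℤ) = a' := fun a' _ => by simp
    have haB : a ∈ B := ⟨by simpa using E.mul_mem hu (E.inv_mem (E.zpow_mem hxE i)), ha⟩
    have hbB : b ∈ B := ⟨by simpa using E.mul_mem hv (E.inv_mem (E.zpow_mem hxE j)), hb⟩
    have h1 : Commute a (x ^ j) := (show Commute a x from (h a haB).symm).zpow_right j
    have h2 : Commute b (x ^ i) := (show Commute b x from (h b hbB).symm).zpow_right i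
    calc a * x ^ i * (b * x ^ j) = a * b * (x ^ i * x ^ j) := by
          rw [mul_assoc, ← mul_assoc (x ^ i), ← h2.eq]; group
      _ = b * a * (x ^ j * x ^ i) := by rw [hA.comm a ha b hb, ← zpow_add, ← zpow_add, add_comm]
      _ = b * x ^ j * (a * x ^ i) := by rw [mul_assoc b (x ^ j), ← mul_assoc (x ^ j), ← h1.eq]; group
  have hZE : ∀ z ∈ E, (∀ y ∈ E, z * y = y * z) → z ∈ Z := by
    intro z hz hzc
    by_cases hzA : z ∈ A
    · exact mem_centre hS hA hx hxA hzA (hzc x hxE).symm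
    · exfalso
      have h1 := mem_centre hS hA (hES hz) hzA hb₀.2 (hzc b₀ hb₀.1)
      exact hb₀x ((mem_centre_iff.1 h1).2 x hx)
  have hBx : ∀ v ∈ B, x * v * x⁻¹ ∈ B := fun v hv =>
    ⟨E.mul_mem (E.mul_mem hxE hv.1) (E.inv_mem hxE), normal hS hA hx hv.2⟩
  have hcardE := card_eq_mul hS hA hES hxE hxA
  -- the normalizer is bigger inside `A`
  obtain ⟨c, hc, hcE⟩ : ∃ c ∈ pre hS hA hx E, c ∉ E := by
    obtain ⟨-, y, hy, hyE⟩ := SetLike.lt_iff_le_and_exists.1
      (normalizer_growth hS le_rfl (lt_top_of_essential hS hF hE))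
    obtain ⟨a, ha, i, rfl⟩ := gen hS hA hx hxA (normalizerIn_le hy)
    refine ⟨a, normalizer_inf hS hA hES hxE hxA ▸ ⟨?_, ha⟩, fun h => hyE (E.mul_mem h (E.zpow_mem hxE i))⟩
    have := (normalizerIn S E).mul_mem hy ((normalizerIn S E).inv_mem
      ((normalizerIn S E).zpow_mem (le_normalizerIn hES hxE) i))
    rwa [mul_inv_cancel_right] at this
  -- `B` is not invariant
  have hBinv : ¬ ∀ γ ∈ F.autGroup E, ∀ v ∈ B, autFun γ v ∈ B := fun h => by
    refine hcE (mem_of_stabilizes hS hA hE inf_le_left h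
      ((normalizer_inf hS hA hES hxE hxA).ge hc).1 (fun v hv => ?_)
      (moves_into hS hA hES hxE hxA hc.1 hBA hBx ⟨hc.2, del_mem hS hA hx hc.1⟩))
    rw [hA.comm c hc.1 v hv.2, mul_inv_cancel_right]
  have hBZ : Z.relIndex B ≤ p := by
    push Not at hBinv
    obtain ⟨γ, hγ, v, hv, hγv⟩ := hBinv
    have hm := (mem_autGroup_iff hES).1 hγ
    set B' := img B (autFun γ) with hB'
    have hB'E : B' ≤ E := img_le fun w hw => autFun_mem γ hw.1
    have hout : autFun γ v ∉ A := fun h => hγv ⟨autFun_mem γ hv.1, h⟩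
    have hinf : B' ⊓ B ≤ Z := by
      rintro w ⟨hw', hw⟩
      obtain ⟨u, hu, rfl⟩ := (hm.restrict inf_le_left).mem_img.1 hw'
      refine mem_centre hS hA (hES (autFun_mem γ hv.1)) hout hw.2 ?_
      rw [← hm.map_mul hv.1 hu.1, ← hm.map_mul hu.1 hv.1, hA.comm v hv.2 u hu.2]
    have hcardB' : Nat.card B' = Nat.card B := (hm.restrict inf_le_left).card_img
    have := finite_of_le (hB'E.trans hES)
    have h1 : B'.relIndex E = p := by
      have h2 := Subgroup.relIndex_mul_relIndex ⊥ B' E bot_le hB'E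
      rw [Subgroup.relIndex_bot_left, Subgroup.relIndex_bot_left, hcardB', hcardE] at h2
      exact Nat.eq_of_mul_eq_mul_left Nat.card_pos h2
    calc Z.relIndex B ≤ (B' ⊓ B).relIndex B := by
          refine Nat.le_of_dvd (Nat.pos_of_ne_zero ?_) (Subgroup.relIndex_dvd_of_le_left B hinf)
          exact Subgroup.index_ne_zero_of_finite
      _ = B'.relIndex B := Subgroup.inf_relIndex_right B' B
      _ ≤ B'.relIndex E := Subgroup.relIndex_le_of_le_right inf_le_left (by rw [h1]; exact hp.out.ne_zero)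
      _ = p := h1
  have hZBne : Z.relIndex B ≠ 1 := fun h =>
    hb₀x ((mem_centre_iff.1 (Subgroup.relIndex_eq_one.1 h hb₀)).2 x hx)
  have hBZp : Z.relIndex B = p := by
    have hdvd : Z.relIndex B ∣ Nat.card B := (Z.subgroupOf B).index_dvd_card
    obtain ⟨k, hk⟩ := IsPGroup.iff_card.1 (isPGroup_of_le hS (hBA.trans hA.le))
    rw [hk] at hdvd
    obtain ⟨j, -, hj⟩ := (Nat.dvd_prime_pow hp.out).1 hdvd
    rw [hj] at hBZ hZBne ⊢
    rcases j with _ | _ | j
    · simp at hZBne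
    · simp
    · exfalso
      exact absurd hBZ (not_le.2 (by
        calc p = p ^ 1 := (pow_one p).symm
          _ < _ := Nat.pow_lt_pow_right hp.out.one_lt (by omega)))
  have hcardB : Nat.card B = Nat.card Z * p := by
    rw [← (Z.subgroupOf B).card_mul_index, show (Z.subgroupOf B).index = p from hBZp,
      Nat.card_congr (Subgroup.subgroupOfEquivOfLe hZB).toEquiv]
  -- commutators of `B` with `x` are central
  have hBpre : B ≤ pre hS hA hx Z := by
    intro b hb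
    refine ⟨hb.2, ?_⟩
    let MB := Z.subgroupOf B
    have hZx : ∀ v ∈ Z, x * v * x⁻¹ = v := fun v hv => by
      rw [(mem_centre_iff.1 hv).2 x hx, mul_inv_cancel_right]
    -- `x` acts on the group `B / Z` of order `p`
    have hN : MB.Normal := ⟨fun n hn g => by
      have : (g : Ω) * n * (g : Ω)⁻¹ = n := by rw [hA.comm _ g.2.2 _ n.2.2, mul_inv_cancel_right]
      show ((g * n * g⁻¹ : B) : Ω) ∈ Z
      rw [Subgroup.coe_mul, Subgroup.coe_mul, Subgroup.coe_inv, this]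
      exact hn⟩
    let σ : ↥B →* ↥B ⧸ MB := (QuotientGroup.mk' MB).comp
      { toFun := fun w => ⟨x * w * x⁻¹, hBx w w.2⟩
        map_one' := Subtype.ext (by simp)
        map_mul' := fun u w => Subtype.ext (by simp [mul_assoc]) }
    by_cases hbZ : b ∈ Z
    · rw [del, hZx b hbZ, mul_inv_cancel]
      exact Z.one_mem
    have hgen : ∀ w : ↥B, ∃ i : ℤ, QuotientGroup.mk' MB w = QuotientGroup.mk' MB ⟨b, hb⟩ ^ i := fun w => by
      obtain ⟨i, hi⟩ := mem_zpowers_of_prime_card (G := ↥B ⧸ MB) (p := p) hBZp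
        (g := QuotientGroup.mk' MB ⟨b, hb⟩) (fun h => hbZ ((QuotientGroup.eq_one_iff (⟨b, hb⟩ : B)).1 h))
        (g' := QuotientGroup.mk' MB w)
      exact ⟨i, hi.symm⟩
    obtain ⟨r, hr⟩ := hgen ⟨x * b * x⁻¹, hBx b hb⟩
    have hpow : ∀ k : ℕ, ∀ h : x ^ k * b * (x ^ k)⁻¹ ∈ B,
        QuotientGroup.mk' MB ⟨_, h⟩ = QuotientGroup.mk' MB ⟨b, hb⟩ ^ (r ^ k) := by
      intro k
      induction k with
      | zero =>
        intro h
        rw [pow_zero (M := ℤ), zpow_one]
        exact congrArg _ (Subtype.ext (by simp))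
      | succ k ih =>
        intro h
        have hk' : x ^ k * b * (x ^ k)⁻¹ ∈ B := by
          have := hBx
          induction k with
          | zero => simpa using hb
          | succ k _ =>
            refine ⟨?_, ?_⟩
            · exact E.mul_mem (E.mul_mem (E.pow_mem hxE _) hb.1) (E.inv_mem (E.pow_mem hxE _))
            · exact normal hS hA (S.pow_mem hx _) hb.2
        obtain ⟨j, hj⟩ := hgen ⟨_, hk'⟩
        have h1 : (⟨_, hk'⟩ : B) * (⟨b, hb⟩ ^ (r ^ k))⁻¹ ∈ MB := by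
          refine (QuotientGroup.eq_one_iff _).1 ?_
          show QuotientGroup.mk' MB _ = 1
          rw [map_mul, map_inv, map_zpow, ih hk', mul_inv_cancel]
        have h2 : QuotientGroup.mk' MB ⟨_, h⟩ = σ ⟨_, hk'⟩ :=
          congrArg _ (Subtype.ext (by simp [pow_succ', mul_assoc]))
        rw [h2, show (⟨_, hk'⟩ : B) = ((⟨_, hk'⟩ : B) * (⟨b, hb⟩ ^ (r ^ k))⁻¹) * ⟨b, hb⟩ ^ (r ^ k) by group,
          map_mul, map_zpow, show σ ⟨b, hb⟩ = QuotientGroup.mk' MB ⟨b, hb⟩ ^ r from hr, ← zpow_mul,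
          ← pow_succ']
        have h3 : σ ((⟨_, hk'⟩ : B) * (⟨b, hb⟩ ^ (r ^ k))⁻¹) = 1 :=
          (QuotientGroup.eq_one_iff _).2 (by
            have h0 := hZx _ h1
            simp only [Subgroup.coe_subtype] at h0
            show x * _ * x⁻¹ ∈ Z
            rw [h0]
            exact h1)
        rw [h3, one_mul]
    -- the order of `x` is a power of `p`
    obtain ⟨n, hn⟩ := IsPGroup.iff_orderOf.1 hS ⟨x, hx⟩
    rw [← Subgroup.orderOf_coe] at hn
    have hxn : x ^ p ^ n = 1 := hn ▸ pow_orderOf_eq_one x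
    have h4 := hpow (p ^ n) (by rw [hxn]; simpa using hb)
    have hord : orderOf (QuotientGroup.mk' MB ⟨b, hb⟩) = p := orderOf_eq_prime (by
      rw [← hBZp]
      exact pow_card_eq_one') (fun h => hbZ ((QuotientGroup.eq_one_iff (⟨b, hb⟩ : B)).1 h))
    have hb' : QuotientGroup.mk' MB ⟨_, (by rw [hxn]; simpa using hb : x ^ p ^ n * b * (x ^ p ^ n)⁻¹ ∈ B)⟩ =
        QuotientGroup.mk' MB ⟨b, hb⟩ ^ (1 : ℤ) := by
      rw [zpow_one]
      exact congrArg _ (Subtype.ext (by simp [hxn]))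
    rw [hb', zpow_eq_zpow_iff_modEq, hord] at h4
    have h5 : ((r : ZMod p)) ^ p ^ n = 1 := by
      have := (ZMod.intCast_eq_intCast_iff _ _ _).2 h4
      push_cast at this
      exact this.symm
    rw [ZMod.pow_card_pow] at h5
    have h6 : QuotientGroup.mk' MB ⟨x * b * x⁻¹, hBx b hb⟩ = QuotientGroup.mk' MB ⟨b, hb⟩ := by
      rw [hr]
      conv_rhs => rw [← zpow_one (QuotientGroup.mk' MB ⟨b, hb⟩)]
      rw [zpow_eq_zpow_iff_modEq, hord, ← ZMod.intCast_eq_intCast_iff]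
      simpa using h5
    have h7 := (QuotientGroup.eq).1 h6.symm
    have h8 : b⁻¹ * (x * b * x⁻¹) ∈ Z := h7
    rw [del, hA.comm _ (normal hS hA hx hb.2) _ (A.inv_mem hb.2)]
    exact h8
  -- `δ⁻¹(Z) = B`
  have hpreB : pre hS hA hx Z = B := by
    refine le_antisymm (fun a ha => ?_) hBpre
    refine ⟨?_, ha.1⟩
    have haE : a ∈ pre hS hA hx E := ⟨ha.1, centre_le_centric hE.1 ha.2⟩
    refine mem_of_stabilizes hS hA hE (centre_le_centric hE.1) (centre_fix_aut hS hA hE hxE hxA hZE)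
      ((normalizer_inf hS hA hES hxE hxA).ge haE).1
      (fun v hv => by rw [(mem_centre_iff.1 hv).2 a (hA.le ha.1), mul_inv_cancel_right])
      (moves_into hS hA hES hxE hxA ha.1 (centre_le hS hA)
        (fun v hv => by rwa [(mem_centre_iff.1 hv).2 x hx, mul_inv_cancel_right]) ha.2)
  have hZ0 : Nat.card ↥(Z ⊓ ⁅S, S⁆) = p := by
    have h := card_pre hS hA hx hxA Z
    rw [hpreB, hcardB, ← hZdef] at h
    exact (Nat.eq_of_mul_eq_mul_left Nat.card_pos h).symm
  refine ⟨hZ0, hpreB.symm, hZE, ?_⟩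
  -- the index in the normalizer
  rw [normalizer_inf hS hA hES hxE hxA, card_pre hS hA hx hxA E, hcardB, ← hZdef, mul_assoc]
  congr 1
  have hED : E ⊓ ⁅S, S⁆ ≤ B := inf_le_inf_left E (derived_le_A hS hA)
  have := finite_of_le ((inf_le_left : E ⊓ ⁅S, S⁆ ≤ E).trans hES)
  have hle : Z ⊓ ⁅S, S⁆ ≤ E ⊓ ⁅S, S⁆ := inf_le_inf_right _ (centre_le_centric hE.1)
  have hm := Subgroup.relIndex_mul_relIndex ⊥ (Z ⊓ ⁅S, S⁆) (E ⊓ ⁅S, S⁆) bot_le hle
  rw [Subgroup.relIndex_bot_left, Subgroup.relIndex_bot_left, hZ0] at hm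
  rw [← hm]
  congr 1
  have hr1 : (Z ⊓ ⁅S, S⁆).relIndex (E ⊓ ⁅S, S⁆) ≤ p := by
    rw [← Subgroup.inf_relIndex_right (Z ⊓ ⁅S, S⁆) (E ⊓ ⁅S, S⁆),
      show Z ⊓ ⁅S, S⁆ ⊓ (E ⊓ ⁅S, S⁆) = Z ⊓ (E ⊓ ⁅S, S⁆) by
        rw [inf_assoc, inf_left_comm ⁅S, S⁆, inf_idem],
      Subgroup.inf_relIndex_right, ← hBZp]
    exact Subgroup.relIndex_le_of_le_right hED (by rw [hBZp]; exact hp.out.ne_zero)
  obtain ⟨k, hk⟩ := IsPGroup.iff_card.1
    (isPGroup_of_le hS ((inf_le_left : E ⊓ ⁅S, S⁆ ≤ E).trans hES))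
  have hd : (Z ⊓ ⁅S, S⁆).relIndex (E ⊓ ⁅S, S⁆) ∣ p ^ k := hk ▸ ((Z ⊓ ⁅S, S⁆).subgroupOf _).index_dvd_card
  obtain ⟨j, -, hj⟩ := (Nat.dvd_prime_pow hp.out).1 hd
  rcases j with _ | j
  · exfalso
    rw [pow_zero] at hj
    refine hcE ?_
    have h1 : del x c ∈ Z := (Subgroup.relIndex_eq_one.1 hj ⟨hc.2, del_mem_derived hS hA hx hc.1⟩).1
    exact (hpreB.le ⟨hc.1, h1⟩).1
  · rw [hj] at hr1 ⊢
    rcases j with _ | j
    · simp
    · exfalso
      exact absurd hr1 (not_le.2 (by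
        calc p = p ^ 1 := (pow_one p).symm
          _ < _ := Nat.pow_lt_pow_right hp.out.one_lt (by omega)))

/-- For an abelian essential subgroup other than `A` the induced group has order `p` and consists
of transvections with centre `Z ∩ S'`. -/
theorem abelian_shape (hE : F.IsEssential p E) (hF : F.IsSaturated p) {x : Ω} (hxE : x ∈ E)
    (hxA : x ∉ A) (hab : ∀ x ∈ E, ∀ y ∈ E, x * y = y * x) :
    Nat.card ↥(centralizerIn S S ⊓ ⁅S, S⁆) = p ∧
      Nat.card ↥(normalizerIn S E ⊓ A) = Nat.card ↥(E ⊓ A) * p ∧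
      Nat.card (autInducedBy S E) = p ∧
      (letI := commOf hab
       ∀ α ∈ autInducedBy S E, IsTrv α ((centralizerIn S S ⊓ ⁅S, S⁆).subgroupOf E)) := by
  have hES := hE.1.1
  have hx := hES hxE
  have := finite_of_le hES
  have := finite_of_le hA.le
  have := finite_mulAut_of_le hES
  set Z := centralizerIn S S with hZdef
  have hBZ : E ⊓ A = Z := centre_eq_inf_A hS hA hE hab hxE hxA
  have hZE : Z ≤ E := centre_le_centric hE.1
  have := finite_of_le (centralizerIn_le : Z ≤ S)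
  have hcardE : Nat.card E = Nat.card Z * p := by rw [card_eq_mul hS hA hES hxE hxA, hBZ]
  have hED : E ⊓ ⁅S, S⁆ = Z ⊓ ⁅S, S⁆ := le_antisymm
    (fun d hd => ⟨hBZ.le ⟨hd.1, derived_le_A hS hA hd.2⟩, hd.2⟩) (inf_le_inf_right _ hZE)
  have hpreE : Nat.card ↥(normalizerIn S E ⊓ A) = Nat.card Z * Nat.card ↥(Z ⊓ ⁅S, S⁆) := by
    rw [normalizer_inf hS hA hES hxE hxA, card_pre hS hA hx hxA, hED]
  -- induced automorphisms come from `A`
  have hind : ∀ α ∈ autInducedBy S E, ∃ c ∈ pre hS hA hx E, ∀ y ∈ E, autFun α y = c * y * c⁻¹ := by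
    intro α hα
    rw [← range_conjAut] at hα
    obtain ⟨⟨n, hn⟩, rfl⟩ := hα
    obtain ⟨a, ha, i, rfl⟩ := gen hS hA hx hxA (normalizerIn_le hn)
    refine ⟨a, normalizer_inf hS hA hES hxE hxA ▸ ⟨?_, ha⟩, fun y hy => ?_⟩
    · have := (normalizerIn S E).mul_mem hn ((normalizerIn S E).inv_mem
        ((normalizerIn S E).zpow_mem (le_normalizerIn hES hxE) i))
      rwa [mul_inv_cancel_right] at this
    · rw [autFun_conjAut _ hy]
      show a * x ^ i * y * (a * x ^ i)⁻¹ = _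
      rw [show a * x ^ i * y * (a * x ^ i)⁻¹ = a * (x ^ i * y * (x ^ i)⁻¹) * a⁻¹ by group,
        hab _ (E.zpow_mem hxE i) y hy, mul_inv_cancel_right]
  let _ := commOf hab
  have htrv : ∀ α ∈ autInducedBy S E, IsTrv α ((Z ⊓ ⁅S, S⁆).subgroupOf E) := by
    intro α hα
    obtain ⟨c, hc, hce⟩ := hind α hα
    refine ⟨fun y => ?_, fun d hd => Subtype.ext ?_⟩
    · rw [Subgroup.mem_subgroupOf]
      show (y : Ω)⁻¹ * (α y : E) ∈ _
      rw [← autFun_coe, hce y y.2]
      refine ⟨?_, commutator_mem (hA.le hc.1) (hES y.2)⟩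
      refine moves_into hS hA hES hxE hxA hc.1 (centre_le hS hA)
        (fun v hv => by rwa [(mem_centre_iff.1 hv).2 x hx, mul_inv_cancel_right]) ?_ y y.2
      exact hBZ.le ⟨hc.2, del_mem hS hA hx hc.1⟩
    · rw [← autFun_coe, hce d d.2, (mem_centre_iff.1 (Subgroup.mem_subgroupOf.1 hd).1).2 c (hA.le hc.1),
        mul_inv_cancel_right]
  have hTfixZ : ∀ α ∈ autInducedBy S E, ∀ z ∈ Z, autFun α z = z := by
    intro α hα z hz
    obtain ⟨c, hc, hce⟩ := hind α hα
    rw [hce z (hZE hz), (mem_centre_iff.1 hz).2 c (hA.le hc.1), mul_inv_cancel_right]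
  have hCE : centralizerIn S E = E := centralizerIn_eq_self hE.1 hab
  have hcardT : Nat.card (autInducedBy S E) = Nat.card ↥(Z ⊓ ⁅S, S⁆) := by
    have h := card_autInducedBy_mul S E
    rw [hCE, card_eq_mul hS hA normalizerIn_le (le_normalizerIn hES hxE) hxA, hpreE, hcardE] at h
    refine Nat.eq_of_mul_eq_mul_right (Nat.mul_pos Nat.card_pos hp.out.pos) (h.trans ?_)
    ring
  obtain ⟨-, -, T, hT⟩ := fullyNormalized_axiom hS hF hE.2.1
  have hrec := receptive_of_fullyNormalized hS hF hE.2.1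
  have hTmem : ∀ {α : F.autGroup E}, α ∈ (T : Subgroup (F.autGroup E)) ↔
      (α : MulAut E) ∈ autInducedBy S E := by
    intro α
    rw [hT, Subgroup.mem_subgroupOf]
  have hout : ∀ Q : Subgroup (F.autGroup E), Q ≤ T → Q ≠ ⊥ →
      Subgroup.normalizer (Q : Set (F.autGroup E)) ≤ (extAut F E).subgroupOf (F.autGroup E) := by
    intro Q hQT hQ y hy
    obtain ⟨q, hq, hq1⟩ := (Subgroup.bot_or_exists_ne_one Q).resolve_left hQ
    obtain ⟨⟨c, hc⟩, hce⟩ := (range_conjAut S E).ge (hTmem.1 (hQT hq))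
    refine mem_extAut_of_extN hrec y.2 (SetLike.lt_iff_le_and_exists.2
      ⟨((mem_autGroup_iff hES).1 y.2).le_extN, c, mem_extN_of_conj_mem hc ?_, fun hcE => ?_⟩)
    · rw [hce]
      exact hTmem.1 (hQT ((Subgroup.mem_normalizer_iff.1 hy _).1 hq))
    · refine hq1 (Subtype.ext (hce.symm.trans (aut_ext fun z hz => ?_)))
      rw [autFun_conjAut _ hz, hab c hcE z hz, mul_inv_cancel_right, autFun_apply _ hz]
      rfl
  -- a nontrivial induced automorphism
  obtain ⟨t₀, ht₀, ht₀1⟩ : ∃ t ∈ autInducedBy S E, t ≠ 1 := by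
    refine (Subgroup.bot_or_exists_ne_one (autInducedBy S E)).resolve_left fun h => ?_
    obtain ⟨-, y, hy, hyE⟩ := SetLike.lt_iff_le_and_exists.1
      (normalizer_growth hS le_rfl (lt_top_of_essential hS hF hE))
    refine hyE (hE.1.2 E (isConj_refl hES) (mem_centralizerIn_iff.2 ⟨normalizerIn_le hy, fun z hz => ?_⟩))
    have h1 : conjAut S E ⟨y, hy⟩ = 1 := Subgroup.mem_bot.1 (h.le (range_conjAut S E ▸ ⟨_, rfl⟩))
    rw [← autFun_conjAut ⟨y, hy⟩ hz, h1, autFun_apply _ hz]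
    rfl
  have hge : p ≤ Nat.card (autInducedBy S E) := by
    obtain ⟨k, hk⟩ := IsPGroup.iff_card.1 (isPGroup_autInducedBy (P := E) hS)
    rcases Nat.eq_zero_or_pos k with rfl | hk0
    · rw [pow_zero, Subgroup.card_eq_one] at hk
      exact absurd (Subgroup.mem_bot.1 (hk ▸ ht₀)) ht₀1
    · rw [hk]
      exact Nat.le_self_pow hk0.ne' p
  suffices hle : Nat.card (autInducedBy S E) ≤ p by
    have hTp := le_antisymm hle hge
    exact ⟨hcardT.symm.trans hTp, by rw [hpreE, ← hcardT, hTp, hBZ], hTp, htrv⟩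
  by_contra hgt
  push Not at hgt
  -- the stabilizer of `Z` is proper
  let St : Subgroup (F.autGroup E) :=
    { carrier := {g | ∀ z, z ∈ Z → autFun (g : MulAut E) z ∈ Z}
      one_mem' := fun z hz => by rw [autFun_apply _ (hZE hz)]; exact hz
      mul_mem' := fun {a b} ha hb z hz => by
        rw [Subgroup.coe_mul, autFun_mul _ _ (hZE hz)]
        exact ha _ (hb z hz)
      inv_mem' := fun {a} ha z hz => by
        have hm := (mem_autGroup_iff hES).1 a.2
        have himg := (hm.restrict hZE).img_eq_of_card_le centralizerIn_le ha le_rfl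
        obtain ⟨w, hw, hwe⟩ := (hm.restrict hZE).mem_img.1 (himg.ge hz)
        rw [← hwe, Subgroup.coe_inv, ← autFun_mul _ _ (hZE hw), inv_mul_cancel, autFun_apply _ (hZE hw)]
        exact hw }
  obtain ⟨g, hgSt, hgY⟩ : ∃ g : F.autGroup E, g ∉ St ∧ g ∉ (extAut F E).subgroupOf (F.autGroup E) := by
    obtain ⟨g₁, hg₁⟩ : ∃ g₁ : F.autGroup E, g₁ ∉ St := by
      by_contra h
      push Not at h
      obtain ⟨c, hc, hcE⟩ := hind t₀ ht₀
      have hcE' : c ∈ E := mem_of_stabilizes hS hA hE hZE (fun γ hγ => h ⟨γ, hγ⟩)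
        ((normalizer_inf hS hA hES hxE hxA).ge hc).1
        (fun v hv => by rw [(mem_centre_iff.1 hv).2 c (hA.le hc.1), mul_inv_cancel_right])
        (moves_into hS hA hES hxE hxA hc.1 (centre_le hS hA)
          (fun v hv => by rwa [(mem_centre_iff.1 hv).2 x hx, mul_inv_cancel_right])
          (hBZ.le ⟨hc.2, del_mem hS hA hx hc.1⟩))
      refine ht₀1 (aut_ext fun y hy => ?_)
      rw [hcE y hy, hab c hcE' y hy, mul_inv_cancel_right, autFun_apply _ hy]
      rfl
    obtain ⟨g₂, hg₂⟩ : ∃ g₂ : F.autGroup E, g₂ ∉ (extAut F E).subgroupOf (F.autGroup E) := by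
      by_contra h
      push Not at h
      exact extAut_ne_of_essential hS hF hE (le_antisymm (extAut_le hES) fun γ hγ => h ⟨γ, hγ⟩)
    by_cases h1 : g₁ ∈ (extAut F E).subgroupOf (F.autGroup E)
    · by_cases h2 : g₂ ∈ St
      · exact ⟨g₁ * g₂, fun h => hg₁ ((St.mul_mem_cancel_right h2).1 h),
          fun h => hg₂ ((Subgroup.mul_mem_cancel_left _ h1).1 h)⟩
      · exact ⟨g₂, h2, hg₂⟩
    · exact ⟨g₁, hg₁, h1⟩
  -- the common fixed subgroup
  have hm := (mem_autGroup_iff hES).1 g.2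
  set Zg := img Z (autFun (g : MulAut E)) with hZg
  have hZgE : Zg ≤ E := img_le fun w hw => autFun_mem _ (hZE hw)
  set W := Z ⊓ Zg with hWdef
  have hWE : W ≤ E := inf_le_left.trans hZE
  have := finite_of_le (hZgE.trans hES)
  have hZgrel : Zg.relIndex E = p := by
    have h2 := Subgroup.relIndex_mul_relIndex ⊥ Zg E bot_le hZgE
    rw [Subgroup.relIndex_bot_left, Subgroup.relIndex_bot_left, hcardE, (hm.restrict hZE).card_img] at h2
    exact Nat.eq_of_mul_eq_mul_left Nat.card_pos h2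
  have hWZ : W.relIndex Z ≤ p := by
    rw [hWdef, inf_comm, Subgroup.inf_relIndex_right, ← hZgrel]
    exact Subgroup.relIndex_le_of_le_right hZE (by rw [hZgrel]; exact hp.out.ne_zero)
  let K : Subgroup (F.autGroup E) :=
    { carrier := {h | (∀ w ∈ W, autFun (h : MulAut E) w = w) ∧
        ∀ y ∈ E, y⁻¹ * autFun (h : MulAut E) y ∈ W}
      one_mem' := ⟨fun w hw => by rw [autFun_apply _ (hWE hw)]; rfl, fun y hy => by
        rw [autFun_apply _ hy]
        simp [W.one_mem]⟩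
      mul_mem' := fun {a b} ha hb => ⟨fun v hv => by
          rw [Subgroup.coe_mul, autFun_mul _ _ (hWE hv), hb.1 v hv, ha.1 v hv], fun y hy => by
          have h1 := autFun_mem (b : MulAut E) hy
          have h2 := W.mul_mem (hb.2 y hy) (ha.2 _ h1)
          rw [mul_assoc, mul_inv_cancel_left, ← autFun_mul _ _ hy] at h2
          exact h2⟩
      inv_mem' := fun {a} ha => ⟨fun v hv => by
          conv_lhs => rw [← ha.1 v hv]
          rw [Subgroup.coe_inv, ← autFun_mul _ _ (hWE hv), inv_mul_cancel, autFun_apply _ (hWE hv)]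
          rfl, fun y hy => by
          have h1 := autFun_mem (a : MulAut E)⁻¹ hy
          have h2 := W.inv_mem (ha.2 _ h1)
          rw [← autFun_mul _ _ hy, mul_inv_cancel, mul_inv_rev, inv_inv, autFun_apply (1 : MulAut E) hy] at h2
          exact h2⟩ }
  have hKp : IsPGroup p K := by
    have h1 : IsPGroup p (K.map (F.autGroup E).subtype) := by
      refine isPGroup_of_stabilizes hS hES
        (fun i => if i = 0 then ⊥ else if i = 1 then W else E) 2 (if_pos rfl)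
        (fun x hx => by simpa using hx) fun γ hγ i hi y hy hyW => ?_
      obtain ⟨k, hk, rfl⟩ := hγ
      interval_cases i
      · simp only [zero_add, one_ne_zero, if_false, if_true] at hyW
        simp [hk.1 y hyW]
      · simpa using hk.2 y hy
    exact h1.of_equiv (K.equivMapOfInjective _ (Subgroup.subtype_injective _)).symm
  -- whatever fixes `W` pointwise normalizes `K`
  have hKn : ∀ n : F.autGroup E, (∀ w ∈ W, autFun (n : MulAut E) w = w) →
      ∀ k ∈ K, n * k * n⁻¹ ∈ K := by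
    intro n hn k hk
    have hn' : ∀ w ∈ W, autFun ((n : MulAut E)⁻¹) w = w := fun w hw => by
      conv_lhs => rw [← hn w hw]
      rw [← autFun_mul _ _ (hWE hw), inv_mul_cancel, autFun_apply _ (hWE hw)]
      rfl
    refine ⟨fun w hw => ?_, fun y hy => ?_⟩
    · simp only [Subgroup.coe_mul, Subgroup.coe_inv]
      rw [autFun_mul _ _ (hWE hw), hn' w hw, autFun_mul _ _ (hWE hw), hk.1 w hw, hn w hw]
    · have h1 := autFun_mem ((n : MulAut E)⁻¹) hy
      have h2 := hk.2 _ h1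
      have h3 := hn _ h2
      have hmn := (mem_autGroup_iff hES).1 n.2
      rw [hmn.map_mul (E.inv_mem h1) (autFun_mem _ h1), hmn.map_inv h1, ← autFun_mul _ _ hy,
        mul_inv_cancel, show autFun (1 : MulAut E) y = y from autFun_apply _ hy, ← autFun_mul _ _ h1,
        ← autFun_mul _ _ hy] at h3
      show y⁻¹ * autFun ((n * k * n⁻¹ : F.autGroup E) : MulAut E) y ∈ W
      simp only [Subgroup.coe_mul, Subgroup.coe_inv]
      rw [h3]
      exact h2
  have hTK : (T : Subgroup (F.autGroup E)) ≤ Subgroup.normalizer (K : Set (F.autGroup E)) := by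
    intro t ht
    have ht' : ∀ w ∈ W, autFun (t : MulAut E) w = w := fun w hw => hTfixZ _ (hTmem.1 ht) w hw.1
    refine Subgroup.mem_normalizer_iff.2 fun k => ⟨hKn t ht' k, fun hk => ?_⟩
    have h1 := hKn t⁻¹ (fun w hw => hTfixZ _ (hTmem.1 (inv_mem ht)) w hw.1) _ hk
    simpa [mul_assoc] using h1
  have hKT : K ≤ T := le_sup_left.trans (T.is_maximal' (hKp.to_sup_of_normal_left' T.2 hTK) le_sup_right).le
  -- `K` contains a nontrivial induced automorphism
  obtain ⟨k, hk, hk1⟩ : ∃ k ∈ K, k ≠ 1 := by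
    let WE := W.subgroupOf E
    have hxZ : ∀ α : autInducedBy S E, x⁻¹ * autFun (α : MulAut E) x ∈ Z := fun α => by
      have h1 := ((htrv α α.2).1 ⟨x, hxE⟩).1
      rw [autFun_apply _ hxE]
      exact h1
    have : (W.subgroupOf Z).Normal := ⟨fun n hn g => by
      rwa [show g * n * g⁻¹ = n from Subtype.ext (by
        show (g : Ω) * n * (g : Ω)⁻¹ = n
        rw [(mem_centre_iff.1 n.2).2 g (centralizerIn_le g.2), mul_inv_cancel_right])]⟩
    let ψ : autInducedBy S E →* ↥Z ⧸ W.subgroupOf Z :=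
      { toFun := fun α => QuotientGroup.mk ⟨_, hxZ α⟩
        map_one' := by
          refine (congrArg QuotientGroup.mk (Subtype.ext ?_)).trans (QuotientGroup.mk_one _)
          show x⁻¹ * autFun (1 : MulAut E) x = 1
          rw [autFun_apply _ hxE]
          exact inv_mul_cancel x
        map_mul' := fun α β => by
          show QuotientGroup.mk _ = QuotientGroup.mk (⟨_, hxZ α⟩ * ⟨_, hxZ β⟩ : Z)
          congr 1
          refine Subtype.ext ?_
          show x⁻¹ * autFun ((α : MulAut E) * (β : MulAut E)) x = x⁻¹ * autFun (α : MulAut E) x * (x⁻¹ * autFun (β : MulAut E) x)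
          have hm' := (mem_autGroup_iff hES).1 (autInducedBy_le_autGroup (F := F) hES α.2)
          rw [autFun_mul _ _ hxE]
          conv_lhs => rw [show autFun (β : MulAut E) x = x * (x⁻¹ * autFun (β : MulAut E) x) by group]
          rw [hm'.map_mul hxE (hZE (hxZ β)), hTfixZ _ α.2 _ (hxZ β)]
          group }
    have hker : ψ.ker ≠ ⊥ := fun h => by
      have h1 := Nat.card_le_card_of_injective ψ ((MonoidHom.ker_eq_bot_iff ψ).1 h)
      exact absurd (h1.trans hWZ) (not_le.2 hgt)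
    obtain ⟨α, hα, hα1⟩ := (Subgroup.bot_or_exists_ne_one ψ.ker).resolve_left hker
    refine ⟨⟨α, autInducedBy_le_autGroup hES α.2⟩, ⟨fun w hw => hTfixZ _ α.2 w hw.1, ?_⟩,
      fun h => hα1 (Subtype.ext (by simpa using Subtype.ext_iff.1 h))⟩
    have hxW : x⁻¹ * autFun (α : MulAut E) x ∈ W := (QuotientGroup.eq_one_iff (⟨_, hxZ α⟩ : Z)).1 hα
    intro y hy
    obtain ⟨b, hb, i, rfl⟩ := gen hS hA hx hxA (hES hy)
    have hbZ : b ∈ Z := hBZ.le ⟨by simpa using E.mul_mem hy (E.inv_mem (E.zpow_mem hxE i)), hb⟩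
    have hm' := (mem_autGroup_iff hES).1 (autInducedBy_le_autGroup (F := F) hES α.2)
    show (b * x ^ i)⁻¹ * autFun (α : MulAut E) (b * x ^ i) ∈ W
    rw [hm'.map_mul (hZE hbZ) (E.zpow_mem hxE i), hTfixZ _ α.2 b hbZ, hm'.map_zpow' hxE,
      show (b * x ^ i)⁻¹ * (b * autFun (α : MulAut E) x ^ i) = (x ^ i)⁻¹ * autFun (α : MulAut E) x ^ i by group,
      ← inv_zpow, ← Commute.mul_zpow (hab _ (E.inv_mem hxE) _ (autFun_mem _ hxE))]
    exact W.zpow_mem hxW i
  have hKY := hout K hKT fun h => hk1 (Subgroup.mem_bot.1 (h ▸ hk))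
  -- the conjugate Sylow subgroup lies in the normalizer of `K` too
  have hgfix : ∀ t : F.autGroup E, (t : MulAut E) ∈ autInducedBy S E → ∀ w ∈ W,
      autFun ((g * t * g⁻¹ : F.autGroup E) : MulAut E) w = w := by
    intro t ht w hw
    obtain ⟨z, hz, rfl⟩ := (hm.restrict hZE).mem_img.1 hw.2
    simp only [Subgroup.coe_mul, Subgroup.coe_inv]
    rw [← autFun_mul _ _ (hZE hz), inv_mul_cancel_right, autFun_mul _ _ (hZE hz), hTfixZ _ ht z hz]
  set T' : Sylow p (F.autGroup E) := g • T with hT'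
  have hT'N : (T' : Subgroup (F.autGroup E)) ≤ Subgroup.normalizer (K : Set (F.autGroup E)) := by
    rintro _ ⟨t, ht, rfl⟩
    show g * t * g⁻¹ ∈ _
    refine Subgroup.mem_normalizer_iff.2 fun k => ⟨hKn _ (hgfix t (hTmem.1 ht)) k, fun hk => ?_⟩
    have h1 := hKn _ (hgfix t⁻¹ (hTmem.1 (inv_mem ht))) _ hk
    simpa [mul_assoc] using h1
  obtain ⟨n, hn⟩ := MulAction.exists_smul_eq (Subgroup.normalizer (K : Set (F.autGroup E)))
    (T.subtype hTK) (T'.subtype hT'N)
  rw [Sylow.smul_subtype] at hn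
  have h1 := Sylow.subtype_injective hn
  have h2 : ((n : F.autGroup E))⁻¹ * g ∈ Subgroup.normalizer ((T : Subgroup (F.autGroup E)) : Set (F.autGroup E)) := by
    refine Sylow.smul_eq_iff_mem_normalizer.1 ?_
    rw [mul_smul, ← hT', ← h1, Subgroup.smul_def, inv_smul_smul]
  have hT1 : (T : Subgroup (F.autGroup E)) ≠ ⊥ := fun h => by
    have h0 : (⟨t₀, autInducedBy_le_autGroup hES ht₀⟩ : F.autGroup E) ∈ (T : Subgroup (F.autGroup E)) :=
      hTmem.2 ht₀
    rw [h, Subgroup.mem_bot] at h0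
    exact ht₀1 (congrArg Subtype.val h0)
  have h3 := Subgroup.mul_mem _ (hKY n.2) (hout T le_rfl hT1 h2)
  rw [mul_inv_cancel_left] at h3
  exact hgY h3

/-- The possible essential subgroups other than `A`. -/
theorem essential_shape (hE : F.IsEssential p E) (hF : F.IsSaturated p) (hne : E ≠ A) :
    Nat.card ↥(centralizerIn S S ⊓ ⁅S, S⁆) = p ∧ ¬ ⁅S, S⁆ ≤ centralizerIn S S ∧
      E.relIndex (normalizerIn S E) = p ∧
      ∃ (x : Ω) (hxS : x ∈ S), x ∉ A ∧ x ∈ E ∧
        (((∀ u ∈ E, ∀ v ∈ E, u * v = v * u) ∧ E = centralizerIn S S ⊔ Subgroup.zpowers x) ∨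
          ((∀ z ∈ E, (∀ y ∈ E, z * y = y * z) → z ∈ centralizerIn S S) ∧
            E = pre hS hA hxS (centralizerIn S S) ⊔ Subgroup.zpowers x)) := by
  obtain ⟨x, hxE, hxA⟩ := exists_out hS hA hE hne
  have hES := hE.1.1
  have := finite_of_le hES
  have := finite_of_le (normalizerIn_le : normalizerIn S E ≤ S)
  have := finite_of_le hA.le
  have := finite_of_le (centralizerIn_le : centralizerIn S S ≤ S)
  have hsup := eq_sup hS hA hES hxE hxA
  have hidx : Nat.card ↥(normalizerIn S E ⊓ A) = Nat.card ↥(E ⊓ A) * p →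
      E.relIndex (normalizerIn S E) = p := fun h => by
    have h1 := Subgroup.relIndex_mul_relIndex ⊥ E (normalizerIn S E) bot_le (le_normalizerIn hES)
    rw [Subgroup.relIndex_bot_left, Subgroup.relIndex_bot_left, card_eq_mul hS hA hES hxE hxA,
      card_eq_mul hS hA normalizerIn_le (le_normalizerIn hES hxE) hxA, h] at h1
    have : Finite ↥(E ⊓ A) := finite_of_le (inf_le_left.trans hES)
    exact Nat.eq_of_mul_eq_mul_left (Nat.mul_pos Nat.card_pos hp.out.pos) h1
  by_cases hab : ∀ u ∈ E, ∀ v ∈ E, u * v = v * u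
  · obtain ⟨h1, h2, -, -⟩ := abelian_shape hS hA hE hF hxE hxA hab
    have hBZ := centre_eq_inf_A hS hA hE hab hxE hxA
    refine ⟨h1, fun hD => hne (hA.uniq E hES hab ?_), hidx h2,
      x, hES hxE, hxA, hxE, Or.inl ⟨hab, hBZ ▸ hsup⟩⟩
    -- here `E` has the order of `A`
    have h3 := card_pre hS hA (hES hxE) hxA ⊤
    rw [top_inf_eq, show pre hS hA (hES hxE) ⊤ = A from
      le_antisymm (fun a ha => ha.1) fun a ha => ⟨ha, Subgroup.mem_top _⟩] at h3
    rw [inf_eq_right.2 hD] at h1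
    rw [h1] at h3
    have h4 : Nat.card E = Nat.card A := by rw [card_eq_mul hS hA hES hxE hxA, hBZ, h3]
    have h5 := Subgroup.relIndex_mul_relIndex ⊥ E S bot_le hES
    have h6 := Subgroup.relIndex_mul_relIndex ⊥ A S bot_le hA.le
    rw [Subgroup.relIndex_bot_left, Subgroup.relIndex_bot_left, h4] at h5
    rw [Subgroup.relIndex_bot_left, Subgroup.relIndex_bot_left, hA.index] at h6
    exact Nat.eq_of_mul_eq_mul_left Nat.card_pos (h5.trans h6.symm)
  · obtain ⟨h1, h2, h3, h4⟩ := nonabelian_shape hS hA hE hF hxE hxA hab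
    refine ⟨h1, fun hD => (lt_top_of_essential hS hF hE).not_ge fun s hs => ?_, hidx h4,
      x, hES hxE, hxA, hxE, Or.inr ⟨h3, h2 ▸ hsup⟩⟩
    obtain ⟨a, ha, i, rfl⟩ := gen hS hA (hES hxE) hxA hs
    exact E.mul_mem (h2.ge ⟨ha, hD (del_mem_derived hS hA (hES hxE) ha)⟩).1 (E.zpow_mem hxE i)

end Cfsg.Lib.Fusion.UniqueAbelian
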