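import Mathlib
import Cfsg.Agent.Lib.Fusion.UniqueAbelian
import Cfsg.Agent.Lib.Fusion.DerivedOrderPMain

/-!
Consequences for the upper and lower central series of `S`, and the case in which `A` is not
essential in a system without nontrivial normal subgroups.
-/

set_option autoImplicit false
set_option maxHeartbeats 800000

open scoped Classical commutatorElement

namespace Cfsg.Lib.Fusion.UniqueAbelian

open Cfsg Cfsg.FusionSystem Transvection

variable {Ω : Type*} [Group Ω] {S A : Subgroup Ω} {F : FusionSystem S} {E : Subgroup Ω} {p : ℕ}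
  [Finite S] [hp : Fact p.Prime] (hS : IsPGroup p S) (hA : Setting p S A)

omit [Finite S] in
theorem setting_of {S A : Subgroup Ω} {p : ℕ} (hna : ¬ IsMulCommutative ↥S)
    (hA : A ≤ S ∧ IsMulCommutative ↥A ∧ (A.subgroupOf S).index = p)
    (huniq : ∀ B : Subgroup Ω, B ≤ S → IsMulCommutative ↥B → (B.subgroupOf S).index = p → B = A) :
    Setting p S A where
  le := hA.1
  comm := fun a ha b hb => congrArg Subtype.val (hA.2.1.is_comm.comm ⟨a, ha⟩ ⟨b, hb⟩)
  index := hA.2.2
  uniq := fun B hB hc hi => huniq B hB ⟨⟨fun a b => Subtype.ext (hc a a.2 b b.2)⟩⟩ hi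
  nonab := fun h => hna ⟨⟨fun a b => Subtype.ext (h a a.2 b b.2)⟩⟩

include hS hA

/-- When `S'` is not central, `Z₂(S) = δ⁻¹(Z)`. -/
theorem upperCentralSeries_two {x : Ω} (hx : x ∈ S) (hxA : x ∉ A)
    (hD : ¬ ⁅S, S⁆ ≤ centralizerIn S S) :
    (Subgroup.upperCentralSeries ↥S 2).map S.subtype = pre hS hA hx (centralizerIn S S) := by
  have hcen : ∀ u : S, u ∈ Subgroup.center ↥S ↔ (u : Ω) ∈ centralizerIn S S := fun u => by
    rw [Subgroup.mem_center_iff, mem_centre_iff]
    exact ⟨fun h => ⟨u.2, fun c hc => congrArg Subtype.val (h ⟨c, hc⟩)⟩,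
      fun h g => Subtype.ext (h.2 g g.2)⟩
  have hmem : ∀ s : S, s ∈ Subgroup.upperCentralSeries ↥S 2 ↔
      ∀ y ∈ S, (s : Ω) * y * (s : Ω)⁻¹ * y⁻¹ ∈ centralizerIn S S := fun s => by
    rw [Subgroup.mem_upperCentralSeries_succ_iff, Subgroup.upperCentralSeries_one]
    exact ⟨fun h y hy => (hcen _).1 (h ⟨y, hy⟩), fun h y => (hcen _).2 (h y y.2)⟩
  ext a
  constructor
  · rintro ⟨s, hs, rfl⟩
    have h1 := (hmem s).1 hs
    have hsA : (s : Ω) ∈ A := by
      by_contra hsA
      refine hD fun d hd => ?_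
      obtain ⟨b, hb, rfl⟩ := derived_eq hS hA s.2 hsA hd
      exact h1 b (hA.le hb)
    refine ⟨hsA, ?_⟩
    show del x (s : Ω) ∈ centralizerIn S S
    rw [show del x (s : Ω) = ((s : Ω) * x * (s : Ω)⁻¹ * x⁻¹)⁻¹ by unfold del; group]
    exact Subgroup.inv_mem _ (h1 x hx)
  · rintro ⟨ha, had⟩
    refine ⟨⟨a, hA.le ha⟩, (hmem _).2 fun y hy => ?_, rfl⟩
    have h1 : ∀ y ∈ S, y⁻¹ * (a * y * a⁻¹) ∈ centralizerIn S S :=
      moves_into hS hA le_rfl hx hxA ha (centre_le hS hA)
        (fun v hv => by rwa [(mem_centre_iff.1 hv).2 x hx, mul_inv_cancel_right]) had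
    have h2 := h1 y hy
    show a * y * a⁻¹ * y⁻¹ ∈ centralizerIn S S
    rw [show a * y * a⁻¹ * y⁻¹ = y * (y⁻¹ * (a * y * a⁻¹)) * y⁻¹ by group,
      (mem_centre_iff.1 h2).2 y hy, mul_inv_cancel_right]
    exact h2

omit hA in
theorem lcs_le_derived : ∀ i : ℕ, Subgroup.lowerCentralSeries S (i + 1) ≤ ⁅S, S⁆
  | 0 => by rw [Subgroup.lowerCentralSeries_succ, Subgroup.lowerCentralSeries_zero]
  | i + 1 => by
    rw [Subgroup.lowerCentralSeries_succ]
    exact Subgroup.commutator_mono (lowerCentralSeries_le S (i + 1)) le_rfl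

/-- Each step down the lower central series costs at most a factor `|Z ∩ S'|`. -/
theorem card_lcs {x : Ω} (hx : x ∈ S) (hxA : x ∉ A) : ∀ i : ℕ,
    Nat.card (⁅S, S⁆ : Subgroup Ω) ≤ Nat.card ↥(Subgroup.lowerCentralSeries S (i + 1)) *
      Nat.card ↥(centralizerIn S S ⊓ ⁅S, S⁆) ^ i
  | 0 => by rw [Subgroup.lowerCentralSeries_succ, Subgroup.lowerCentralSeries_zero]; simp
  | i + 1 => by
    set M := Subgroup.lowerCentralSeries S (i + 1) with hM
    set N := Subgroup.lowerCentralSeries S (i + 1 + 1) with hN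
    have hMD : M ≤ ⁅S, S⁆ := lcs_le_derived hS i
    have hMA : M ≤ A := hMD.trans (derived_le_A hS hA)
    have := finite_of_le (hMA.trans hA.le)
    have := finite_of_le ((lcs_le_derived hS (i + 1) : N ≤ ⁅S, S⁆).trans derived_le)
    have := finite_of_le ((inf_le_left : centralizerIn S S ⊓ ⁅S, S⁆ ≤ _).trans centralizerIn_le)
    have hdel : ∀ a ∈ M, del x a ∈ N := fun a ha => by
      rw [hN, Subgroup.lowerCentralSeries_succ, show del x a = (⁅a, x⁆)⁻¹ by
        simp only [del, commutatorElement_def]; group]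
      exact Subgroup.inv_mem _ (Subgroup.commutator_mem_commutator ha hx)
    let f : M →* N :=
      { toFun := fun a => ⟨del x a, hdel a a.2⟩
        map_one' := Subtype.ext (by simp [del])
        map_mul' := fun a b => Subtype.ext (del_mul hS hA hx (hMA a.2) (hMA b.2)) }
    have hker : ∀ a ∈ f.ker, (a : Ω) ∈ centralizerIn S S ⊓ ⁅S, S⁆ := fun a ha => by
      refine ⟨mem_centre hS hA hx hxA (hMA a.2) ?_, hMD a.2⟩
      have h1 : del x (a : Ω) = 1 := congrArg Subtype.val (MonoidHom.mem_ker.1 ha)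
      rwa [del, mul_inv_eq_one, mul_inv_eq_iff_eq_mul] at h1
    have hk : Nat.card f.ker ≤ Nat.card ↥(centralizerIn S S ⊓ ⁅S, S⁆) :=
      Nat.card_le_card_of_injective (fun a => ⟨((a : M) : Ω), hker a a.2⟩)
        fun a b h => Subtype.ext (Subtype.ext (by simpa using h))
    have hr : Nat.card f.range ≤ Nat.card N :=
      Nat.card_le_card_of_injective _ f.range.subtype_injective
    have h2 : Nat.card M ≤ Nat.card ↥(centralizerIn S S ⊓ ⁅S, S⁆) * Nat.card N := by
      rw [← Subgroup.card_mul_index f.ker, Subgroup.index_ker]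
      exact Nat.mul_le_mul hk hr
    refine (card_lcs hx hxA i).trans ((Nat.mul_le_mul_right _ h2).trans_eq ?_)
    rw [pow_succ]
    ring

theorem card_A_eq {x : Ω} (hx : x ∈ S) (hxA : x ∉ A) :
    Nat.card A = Nat.card (centralizerIn S S) * Nat.card (⁅S, S⁆ : Subgroup Ω) := by
  have h3 := card_pre hS hA hx hxA ⊤
  rwa [top_inf_eq, show pre hS hA hx ⊤ = A from
    le_antisymm (fun a ha => ha.1) fun a ha => ⟨ha, Subgroup.mem_top _⟩] at h3

theorem card_S_eq : Nat.card S = Nat.card A * p := by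
  rw [← (A.subgroupOf S).card_mul_index, show (A.subgroupOf S).index = p from hA.index,
    Nat.card_congr (Subgroup.subgroupOfEquivOfLe hA.le).toEquiv]

/-- `S / Z` has maximal class. -/
theorem lcs_not_central {x : Ω} (hx : x ∈ S) (hxA : x ∉ A)
    (hZ0 : Nat.card ↥(centralizerIn S S ⊓ ⁅S, S⁆) = p) {m : ℕ}
    (hm : ((centralizerIn S S).subgroupOf S).index = p ^ m) (h3 : 3 ≤ m) :
    ¬ Subgroup.lowerCentralSeries S (m - 2) ≤ centralizerIn S S := by
  intro hle
  obtain ⟨j, rfl⟩ : ∃ j, m = j + 3 := ⟨m - 3, by omega⟩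
  rw [show j + 3 - 2 = j + 1 by omega] at hle
  have := finite_of_le (centralizerIn_le : centralizerIn S S ≤ S)
  have := finite_of_le ((inf_le_left : centralizerIn S S ⊓ ⁅S, S⁆ ≤ _).trans centralizerIn_le)
  have hD : Nat.card (⁅S, S⁆ : Subgroup Ω) = p ^ (j + 2) := by
    have h1 := card_S_eq hS hA
    rw [card_A_eq hS hA hx hxA, ← ((centralizerIn S S).subgroupOf S).card_mul_index, hm,
      Nat.card_congr (Subgroup.subgroupOfEquivOfLe (centralizerIn_le : centralizerIn S S ≤ S)).toEquiv,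
      mul_assoc, show p ^ (j + 3) = p ^ (j + 2) * p from pow_succ p (j + 2)] at h1
    exact (Nat.eq_of_mul_eq_mul_right hp.out.pos (Nat.eq_of_mul_eq_mul_left Nat.card_pos h1)).symm
  have h2 := card_lcs hS hA hx hxA j
  rw [hD, hZ0] at h2
  have h4 : Nat.card ↥(Subgroup.lowerCentralSeries S (j + 1)) ≤ p := hZ0 ▸
    Nat.card_le_card_of_injective _ (Subgroup.inclusion_injective (le_inf hle (lcs_le_derived hS j)))
  have h5 : p ^ (j + 2) ≤ p ^ (j + 1) := h2.trans ((Nat.mul_le_mul_right _ h4).trans_eq (pow_succ' p j).symm)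
  exact absurd h5 (not_le.2 (Nat.pow_lt_pow_right hp.out.one_lt (by omega)))

/-- A map preserving `Z` agrees on it with an element of `Aut_F(S)`. -/
theorem exists_top (hF : F.IsSaturated p) {R : Subgroup Ω} {f : Ω → Ω} (hf : Mor F R f)
    (hZR : centralizerIn S S ≤ R) (hfZ : ∀ z ∈ centralizerIn S S, f z ∈ centralizerIn S S) :
    ∃ γ ∈ F.autGroup S, ∀ z ∈ centralizerIn S S, autFun γ z = f z := by
  set Z := centralizerIn S S with hZdef
  have hCS : S ≤ centralizerIn S Z := fun c hc => mem_centralizerIn_iff.2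
    ⟨hc, fun z hz => by rw [(mem_centre_iff.1 hz).2 c hc, mul_inv_cancel_right]⟩
  have hfc : F.IsFullyCentralized Z := ⟨centralizerIn_le, fun Q _ => by
    rw [show centralizerIn S Z = S from le_antisymm centralizerIn_le hCS]
    exact Nat.card_le_card_of_injective _
      (Subgroup.inclusion_injective (centralizerIn_le (S := S) (P := Q)))⟩
  have hfr := hf.restrict hZR
  obtain ⟨k, hk, hke⟩ := (isReceptive_iff.1 (fullyCentralized_axiom hS hF hfc)).2 Z f hfr
    (hfr.img_eq_of_card_le centralizerIn_le hfZ le_rfl)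
  have hkS := hk.restrict (hCS.trans centralizerIn_le_extN)
  obtain ⟨γ, hγ, hγe⟩ := hkS.exists_aut (hkS.img_eq_of_card_le le_rfl (fun x hx => hkS.mem hx) le_rfl)
  exact ⟨γ, hγ, fun z hz => by rw [hγe z (centralizerIn_le hz), hke z hz]⟩

/-- An element of `Aut_F(S)` trivial on `Z ∩ S'` and on `Z/(Z ∩ S')` fixes `Z`. -/
theorem fix_centre' (hF : F.IsSaturated p) (hZ0 : Nat.card ↥(centralizerIn S S ⊓ ⁅S, S⁆) = p)
    {δ : MulAut S} (hδ : δ ∈ F.autGroup S)
    (h1 : ∀ d ∈ centralizerIn S S ⊓ ⁅S, S⁆, autFun δ d = d)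
    (h2 : ∀ z ∈ centralizerIn S S, z⁻¹ * autFun δ z ∈ centralizerIn S S ⊓ ⁅S, S⁆)
    {z : Ω} (hz : z ∈ centralizerIn S S) : autFun δ z = z := by
  have := finite_mulAut_of_le (le_refl S)
  have hzS : z ∈ S := centralizerIn_le hz
  set u := z⁻¹ * autFun δ z with hu
  have huS : u ∈ S := centralizerIn_le (h2 z hz).1
  have hpow : ∀ n : ℕ, autFun (δ ^ n) z = z * u ^ n := by
    intro n
    induction n with
    | zero => simp [autFun_apply _ hzS]
    | succ n ih =>
      rw [pow_succ', autFun_mul _ _ hzS, ih, autFun_map_mul δ hzS (S.pow_mem huS n),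
        autFun_map_pow δ huS, h1 u (h2 z hz), pow_succ', ← mul_assoc z u, hu, mul_inv_cancel_left]
  have hfixp : autFun (δ ^ p) z = z := by
    have h3 := pow_card_eq_one' (x := (⟨u, h2 z hz⟩ : ↥(centralizerIn S S ⊓ ⁅S, S⁆)))
    rw [hZ0] at h3
    have h3' : u ^ p = 1 := congrArg Subtype.val h3
    rw [hpow, h3', mul_one]
  obtain ⟨k, m, hkm⟩ : ∃ k m, orderOf δ = p ^ k * m ∧ ¬ p ∣ m := by
    obtain ⟨k, m, hm, hkm⟩ := Nat.exists_eq_pow_mul_and_not_dvd (orderOf_pos δ).ne' p hp.out.ne_one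
    exact ⟨k, m, hkm, hm⟩
  -- a power of `δ` that fixes `z` and one that is inner
  obtain ⟨a, b, hab⟩ : IsCoprime (p : ℤ) (m : ℤ) :=
    Int.isCoprime_iff_nat_coprime.2 (by simpa using hp.out.coprime_iff_not_dvd.2 hkm.2)
  have hinn : δ ^ m ∈ Inn S := mem_inn_of_pElement hS hF ((F.autGroup S).pow_mem hδ m) (k := k) (by
    rw [← pow_mul, mul_comm, ← hkm.1, pow_orderOf_eq_one])
  let St : Subgroup (MulAut S) :=
    { carrier := {g | autFun g z = z}
      one_mem' := by show autFun (1 : MulAut S) z = z; rw [autFun_apply _ hzS]; rfl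
      mul_mem' := fun {a b} ha hb => by
        show autFun (a * b) z = z
        rw [autFun_mul _ _ hzS, hb, ha]
      inv_mem' := fun {a} ha => by
        show autFun a⁻¹ z = z
        conv_lhs => rw [← (ha : autFun a z = z)]
        rw [← autFun_mul _ _ hzS, inv_mul_cancel, autFun_apply _ hzS]
        rfl }
  have hm : δ ^ m ∈ St := by
    rw [inn_eq_autInducedBy, mem_autInducedBy_iff] at hinn
    obtain ⟨c, hc, hce⟩ := hinn
    show autFun (δ ^ m) z = z
    rw [hce z hzS, (mem_centre_iff.1 hz).2 c hc, mul_inv_cancel_right]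
  have h5 := St.mul_mem (St.zpow_mem (hfixp : δ ^ p ∈ St) a) (St.zpow_mem hm b)
  rw [← zpow_natCast δ p, ← zpow_natCast δ m, ← zpow_mul, ← zpow_mul, ← zpow_add, mul_comm (p : ℤ),
    mul_comm (m : ℤ), hab, zpow_one] at h5
  exact h5

/-- For an abelian essential subgroup, the automorphisms of order `p` give an element of `Aut_F(S)`
inverting `Z ∩ S'` that fixes the common fixed points in `Z`. -/
theorem exists_inverting' (hF : F.IsSaturated p) (hE : F.IsEssential p E) {x : Ω} (hxE : x ∈ E)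
    (hxA : x ∉ A) (hab : ∀ x ∈ E, ∀ y ∈ E, x * y = y * x) {b : MulAut E} (hb : b ∈ F.autGroup E)
    (hbp : b ^ p = 1) (hbT : b ∉ autInducedBy S E) :
    ∃ γ ∈ F.autGroup S, (∀ d ∈ centralizerIn S S ⊓ ⁅S, S⁆, autFun γ d = d⁻¹) ∧
      (∀ z ∈ centralizerIn S S, autFun b z = z → autFun γ z = z) ∧
      ∀ z ∈ centralizerIn S S, ∃ d ∈ centralizerIn S S ⊓ ⁅S, S⁆, autFun b (z * d) = z * d := by
  obtain ⟨hZ0, -, hTp, htrv⟩ := abelian_shape hS hA hE hF hxE hxA hab
  have hES := hE.1.1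
  let _ := commOf hab
  have := finite_of_le hES
  have := finite_mulAut_of_le hES
  set Z := centralizerIn S S with hZdef
  have hZE : Z ≤ E := centre_le_centric hE.1
  set D0 := (Z ⊓ ⁅S, S⁆).subgroupOf E with hD0
  have hD0c : Nat.card D0 = p :=
    (Nat.card_congr (Subgroup.subgroupOfEquivOfLe (inf_le_left.trans hZE)).toEquiv).trans hZ0
  obtain ⟨a, ha, ha1⟩ : ∃ a ∈ autInducedBy S E, a ≠ 1 :=
    (Subgroup.bot_or_exists_ne_one (autInducedBy S E)).resolve_left fun h => by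
      rw [h, Subgroup.card_bot] at hTp
      exact hp.out.one_lt.ne hTp
  have hTgen : ∀ α ∈ autInducedBy S E, α ∈ Subgroup.zpowers a := fun α hα => by
    obtain ⟨i, hi⟩ := mem_zpowers_of_prime_card (G := autInducedBy S E) hTp
      (g := ⟨a, ha⟩) (fun h => ha1 (congrArg Subtype.val h)) (g' := ⟨α, hα⟩)
    exact ⟨i, congrArg Subtype.val hi⟩
  have hap : a ^ p = 1 := by
    have h := pow_card_eq_one' (x := (⟨a, ha⟩ : autInducedBy S E))
    rw [hTp] at h
    exact congrArg Subtype.val h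
  have haG := autInducedBy_le_autGroup (F := F) hES ha
  have hbound : ∀ Q : Subgroup (MulAut E), Q ≤ F.autGroup E → IsPGroup p Q → Nat.card Q ≤ p := by
    intro Q hQ hQp
    obtain ⟨-, -, T, hT⟩ := fullyNormalized_axiom hS hF hE.2.1
    obtain ⟨U, hU⟩ := (hQp.of_equiv (Subgroup.subgroupOfEquivOfLe hQ).symm :
      IsPGroup p (Q.subgroupOf (F.autGroup E))).exists_le_sylow
    have h1 : Nat.card (T : Subgroup (F.autGroup E)) = p := by
      rw [hT, Nat.card_congr (Subgroup.subgroupOfEquivOfLe (autInducedBy_le_autGroup hES)).toEquiv, hTp]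
    rw [← Nat.card_congr (Subgroup.subgroupOfEquivOfLe hQ).toEquiv, ← h1]
    refine (Nat.card_le_card_of_injective _ (Subgroup.inclusion_injective hU)).trans_eq ?_
    exact (Sylow.card_eq_multiplicity U).trans (Sylow.card_eq_multiplicity T).symm
  obtain ⟨g, hg, hgb⟩ := pElement_conj hS hF hE hb hbp
  have haT : IsTrv a D0 := htrv a ha
  have hbK : IsTrv b (D0.map g⁻¹.toMonoidHom) := by
    have h := (htrv _ hgb).conj g⁻¹
    rwa [show g⁻¹ * (g * b * g⁻¹) * g⁻¹⁻¹ = b by group] at h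
  have hKc : Nat.card (D0.map g⁻¹.toMonoidHom) = p := by
    rw [Subgroup.card_map_of_injective g⁻¹.injective, hD0c]
  have hba : b ∉ Subgroup.zpowers a := fun h => hbT (Subgroup.zpowers_le.2 ha h)
  have hb1 : b ≠ 1 := fun h => hbT (h ▸ one_mem _)
  have hab' : a ∉ Subgroup.zpowers b := fun h => by
    refine hba (mem_zpowers_of_commute hbound haG hb hap hbp ha1 ?_)
    obtain ⟨i, hi⟩ := Subgroup.mem_zpowers_iff.1 h
    rw [← hi, ← zpow_one b, ← zpow_mul, ← zpow_add, ← zpow_neg, ← zpow_add, one_mul,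
      show 1 + i + -1 = i by ring]
    exact Subgroup.mem_zpowers _
  obtain ⟨d', hd', had'⟩ := exists_not_fix hbound haG hb hap hbp ha1 hba haT hbK
  obtain ⟨d₀, hd₀, hbd₀⟩ := exists_not_fix hbound hb haG hbp hap hb1 hab' hbK haT
  obtain ⟨h, hh, hcom, hinv, hfix⟩ := exists_inverter hD0c hKc haT hbK hd₀ hd' had' hbd₀
  have hhG : h ∈ F.autGroup E :=
    (Subgroup.closure_le _).2 (by rintro x (rfl | rfl); exacts [haG, hb]) hh
  -- the fixed points of `a` are `Z`
  have hBZ := centre_eq_inf_A hS hA hE hab hxE hxA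
  have hfa : ∀ y : E, a y = y ↔ (y : Ω) ∈ Z := by
    intro y
    obtain ⟨c, hc, hce⟩ := mem_autInducedBy_iff.1 ha
    have hy' : ((a y : E) : Ω) = c * y * c⁻¹ := by rw [← autFun_coe, hce y y.2]
    constructor
    · intro hy
      by_contra hyZ
      have hyA : (y : Ω) ∉ A := fun h => hyZ (hBZ.le ⟨y.2, h⟩)
      obtain ⟨a', ha', i, rfl⟩ := gen hS hA (hES y.2) hyA hc
      rw [hy, eq_mul_inv_iff_mul_eq] at hy'
      have h2 : (y : Ω) * a' = a' * y := by
        have h3 : (y : Ω) * (a' * (y : Ω) ^ i) = a' * (y : Ω) ^ i * y := hy'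
        rw [← mul_assoc, mul_assoc a', ← zpow_add_one, add_comm i, zpow_one_add, ← mul_assoc a'] at h3
        exact mul_right_cancel h3
      have h3 := mem_centre hS hA (hES y.2) hyA ha' h2
      refine ha1 (aut_ext fun w hw => ?_)
      rw [hce w hw, autFun_apply _ hw, MulAut.one_apply]
      show a' * (y : Ω) ^ i * w * (a' * (y : Ω) ^ i)⁻¹ = w
      rw [show a' * (y : Ω) ^ i * w * (a' * (y : Ω) ^ i)⁻¹ = a' * ((y : Ω) ^ i * w * ((y : Ω) ^ i)⁻¹) * a'⁻¹
          by group, hab _ (E.zpow_mem y.2 i) w hw, mul_inv_cancel_right,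
        ← (mem_centre_iff.1 h3).2 w (hES hw), mul_inv_cancel_right]
    · intro hy
      exact Subtype.ext (hy'.trans (by rw [(mem_centre_iff.1 hy).2 c hc, mul_inv_cancel_right]))
  have hhZ : ∀ z ∈ Z, autFun h z ∈ Z := fun z hz => by
    rw [autFun_apply h (hZE hz)]
    refine (hfa _).1 ?_
    have h4 : a (h ⟨z, hZE hz⟩) = h (a ⟨z, hZE hz⟩) := by
      rw [← MulAut.mul_apply, hcom, MulAut.mul_apply]
    rw [h4, (hfa ⟨z, hZE hz⟩).2 hz]
  obtain ⟨γ, hγ, hγe⟩ := exists_top hS hA hF ((mem_autGroup_iff hES).1 hhG) hZE hhZ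
  refine ⟨γ, hγ, fun d hd => ?_, fun z hz hbz => ?_, fun z hz => ?_⟩
  · rw [hγe d hd.1, autFun_apply _ (hZE hd.1), hinv ⟨d, hZE hd.1⟩ (Subgroup.mem_subgroupOf.2 hd)]
    rfl
  · rw [hγe z hz, autFun_apply _ (hZE hz)]
    rw [autFun_apply _ (hZE hz)] at hbz
    rw [hfix ⟨z, hZE hz⟩ ((hfa _).2 hz) (Subtype.ext hbz)]
  · obtain ⟨n, hn⟩ := disp_surjective hKc hbK hbd₀
      ((D0.map g⁻¹.toMonoidHom).inv_mem (hbK.1 ⟨z, hZE hz⟩))
    refine ⟨_, D0.pow_mem hd₀ n, ?_⟩
    have h1 : disp b (⟨z, hZE hz⟩ * d₀ ^ n) = 1 := by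
      rw [map_mul]
      show (⟨z, hZE hz⟩ : E)⁻¹ * b ⟨z, hZE hz⟩ * ((d₀ ^ n)⁻¹ * b (d₀ ^ n)) = 1
      rw [hn, mul_inv_cancel]
    have h2 := (inv_mul_eq_one.1 h1).symm
    show autFun b (z * ((d₀ ^ n : E) : Ω)) = z * ((d₀ ^ n : E) : Ω)
    rw [autFun_apply _ (E.mul_mem (hZE hz) (d₀ ^ n).2)]
    exact congrArg Subtype.val h2

omit [Finite S] hp hS hA in
theorem eq_one_of_inv_eq_self (hS : IsPGroup p S) [Fact p.Prime] (hp2 : p ≠ 2) {d : Ω} (hd : d ∈ S)
    (h : d⁻¹ = d) : d = 1 := by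
  obtain ⟨k, hk⟩ := hS ⟨d, hd⟩
  have hk' : d ^ p ^ k = 1 := congrArg Subtype.val hk
  have h2 : d ^ 2 = 1 := by rw [pow_two]; nth_rewrite 1 [← h]; exact inv_mul_cancel d
  have hco : Nat.Coprime (p ^ k) 2 :=
    Nat.Coprime.pow_left k ((Nat.coprime_primes (Fact.out : p.Prime) Nat.prime_two).2 hp2)
  have h3 : orderOf d = 1 := Nat.eq_one_of_dvd_coprimes hco
    (orderOf_dvd_of_pow_eq_one hk') (orderOf_dvd_of_pow_eq_one h2)
  exact orderOf_eq_one_iff.1 h3

/-- In a system without nontrivial normal subgroup in which `A` is not essential, some essential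
subgroup is `Z⟨x⟩` and `Z ≤ S'`. -/
theorem centre_le_derived (hF : F.IsSaturated p) (hp2 : p ≠ 2) (hcore : F.core = ⊥)
    (hAe : ¬ F.IsEssential p A) :
    (∃ x ∈ S, x ∉ A ∧ F.IsEssential p (centralizerIn S S ⊔ Subgroup.zpowers x)) ∧
      Nat.card ↥(centralizerIn S S ⊓ ⁅S, S⁆) = p ∧ centralizerIn S S ≤ ⁅S, S⁆ := by
  have hS1 : S ≠ ⊥ := fun h => hA.nonab fun a ha b hb => by
    rw [h, Subgroup.mem_bot] at ha hb
    rw [ha, hb]
  set Z := centralizerIn S S with hZdef
  have hSZ : S ≤ normalizerIn S Z := fun c hc => mem_normalizerIn_of_conj centralizerIn_le hc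
    fun x hx => by rwa [(mem_centre_iff.1 hx).2 c hc, mul_inv_cancel_right]
  obtain ⟨E₀, hE₀, x₀, hx₀S, hx₀A, hx₀E, hab₀, hE₀eq⟩ : ∃ E₀, F.IsEssential p E₀ ∧
      ∃ x ∈ S, x ∉ A ∧ x ∈ E₀ ∧ (∀ u ∈ E₀, ∀ v ∈ E₀, u * v = v * u) ∧ E₀ = Z ⊔ Subgroup.zpowers x := by
    by_contra hno
    refine hS1 ?_
    have hZ : F.IsNormal Z := by
      refine isNormal_of_invariant hS hF centralizerIn_le hSZ fun P hP => ?_
      rcases hP with rfl | hP
      · exact ⟨centralizerIn_le, fun α _ v hv => autFun_centre α hv⟩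
      have hne : P ≠ A := fun e => hAe (e ▸ hP)
      obtain ⟨-, -, -, x, hx, hxA, hxP, h | ⟨hcen, -⟩⟩ := essential_shape hS hA hP hF hne
      · exact absurd ⟨P, hP, x, hx, hxA, hxP, h.1, h.2⟩ hno
      · exact ⟨centre_le_centric hP.1, centre_fix_aut hS hA hP hxP hxA hcen⟩
    have hZb : Z = ⊥ := eq_bot_of_isNormal hcore hZ
    by_contra hne
    have : Nontrivial S := (Subgroup.nontrivial_iff_ne_bot S).2 hne
    have hc := hS.center_nontrivial
    obtain ⟨⟨⟨z, hzS⟩, hz⟩, hz1⟩ := exists_ne (1 : Subgroup.center ↥S)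
    have hzZ : z ∈ Z := mem_centre_iff.2 ⟨hzS, fun c hc =>
      congrArg Subtype.val (Subgroup.mem_center_iff.1 hz ⟨c, hc⟩)⟩
    rw [hZb, Subgroup.mem_bot] at hzZ
    exact hz1 (Subtype.ext (Subtype.ext hzZ))
  obtain ⟨hZ0, -, -, -⟩ := abelian_shape hS hA hE₀ hF hx₀E hx₀A hab₀
  refine ⟨⟨x₀, hx₀S, hx₀A, hE₀eq ▸ hE₀⟩, hZ0, ?_⟩
  -- an inverting element
  obtain ⟨b₀, hb₀, hb₀p, hb₀T⟩ : ∃ b ∈ F.autGroup E₀, b ^ p = 1 ∧ b ∉ autInducedBy S E₀ := by
    obtain ⟨-, -, hTp, -⟩ := abelian_shape hS hA hE₀ hF hx₀E hx₀A hab₀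
    by_contra hno
    push Not at hno
    obtain ⟨a, ha, ha1⟩ : ∃ a ∈ autInducedBy S E₀, a ≠ 1 :=
      (Subgroup.bot_or_exists_ne_one (autInducedBy S E₀)).resolve_left fun h => by
        rw [h, Subgroup.card_bot] at hTp
        exact hp.out.one_lt.ne hTp
    have hAn : ∀ γ ∈ F.autGroup E₀, ∀ t ∈ autInducedBy S E₀, γ * t * γ⁻¹ ∈ autInducedBy S E₀ := by
      intro γ hγ t ht
      refine hno _ (mul_mem (mul_mem hγ (autInducedBy_le_autGroup hE₀.1.1 ht)) (inv_mem hγ)) ?_
      have h := pow_card_eq_one' (x := (⟨t, ht⟩ : autInducedBy S E₀))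
      rw [hTp] at h
      rw [conj_pow, show t ^ p = 1 from congrArg Subtype.val h, mul_one, mul_inv_cancel]
    have hle := le_inn_of_radical (radical_of_essential hS hE₀)
      (autInducedBy_le_autGroup hE₀.1.1) (isPGroup_autInducedBy hS) hAn ha
    rw [inn_eq_autInducedBy, mem_autInducedBy_iff] at hle
    obtain ⟨c, hc, hce⟩ := hle
    refine ha1 (aut_ext fun y hy => ?_)
    rw [hce y hy, hab₀ c hc y hy, mul_inv_cancel_right, autFun_apply _ hy]
    rfl
  obtain ⟨γ, hγ, hγinv, hγfix, hγdec⟩ := exists_inverting' hS hA hF hE₀ hx₀E hx₀A hab₀ hb₀ hb₀p hb₀T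
  set Z0 := Z ⊓ ⁅S, S⁆ with hZ0def
  have hder : ∀ (α : MulAut S), ∀ d ∈ Z0, autFun α d ∈ Z0 := fun α d hd =>
    ⟨autFun_centre α hd.1, autFun_derived α hd.2⟩
  have hquot : ∀ {β : MulAut S}, (∀ d ∈ Z0, autFun β d = d⁻¹) →
      (∀ z ∈ Z, ∃ d ∈ Z0, autFun β (z * d) = z * d) → ∀ z ∈ Z, z⁻¹ * autFun β z ∈ Z0 := by
    intro β hinv hdec z hz
    obtain ⟨d, hd, hde⟩ := hdec z hz
    rw [autFun_map_mul β (centralizerIn_le hz) (centralizerIn_le hd.1), hinv d hd, mul_inv_eq_iff_eq_mul] at hde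
    rw [hde, mul_assoc, inv_mul_cancel_left]
    exact Z0.mul_mem hd hd
  have hγq := hquot hγinv fun z hz => by
    obtain ⟨d, hd, hde⟩ := hγdec z hz
    exact ⟨d, hd, hγfix _ (Z.mul_mem hz hd.1) hde⟩
  -- all inverting elements agree on `Z`
  have huniq : ∀ β ∈ F.autGroup S, (∀ d ∈ Z0, autFun β d = d⁻¹) → (∀ z ∈ Z, z⁻¹ * autFun β z ∈ Z0) →
      ∀ z ∈ Z, autFun β z = autFun γ z := by
    intro β hβ hβinv hβq z hz
    have hinvZ : ∀ w ∈ Z0, autFun γ⁻¹ w = w⁻¹ := fun w hw => by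
      have h1 := hγinv _ (Z0.inv_mem hw)
      rw [inv_inv] at h1
      conv_lhs => rw [← h1]
      rw [← autFun_mul _ _ (centralizerIn_le (Z0.inv_mem hw).1), inv_mul_cancel,
        autFun_apply _ (centralizerIn_le (Z0.inv_mem hw).1)]
      rfl
    have h := fix_centre' hS hA hF hZ0 (δ := γ⁻¹ * β) (mul_mem (inv_mem hγ) hβ) (fun d hd => ?_)
      (fun w hw => ?_) hz
    · rw [autFun_mul _ _ (centralizerIn_le hz)] at h
      conv_rhs => rw [← h]
      rw [← autFun_mul _ _ (autFun_mem β (centralizerIn_le hz)), mul_inv_cancel,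
        autFun_apply _ (autFun_mem β (centralizerIn_le hz))]
      rfl
    · rw [autFun_mul _ _ (centralizerIn_le hd.1), hβinv d hd, hinvZ _ (Z0.inv_mem hd), inv_inv]
    · have hwS := centralizerIn_le hw
      rw [autFun_mul _ _ hwS]
      set v := autFun β w with hv
      have hvZ : v ∈ Z := autFun_centre β hw
      have hy := autFun_centre γ⁻¹ hvZ
      have h1 : (autFun γ⁻¹ v)⁻¹ * autFun γ (autFun γ⁻¹ v) ∈ Z0 := hγq _ hy
      rw [← autFun_mul _ _ (centralizerIn_le hvZ), mul_inv_cancel,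
        show autFun (1 : MulAut S) v = v from autFun_apply _ (centralizerIn_le hvZ)] at h1
      have h2 := Z0.mul_mem (hβq w hw) (Z0.inv_mem h1)
      rwa [← hv, mul_inv_rev, inv_inv, mul_assoc, mul_inv_cancel_left] at h2
  let W : Subgroup Ω :=
    { carrier := {z | z ∈ Z ∧ autFun γ z = z}
      one_mem' := ⟨Z.one_mem, by rw [autFun_apply _ S.one_mem]; exact congrArg Subtype.val (map_one γ)⟩
      mul_mem' := fun {u v} hu hv => ⟨Z.mul_mem hu.1 hv.1, by
        rw [autFun_map_mul γ (centralizerIn_le hu.1) (centralizerIn_le hv.1), hu.2, hv.2]⟩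
      inv_mem' := fun {u} hu => ⟨Z.inv_mem hu.1, by
        rw [autFun_map_inv γ (centralizerIn_le hu.1), hu.2]⟩ }
  have hWS : W ≤ S := fun z hz => centralizerIn_le hz.1
  have hWinv : ∀ α ∈ F.autGroup S, ∀ v ∈ W, autFun α v ∈ W := by
    intro α hα v hv
    refine ⟨autFun_centre α hv.1, ?_⟩
    have hvS := centralizerIn_le hv.1
    have hβ := huniq (α * γ * α⁻¹) (mul_mem (mul_mem hα hγ) (inv_mem hα)) (fun d hd => ?_)
      (fun z hz => ?_) _ (autFun_centre α hv.1)
    · rw [← hβ, ← autFun_mul _ _ hvS, inv_mul_cancel_right, autFun_mul _ _ hvS, hv.2]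
    · have hd' := hder α⁻¹ d hd
      rw [autFun_mul _ _ (centralizerIn_le hd.1), autFun_mul _ _ (centralizerIn_le hd'.1),
        hγinv _ hd', autFun_map_inv α (centralizerIn_le hd'.1), ← autFun_mul _ _ (centralizerIn_le hd.1),
        mul_inv_cancel, autFun_apply _ (centralizerIn_le hd.1)]
      rfl
    · have hzS := centralizerIn_le hz
      have hz' := autFun_centre α⁻¹ hz
      have h1 := hder α _ (hγq _ hz')
      rw [autFun_map_mul α (S.inv_mem (centralizerIn_le hz')) (autFun_mem γ (centralizerIn_le hz')),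
        autFun_map_inv α (centralizerIn_le hz'), ← autFun_mul α α⁻¹ hzS, mul_inv_cancel,
        show autFun (1 : MulAut S) z = z from autFun_apply _ hzS,
        ← autFun_mul α γ (centralizerIn_le hz'), ← autFun_mul _ _ hzS] at h1
      exact h1
  have hW : F.IsNormal W := by
    refine isNormal_of_invariant hS hF hWS (fun c hc => mem_normalizerIn_of_conj hWS hc fun x hx => by
      rwa [(mem_centre_iff.1 hx.1).2 c hc, mul_inv_cancel_right]) fun P hP => ?_
    rcases hP with rfl | hP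
    · exact ⟨hWS, hWinv⟩
    have hne : P ≠ A := fun e => hAe (e ▸ hP)
    obtain ⟨-, -, -, x, hx, hxA, hxP, ⟨hab, -⟩ | ⟨hcen, -⟩⟩ := essential_shape hS hA hP hF hne
    · have hZP : Z ≤ P := centre_le_centric hP.1
      have hWP : W ≤ P := fun z hz => hZP hz.1
      refine ⟨hWP, fun α hα v hv => ?_⟩
      have := finite_mulAut_of_le hP.1.1
      obtain ⟨-, -, hTp, -⟩ := abelian_shape hS hA hP hF hxP hxA hab
      obtain ⟨-, -, T, hT⟩ := fullyNormalized_axiom hS hF hP.2.1
      -- the elements of order `p` fix `W`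
      let L : Subgroup (F.autGroup P) := Subgroup.closure {y | (y : MulAut P) ^ p = 1}
      have hLn : L.Normal := ⟨fun n hn g => by
        refine Subgroup.closure_induction (fun x hx => ?_) ?_ (fun x y _ _ hx hy => ?_)
          (fun x _ hx => ?_) hn
        · refine Subgroup.subset_closure ?_
          show ((g : MulAut P) * (x : MulAut P) * (g : MulAut P)⁻¹) ^ p = 1
          rw [conj_pow, show (x : MulAut P) ^ p = 1 from hx, mul_one, mul_inv_cancel]
        · simp
        · rw [show g * (x * y) * g⁻¹ = g * x * g⁻¹ * (g * y * g⁻¹) by group]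
          exact mul_mem hx hy
        · rw [show g * x⁻¹ * g⁻¹ = (g * x * g⁻¹)⁻¹ by group]
          exact inv_mem hx⟩
      have hTL : (T : Subgroup (F.autGroup P)) ≤ L := fun t ht => Subgroup.subset_closure (by
        rw [hT, Subgroup.mem_subgroupOf] at ht
        have h := pow_card_eq_one' (x := (⟨(t : MulAut P), ht⟩ : autInducedBy S P))
        rw [hTp] at h
        exact congrArg Subtype.val h)
      let FixW : Subgroup (F.autGroup P) :=
        { carrier := {g | ∀ w, w ∈ W → autFun (g : MulAut P) w = w}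
          one_mem' := fun w hw => by rw [autFun_apply _ (hWP hw)]; rfl
          mul_mem' := fun {a b} ha hb w hw => by
            rw [Subgroup.coe_mul, autFun_mul _ _ (hWP hw), hb w hw, ha w hw]
          inv_mem' := fun {a} ha w hw => by
            conv_lhs => rw [← ha w hw]
            rw [Subgroup.coe_inv, ← autFun_mul _ _ (hWP hw), inv_mul_cancel, autFun_apply _ (hWP hw)]
            rfl }
      have hLfix : L ≤ FixW := by
        refine (Subgroup.closure_le _).2 fun b hb w hw => ?_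
        by_cases hbT : (b : MulAut P) ∈ autInducedBy S P
        · obtain ⟨c, hc, hce⟩ := mem_autInducedBy_iff.1 hbT
          rw [hce w (hWP hw), (mem_centre_iff.1 hw.1).2 c hc, mul_inv_cancel_right]
        obtain ⟨β, hβ, hβinv, hβfix, hβdec⟩ := exists_inverting' hS hA hF hP hxP hxA hab b.2 hb hbT
        have hβγ := huniq β hβ hβinv (hquot hβinv fun z hz => by
          obtain ⟨d, hd, hde⟩ := hβdec z hz
          exact ⟨d, hd, hβfix _ (Z.mul_mem hz hd.1) hde⟩)
        obtain ⟨d, hd, hde⟩ := hβdec w hw.1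
        have h1 := hβfix _ (Z.mul_mem hw.1 hd.1) hde
        rw [autFun_map_mul β (centralizerIn_le hw.1) (centralizerIn_le hd.1), hβinv d hd, hβγ w hw.1,
          hw.2, mul_right_inj] at h1
        rwa [eq_one_of_inv_eq_self hS hp2 (centralizerIn_le hd.1) h1, mul_one] at hde
      have htop : Subgroup.normalizer ((T : Subgroup (F.autGroup P)) : Set (F.autGroup P)) ⊔ L = ⊤ :=
        Sylow.normalizer_sup_eq_top' T hTL
      obtain ⟨n, hn, l, hl, hnl⟩ :=
        Subgroup.mem_sup_of_normal_right.1 (htop.ge (Subgroup.mem_top (⟨α, hα⟩ : F.autGroup P)))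
      have hvP := hWP hv
      rw [show α = (n : MulAut P) * (l : MulAut P) from (congrArg Subtype.val hnl).symm,
        autFun_mul _ _ hvP, hLfix hl v hv]
      -- `n` preserves `Z`, the fixed points of `T`
      have hnZ : ∀ z ∈ Z, autFun (n : MulAut P) z ∈ Z := by
        intro z hz
        have hzP := hZP hz
        obtain ⟨hnS, hnPm⟩ : autFun (n : MulAut P) z ∈ S ∧ autFun (n : MulAut P) z ∈ P :=
          ⟨hP.1.1 (autFun_mem _ hzP), autFun_mem _ hzP⟩
        by_contra hnot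
        have hnA : autFun (n : MulAut P) z ∉ A := fun h =>
          hnot ((centre_eq_inf_A hS hA hP hab hxP hxA).le ⟨hnPm, h⟩)
        -- some element of `A` acting nontrivially centralizes it
        obtain ⟨c, hc, hcP⟩ : ∃ c ∈ normalizerIn S P ⊓ A, c ∉ P := by
          by_contra h
          push Not at h
          obtain ⟨-, h2, -, -⟩ := abelian_shape hS hA hP hF hxP hxA hab
          have := finite_of_le ((inf_le_left : P ⊓ A ≤ P).trans hP.1.1)
          have hle : normalizerIn S P ⊓ A ≤ P ⊓ A := le_inf h inf_le_right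
          have h3 := Nat.card_le_card_of_injective _ (Subgroup.inclusion_injective hle)
          rw [h2] at h3
          exact absurd h3 (not_le.2 (lt_mul_of_one_lt_right Nat.card_pos hp.out.one_lt))
        have hm1 : conjAut S P ⟨c, hc.1⟩ ∈ autInducedBy S P := range_conjAut S P ▸ ⟨_, rfl⟩
        set t : F.autGroup P := ⟨_, autInducedBy_le_autGroup hP.1.1 hm1⟩
        have ht : t ∈ (T : Subgroup (F.autGroup P)) := by rw [hT]; exact hm1
        have h4 : n⁻¹ * t * n ∈ (T : Subgroup (F.autGroup P)) :=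
          (Subgroup.mem_normalizer_iff.1 hn _).2 (by simpa [mul_assoc] using ht)
        rw [hT, Subgroup.mem_subgroupOf, mem_autInducedBy_iff] at h4
        obtain ⟨e, he, hee⟩ := h4
        have h5 := hee z hzP
        rw [(mem_centre_iff.1 hz).2 e he, mul_inv_cancel_right] at h5
        simp only [Subgroup.coe_mul, Subgroup.coe_inv] at h5
        have h6 := congrArg (autFun (n : MulAut P)) h5
        rw [← autFun_mul _ _ hzP, ← mul_assoc, ← mul_assoc, mul_inv_cancel, one_mul,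
          autFun_mul _ _ hzP, autFun_conjAut _ hnPm] at h6
        have h7 := mem_centre hS hA hnS hnA hc.2 (mul_inv_eq_iff_eq_mul.1 h6).symm
        exact hcP (hZP h7)
      obtain ⟨δ, hδ, hδe⟩ := exists_top hS hA hF ((mem_autGroup_iff hP.1.1).1 n.2) hZP hnZ
      rw [← hδe v hv.1]
      exact hWinv δ hδ v hv
    · refine ⟨fun z hz => centre_le_centric hP.1 hz.1, fun α hα v hv => ?_⟩
      obtain ⟨δ, hδ, hδe⟩ := exists_top hS hA hF ((mem_autGroup_iff hP.1.1).1 hα)
        (centre_le_centric hP.1) (centre_fix_aut hS hA hP hxP hxA hcen α hα)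
      rw [← hδe v hv.1]
      exact hWinv δ hδ v hv
  have hWb : W = ⊥ := eq_bot_of_isNormal hcore hW
  intro z hz
  obtain ⟨d, hd, hde⟩ := hγdec z hz
  have h1 : z * d ∈ W := ⟨Z.mul_mem hz hd.1, hγfix _ (Z.mul_mem hz hd.1) hde⟩
  rw [hWb, Subgroup.mem_bot] at h1
  rw [eq_inv_of_mul_eq_one_left h1]
  exact Subgroup.inv_mem _ hd.2

end Cfsg.Lib.Fusion.UniqueAbelian
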